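import Mathlib
import Cfsg.Agent.Helper25.CharClass
import Cfsg.Agent.Helper1.CharClass

set_option autoImplicit false

namespace Cfsg.Agent.Helper26

open Cfsg

/-- `∑_{χ(1) ≥ N} |χ(g)|/χ(1) ≤ √(k |C_G(g)|)/N` -/
theorem sum_large_degree_le {G : Type*} [Group G] [Finite G] (g : G) (N : ℝ) (hN : 0 < N) :
    ∑ᶠ χ : IrrCharacter G, (if N ≤ ‖(χ : G → ℂ) 1‖ then ‖(χ : G → ℂ) g‖ / ‖(χ : G → ℂ) 1‖ else 0) ≤
      Real.sqrt ((Nat.card (ConjClasses G) : ℝ) *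
        (Nat.card ↥(Subgroup.centralizer ({g} : Set G)) : ℝ)) / N := by
  classical
  haveI : Fintype G := Fintype.ofFinite G
  rw [finsum_eq_sum_of_fintype]
  have h1 : ∀ χ : IrrCharacter G,
      (if N ≤ ‖(χ : G → ℂ) 1‖ then ‖(χ : G → ℂ) g‖ / ‖(χ : G → ℂ) 1‖ else 0) ≤
        ‖(χ : G → ℂ) g‖ / N := by
    intro χ
    split_ifs with h
    · exact div_le_div_of_nonneg_left (norm_nonneg _) hN h
    · exact div_nonneg (norm_nonneg _) hN.le
  have h2 : ∑ χ : IrrCharacter G, ‖(χ : G → ℂ) g‖ ≤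
      Real.sqrt ((Nat.card (ConjClasses G) : ℝ) *
        (Nat.card ↥(Subgroup.centralizer ({g} : Set G)) : ℝ)) := by
    apply Real.le_sqrt_of_sq_le
    have h3 := sq_sum_le_card_mul_sum_sq (s := (Finset.univ : Finset (IrrCharacter G)))
      (f := fun χ => ‖(χ : G → ℂ) g‖)
    have h4 : ((Finset.univ : Finset (IrrCharacter G)).card : ℝ) =
        (Nat.card (ConjClasses G) : ℝ) := by
      rw [Finset.card_univ, ← Nat.card_eq_fintype_card, Cfsg.Agent.Helper1.card_irr]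
    have h5 := Cfsg.Agent.Helper25.card_centralizer_eq_sum_norm_sq g
    rw [h4] at h3
    rw [h5]
    exact h3
  calc ∑ χ : IrrCharacter G,
        (if N ≤ ‖(χ : G → ℂ) 1‖ then ‖(χ : G → ℂ) g‖ / ‖(χ : G → ℂ) 1‖ else 0)
      ≤ ∑ χ : IrrCharacter G, ‖(χ : G → ℂ) g‖ / N := Finset.sum_le_sum (fun χ _ => h1 χ)
    _ = (∑ χ : IrrCharacter G, ‖(χ : G → ℂ) g‖) / N := by rw [Finset.sum_div]
    _ ≤ _ := div_le_div_of_nonneg_right h2 hN.le

end Cfsg.Agent.Helper26
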