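import Mathlib
import Cfsg.Agent.Helper26.CharZeros
import Cfsg.Agent.Helper25.CharKer
import Cfsg.Agent.Helper25.CharClass
import Cfsg.Agent.Helper1.CharClass
import Cfsg.Agent.S0169

set_option autoImplicit false

namespace Cfsg.Agent.Helper26

open Cfsg

/-- a sum of `p`-power roots of unity whose number is prime to `p` is not zero -/
theorem sum_pow_roots_ne_zero (p : ℕ) [Fact p.Prime] (a : ℕ) {ι : Type*} [Fintype ι]
    (μ : ι → ℂ) (hμ : ∀ i, μ i ^ p ^ (a + 1) = 1) (hn : ¬ p ∣ Fintype.card ι) :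
    ∑ i, μ i ≠ 0 := by
  classical
  intro h0
  have hp : p.Prime := Fact.out
  have hq : 0 < p ^ (a + 1) := pow_pos hp.pos _
  obtain ⟨ζ, hζ⟩ : ∃ ζ : ℂ, IsPrimitiveRoot ζ (p ^ (a + 1)) :=
    ⟨_, Complex.isPrimitiveRoot_exp (p ^ (a + 1)) hq.ne'⟩
  have hk : ∀ i, ∃ k : ℕ, ζ ^ k = μ i := by
    intro i
    obtain ⟨k, -, hk⟩ := hζ.eq_pow_of_pow_eq_one (hμ i)
    exact ⟨k, hk⟩
  choose k hk using hk
  let f : Polynomial ℤ := ∑ i, Polynomial.X ^ k i
  have h1 : Polynomial.aeval ζ f = 0 := by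
    rw [map_sum, ← h0]
    exact Finset.sum_congr rfl (fun i _ => by rw [map_pow, Polynomial.aeval_X, hk])
  have h2 : minpoly ℤ ζ ∣ f := minpoly.isIntegrallyClosed_dvd (hζ.isIntegral hq) h1
  rw [← Polynomial.cyclotomic_eq_minpoly hζ hq] at h2
  have h3 := Polynomial.eval_dvd (x := (1 : ℤ)) h2
  rw [Polynomial.eval_one_cyclotomic_prime_pow] at h3
  have h4 : Polynomial.eval (1 : ℤ) f = (Fintype.card ι : ℤ) := by
    simp [f, Polynomial.eval_finset_sum]
  rw [h4] at h3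
  exact hn (by exact_mod_cast h3)

/-- irreducible characters do not vanish on an abelian normal Sylow subgroup -/
theorem irr_ne_zero_of_abelian_normal_sylow {X : Type*} [Group X] [Finite X] (p : ℕ)
    [Fact p.Prime] (V : Subgroup X) [V.Normal] (hVp : IsPGroup p V) (hidx : ¬ p ∣ V.index)
    (hab : ∀ a ∈ V, ∀ b ∈ V, a * b = b * a) (χ : IrrCharacter X) {v : X} (hv : v ∈ V) :
    (χ : X → ℂ) v ≠ 0 := by
  classical
  obtain ⟨n, ρ, hρ, hχ⟩ := χ.2
  haveI := hρ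
  have hdvd := Cfsg.Agent.S0169.result ρ V hab
  obtain ⟨a, ha⟩ := hVp ⟨v, hv⟩
  have hva : v ^ p ^ (a + 1) = 1 := by
    have h1 : v ^ p ^ a = 1 := congrArg Subtype.val ha
    rw [pow_succ, pow_mul, h1, one_pow]
  have hp : p.Prime := Fact.out
  have hpow : (ρ v) ^ p ^ (a + 1) = 1 := by rw [← map_pow, hva, map_one]
  obtain ⟨b, μ, hμ, hb⟩ := Cfsg.Agent.Helper1.exists_eigenbasis_of_pow_eq_one (ρ v)
    (p ^ (a + 1)) (pow_pos hp.pos _) hpow
  have htr : ρ.character v = ∑ i, μ i :=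
    Cfsg.Agent.Helper1.trace_eq_sum_of_eigenbasis b (ρ v) μ hb
  rw [← hχ, htr]
  apply sum_pow_roots_ne_zero p a μ hμ
  rw [Fintype.card_fin]
  exact fun h => hidx (h.trans hdvd)

/-- Burnside's averaging argument, uniformly in the character -/
theorem char_galois_sum' (G : Type*) [Group G] [Finite G] :
    ∃ (ι : Type) (_ : Fintype ι) (_ : Nonempty ι) (m : ι → ℕ),
      (∀ i, Nat.Coprime (Nat.card G) (m i)) ∧
      ∀ χ : G → ℂ, IsCharacter G χ → ∀ g : G, χ g ≠ 0 →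
        (Fintype.card ι : ℝ) ≤ ∑ i, ‖χ (g ^ m i)‖ ^ 2 := by
  classical
  have hN : 0 < Nat.card G := Nat.card_pos
  obtain ⟨ζ, hζ⟩ : ∃ ζ : ℂ, IsPrimitiveRoot ζ (Nat.card G) :=
    ⟨_, Complex.isPrimitiveRoot_exp (Nat.card G) hN.ne'⟩
  have hζint : IsIntegral ℚ ζ :=
    IsIntegral.of_pow hN (by rw [hζ.pow_eq_one]; exact isIntegral_one)
  let K : IntermediateField ℚ ℂ := IntermediateField.adjoin ℚ {ζ}
  have hKfin : FiniteDimensional ℚ K := IntermediateField.adjoin.finiteDimensional hζint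
  have hζK : ζ ∈ K := IntermediateField.subset_adjoin ℚ _ rfl
  have hmem : ∀ μ : ℂ, μ ^ Nat.card G = 1 → μ ∈ K := by
    intro μ hμ
    obtain ⟨i, -, rfl⟩ := hζ.eq_pow_of_pow_eq_one hμ
    exact pow_mem hζK i
  have hσ : ∀ σ : K →ₐ[ℚ] ℂ, ∃ m : ℕ, Nat.Coprime (Nat.card G) m ∧
      ∀ (μ : ℂ) (hμ : μ ^ Nat.card G = 1), σ ⟨μ, hmem μ hμ⟩ = μ ^ m := by
    intro σ
    have h1 : IsPrimitiveRoot (⟨ζ, hζK⟩ : K) (Nat.card G) :=
      IsPrimitiveRoot.of_map_of_injective (f := (algebraMap K ℂ)) hζ (algebraMap K ℂ).injective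
    have h2 : IsPrimitiveRoot (σ ⟨ζ, hζK⟩) (Nat.card G) :=
      h1.map_of_injective σ.toRingHom.injective
    obtain ⟨m, -, hm⟩ := hζ.eq_pow_of_pow_eq_one h2.pow_eq_one
    refine ⟨m, ?_, fun μ hμ => ?_⟩
    · rw [← hm] at h2
      exact ((hζ.pow_iff_coprime hN m).mp h2).symm
    · obtain ⟨i, -, rfl⟩ := hζ.eq_pow_of_pow_eq_one hμ
      have h3 : (⟨ζ ^ i, hmem (ζ ^ i) hμ⟩ : K) = (⟨ζ, hζK⟩ : K) ^ i := Subtype.ext rfl
      rw [h3, map_pow, ← hm, ← pow_mul, ← pow_mul, mul_comm]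
  choose m hm1 hm2 using hσ
  refine ⟨K →ₐ[ℚ] ℂ, inferInstance, ⟨(algebraMap K ℂ).toRatAlgHom⟩, m, hm1, ?_⟩
  rintro _ ⟨k, ρ, rfl⟩ g hg
  obtain ⟨b, μ, hμ, -, hb, -, hc, -⟩ := Cfsg.Agent.Helper1.exists_eigenbasis ρ g
  have hpow : ∀ n : ℕ, ρ.character (g ^ n) = ∑ i, (μ i) ^ n := by
    intro n
    have hb' : ∀ i, ρ (g ^ n) (b i) = (μ i) ^ n • b i := by
      intro i
      rw [map_pow]
      exact Cfsg.Agent.Helper1.pow_apply_of_apply_eq_smul (ρ g) (b i) (μ i) (hb i) n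
    exact Cfsg.Agent.Helper1.trace_eq_sum_of_eigenbasis b (ρ (g ^ n)) (fun i => (μ i) ^ n) hb'
  let a : K := ∑ i, ⟨μ i, hmem (μ i) (hμ i)⟩
  have ha : (a : ℂ) = ρ.character g := by
    rw [hc]
    simp [a]
  have hσa : ∀ σ : K →ₐ[ℚ] ℂ, σ a = ρ.character (g ^ m σ) := by
    intro σ
    rw [hpow, map_sum]
    exact Finset.sum_congr rfl (fun i _ => hm2 σ (μ i) (hμ i))
  have ha0 : a ≠ 0 := by
    intro h
    apply hg
    rw [← ha, h]
    rfl
  have haint : IsIntegral ℤ a := by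
    apply IsIntegral.sum
    intro i _
    apply IsIntegral.of_pow hN
    have : (⟨μ i, hmem (μ i) (hμ i)⟩ : K) ^ Nat.card G = 1 := Subtype.ext (by simp [hμ i])
    rw [this]
    exact isIntegral_one
  have hnorm_int : IsIntegral ℤ (Algebra.norm ℚ a) := Algebra.isIntegral_norm ℚ haint
  obtain ⟨z, hz⟩ := IsIntegrallyClosed.isIntegral_iff.mp hnorm_int
  have hz0 : z ≠ 0 := by
    intro h
    rw [h] at hz
    simp only [algebraMap_int_eq, eq_intCast, Int.cast_zero] at hz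
    exact ha0 (Algebra.norm_eq_zero_iff.mp hz.symm)
  have hprod := Algebra.norm_eq_prod_embeddings ℚ ℂ a
  have h1 : ‖algebraMap ℚ ℂ (Algebra.norm ℚ a)‖ = ‖(z : ℂ)‖ := by
    rw [← hz]; simp
  have h2 : (1 : ℝ) ≤ ‖(z : ℂ)‖ := by
    rw [Complex.norm_intCast]
    exact_mod_cast Int.one_le_abs hz0
  rw [← h1, hprod, norm_prod] at h2
  have h3 := card_le_sum_sq_of_one_le_prod (fun σ : K →ₐ[ℚ] ℂ => ‖σ a‖)
    (fun σ => norm_pos_iff.mpr (fun h => ha0 (by
      have := σ.toRingHom.injective (a₁ := a) (a₂ := 0) (by simpa using h)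
      exact this))) h2
  refine h3.trans (le_of_eq ?_)
  exact Finset.sum_congr rfl (fun σ _ => by rw [hσa σ])

theorem centralizer_pow_coprime {X : Type*} [Group X] [Finite X] (v : X) {m : ℕ}
    (hm : Nat.Coprime (Nat.card X) m) :
    Subgroup.centralizer ({v ^ m} : Set X) = Subgroup.centralizer ({v} : Set X) := by
  ext x
  rw [Subgroup.mem_centralizer_singleton_iff, Subgroup.mem_centralizer_singleton_iff]
  constructor
  · intro h
    have h1 := (powCoprime hm).left_inv v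
    have h2 : Commute x (v ^ m) := h
    have h3 : Commute x ((v ^ m) ^ (Nat.card X).gcdB m) := h2.zpow_right _
    have h4 : (v ^ m) ^ (Nat.card X).gcdB m = v := h1
    rw [h4] at h3
    exact h3
  · intro h
    have h2 : Commute x v := h
    exact h2.pow_right m

theorem card_centralizer_split {X : Type*} [Group X] [Finite X] (V : Subgroup X)
    (hab : ∀ a ∈ V, ∀ b ∈ V, a * b = b * a) (G : Subgroup X)
    (hGV : Subgroup.IsComplement' V G) {v : X} (hv : v ∈ V) :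
    Nat.card ↥(Subgroup.centralizer ({v} : Set X)) =
      Nat.card ↥(G ⊓ Subgroup.centralizer ({v} : Set X)) * Nat.card V := by
  rw [mul_comm, ← Nat.card_prod]
  symm
  let f : ↥V × ↥(G ⊓ Subgroup.centralizer ({v} : Set X)) →
      ↥(Subgroup.centralizer ({v} : Set X)) := fun q =>
    ⟨(q.1 : X) * (q.2 : X), by
      rw [Subgroup.mem_centralizer_singleton_iff]
      have h1 : (q.1 : X) * v = v * (q.1 : X) := hab _ q.1.2 v hv
      have h2 : (q.2 : X) * v = v * (q.2 : X) :=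
        Subgroup.mem_centralizer_singleton_iff.mp q.2.2.2
      rw [mul_assoc, h2, ← mul_assoc, h1, mul_assoc]⟩
  apply Nat.card_congr (Equiv.ofBijective f ⟨?_, ?_⟩)
  · rintro ⟨u, g⟩ ⟨u', g'⟩ h
    have h1 : (u : X) * (g : X) = (u' : X) * (g' : X) := congrArg Subtype.val h
    have h2 := hGV.1 (a₁ := (u, ⟨(g : X), g.2.1⟩)) (a₂ := (u', ⟨(g' : X), g'.2.1⟩)) h1
    have h3 : u = u' := congrArg Prod.fst h2
    have h4 : (g : X) = (g' : X) := congrArg (fun q : V × G => (q.2 : X)) h2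
    rw [h3, Subtype.ext h4]
  · rintro ⟨x, hx⟩
    obtain ⟨⟨⟨u, hu⟩, ⟨g, hg⟩⟩, hug, -⟩ := hGV.existsUnique x
    have hug' : u * g = x := hug
    have hgv : g ∈ Subgroup.centralizer ({v} : Set X) := by
      rw [Subgroup.mem_centralizer_singleton_iff]
      have h1 : x * v = v * x := Subgroup.mem_centralizer_singleton_iff.mp hx
      have h2 : u * v = v * u := hab u hu v hv
      have h3 : g = u⁻¹ * x := by rw [← hug']; group
      have h4 : u⁻¹ * v = v * u⁻¹ := by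
        rw [inv_mul_eq_iff_eq_mul, ← mul_assoc, h2, mul_assoc, mul_inv_cancel, mul_one]
      rw [h3, mul_assoc, h1, ← mul_assoc, h4, mul_assoc]
    exact ⟨(⟨u, hu⟩, ⟨g, hg, hgv⟩), Subtype.ext hug'⟩

/-- `k(X) ≤ |C_G(v)| |V| - (|G| - k(G))` for an abelian normal Sylow subgroup `V` with
complement `G` -/
theorem classNumber_le_of_abelian_normal_sylow {X : Type*} [Group X] [Finite X] (p : ℕ)
    [Fact p.Prime] (V : Subgroup X) [V.Normal] (hVp : IsPGroup p V) (hidx : ¬ p ∣ V.index)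
    (hab : ∀ a ∈ V, ∀ b ∈ V, a * b = b * a) (G : Subgroup X)
    (hGV : Subgroup.IsComplement' V G) (v : X) (hv : v ∈ V) :
    Nat.card (ConjClasses X) + Nat.card G ≤
      Nat.card ↥(G ⊓ Subgroup.centralizer ({v} : Set X)) * Nat.card V +
        Nat.card (ConjClasses G) := by
  classical
  haveI : Fintype X := Fintype.ofFinite X
  haveI : Fintype (X ⧸ V) := Fintype.ofFinite _
  let e : IrrCharacter (X ⧸ V) → IrrCharacter X := fun ψ =>
    Cfsg.Agent.Helper25.irrComp ψ (QuotientGroup.mk' V) (QuotientGroup.mk'_surjective V)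
  have he : ∀ (ψ : IrrCharacter (X ⧸ V)) (x : X),
      (e ψ : X → ℂ) x = (ψ : X ⧸ V → ℂ) (QuotientGroup.mk x) := fun ψ x => rfl
  have he_inj : Function.Injective e := by
    intro ψ ψ' h
    apply Subtype.ext
    funext q
    obtain ⟨x, rfl⟩ := QuotientGroup.mk_surjective q
    have := congrArg (fun χ : IrrCharacter X => (χ : X → ℂ) x) h
    exact this
  have he_V : ∀ (ψ : IrrCharacter (X ⧸ V)) (u : X), u ∈ V →
      (e ψ : X → ℂ) u = (ψ : X ⧸ V → ℂ) 1 := by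
    intro ψ u hu
    rw [he, (QuotientGroup.eq_one_iff u).mpr hu]
  have he_range : ∀ χ : IrrCharacter X, χ ∈ Finset.univ.image e ↔
      V ≤ Cfsg.Agent.Helper25.irrKer χ := by
    intro χ
    rw [Finset.mem_image]
    constructor
    · rintro ⟨ψ, -, rfl⟩ u hu
      rw [Cfsg.Agent.Helper25.mem_irrKer, he_V ψ u hu, he, QuotientGroup.mk_one]
    · intro h
      obtain ⟨ψ, hψ⟩ := Cfsg.Agent.Helper25.exists_deflate χ V h
      exact ⟨ψ, Finset.mem_univ _, Subtype.ext (funext (fun x => hψ x))⟩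
  -- sums over the characters of `X / V`
  have hK : ∀ u : X, u ∈ V → ∑ χ ∈ Finset.univ.image e, ‖(χ : X → ℂ) u‖ ^ 2 =
      (Nat.card (X ⧸ V) : ℝ) := by
    intro u hu
    rw [Finset.sum_image (fun a _ b _ h => he_inj h)]
    have h1 := Cfsg.Agent.Helper25.card_centralizer_eq_sum_norm_sq (1 : X ⧸ V)
    have h2 : Subgroup.centralizer ({(1 : X ⧸ V)} : Set (X ⧸ V)) = ⊤ := by
      ext x
      simp [Subgroup.mem_centralizer_singleton_iff]
    rw [h2, Subgroup.card_top] at h1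
    rw [h1]
    exact Finset.sum_congr rfl (fun ψ _ => by rw [he_V ψ u hu])
  have hA : ∀ u : X, u ∈ V → ∑ χ ∈ (Finset.univ.image e)ᶜ, ‖(χ : X → ℂ) u‖ ^ 2 =
      (Nat.card ↥(Subgroup.centralizer ({u} : Set X)) : ℝ) - (Nat.card (X ⧸ V) : ℝ) := by
    intro u hu
    have h1 := Cfsg.Agent.Helper25.card_centralizer_eq_sum_norm_sq u
    have h2 := Finset.sum_add_sum_compl (Finset.univ.image e)
      (fun χ : IrrCharacter X => ‖(χ : X → ℂ) u‖ ^ 2)
    rw [hK u hu] at h2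
    rw [h1]
    linarith
  obtain ⟨ι, _, hne, m, hm, hsum⟩ := char_galois_sum' X
  have h1 : (Fintype.card ι : ℝ) * ∑ χ ∈ (Finset.univ.image e)ᶜ, ‖(χ : X → ℂ) v‖ ^ 2 =
      ∑ χ ∈ (Finset.univ.image e)ᶜ, ∑ i, ‖(χ : X → ℂ) (v ^ m i)‖ ^ 2 := by
    rw [Finset.sum_comm]
    have : ∀ i : ι, ∑ χ ∈ (Finset.univ.image e)ᶜ, ‖(χ : X → ℂ) (v ^ m i)‖ ^ 2 =
        ∑ χ ∈ (Finset.univ.image e)ᶜ, ‖(χ : X → ℂ) v‖ ^ 2 := by
      intro i
      rw [hA _ (V.pow_mem hv _), hA v hv, centralizer_pow_coprime v (hm i)]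
    rw [Finset.sum_congr rfl (fun i _ => this i)]
    simp
  have h2 : ((Finset.univ.image e)ᶜ.card : ℝ) * (Fintype.card ι : ℝ) ≤
      ∑ χ ∈ (Finset.univ.image e)ᶜ, ∑ i, ‖(χ : X → ℂ) (v ^ m i)‖ ^ 2 := by
    rw [← nsmul_eq_mul, ← Finset.sum_const]
    apply Finset.sum_le_sum
    intro χ _
    apply hsum (χ : X → ℂ) _ v (irr_ne_zero_of_abelian_normal_sylow p V hVp hidx hab χ hv)
    obtain ⟨n, ρ, -, h⟩ := χ.2
    exact ⟨n, ρ, h⟩
  have hpos : (0 : ℝ) < Fintype.card ι := by exact_mod_cast Fintype.card_pos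
  have h3 : ((Finset.univ.image e)ᶜ.card : ℝ) ≤
      ∑ χ ∈ (Finset.univ.image e)ᶜ, ‖(χ : X → ℂ) v‖ ^ 2 := by
    rw [← h1, mul_comm] at h2
    exact le_of_mul_le_mul_left h2 hpos
  rw [hA v hv] at h3
  -- cardinalities
  have c1 : (Finset.univ.image e)ᶜ.card + Nat.card (ConjClasses (X ⧸ V)) =
      Nat.card (ConjClasses X) := by
    rw [Finset.card_compl, Finset.card_image_of_injective _ he_inj, Finset.card_univ,
      ← Nat.card_eq_fintype_card, ← Nat.card_eq_fintype_card, Cfsg.Agent.Helper1.card_irr,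
      Cfsg.Agent.Helper1.card_irr]
    have : Nat.card (ConjClasses (X ⧸ V)) ≤ Nat.card (ConjClasses X) :=
      Nat.card_le_card_of_surjective _
        (ConjClasses.map_surjective (QuotientGroup.mk'_surjective V))
    omega
  have c2 : Nat.card (X ⧸ V) = Nat.card G := by
    rw [← Subgroup.index_eq_card, hGV.symm.index_eq_card]
  have c3 : Nat.card (ConjClasses (X ⧸ V)) = Nat.card (ConjClasses G) := by
    have ε : X ⧸ V ≃* G := hGV.symm.QuotientMulEquiv
    apply Nat.card_congr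
    refine ⟨ConjClasses.map ε.toMonoidHom, ConjClasses.map ε.symm.toMonoidHom, ?_, ?_⟩
    · intro q
      obtain ⟨x, rfl⟩ := ConjClasses.mk_surjective q
      show ConjClasses.mk (ε.symm (ε x)) = ConjClasses.mk x
      rw [MulEquiv.symm_apply_apply]
    · intro q
      obtain ⟨x, rfl⟩ := ConjClasses.mk_surjective q
      show ConjClasses.mk (ε (ε.symm x)) = ConjClasses.mk x
      rw [MulEquiv.apply_symm_apply]
  have c4 := card_centralizer_split V hab G hGV hv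
  rw [c4, c2] at h3
  have h4 : ((Finset.univ.image e)ᶜ.card : ℝ) + (Nat.card G : ℝ) ≤
      ((Nat.card ↥(G ⊓ Subgroup.centralizer ({v} : Set X)) * Nat.card V : ℕ) : ℝ) := by
    linarith
  have h5 : (Finset.univ.image e)ᶜ.card + Nat.card G ≤
      Nat.card ↥(G ⊓ Subgroup.centralizer ({v} : Set X)) * Nat.card V := by
    exact_mod_cast h4
  rw [← c1, c3]
  omega

end Cfsg.Agent.Helper26
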