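import Mathlib
import Cfsg.Agent.Helper26.CoprimeExt
import Cfsg.Agent.Helper26.LinOver
import Cfsg.Agent.Helper26.KGV
import Cfsg.Agent.Helper11.GalConj
import Cfsg.Agent.Helper2.Cliff

/-!
# The Glauberman correspondence for cyclic groups via canonical extensions (helper26)

Prefix `cy_`.  `Γ = G ⋊ S` with `S` cyclic, `(|G|, |S|) = 1`, `C = C_G(S)`.  For an
`S`-invariant `χ ∈ Irr(G)` with canonical extension `χ̂`, there are a unique `β ∈ Irr(C)` and
a sign `ε` with `χ̂(c s) = ε β(c)` for all generators `s` of `S` (Isaacs 13.6).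
-/

set_option autoImplicit false

namespace Cfsg.Agent.Helper26

open Cfsg

universe u

theorem cy_exists_pow (a b : ℕ) (hab : a.Coprime b) : ∃ k : ℕ, a ∣ k ∧ k ≡ 1 [MOD b] := by
  obtain ⟨k, hk1, hk2⟩ := Nat.chineseRemainder hab 0 1
  exact ⟨k, (Nat.modEq_zero_iff_dvd).mp hk1, hk2⟩

section CosetSum

variable {Γ : Type u} [Group Γ] (G C : Subgroup Γ) (s : Γ)

/-- If `y ∈ G` conjugates `c s` to `c₀ s` (with `c, c₀` commuting with `s`), then `y` commutes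
with `s`. -/
theorem cy_conj_comm [Finite G] (hcop : (Nat.card G).Coprime (orderOf s)) (y c c₀ : Γ)
    (hc : c ∈ G) (hc₀ : c₀ ∈ G) (hcs : c * s = s * c) (hc₀s : c₀ * s = s * c₀)
    (h : y * (c * s) * y⁻¹ = c₀ * s) : y * s = s * y := by
  obtain ⟨k, hk1, hk2⟩ := cy_exists_pow (Nat.card G) (orderOf s) hcop
  have hpow : ∀ c' : Γ, c' ∈ G → c' * s = s * c' → (c' * s) ^ k = s := by
    intro c' hc' hcomm
    have hcm : Commute c' s := hcomm
    rw [hcm.mul_pow]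
    have h1 : c' ^ k = 1 := by
      obtain ⟨t, rfl⟩ := hk1
      have h2 : ((⟨c', hc'⟩ : G) ^ Nat.card G : G) = 1 := pow_card_eq_one'
      have h3 : c' ^ Nat.card G = 1 := by
        have h4 := congrArg (Subtype.val : G → Γ) h2
        rw [Subgroup.coe_pow, Subgroup.coe_one] at h4
        exact h4
      rw [pow_mul, h3, one_pow]
    have h2 : s ^ k = s := by
      have := (pow_eq_pow_iff_modEq (x := s) (n := k) (m := 1)).mpr hk2
      rw [this, pow_one]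
    rw [h1, h2, one_mul]
  have h1 : y * s * y⁻¹ = s := by
    have h2 : (y * (c * s) * y⁻¹) ^ k = (c₀ * s) ^ k := by rw [h]
    rw [conj_pow, hpow c hc hcs, hpow c₀ hc₀ hc₀s] at h2
    exact h2
  calc y * s = (y * s * y⁻¹) * y := by group
    _ = s * y := by rw [h1]

variable [Fintype Γ] [Fintype G] [Fintype C]

/-- The class-sum identity on the coset `G s`: every element of `G s` is conjugate to an
element of `C s`, with uniform multiplicities. -/
theorem cy_coset_sum (hCG : C ≤ G) (hCs : ∀ c ∈ C, c * s = s * c)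
    (hC : ∀ y ∈ G, y * s = s * y → y ∈ C) (hnorm : ∀ g ∈ G, s * g * s⁻¹ ∈ G)
    (hcop : (Nat.card G).Coprime (orderOf s))
    (f : Γ → ℂ) (hf : ∀ x y : Γ, f (y * x * y⁻¹) = f x) :
    (Nat.card C : ℂ) * ∑ g : G, f ((g : Γ) * s) = (Nat.card G : ℂ) * ∑ c : C, f ((c : Γ) * s) := by
  classical
  have hmem : ∀ p : G × C, (p.1 : Γ) * p.2 * s * (p.1 : Γ)⁻¹ * s⁻¹ ∈ G := by
    intro p
    have h1 : s * (p.1 : Γ)⁻¹ * s⁻¹ ∈ G := hnorm _ (G.inv_mem p.1.2)
    have h2 : (p.1 : Γ) * p.2 ∈ G := G.mul_mem p.1.2 (hCG p.2.2)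
    have e : (p.1 : Γ) * p.2 * s * (p.1 : Γ)⁻¹ * s⁻¹ = ((p.1 : Γ) * p.2) * (s * (p.1 : Γ)⁻¹ * s⁻¹) := by
      group
    rw [e]; exact G.mul_mem h2 h1
  obtain ⟨Φ, hΦ⟩ : ∃ Φ : G × C → G, ∀ p, (Φ p : Γ) = (p.1 : Γ) * p.2 * s * (p.1 : Γ)⁻¹ * s⁻¹ :=
    ⟨fun p => ⟨_, hmem p⟩, fun _ => rfl⟩
  have hΦs : ∀ p : G × C, (Φ p : Γ) * s = (p.1 : Γ) * ((p.2 : Γ) * s) * (p.1 : Γ)⁻¹ := by
    intro p; rw [hΦ]; group
  have h1 : ∑ p : G × C, f ((Φ p : Γ) * s) = (Nat.card G : ℂ) * ∑ c : C, f ((c : Γ) * s) := by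
    rw [Fintype.sum_prod_type]
    have : ∀ g : G, ∑ c : C, f ((Φ (g, c) : Γ) * s) = ∑ c : C, f ((c : Γ) * s) := by
      intro g
      apply Finset.sum_congr rfl; intro c _
      rw [hΦs, hf]
    rw [Finset.sum_congr rfl (fun g _ => this g), Finset.sum_const, Finset.card_univ,
      nsmul_eq_mul, Nat.card_eq_fintype_card]
  have hle : ∀ x : G, (Finset.univ.filter (fun p : G × C => Φ p = x)).card ≤ Fintype.card C := by
    intro x
    by_cases hne : (Finset.univ.filter (fun p : G × C => Φ p = x)).Nonempty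
    · obtain ⟨p₀, hp₀⟩ := hne
      have hp₀' : Φ p₀ = x := (Finset.mem_filter.mp hp₀).2
      have hcard : ((Finset.univ : Finset C).image (Subtype.val : C → Γ)).card = Fintype.card C := by
        rw [Finset.card_image_of_injective _ Subtype.val_injective, Finset.card_univ]
      rw [← hcard]
      apply Finset.card_le_card_of_injOn (fun p : G × C => (p₀.1 : Γ)⁻¹ * (p.1 : Γ))
      · intro p hp
        have hp' : Φ p = x := (Finset.mem_filter.mp hp).2
        have heq : (p.1 : Γ) * ((p.2 : Γ) * s) * (p.1 : Γ)⁻¹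
            = (p₀.1 : Γ) * ((p₀.2 : Γ) * s) * (p₀.1 : Γ)⁻¹ := by
          rw [← hΦs, ← hΦs, hp', hp₀']
        have hy : ((p₀.1 : Γ)⁻¹ * (p.1 : Γ)) * ((p.2 : Γ) * s) * ((p₀.1 : Γ)⁻¹ * (p.1 : Γ))⁻¹
            = (p₀.2 : Γ) * s := by
          calc ((p₀.1 : Γ)⁻¹ * (p.1 : Γ)) * ((p.2 : Γ) * s) * ((p₀.1 : Γ)⁻¹ * (p.1 : Γ))⁻¹
              = (p₀.1 : Γ)⁻¹ * ((p.1 : Γ) * ((p.2 : Γ) * s) * (p.1 : Γ)⁻¹) * (p₀.1 : Γ) := by group
            _ = (p₀.1 : Γ)⁻¹ * ((p₀.1 : Γ) * ((p₀.2 : Γ) * s) * (p₀.1 : Γ)⁻¹) * (p₀.1 : Γ) := by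
              rw [heq]
            _ = (p₀.2 : Γ) * s := by group
        have hyG : (p₀.1 : Γ)⁻¹ * (p.1 : Γ) ∈ G := G.mul_mem (G.inv_mem p₀.1.2) p.1.2
        have hcomm := cy_conj_comm G s hcop _ _ _ (hCG p.2.2) (hCG p₀.2.2) (hCs _ p.2.2)
          (hCs _ p₀.2.2) hy
        have hyC := hC _ hyG hcomm
        simp only [Finset.coe_image, Finset.coe_univ, Set.image_univ, Set.mem_range]
        exact ⟨⟨_, hyC⟩, rfl⟩
      · intro p hp q hq hpq
        have hp' : Φ p = x := (Finset.mem_filter.mp (Finset.mem_coe.mp hp)).2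
        have hq' : Φ q = x := (Finset.mem_filter.mp (Finset.mem_coe.mp hq)).2
        have h1 : (p.1 : Γ) = q.1 := mul_left_cancel hpq
        have h2 : (p.2 : Γ) = q.2 := by
          have e1 := hΦs p
          have e2 := hΦs q
          rw [hp'] at e1
          rw [hq', e1, h1] at e2
          have e3 := mul_left_cancel (mul_right_cancel e2)
          exact mul_right_cancel e3
        exact Prod.ext (Subtype.ext h1) (Subtype.ext h2)
    · rw [Finset.not_nonempty_iff_eq_empty.mp hne, Finset.card_empty]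
      exact Nat.zero_le _
  have hsum : ∑ x : G, (Finset.univ.filter (fun p : G × C => Φ p = x)).card
      = ∑ _x : G, Fintype.card C := by
    rw [← Finset.card_eq_sum_card_fiberwise (fun _ _ => Finset.mem_univ _), Finset.card_univ,
      Fintype.card_prod, Finset.sum_const, Finset.card_univ, smul_eq_mul]
  have hN : ∀ x : G, (Finset.univ.filter (fun p : G × C => Φ p = x)).card = Fintype.card C := by
    intro x
    exact (Finset.sum_eq_sum_iff_of_le (fun i _ => hle i)).mp hsum x (Finset.mem_univ x)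
  have h2 : ∑ p : G × C, f ((Φ p : Γ) * s) = ∑ x : G, (Nat.card C : ℂ) * f ((x : Γ) * s) := by
    rw [← Finset.sum_fiberwise (s := Finset.univ) (g := Φ) (f := fun p => f ((Φ p : Γ) * s))]
    apply Finset.sum_congr rfl; intro x _
    rw [Finset.sum_congr rfl (fun p hp => by rw [(Finset.mem_filter.mp hp).2]),
      Finset.sum_const, hN x, nsmul_eq_mul, Nat.card_eq_fintype_card]
  rw [← h1, h2, Finset.mul_sum]

end CosetSum

section Fourier

open scoped ComplexConjugate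

open Classical in
/-- Orthogonality for the linear characters of a finite abelian group. -/
theorem cy_hom_sum {Q : Type u} [Group Q] [Finite Q] (hab : ∀ a b : Q, a * b = b * a)
    [Fintype (Q →* ℂˣ)] (q : Q) :
    ∑ μ : Q →* ℂˣ, ((μ q : ℂˣ) : ℂ) = if q = 1 then (Nat.card Q : ℂ) else 0 := by
  by_cases hq : q = 1
  · rw [if_pos hq, hq]
    simp only [map_one, Units.val_one, Finset.sum_const, Finset.card_univ, nsmul_eq_mul, mul_one]
    rw [← Nat.card_eq_fintype_card, Helper2.card_hom_of_comm hab]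
  · rw [if_neg hq]
    obtain ⟨μ₀, hμ₀⟩ := Helper24.exists_hom_ne_one hab hq
    have h1 : ∑ μ : Q →* ℂˣ, ((μ q : ℂˣ) : ℂ)
        = ((μ₀ q : ℂˣ) : ℂ) * ∑ μ : Q →* ℂˣ, ((μ q : ℂˣ) : ℂ) := by
      rw [Finset.mul_sum]
      rw [← Equiv.sum_comp (Equiv.mulLeft μ₀) (fun μ : Q →* ℂˣ => ((μ q : ℂˣ) : ℂ))]
      apply Finset.sum_congr rfl; intro μ _
      simp [MonoidHom.mul_apply]
    have h2 : (1 - ((μ₀ q : ℂˣ) : ℂ)) * ∑ μ : Q →* ℂˣ, ((μ q : ℂˣ) : ℂ) = 0 := by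
      rw [sub_mul, one_mul, ← h1, sub_self]
    rcases mul_eq_zero.mp h2 with h3 | h3
    · exfalso; apply hμ₀
      apply Units.ext
      rw [Units.val_one]
      exact (sub_eq_zero.mp h3).symm
    · exact h3

open Classical in
/-- Fourier inversion on a finite abelian group. -/
theorem cy_fourier {Q : Type u} [Group Q] [Fintype Q] (hab : ∀ a b : Q, a * b = b * a)
    (W : Q → ℂ) (a : ℂ)
    (h : ∀ μ : Q →* ℂˣ, ∑ t : Q, ((μ t : ℂˣ) : ℂ) * W t = if μ = 1 then a else 0) (t₀ : Q) :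
    (Nat.card Q : ℂ) * W t₀ = a := by
  classical
  haveI : Finite (Q →* ℂˣ) := Helper24.finite_hom hab
  letI : Fintype (Q →* ℂˣ) := Fintype.ofFinite _
  have h1 : ∑ μ : Q →* ℂˣ, ((μ t₀⁻¹ : ℂˣ) : ℂ) * ∑ t : Q, ((μ t : ℂˣ) : ℂ) * W t = a := by
    rw [Finset.sum_congr rfl (fun μ _ => by rw [h μ])]
    rw [Finset.sum_eq_single (1 : Q →* ℂˣ)]
    · simp
    · intro μ _ hμ; rw [if_neg hμ, mul_zero]
    · intro h0; exact absurd (Finset.mem_univ _) h0
  have h2 : ∑ μ : Q →* ℂˣ, ((μ t₀⁻¹ : ℂˣ) : ℂ) * ∑ t : Q, ((μ t : ℂˣ) : ℂ) * W t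
      = ∑ t : Q, W t * ∑ μ : Q →* ℂˣ, ((μ (t₀⁻¹ * t) : ℂˣ) : ℂ) := by
    simp only [Finset.mul_sum]
    rw [Finset.sum_comm]
    apply Finset.sum_congr rfl; intro t _
    apply Finset.sum_congr rfl; intro μ _
    rw [map_mul, Units.val_mul]; ring
  rw [h2] at h1
  rw [← h1]
  simp only [cy_hom_sum hab]
  rw [Finset.sum_eq_single t₀]
  · rw [if_pos (inv_mul_cancel t₀)]; ring
  · intro t _ ht
    rw [if_neg, mul_zero]
    intro h0
    exact ht (inv_mul_eq_one.mp h0).symm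
  · intro h0; exact absurd (Finset.mem_univ _) h0

variable {Γ : Type u} [Group Γ] [Fintype Γ] (G S : Subgroup Γ) [hG : G.Normal] [Fintype G]
  [Fintype S]

/-- Summation over `Γ = G S` by cosets. -/
theorem cy_sum_cosets (hsup : G ⊔ S = ⊤) (hinf : G ⊓ S = ⊥) (F : Γ → ℂ) :
    ∑ x : Γ, F x = ∑ t : S, ∑ g : G, F ((g : Γ) * t) := by
  obtain ⟨r, hrB, hrA, hrmem, -⟩ := gx_exists_retr G S hsup hinf
  rw [Finset.sum_comm, ← Fintype.sum_prod_type (f := fun p : G × S => F ((p.1 : Γ) * p.2))]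
  symm
  refine Fintype.sum_equiv
    { toFun := fun p : G × S => (p.1 : Γ) * p.2
      invFun := fun x => (⟨x * ((r x : S) : Γ)⁻¹, hrmem x⟩, r x)
      left_inv := ?_
      right_inv := ?_ } _ _ (fun _ => rfl)
  · rintro ⟨g, t⟩
    have h1 : r ((g : Γ) * t) = t := by rw [map_mul, hrA g g.2, hrB, one_mul]
    apply Prod.ext
    · apply Subtype.ext
      show (g : Γ) * t * ((r ((g : Γ) * t) : S) : Γ)⁻¹ = g
      rw [h1]; group
    · exact h1
  · intro x
    show x * ((r x : S) : Γ)⁻¹ * (r x : S) = x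
    group

theorem cy_card_eq (hsup : G ⊔ S = ⊤) (hinf : G ⊓ S = ⊥) :
    (Nat.card Γ : ℂ) = (Nat.card S : ℂ) * (Nat.card G : ℂ) := by
  have h := cy_sum_cosets G S hsup hinf (fun _ => (1 : ℂ))
  simp only [Finset.sum_const, Finset.card_univ, nsmul_eq_mul, mul_one] at h
  rw [Nat.card_eq_fintype_card, Nat.card_eq_fintype_card, Nat.card_eq_fintype_card]
  exact h

/-- Coset orthogonality for characters of `Γ = G S` restricting irreducibly to `G`. -/
theorem cy_coset_orth (hsup : G ⊔ S = ⊤) (hinf : G ⊓ S = ⊥) (hab : ∀ a b : S, a * b = b * a)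
    (χh χh' : IrrCharacter Γ) (hirr : IsIrrCharacter G (fun g : G => (χh : Γ → ℂ) g)) (t₀ : S) :
    (χh = χh' → ∑ g : G, (χh : Γ → ℂ) ((g : Γ) * t₀) * conj ((χh' : Γ → ℂ) ((g : Γ) * t₀))
      = (Nat.card G : ℂ)) ∧
    ((fun g : G => (χh : Γ → ℂ) g) ≠ (fun g : G => (χh' : Γ → ℂ) g) →
      ∑ g : G, (χh : Γ → ℂ) ((g : Γ) * t₀) * conj ((χh' : Γ → ℂ) ((g : Γ) * t₀)) = 0) := by
  classical
  obtain ⟨r, hrB, hrA, hrmem, -⟩ := gx_exists_retr G S hsup hinf
  have hΓ0 : (Nat.card Γ : ℂ) ≠ 0 := Nat.cast_ne_zero.mpr Nat.card_pos.ne'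
  have hS0 : (Nat.card S : ℂ) ≠ 0 := Nat.cast_ne_zero.mpr Nat.card_pos.ne'
  obtain ⟨W, hW⟩ : ∃ W : S → ℂ, ∀ t : S, W t =
      ∑ g : G, (χh : Γ → ℂ) ((g : Γ) * t) * conj ((χh' : Γ → ℂ) ((g : Γ) * t)) := ⟨_, fun _ => rfl⟩
  -- the twisted inner products
  have key : ∀ μ : S →* ℂˣ, ∑ t : S, ((μ t : ℂˣ) : ℂ) * W t = (Nat.card Γ : ℂ) *
      classInner (fun x => (((μ.comp r) x : ℂˣ) : ℂ) * (χh : Γ → ℂ) x) (χh' : Γ → ℂ) := by
    intro μ
    unfold classInner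
    rw [← mul_assoc, mul_inv_cancel₀ hΓ0, one_mul, cy_sum_cosets G S hsup hinf]
    apply Finset.sum_congr rfl; intro t _
    rw [hW, Finset.mul_sum]
    apply Finset.sum_congr rfl; intro g _
    have h1 : r ((g : Γ) * t) = t := by rw [map_mul, hrA g g.2, hrB, one_mul]
    simp only [MonoidHom.comp_apply, h1]; ring
  have hirrtw : ∀ μ : S →* ℂˣ, IsIrrCharacter Γ
      (fun x => (((μ.comp r) x : ℂˣ) : ℂ) * (χh : Γ → ℂ) x) :=
    fun μ => Helper7.isIrrCharacter_hom_mul (μ.comp r) _ χh.2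
  have hres : ∀ (μ : S →* ℂˣ) (g : G),
      (((μ.comp r) (g : Γ) : ℂˣ) : ℂ) * (χh : Γ → ℂ) g = (χh : Γ → ℂ) g := by
    intro μ g
    rw [MonoidHom.comp_apply, hrA g g.2, map_one, Units.val_one, one_mul]
  constructor
  · intro heq
    subst heq
    have h2 : ∀ μ : S →* ℂˣ, ∑ t : S, ((μ t : ℂˣ) : ℂ) * W t
        = if μ = 1 then (Nat.card Γ : ℂ) else 0 := by
      intro μ
      rw [key μ]
      have h3 := Helper2.classInner_irr_irr (⟨_, hirrtw μ⟩ : IrrCharacter Γ) χh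
      rw [h3]
      by_cases hμ : μ = 1
      · rw [if_pos hμ, if_pos, mul_one]
        apply Subtype.ext
        funext x
        show (((μ.comp r) x : ℂˣ) : ℂ) * (χh : Γ → ℂ) x = (χh : Γ → ℂ) x
        rw [hμ]; simp
      · rw [if_neg hμ, if_neg, mul_zero]
        intro h4
        apply hμ
        have h5 : ∀ x : Γ, (((μ.comp r) x : ℂˣ) : ℂ) * (χh : Γ → ℂ) x = (χh : Γ → ℂ) x := by
          intro x
          exact congrFun (congrArg Subtype.val h4) x
        have h6 := lo_twist G.subtype (χh : Γ → ℂ) (Helper2.isCharacter_of_isIrrCharacter χh.2)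
          hirr (μ.comp r) (fun g => by
            show (μ.comp r) (g : Γ) = 1
            rw [MonoidHom.comp_apply, hrA g g.2, map_one]) h5
        ext t
        have h7 := h6 (t : Γ)
        rw [MonoidHom.comp_apply, hrB] at h7
        rw [h7]; rfl
    have h8 := cy_fourier hab W _ h2 t₀
    rw [← hW, cy_card_eq G S hsup hinf] at *
    exact mul_left_cancel₀ hS0 h8
  · intro hne
    have h2 : ∀ μ : S →* ℂˣ, ∑ t : S, ((μ t : ℂˣ) : ℂ) * W t = if μ = 1 then (0 : ℂ) else 0 := by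
      intro μ
      rw [key μ, ite_self]
      have h3 := Helper2.classInner_irr_irr (⟨_, hirrtw μ⟩ : IrrCharacter Γ) χh'
      rw [h3, if_neg, mul_zero]
      intro h4
      apply hne
      funext g
      have h5 := congrFun (congrArg Subtype.val h4) (g : Γ)
      rw [← h5]
      exact (hres μ g).symm
    have h8 := cy_fourier hab W _ h2 t₀
    rw [← hW]
    rcases mul_eq_zero.mp h8 with h9 | h9
    · exact absurd h9 hS0
    · exact h9

end Fourier

section Canon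

variable {Γ : Type u} [Group Γ] [Finite Γ] (G : Subgroup Γ) [hG : G.Normal]

omit [Finite Γ] in
/-- Pointwise form of the determinantal order. -/
theorem cy_det_pow (χ : Γ → ℂ) (x : Γ) : (detChar χ x) ^ detOrder χ = 1 := by
  have h := pow_orderOf_eq_one (detChar χ)
  have h2 := congrFun h x
  rw [Pi.pow_apply, Pi.one_apply] at h2
  exact h2

/-- The canonical extension is unique. -/
theorem cy_unique_ext (n : ℕ) (hidx : G.index = n) (θ : IrrCharacter G)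
    (hd : (charDegree (θ : G → ℂ)).Coprime n) (χ₁ χ₂ : IrrCharacter Γ)
    (h₁ : ∀ g : G, (χ₁ : Γ → ℂ) g = (θ : G → ℂ) g) (h₂ : ∀ g : G, (χ₂ : Γ → ℂ) g = (θ : G → ℂ) g)
    (ho₁ : (detOrder (χ₁ : Γ → ℂ)).Coprime n) (ho₂ : (detOrder (χ₂ : Γ → ℂ)).Coprime n) :
    χ₁ = χ₂ := by
  obtain ⟨β, hβG, hβ, hdet⟩ := Helper7.exists_hom_of_two_char_extensions G (θ : G → ℂ) θ.2 _
    (Helper25.irr_one_eq_degree θ) (χ₁ : Γ → ℂ) (χ₂ : Γ → ℂ)
    (Helper2.isCharacter_of_isIrrCharacter χ₁.2) (Helper2.isCharacter_of_isIrrCharacter χ₂.2) h₁ h₂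
  have hβ1 : ∀ x : Γ, β x = 1 := by
    intro x
    have hn : (β x) ^ n = 1 := by
      rw [← map_pow, ← hidx]
      exact hβG ⟨x ^ G.index, Subgroup.pow_index_mem G x⟩
    have hm : (β x) ^ (charDegree (θ : G → ℂ) * (detOrder (χ₁ : Γ → ℂ) * detOrder (χ₂ : Γ → ℂ)))
        = 1 := by
      apply Units.ext
      have e1 := hdet x
      have e2 := cy_det_pow (χ₂ : Γ → ℂ) x
      have e3 := cy_det_pow (χ₁ : Γ → ℂ) x
      have e4 : (detChar (χ₂ : Γ → ℂ) x) ^ (detOrder (χ₁ : Γ → ℂ) * detOrder (χ₂ : Γ → ℂ)) = 1 := by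
        rw [mul_comm, pow_mul, e2, one_pow]
      have e5 : (detChar (χ₁ : Γ → ℂ) x) ^ (detOrder (χ₁ : Γ → ℂ) * detOrder (χ₂ : Γ → ℂ)) = 1 := by
        rw [pow_mul, e3, one_pow]
      rw [e1, mul_pow, e5, mul_one, ← pow_mul] at e4
      rw [Units.val_pow_eq_pow_val, Units.val_one]
      exact e4
    have hcop' : (charDegree (θ : G → ℂ) * (detOrder (χ₁ : Γ → ℂ) * detOrder (χ₂ : Γ → ℂ))).Coprime n :=
      Nat.Coprime.mul_left hd (Nat.Coprime.mul_left ho₁ ho₂)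
    exact (pow_eq_one_iff_of_coprime hcop').mp ⟨hm, hn⟩
  apply Subtype.ext
  funext x
  rw [hβ x, hβ1 x, Units.val_one, one_mul]

/-- The determinant of a Galois conjugate character. -/
theorem cy_det_galois (χ : Γ → ℂ) (hχ : IsCharacter Γ χ) (k : ℕ) (hk : k.Coprime (Nat.card Γ)) :
    detOrder (fun x => χ (x ^ k)) ∣ detOrder χ := by
  classical
  obtain ⟨K, ρ, rfl⟩ := hχ
  obtain ⟨τ, hτ⟩ := Helper11.exists_aut_pow (Nat.card Γ) Nat.card_pos k hk
  have e1 : (fun x => ρ.character (x ^ k)) = (Helper11.autRep τ.toRingHom ρ).character := by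
    funext g
    rw [Helper11.autRep_character]
    obtain ⟨b, μ, hμ, -, hb, -, hc, -⟩ := Cfsg.Agent.Helper1.exists_eigenbasis ρ g
    have hb' : ∀ i, ρ (g ^ k) (b i) = (μ i) ^ k • b i := by
      intro i
      rw [map_pow]
      exact Cfsg.Agent.Helper1.pow_apply_of_apply_eq_smul (ρ g) (b i) (μ i) (hb i) k
    have hc' : ρ.character (g ^ k) = ∑ i, (μ i) ^ k :=
      Cfsg.Agent.Helper1.trace_eq_sum_of_eigenbasis b (ρ (g ^ k)) (fun i => (μ i) ^ k) hb'
    rw [hc', hc]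
    show _ = τ (∑ i, μ i)
    rw [map_sum]
    exact Finset.sum_congr rfl (fun i _ => (hτ (μ i) (hμ i)).symm)
  have e2 : ∀ x : Γ, detChar (fun x => ρ.character (x ^ k)) x = τ (detChar ρ.character x) := by
    intro x
    rw [e1, Helper7.detChar_rep, Helper7.detChar_rep]
    show LinearMap.det (Matrix.toLin' ((LinearMap.toMatrix' (ρ x)).map τ.toRingHom)) = _
    rw [LinearMap.det_toLin']
    have h3 := RingHom.map_det τ.toRingHom (LinearMap.toMatrix' (ρ x))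
    rw [LinearMap.det_toMatrix'] at h3
    exact h3.symm
  unfold detOrder
  apply orderOf_dvd_of_pow_eq_one
  funext x
  rw [Pi.pow_apply, Pi.one_apply, e2, ← map_pow]
  have h4 := cy_det_pow ρ.character x
  unfold detOrder at h4
  rw [h4, map_one]

/-- Galois invariance of the canonical extension. -/
theorem cy_galois (n : ℕ) (hidx : G.index = n) (θ : IrrCharacter G)
    (hd : (charDegree (θ : G → ℂ)).Coprime n) (χh : IrrCharacter Γ)
    (h : ∀ g : G, (χh : Γ → ℂ) g = (θ : G → ℂ) g)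
    (ho : (detOrder (χh : Γ → ℂ)).Coprime n) (k : ℕ) (hk : k.Coprime (Nat.card Γ))
    (hkG : ∀ g : G, (g : Γ) ^ k = g) (x : Γ) : (χh : Γ → ℂ) (x ^ k) = (χh : Γ → ℂ) x := by
  have hc := Helper2.isCharacter_of_isIrrCharacter χh.2
  obtain ⟨-, hirr'⟩ := Helper11.char_pow_coprime k hk hc
  have hirr'' := hirr' χh.2
  have hext' : ∀ g : G, ((⟨_, hirr''⟩ : IrrCharacter Γ) : Γ → ℂ) g = (θ : G → ℂ) g := by
    intro g
    show (χh : Γ → ℂ) ((g : Γ) ^ k) = _
    rw [hkG, h]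
  have hdo := cy_det_galois (χh : Γ → ℂ) hc k hk
  have h5 := cy_unique_ext G n hidx θ hd χh ⟨_, hirr''⟩ h hext' ho
    (Nat.Coprime.coprime_dvd_left hdo ho)
  exact (congrFun (congrArg Subtype.val h5) x).symm

/-- Two generators of a cyclic group of order prime to `|G|` are related by a power map that is
trivial on `G` and coprime to `|Γ|`. -/
theorem cy_exists_gal (s s' : Γ) (hs' : s' ∈ Subgroup.zpowers s) (hord : orderOf s' = orderOf s)
    (hcop : (Nat.card G).Coprime (orderOf s)) (hΓ : Nat.card Γ = Nat.card G * orderOf s) :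
    ∃ k : ℕ, k.Coprime (Nat.card Γ) ∧ (∀ g : G, (g : Γ) ^ k = g) ∧ s ^ k = s' := by
  obtain ⟨j, hj⟩ : s' ∈ Submonoid.powers s := mem_powers_iff_mem_zpowers.mpr hs'
  have hj' : s ^ j = s' := hj
  have hn0 : 0 < orderOf s := orderOf_pos s
  have hgcd : Nat.gcd (orderOf s) j = 1 := by
    have h1 := orderOf_pow (n := j) s
    rw [hj', hord] at h1
    rcases Nat.div_eq_self.mp h1.symm with h | h
    · omega
    · exact h
  obtain ⟨k, hk1, hk2⟩ := Nat.chineseRemainder hcop 1 j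
  refine ⟨k, ?_, ?_, ?_⟩
  · rw [hΓ]
    apply Nat.Coprime.mul_right
    · have := Nat.ModEq.gcd_eq hk1
      show Nat.gcd k (Nat.card G) = 1
      rw [this]; simp
    · have := Nat.ModEq.gcd_eq hk2
      show Nat.gcd k (orderOf s) = 1
      rw [this, Nat.gcd_comm]; exact hgcd
  · intro g
    have h1 : k ≡ 1 [MOD orderOf (g : Γ)] := by
      apply Nat.ModEq.of_dvd _ hk1
      rw [Subgroup.orderOf_coe]
      exact orderOf_dvd_natCard g
    have h2 := (pow_eq_pow_iff_modEq (x := (g : Γ)) (n := k) (m := 1)).mpr h1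
    rw [h2, pow_one]
  · rw [← hj']
    exact (pow_eq_pow_iff_modEq (x := s) (n := k) (m := j)).mpr hk2

end Canon

theorem cy_char_zero {H : Type u} [Group H] [Finite H] {Ψ : H → ℂ} (hΨ : IsCharacter H Ψ)
    (h1 : Ψ 1 = 0) (g : H) : Ψ g = 0 := by
  obtain ⟨n, ρ, rfl⟩ := hΨ
  rw [Helper25.rep_char_one] at h1
  have hn : n = 0 := by exact_mod_cast h1
  have h2 := Helper1.norm_char_le ρ g
  rw [Module.finrank_fin_fun] at h2
  have hn' : (n : ℝ) = 0 := by exact_mod_cast hn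
  exact norm_le_zero_iff.mp (le_trans h2 (le_of_eq hn'))

theorem cy_zpowers_pow {Γ : Type u} [Group Γ] [Finite Γ] (s : Γ) (m : ℕ)
    (hm : (orderOf s).Coprime m) : Subgroup.zpowers (s ^ m) = Subgroup.zpowers s := by
  apply Subgroup.eq_of_le_of_card_ge
  · exact Subgroup.zpowers_le.mpr (Subgroup.pow_mem _ (Subgroup.mem_zpowers s) m)
  · rw [Nat.card_zpowers, Nat.card_zpowers, Nat.Coprime.orderOf_pow hm]

section Main

open scoped ComplexConjugate

variable {Γ : Type u} [Group Γ] [Fintype Γ] (G S C : Subgroup Γ) [hG : G.Normal] [Fintype G]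
  [Fintype S] [Fintype C]

omit [Fintype Γ] [Fintype S] [Fintype C] in
theorem cy_exists_mulHom (hcent : ∀ c ∈ C, ∀ t ∈ S, c * t = t * c) :
    ∃ m : C × S →* Γ, ∀ p : C × S, m p = (p.1 : Γ) * p.2 := by
  refine ⟨MonoidHom.mk' (fun p : C × S => (p.1 : Γ) * p.2) ?_, fun _ => rfl⟩
  rintro ⟨c, t⟩ ⟨c', t'⟩
  show ((c * c' : C) : Γ) * ((t * t' : S) : Γ) = (c : Γ) * t * ((c' : Γ) * t')
  rw [Subgroup.coe_mul, Subgroup.coe_mul]
  have h := hcent c' c'.2 t t.2
  calc (c : Γ) * c' * (t * t') = c * (c' * t) * t' := by group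
    _ = c * (t * c') * t' := by rw [h]
    _ = c * t * (c' * t') := by group

/-- The multiplicity function: `A β t = [χh(· t)|_C, β]`. -/
noncomputable def cy_A (χh : Γ → ℂ) (β : C → ℂ) (t : S) : ℂ :=
  classInner (fun c : C => χh ((c : Γ) * t)) β

theorem cy_A_char (hcent : ∀ c ∈ C, ∀ t ∈ S, c * t = t * c) (hab : ∀ a b : S, a * b = b * a)
    (χh : Γ → ℂ) (hχh : IsCharacter Γ χh) (β : C → ℂ) (hβ : IsCharacter C β) :
    IsCharacter S (cy_A S C χh β) := by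
  classical
  obtain ⟨m, hm⟩ := cy_exists_mulHom S C hcent
  have hψ : IsCharacter (C × S) (fun p => χh (m p)) := Helper2.isCharacter_comp m hχh
  have hcl : IsClassFunction S (cy_A S C χh β) := by
    intro t h
    have e : h * t * h⁻¹ = t := by rw [hab h t]; group
    rw [e]
  have hC0 : (Nat.card C : ℂ) ≠ 0 := Nat.cast_ne_zero.mpr Nat.card_pos.ne'
  have hS0 : (Nat.card S : ℂ) ≠ 0 := Nat.cast_ne_zero.mpr Nat.card_pos.ne'
  have hm' : ∀ μ : IrrCharacter S, ∃ k : ℕ, classInner (cy_A S C χh β) (μ : S → ℂ) = k := by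
    intro μ
    have hφ : IsCharacter (C × S) (fun p => β p.1 * (μ : S → ℂ) p.2) :=
      Helper2.isCharacter_mul (Helper2.isCharacter_comp (MonoidHom.fst C S) hβ)
        (Helper2.isCharacter_comp (MonoidHom.snd C S) (Helper2.isCharacter_of_isIrrCharacter μ.2))
    obtain ⟨k, hk⟩ := Helper2.classInner_char_nat hψ hφ
    refine ⟨k, ?_⟩
    rw [← hk]
    show (Nat.card S : ℂ)⁻¹ * ∑ t : S, ((Nat.card C : ℂ)⁻¹ *
        ∑ c : C, χh ((c : Γ) * t) * conj (β c)) * conj ((μ : S → ℂ) t)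
      = (Nat.card (C × S) : ℂ)⁻¹ * ∑ p : C × S, χh (m p) * conj (β p.1 * (μ : S → ℂ) p.2)
    rw [Fintype.sum_prod_type_right, Nat.card_prod, Nat.cast_mul, mul_inv, Finset.mul_sum,
      Finset.mul_sum]
    apply Finset.sum_congr rfl; intro t _
    rw [Finset.mul_sum, Finset.sum_mul, Finset.mul_sum, Finset.mul_sum]
    apply Finset.sum_congr rfl; intro c _
    rw [hm, map_mul]
    ring
  choose k hk using hm'
  have e : cy_A S C χh β = ∑ μ : IrrCharacter S, (k μ : ℂ) • (μ : S → ℂ) := by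
    conv_lhs => rw [Helper2.classFun_eq_sum_classInner hcl]
    exact Finset.sum_congr rfl (fun μ _ => by rw [hk μ])
  rw [e]
  exact Helper2.isCharacter_sum _ _
    (fun μ _ => Helper2.isCharacter_nsmul (k μ) (Helper2.isCharacter_of_isIrrCharacter μ.2))

/-- Isaacs 13.6, existence: the canonical extension of an `S`-invariant character determines an
irreducible character of `C` and a sign. -/
theorem cy_exists (hsup : G ⊔ S = ⊤) (hcop : (Nat.card G).Coprime (Nat.card S))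
    (s : Γ) (hs : Subgroup.zpowers s = S)
    (hC : C = G ⊓ Subgroup.centralizer (S : Set Γ)) (hCG : C ≤ G)
    (χ : IrrCharacter G) (χh : IrrCharacter Γ)
    (hext : ∀ g : G, (χh : Γ → ℂ) g = (χ : G → ℂ) g)
    (hdet : (detOrder (χh : Γ → ℂ)).Coprime (Nat.card S)) :
    ∃ (β : IrrCharacter C) (ε : ℤ), (ε = 1 ∨ ε = -1) ∧
      (∀ c : C, ∀ s' : Γ, Subgroup.zpowers s' = S →
        (χh : Γ → ℂ) ((c : Γ) * s') = (ε : ℂ) * (β : C → ℂ) c) ∧
      classInner (fun c : C => (χ : G → ℂ) ⟨c, hCG c.2⟩) (β : C → ℂ) ≠ 0 := by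
  classical
  have hinf : G ⊓ S = ⊥ := Subgroup.inf_eq_bot_of_coprime hcop
  have hsS : s ∈ S := by rw [← hs]; exact Subgroup.mem_zpowers s
  have hord : orderOf s = Nat.card S := by rw [← hs, Nat.card_zpowers]
  have hab : ∀ a b : S, a * b = b * a := by
    intro a b
    have ha : (a : Γ) ∈ Subgroup.zpowers s := by rw [hs]; exact a.2
    have hb : (b : Γ) ∈ Subgroup.zpowers s := by rw [hs]; exact b.2
    obtain ⟨i, hi⟩ := Subgroup.mem_zpowers_iff.mp ha
    obtain ⟨j, hj⟩ := Subgroup.mem_zpowers_iff.mp hb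
    apply Subtype.ext
    show (a : Γ) * b = b * a
    rw [← hi, ← hj, ← zpow_add, ← zpow_add, add_comm]
  have hidx : G.index = Nat.card S := gx_index_eq G S hsup hcop
  have hΓ : Nat.card Γ = Nat.card G * Nat.card S := by
    rw [← hidx]; exact (Subgroup.card_mul_index G).symm
  have hd : (charDegree (χ : G → ℂ)).Coprime (Nat.card S) :=
    Nat.Coprime.coprime_dvd_left (Helper25.irr_degree_dvd_card χ) hcop
  have hcent : ∀ c ∈ C, ∀ t ∈ S, c * t = t * c := by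
    intro c hc t ht
    rw [hC] at hc
    exact (Subgroup.mem_centralizer_iff.mp (Subgroup.mem_inf.mp hc).2 t ht).symm
  have hCs : ∀ c ∈ C, c * s = s * c := fun c hc => hcent c hc s hsS
  have hC' : ∀ y ∈ G, y * s = s * y → y ∈ C := by
    intro y hy hys
    rw [hC]
    refine Subgroup.mem_inf.mpr ⟨hy, ?_⟩
    rw [Subgroup.mem_centralizer_iff]
    intro t ht
    have ht' : t ∈ Subgroup.zpowers s := by rw [hs]; exact ht
    obtain ⟨i, rfl⟩ := Subgroup.mem_zpowers_iff.mp ht'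
    exact (Commute.zpow_left (show Commute s y from hys.symm) i).eq
  have hnorm : ∀ g ∈ G, s * g * s⁻¹ ∈ G := fun g hg => hG.conj_mem g hg s
  have hcop' : (Nat.card G).Coprime (orderOf s) := by rw [hord]; exact hcop
  have hirr : IsIrrCharacter G (fun g : G => (χh : Γ → ℂ) g) := by
    have e : (fun g : G => (χh : Γ → ℂ) g) = (χ : G → ℂ) := funext hext
    rw [e]; exact χ.2
  have hG0 : (Nat.card G : ℂ) ≠ 0 := Nat.cast_ne_zero.mpr Nat.card_pos.ne'
  have hC0 : (Nat.card C : ℂ) ≠ 0 := Nat.cast_ne_zero.mpr Nat.card_pos.ne'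
  -- independence of the generator
  have hgen : ∀ s' : Γ, Subgroup.zpowers s' = S → ∀ c : C,
      (χh : Γ → ℂ) ((c : Γ) * s') = (χh : Γ → ℂ) ((c : Γ) * s) := by
    intro s' hs' c
    have h1 : s' ∈ Subgroup.zpowers s := by rw [hs, ← hs']; exact Subgroup.mem_zpowers s'
    have h2 : orderOf s' = orderOf s := by rw [hord, ← hs', Nat.card_zpowers]
    obtain ⟨k, hk, hkG, hks⟩ := cy_exists_gal G s s' h1 h2 hcop' (by rw [hord]; exact hΓ)
    have h3 := cy_galois G (Nat.card S) hidx χ hd χh hext hdet k hk hkG ((c : Γ) * s)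
    have hcm : Commute (c : Γ) s := hCs c c.2
    have e : (c : Γ) ^ k = c := hkG ⟨c, hCG c.2⟩
    rw [hcm.mul_pow, e, hks] at h3
    exact h3
  -- the norm on the coset
  have hnormsum : ∑ c : C, (χh : Γ → ℂ) ((c : Γ) * s) * conj ((χh : Γ → ℂ) ((c : Γ) * s))
      = (Nat.card C : ℂ) := by
    have h1 := cy_coset_sum G C s hCG hCs hC' hnorm hcop'
      (fun x => (χh : Γ → ℂ) x * conj ((χh : Γ → ℂ) x))
      (fun x y => by simp only [Helper25.irr_conj])
    have h2 := (cy_coset_orth G S hsup hinf hab χh χh hirr ⟨s, hsS⟩).1 rfl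
    simp only [] at h1 h2
    rw [h2] at h1
    have h3 : (Nat.card G : ℂ) * ∑ c : C, (χh : Γ → ℂ) ((c : Γ) * s) * conj ((χh : Γ → ℂ) ((c : Γ) * s))
        = (Nat.card G : ℂ) * (Nat.card C : ℂ) := by rw [← h1]; ring
    exact mul_left_cancel₀ hG0 h3
  have hAchar : ∀ β : IrrCharacter C, IsCharacter S (cy_A S C (χh : Γ → ℂ) (β : C → ℂ)) :=
    fun β => cy_A_char S C hcent hab _ (Helper2.isCharacter_of_isIrrCharacter χh.2) _
      (Helper2.isCharacter_of_isIrrCharacter β.2)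
  obtain ⟨s₀, hs₀⟩ : ∃ s₀ : S, (s₀ : Γ) = s := ⟨⟨s, hsS⟩, rfl⟩
  have hAgen : ∀ (β : IrrCharacter C) (t : S), Subgroup.zpowers (t : Γ) = S →
      cy_A S C (χh : Γ → ℂ) (β : C → ℂ) t = cy_A S C (χh : Γ → ℂ) (β : C → ℂ) s₀ := by
    intro β t ht
    unfold cy_A
    congr 1
    funext c
    rw [hgen (t : Γ) ht c, hs₀]
  -- integrality bound
  obtain ⟨ι, hι, hne, m, hm, hbur⟩ := char_galois_sum' S
  have hbound : ∀ β : IrrCharacter C, cy_A S C (χh : Γ → ℂ) (β : C → ℂ) s₀ ≠ 0 →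
      1 ≤ Complex.normSq (cy_A S C (χh : Γ → ℂ) (β : C → ℂ) s₀) := by
    intro β hne0
    have h1 := hbur _ (hAchar β) s₀ hne0
    have h2 : ∀ i, cy_A S C (χh : Γ → ℂ) (β : C → ℂ) (s₀ ^ m i)
        = cy_A S C (χh : Γ → ℂ) (β : C → ℂ) s₀ := by
      intro i
      apply hAgen
      rw [Subgroup.coe_pow, hs₀, cy_zpowers_pow s (m i) (by rw [hord]; exact hm i), hs]
    simp only [h2] at h1
    rw [Finset.sum_const, Finset.card_univ, nsmul_eq_mul] at h1
    have hι0 : (0 : ℝ) < Fintype.card ι := by exact_mod_cast Fintype.card_pos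
    rw [Complex.normSq_eq_norm_sq]
    nlinarith
  -- reality
  have hreal : ∀ β : IrrCharacter C, conj (cy_A S C (χh : Γ → ℂ) (β : C → ℂ) s₀)
      = cy_A S C (χh : Γ → ℂ) (β : C → ℂ) s₀ := by
    intro β
    have h1 : cy_A S C (χh : Γ → ℂ) (β : C → ℂ) s₀⁻¹ = cy_A S C (χh : Γ → ℂ) (β : C → ℂ) s₀ := by
      apply hAgen
      rw [Subgroup.coe_inv, hs₀, Subgroup.zpowers_inv, hs]
    conv_rhs => rw [← h1]
    unfold cy_A classInner
    rw [map_mul, map_inv₀, Complex.conj_natCast, map_sum]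
    congr 1
    rw [← Equiv.sum_comp (Equiv.inv C)
      (fun c : C => (χh : Γ → ℂ) ((c : Γ) * ((s₀⁻¹ : S) : Γ)) * conj ((β : C → ℂ) c))]
    apply Finset.sum_congr rfl; intro c _
    rw [map_mul, Complex.conj_conj]
    show _ = (χh : Γ → ℂ) (((c⁻¹ : C) : Γ) * ((s₀⁻¹ : S) : Γ)) * conj ((β : C → ℂ) c⁻¹)
    rw [Helper25.irr_inv β c, Complex.conj_conj, ← Helper25.irr_inv χh]
    have h3 := hCs c c.2
    have h4 : ((c : Γ) * (s₀ : Γ))⁻¹ = ((c⁻¹ : C) : Γ) * ((s₀⁻¹ : S) : Γ) := by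
      rw [Subgroup.coe_inv, Subgroup.coe_inv, hs₀, h3, mul_inv_rev]
    rw [h4]
  -- the class function `c ↦ χh (c s)`
  obtain ⟨F, hF⟩ : ∃ F : C → ℂ, F = fun c : C => (χh : Γ → ℂ) ((c : Γ) * s) := ⟨_, rfl⟩
  have hFcl : IsClassFunction C F := by
    intro c y
    rw [hF]
    show (χh : Γ → ℂ) (((y * c * y⁻¹ : C) : Γ) * s) = (χh : Γ → ℂ) ((c : Γ) * s)
    have hy := hCs y y.2
    have e : ((y * c * y⁻¹ : C) : Γ) * s = (y : Γ) * ((c : Γ) * s) * (y : Γ)⁻¹ := by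
      rw [Subgroup.coe_mul, Subgroup.coe_mul, Subgroup.coe_inv]
      calc (y : Γ) * c * (y : Γ)⁻¹ * s = y * c * (y : Γ)⁻¹ * (s * y) * (y : Γ)⁻¹ := by group
        _ = y * c * (y : Γ)⁻¹ * (y * s) * (y : Γ)⁻¹ := by rw [hy]
        _ = (y : Γ) * ((c : Γ) * s) * (y : Γ)⁻¹ := by group
    rw [e, Helper25.irr_conj]
  have hFa : ∀ β : IrrCharacter C, classInner F (β : C → ℂ)
      = cy_A S C (χh : Γ → ℂ) (β : C → ℂ) s₀ := by
    intro β; rw [hF]; unfold cy_A; rw [hs₀]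
  have hFF : classInner F F = 1 := by
    unfold classInner
    rw [hF]
    simp only []
    rw [hnormsum, inv_mul_cancel₀ hC0]
  have hpars := Helper2.classInner_eq_sum_mul hFcl F
  rw [hFF] at hpars
  have hsum1 : ∑ β : IrrCharacter C, Complex.normSq (classInner F (β : C → ℂ)) = 1 := by
    have h1 : ((∑ β : IrrCharacter C, Complex.normSq (classInner F (β : C → ℂ)) : ℝ) : ℂ) = 1 := by
      rw [Complex.ofReal_sum, hpars]
      exact Finset.sum_congr rfl (fun β _ => (Complex.mul_conj _).symm)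
    exact_mod_cast h1
  have hb1 : ∀ β : IrrCharacter C, classInner F (β : C → ℂ) ≠ 0 →
      1 ≤ Complex.normSq (classInner F (β : C → ℂ)) := by
    intro β h
    rw [hFa β] at h ⊢
    exact hbound β h
  obtain ⟨β₀, hβ₀⟩ : ∃ β₀ : IrrCharacter C, classInner F (β₀ : C → ℂ) ≠ 0 := by
    by_contra hno
    push_neg at hno
    simp only [hno, map_zero, Finset.sum_const_zero] at hsum1
    exact zero_ne_one hsum1
  have huniq : ∀ β : IrrCharacter C, β ≠ β₀ → classInner F (β : C → ℂ) = 0 := by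
    intro β hβ
    by_contra hne0
    have h1 : ∑ x ∈ ({β₀, β} : Finset (IrrCharacter C)), Complex.normSq (classInner F (x : C → ℂ))
        ≤ ∑ x : IrrCharacter C, Complex.normSq (classInner F (x : C → ℂ)) :=
      Finset.sum_le_sum_of_subset_of_nonneg (Finset.subset_univ _)
        (fun _ _ _ => Complex.normSq_nonneg _)
    rw [Finset.sum_pair (Ne.symm hβ), hsum1] at h1
    have h2 := hb1 β₀ hβ₀
    have h3 := hb1 β hne0
    linarith
  have hns : Complex.normSq (classInner F (β₀ : C → ℂ)) = 1 := by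
    rw [Finset.sum_eq_single β₀ (fun β _ hβ => by rw [huniq β hβ, map_zero])
      (fun h => absurd (Finset.mem_univ _) h)] at hsum1
    exact hsum1
  obtain ⟨a, ha⟩ : ∃ a : ℂ, a = classInner F (β₀ : C → ℂ) := ⟨_, rfl⟩
  have hare : conj a = a := by rw [ha, hFa]; exact hreal β₀
  have ha1 : a = 1 ∨ a = -1 := by
    have him : a.im = 0 := by
      have h1 := congrArg Complex.im hare
      rw [Complex.conj_im] at h1
      linarith
    have hre : a.re * a.re = 1 := by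
      have h := hns
      rw [← ha, Complex.normSq_apply, him] at h
      linarith
    have hre' : a.re = 1 ∨ a.re = -1 := by
      have h1 : (a.re - 1) * (a.re + 1) = 0 := by ring_nf; linarith
      rcases mul_eq_zero.mp h1 with h | h
      · left; linarith
      · right; linarith
    rcases hre' with h | h
    · left; apply Complex.ext <;> simp [h, him]
    · right; apply Complex.ext <;> simp [h, him]
  have hFeq : F = a • (β₀ : C → ℂ) := by
    conv_lhs => rw [Helper2.classFun_eq_sum_classInner hFcl]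
    rw [Finset.sum_eq_single β₀ (fun β _ hβ => by rw [huniq β hβ, zero_smul])
      (fun h => absurd (Finset.mem_univ _) h), ha]
  obtain ⟨ε, hε, hεa⟩ : ∃ ε : ℤ, (ε = 1 ∨ ε = -1) ∧ (ε : ℂ) = a := by
    rcases ha1 with h | h
    · exact ⟨1, Or.inl rfl, by rw [h]; simp⟩
    · exact ⟨-1, Or.inr rfl, by rw [h]; simp⟩
  refine ⟨β₀, ε, hε, ?_, ?_⟩
  · intro c s' hs'
    rw [hgen s' hs' c, hεa]
    have h1 := congrFun hFeq c
    rw [hF] at h1
    exact h1
  · have h1 : classInner (fun c : C => (χ : G → ℂ) ⟨c, hCG c.2⟩) (β₀ : C → ℂ)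
        = cy_A S C (χh : Γ → ℂ) (β₀ : C → ℂ) 1 := by
      unfold cy_A
      congr 1
      funext c
      rw [OneMemClass.coe_one, mul_one]
      exact (hext ⟨c, hCG c.2⟩).symm
    rw [h1]
    intro h0
    have h2 := cy_char_zero (hAchar β₀) h0 s₀
    apply hβ₀
    rw [hFa]; exact h2

end Main

section Main2

open scoped ComplexConjugate

variable {Γ : Type u} [Group Γ] [Fintype Γ] (G S C : Subgroup Γ) [hG : G.Normal] [Fintype G]
  [Fintype S] [Fintype C]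

/-- Isaacs 13.6, injectivity. -/
theorem cy_inj (hsup : G ⊔ S = ⊤) (hcop : (Nat.card G).Coprime (Nat.card S))
    (s : Γ) (hs : Subgroup.zpowers s = S)
    (hC : C = G ⊓ Subgroup.centralizer (S : Set Γ)) (hCG : C ≤ G)
    (χ χ' : IrrCharacter G) (χh χh' : IrrCharacter Γ)
    (hext : ∀ g : G, (χh : Γ → ℂ) g = (χ : G → ℂ) g)
    (hext' : ∀ g : G, (χh' : Γ → ℂ) g = (χ' : G → ℂ) g)
    (β : IrrCharacter C) (ε ε' : ℤ) (hε : ε = 1 ∨ ε = -1) (hε' : ε' = 1 ∨ ε' = -1)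
    (h : ∀ c : C, (χh : Γ → ℂ) ((c : Γ) * s) = (ε : ℂ) * (β : C → ℂ) c)
    (h' : ∀ c : C, (χh' : Γ → ℂ) ((c : Γ) * s) = (ε' : ℂ) * (β : C → ℂ) c) : χ = χ' := by
  classical
  have hinf : G ⊓ S = ⊥ := Subgroup.inf_eq_bot_of_coprime hcop
  have hsS : s ∈ S := by rw [← hs]; exact Subgroup.mem_zpowers s
  have hord : orderOf s = Nat.card S := by rw [← hs, Nat.card_zpowers]
  have hab : ∀ a b : S, a * b = b * a := by
    intro a b
    have ha : (a : Γ) ∈ Subgroup.zpowers s := by rw [hs]; exact a.2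
    have hb : (b : Γ) ∈ Subgroup.zpowers s := by rw [hs]; exact b.2
    obtain ⟨i, hi⟩ := Subgroup.mem_zpowers_iff.mp ha
    obtain ⟨j, hj⟩ := Subgroup.mem_zpowers_iff.mp hb
    apply Subtype.ext
    show (a : Γ) * b = b * a
    rw [← hi, ← hj, ← zpow_add, ← zpow_add, add_comm]
  have hcent : ∀ c ∈ C, ∀ t ∈ S, c * t = t * c := by
    intro c hc t ht
    rw [hC] at hc
    exact (Subgroup.mem_centralizer_iff.mp (Subgroup.mem_inf.mp hc).2 t ht).symm
  have hCs : ∀ c ∈ C, c * s = s * c := fun c hc => hcent c hc s hsS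
  have hC' : ∀ y ∈ G, y * s = s * y → y ∈ C := by
    intro y hy hys
    rw [hC]
    refine Subgroup.mem_inf.mpr ⟨hy, ?_⟩
    rw [Subgroup.mem_centralizer_iff]
    intro t ht
    have ht' : t ∈ Subgroup.zpowers s := by rw [hs]; exact ht
    obtain ⟨i, rfl⟩ := Subgroup.mem_zpowers_iff.mp ht'
    exact (Commute.zpow_left (show Commute s y from hys.symm) i).eq
  have hnorm : ∀ g ∈ G, s * g * s⁻¹ ∈ G := fun g hg => hG.conj_mem g hg s
  have hcop' : (Nat.card G).Coprime (orderOf s) := by rw [hord]; exact hcop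
  have hirr : IsIrrCharacter G (fun g : G => (χh : Γ → ℂ) g) := by
    have e : (fun g : G => (χh : Γ → ℂ) g) = (χ : G → ℂ) := funext hext
    rw [e]; exact χ.2
  have hG0 : (Nat.card G : ℂ) ≠ 0 := Nat.cast_ne_zero.mpr Nat.card_pos.ne'
  have hC0 : (Nat.card C : ℂ) ≠ 0 := Nat.cast_ne_zero.mpr Nat.card_pos.ne'
  by_contra hne
  have hne' : (fun g : G => (χh : Γ → ℂ) g) ≠ (fun g : G => (χh' : Γ → ℂ) g) := by
    intro e
    apply hne
    apply Subtype.ext
    funext g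
    rw [← hext g, ← hext' g]
    exact congrFun e g
  have h0 := (cy_coset_orth G S hsup hinf hab χh χh' hirr ⟨s, hsS⟩).2 hne'
  have h1 := cy_coset_sum G C s hCG hCs hC' hnorm hcop'
    (fun x => (χh : Γ → ℂ) x * conj ((χh' : Γ → ℂ) x))
    (fun x y => by simp only [Helper25.irr_conj])
  simp only [] at h1 h0
  rw [h0, mul_zero] at h1
  have h3 := Helper2.classInner_irr_irr β β
  rw [if_pos rfl] at h3
  unfold classInner at h3
  have h4 : ∑ c : C, (β : C → ℂ) c * conj ((β : C → ℂ) c) = (Nat.card C : ℂ) := by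
    have h5 : (Nat.card C : ℂ) * ((Nat.card C : ℂ)⁻¹ *
        ∑ c : C, (β : C → ℂ) c * conj ((β : C → ℂ) c)) = (Nat.card C : ℂ) * 1 := by rw [h3]
    rw [← mul_assoc, mul_inv_cancel₀ hC0, one_mul, mul_one] at h5
    exact h5
  have h2 : ∑ c : C, (χh : Γ → ℂ) ((c : Γ) * s) * conj ((χh' : Γ → ℂ) ((c : Γ) * s))
      = (ε : ℂ) * (ε' : ℂ) * (Nat.card C : ℂ) := by
    rw [← h4, Finset.mul_sum]
    apply Finset.sum_congr rfl; intro c _
    rw [h c, h' c, map_mul, map_intCast]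
    ring
  rw [h2] at h1
  have hεε : (ε : ℂ) * (ε' : ℂ) ≠ 0 := by
    rcases hε with e | e <;> rcases hε' with e' | e' <;> rw [e, e'] <;> norm_num
  exact (mul_ne_zero hG0 (mul_ne_zero hεε hC0)) h1.symm

/-- Existence of the canonical extension of an invariant character. -/
theorem cy_exists_canon (hsup : G ⊔ S = ⊤) (hcop : (Nat.card G).Coprime (Nat.card S))
    (χ : IrrCharacter G) (hinv : gc_InvFun G S (χ : G → ℂ)) :
    ∃ χh : IrrCharacter Γ, (∀ g : G, (χh : Γ → ℂ) g = (χ : G → ℂ) g) ∧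
      (detOrder (χh : Γ → ℂ)).Coprime (Nat.card S) := by
  classical
  have hinf : G ⊓ S = ⊥ := Subgroup.inf_eq_bot_of_coprime hcop
  obtain ⟨r, hrB, hrA, hrmem, -⟩ := gx_exists_retr G S hsup hinf
  obtain ⟨χ₁, hχ₁⟩ := gx_exists_ext G S hsup hcop χ ((gx_inv_iff G S hsup χ).mpr hinv)
  have hc₁ := Helper2.isCharacter_of_isIrrCharacter χ₁.2
  obtain ⟨δ, hδ⟩ := Helper7.exists_hom_detChar (χ₁ : Γ → ℂ) hc₁
  obtain ⟨d, hd⟩ : ∃ d : ℕ, d = charDegree (χ : G → ℂ) := ⟨_, rfl⟩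
  have hdcop : d.Coprime (Nat.card S) := by
    rw [hd]; exact Nat.Coprime.coprime_dvd_left (Helper25.irr_degree_dvd_card χ) hcop
  have hχ₁1 : (χ₁ : Γ → ℂ) 1 = d := by
    have h1 := hχ₁ 1
    rw [OneMemClass.coe_one] at h1
    rw [h1, hd]; exact Helper25.irr_one_eq_degree χ
  obtain ⟨u, v, hbez⟩ : ∃ u v : ℤ, (d : ℤ) * u + (Nat.card S : ℤ) * v = 1 := by
    refine ⟨Nat.gcdA d (Nat.card S), Nat.gcdB d (Nat.card S), ?_⟩
    have h1 := Nat.gcd_eq_gcd_ab d (Nat.card S)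
    rw [Nat.Coprime.gcd_eq_one hdcop] at h1
    rw [← h1]; simp
  obtain ⟨μ, hμ⟩ : ∃ μ : Γ →* ℂˣ, ∀ x : Γ, μ x = (δ ((r x : S) : Γ)) ^ (-u) := by
    refine ⟨MonoidHom.mk' (fun x => (δ ((r x : S) : Γ)) ^ (-u)) ?_, fun _ => rfl⟩
    intro x y
    show (δ ((r (x * y) : S) : Γ)) ^ (-u) = (δ ((r x : S) : Γ)) ^ (-u) * (δ ((r y : S) : Γ)) ^ (-u)
    rw [map_mul, Subgroup.coe_mul, map_mul, mul_zpow]
  have hμG : ∀ g : G, μ (g : Γ) = 1 := by
    intro g
    rw [hμ, hrA g g.2, OneMemClass.coe_one, map_one, one_zpow]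
  have hirr₂ := Helper7.isIrrCharacter_hom_mul μ (χ₁ : Γ → ℂ) χ₁.2
  refine ⟨⟨_, hirr₂⟩, ?_, ?_⟩
  · intro g
    show ((μ (g : Γ) : ℂˣ) : ℂ) * (χ₁ : Γ → ℂ) g = _
    rw [hμG g, Units.val_one, one_mul, hχ₁]
  · have hdet := Helper7.detChar_mul_hom (χ₁ : Γ → ℂ) hc₁ d hχ₁1 μ
    have hD : ∀ x : Γ, detChar (fun g => ((μ g : ℂˣ) : ℂ) * (χ₁ : Γ → ℂ) g) x
        = (((μ x) ^ d * δ x : ℂˣ) : ℂ) := by
      intro x
      rw [hdet, hδ, Units.val_mul, Units.val_pow_eq_pow_val]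
    have hDS : ∀ t : S, (μ (t : Γ)) ^ d * δ (t : Γ) = 1 := by
      intro t
      rw [hμ, hrB]
      have h1 : (δ (t : Γ)) ^ (Nat.card S : ℤ) = 1 := by
        rw [zpow_natCast, ← map_pow, ← Subgroup.coe_pow, pow_card_eq_one', Subgroup.coe_one,
          map_one]
      calc ((δ (t : Γ)) ^ (-u)) ^ d * δ (t : Γ) = (δ (t : Γ)) ^ ((-u) * (d : ℤ) + 1) := by
            rw [zpow_add_one, zpow_mul, zpow_natCast]
        _ = (δ (t : Γ)) ^ ((Nat.card S : ℤ) * v) := by congr 1; linarith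
        _ = 1 := by rw [zpow_mul, h1, one_zpow]
    have hDG : ∀ x : Γ, ((μ x) ^ d * δ x) ^ Nat.card G = 1 := by
      intro x
      obtain ⟨g, t, rfl⟩ : ∃ (g : G) (t : S), (g : Γ) * t = x :=
        ⟨⟨_, hrmem x⟩, r x, by group⟩
      have e : (μ ((g : Γ) * t)) ^ d * δ ((g : Γ) * t)
          = δ (g : Γ) * ((μ (t : Γ)) ^ d * δ (t : Γ)) := by
        rw [map_mul, map_mul, hμG g, one_mul, mul_left_comm]
      rw [e, hDS t, mul_one, ← map_pow, ← Subgroup.coe_pow, pow_card_eq_one', Subgroup.coe_one,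
        map_one]
    have hdvd : detOrder (fun g => ((μ g : ℂˣ) : ℂ) * (χ₁ : Γ → ℂ) g) ∣ Nat.card G := by
      unfold detOrder
      apply orderOf_dvd_of_pow_eq_one
      funext x
      rw [Pi.pow_apply, Pi.one_apply, hD x, ← Units.val_pow_eq_pow_val, hDG x, Units.val_one]
    exact Nat.Coprime.coprime_dvd_left hdvd hcop

/-- Uniqueness of the pair `(β, ε)`. -/
theorem cy_pair_unique (χh : Γ → ℂ) (s : Γ) (β β' : IrrCharacter C) (ε ε' : ℤ)
    (hε : ε = 1 ∨ ε = -1) (hε' : ε' = 1 ∨ ε' = -1)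
    (h : ∀ c : C, χh ((c : Γ) * s) = (ε : ℂ) * (β : C → ℂ) c)
    (h' : ∀ c : C, χh ((c : Γ) * s) = (ε' : ℂ) * (β' : C → ℂ) c) : β = β' ∧ ε = ε' := by
  have h1 : ∀ c : C, (ε : ℂ) * (β : C → ℂ) c = (ε' : ℂ) * (β' : C → ℂ) c :=
    fun c => by rw [← h c, h' c]
  have hεε : ε = ε' := by
    have h2 := h1 1
    rw [Helper25.irr_one_eq_degree β, Helper25.irr_one_eq_degree β'] at h2
    have h3 : ε * (charDegree (β : C → ℂ) : ℤ) = ε' * (charDegree (β' : C → ℂ) : ℤ) := by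
      exact_mod_cast h2
    have hp := Helper25.irr_degree_pos β
    have hp' := Helper25.irr_degree_pos β'
    rcases hε with e | e <;> rcases hε' with e' | e' <;> rw [e, e'] at h3 ⊢ <;> omega
  refine ⟨?_, hεε⟩
  apply Subtype.ext
  funext c
  have h2 := h1 c
  rw [← hεε] at h2
  have hε0 : (ε : ℂ) ≠ 0 := by
    rcases hε with e | e <;> rw [e] <;> norm_num
  exact mul_left_cancel₀ hε0 h2

end Main2

section Final

/-- Isaacs 13.6 (the Glauberman correspondence for cyclic groups via canonical extensions), in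
the form of statement S4446. -/
theorem cy_main {Γ : Type u} [Group Γ] [Fintype Γ] (G S : Subgroup Γ) [Fintype G] (hnorm : ∀ s ∈ S, ∀ g ∈ G, s * g * s⁻¹ ∈ G) (hcop : (Nat.card G).Coprime (Nat.card S)) (htop : G ⊔ S = ⊤) (hcyc : IsCyclic S) (C : Subgroup Γ) [Fintype C] (hC : C = G ⊓ Subgroup.centralizer (S : Set Γ)) (hCG : C ≤ G) : (∀ (χ : Cfsg.IrrCharacter G) (χh : Cfsg.IrrCharacter Γ), (∀ s ∈ S, ∀ g g' : G, (g' : Γ) = s * g * s⁻¹ → (χ : G → ℂ) g' = (χ : G → ℂ) g) → (∀ g : G, (χh : Γ → ℂ) g = (χ : G → ℂ) g) → (Cfsg.detOrder (χh : Γ → ℂ)).Coprime (Nat.card S) → (∃! βε : Cfsg.IrrCharacter C × ℤ, (βε.2 = 1 ∨ βε.2 = -1) ∧ ∀ c : C, ∀ s : Γ, Subgroup.zpowers s = S → (χh : Γ → ℂ) ((c : Γ) * s) = (βε.2 : ℂ) * (βε.1 : C → ℂ) c) ∧ ∀ β : Cfsg.IrrCharacter C, ∀ ε : ℤ, (ε = 1 ∨ ε = -1) → (∀ c : C, ∀ s : Γ, Subgroup.zpowers s = S → (χh : Γ → ℂ) ((c : Γ) * s) = (ε : ℂ) * (β : C → ℂ) c) → Cfsg.classInner (fun c : C => (χ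 : G → ℂ) ⟨c, hCG c.2⟩) (β : C → ℂ) ≠ 0) ∧ (∀ (χ χ' : Cfsg.IrrCharacter G) (χh χh' : Cfsg.IrrCharacter Γ), (∀ s ∈ S, ∀ g g' : G, (g' : Γ) = s * g * s⁻¹ → (χ : G → ℂ) g' = (χ : G → ℂ) g) → (∀ s ∈ S, ∀ g g' : G, (g' : Γ) = s * g * s⁻¹ → (χ' : G → ℂ) g' = (χ' : G → ℂ) g) → (∀ g : G, (χh : Γ → ℂ) g = (χ : G → ℂ) g) → (∀ g : G, (χh' : Γ → ℂ) g = (χ' : G → ℂ) g) → (Cfsg.detOrder (χh : Γ → ℂ)).Coprime (Nat.card S) → (Cfsg.detOrder (χh' : Γ → ℂ)).Coprime (Nat.card S) → ∀ β : Cfsg.IrrCharacter C, ∀ ε ε' : ℤ, (ε = 1 ∨ ε = -1) → (ε' = 1 ∨ ε' = -1) → (∀ c : C, ∀ s : Γ, Subgroup.zpowers s = S → (χh : Γ → ℂ) ((c : Γ) * s) = (ε : ℂ) * (β : C → ℂ) c) → (∀ c : C, ∀ s : Γ, Subgroup.zpowers s = S → (χh' : Γ → ℂ) ((c : Γ) * s) = (ε' : ℂ) * (β : C → ℂ) c) → χ = χ') ∧ (∀ β : Cfsg.IrrCharacter C, ∃ (χ : Cfsg.IrrCharacter G) (χh : Cfsg.IrrCharacter Γ) (ε : ℤ), (∀ s ∈ S, ∀ g g' : G, (g' : Γ) = s * g * s⁻¹ → (χ : G → ℂ) g' = (χ : G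 → ℂ) g) ∧ (∀ g : G, (χh : Γ → ℂ) g = (χ : G → ℂ) g) ∧ (Cfsg.detOrder (χh : Γ → ℂ)).Coprime (Nat.card S) ∧ (ε = 1 ∨ ε = -1) ∧ ∀ c : C, ∀ s : Γ, Subgroup.zpowers s = S → (χh : Γ → ℂ) ((c : Γ) * s) = (ε : ℂ) * (β : C → ℂ) c) := by
  classical
  haveI hG : G.Normal := by
    have h1 : G ≤ Subgroup.normalizer (G : Set Γ) := Subgroup.le_normalizer
    have h2 : S ≤ Subgroup.normalizer (G : Set Γ) := by
      intro s hs
      rw [Subgroup.mem_normalizer_iff]
      intro g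
      constructor
      · exact hnorm s hs g
      · intro h
        have h3 := hnorm s⁻¹ (S.inv_mem hs) _ h
        have e : s⁻¹ * (s * g * s⁻¹) * s⁻¹⁻¹ = g := by group
        rw [e] at h3; exact h3
    have h3 : Subgroup.normalizer (G : Set Γ) = ⊤ := by
      rw [eq_top_iff, ← htop]; exact sup_le h1 h2
    exact Subgroup.normalizer_eq_top_iff.mp h3
  letI : Fintype S := Fintype.ofFinite S
  obtain ⟨g₀, hg₀⟩ := hcyc.exists_generator
  obtain ⟨s, hs⟩ : ∃ s : Γ, Subgroup.zpowers s = S := by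
    refine ⟨(g₀ : Γ), le_antisymm (Subgroup.zpowers_le.mpr g₀.2) ?_⟩
    intro x hx
    obtain ⟨i, hi⟩ := Subgroup.mem_zpowers_iff.mp (hg₀ ⟨x, hx⟩)
    rw [Subgroup.mem_zpowers_iff]
    refine ⟨i, ?_⟩
    have h1 := congrArg Subtype.val hi
    rw [Subgroup.coe_zpow] at h1
    exact h1
  have hab : ∀ a b : S, a * b = b * a := by
    intro a b
    have ha : (a : Γ) ∈ Subgroup.zpowers s := by rw [hs]; exact a.2
    have hb : (b : Γ) ∈ Subgroup.zpowers s := by rw [hs]; exact b.2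
    obtain ⟨i, hi⟩ := Subgroup.mem_zpowers_iff.mp ha
    obtain ⟨j, hj⟩ := Subgroup.mem_zpowers_iff.mp hb
    apply Subtype.ext
    show (a : Γ) * b = b * a
    rw [← hi, ← hj, ← zpow_add, ← zpow_add, add_comm]
  refine ⟨?_, ?_, ?_⟩
  · intro χ χh hinv hext hdet
    obtain ⟨β₀, ε₀, hε₀, hP₀, hcon₀⟩ := cy_exists G S C htop hcop s hs hC hCG χ χh hext hdet
    constructor
    · refine ⟨(β₀, ε₀), ⟨hε₀, hP₀⟩, ?_⟩
      rintro ⟨β, ε⟩ ⟨hε, hP⟩
      obtain ⟨e1, e2⟩ := cy_pair_unique C (χh : Γ → ℂ) s β β₀ ε ε₀ hε hε₀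
        (fun c => hP c s hs) (fun c => hP₀ c s hs)
      exact Prod.ext e1 e2
    · intro β ε hε hP
      obtain ⟨e1, -⟩ := cy_pair_unique C (χh : Γ → ℂ) s β β₀ ε ε₀ hε hε₀
        (fun c => hP c s hs) (fun c => hP₀ c s hs)
      rw [e1]; exact hcon₀
  · intro χ χ' χh χh' _ _ hext hext' _ _ β ε ε' hε hε' hP hP'
    exact cy_inj G S C htop hcop s hs hC hCG χ χ' χh χh' hext hext' β ε ε' hε hε'
      (fun c => hP c s hs) (fun c => hP' c s hs)
  · have hex : ∀ χ : {χ : IrrCharacter G // gc_InvFun G S (χ : G → ℂ)},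
        ∃ (χh : IrrCharacter Γ) (β : IrrCharacter C) (ε : ℤ),
          (∀ g : G, (χh : Γ → ℂ) g = (χ.1 : G → ℂ) g) ∧
          (detOrder (χh : Γ → ℂ)).Coprime (Nat.card S) ∧ (ε = 1 ∨ ε = -1) ∧
          (∀ c : C, ∀ s' : Γ, Subgroup.zpowers s' = S →
            (χh : Γ → ℂ) ((c : Γ) * s') = (ε : ℂ) * (β : C → ℂ) c) := by
      intro χ
      obtain ⟨χh, hext, hdet⟩ := cy_exists_canon G S htop hcop χ.1 χ.2
      obtain ⟨β, ε, hε, hP, -⟩ := cy_exists G S C htop hcop s hs hC hCG χ.1 χh hext hdet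
      exact ⟨χh, β, ε, hext, hdet, hε, hP⟩
    choose Xh B E hXext hXdet hE hXP using hex
    have hBinj : Function.Injective B := by
      intro χ χ' hBB
      apply Subtype.ext
      exact cy_inj G S C htop hcop s hs hC hCG χ.1 χ'.1 (Xh χ) (Xh χ') (hXext χ) (hXext χ')
        (B χ) (E χ) (E χ') (hE χ) (hE χ') (fun c => hXP χ c s hs)
        (fun c => by rw [hBB]; exact hXP χ' c s hs)
    have hcard : Nat.card (IrrCharacter C)
        ≤ Nat.card {χ : IrrCharacter G // gc_InvFun G S (χ : G → ℂ)} := by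
      have hsolv : Group.IsSolvable S := Group.isSolvable_of_comm hab
      rw [gx_inv_main G S hnorm hcop hsolv, hC]
    have hBbij := hBinj.bijective_of_nat_card_le hcard
    intro β
    obtain ⟨χ, rfl⟩ := hBbij.2 β
    exact ⟨χ.1, Xh χ, E χ, χ.2, hXext χ, hXdet χ, hE χ, hXP χ⟩

end Final

end Cfsg.Agent.Helper26
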