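import Mathlib
import Cfsg.Agent.Helper26.GlaubCount
import Cfsg.Agent.Helper2.CliffDeg
import Cfsg.Agent.Helper24.InvAbove

/-!
# Invariant constituents above, for solvable coprime operator groups (helper26)

Prefix `ga_`.  For a `p`-group `P` acting coprimely on `G` and normalizing `N ≤ G`, with
Glauberman correspondents `β` of `χ` and `φ` of `θ`:
`|N| · m · [χ_N, θ] ≡ |D| · m' · [β_D, φ]  (mod p)`.
-/

set_option autoImplicit false

namespace Cfsg.Agent.Helper26

open Cfsg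

open scoped ComplexConjugate

universe u

section Frob

variable {Γ : Type u} [Group Γ] (G N : Subgroup Γ)

open Classical in
/-- Extension by zero from `N` to `G` (ambient form). -/
noncomputable def ga_ext0 (θ : N → ℂ) : G → ℂ :=
  fun g => if h : (g : Γ) ∈ N then θ ⟨g, h⟩ else 0

/-- Unnormalized induced function. -/
noncomputable def ga_ind [Fintype G] (θ : N → ℂ) : G → ℂ :=
  fun g => ∑ x : G, ga_ext0 G N θ (x⁻¹ * g * x)

theorem ga_ind_class [Fintype G] (θ : N → ℂ) : IsClassFunction G (ga_ind G N θ) := by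
  intro g h
  unfold ga_ind
  rw [← Equiv.sum_comp (Equiv.mulLeft h) (fun x => ga_ext0 G N θ (x⁻¹ * (h * g * h⁻¹) * x))]
  apply Finset.sum_congr rfl; intro x _
  congr 1
  simp only [Equiv.coe_mulLeft]; group

/-- Sum of an extension by zero against a function. -/
theorem ga_sum_ext0 [Fintype G] [Fintype N] (hNG : N ≤ G) (θ : N → ℂ) (F : G → ℂ) :
    ∑ g : G, ga_ext0 G N θ g * F g = ∑ n : N, θ n * F (Subgroup.inclusion hNG n) := by
  classical
  have h1 : ∑ g : G, ga_ext0 G N θ g * F g =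
      ∑ g ∈ Finset.univ.filter (fun g : G => (g : Γ) ∈ N), ga_ext0 G N θ g * F g := by
    symm
    apply Finset.sum_subset (Finset.filter_subset _ _)
    intro g _ hg
    have : ¬ (g : Γ) ∈ N := fun h => hg (Finset.mem_filter.mpr ⟨Finset.mem_univ _, h⟩)
    unfold ga_ext0
    rw [dif_neg this, zero_mul]
  rw [h1]
  symm
  apply Finset.sum_bij (fun (n : N) _ => Subgroup.inclusion hNG n)
  · intro n _; rw [Finset.mem_filter]; exact ⟨Finset.mem_univ _, n.2⟩
  · intro a _ b _ h; exact Subgroup.inclusion_injective hNG h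
  · intro g hg
    rw [Finset.mem_filter] at hg
    exact ⟨⟨g, hg.2⟩, Finset.mem_univ _, Subtype.ext rfl⟩
  · intro n _
    unfold ga_ext0
    rw [dif_pos (show ((Subgroup.inclusion hNG n : G) : Γ) ∈ N from n.2)]
    rfl

/-- Frobenius reciprocity for the unnormalized induced function. -/
theorem ga_frob [Fintype G] [Fintype N] (hNG : N ≤ G) (θ : N → ℂ) (ψ : G → ℂ)
    (hψ : IsClassFunction G ψ) :
    ∑ g : G, ga_ind G N θ g * ψ g =
      (Nat.card G : ℂ) * ∑ n : N, θ n * ψ (Subgroup.inclusion hNG n) := by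
  unfold ga_ind
  simp_rw [Finset.sum_mul]
  rw [Finset.sum_comm]
  have h1 : ∀ x : G, ∑ g : G, ga_ext0 G N θ (x⁻¹ * g * x) * ψ g =
      ∑ g : G, ga_ext0 G N θ g * ψ g := by
    intro x
    rw [← Equiv.sum_comp (MulAut.conj x).toEquiv
      (fun g => ga_ext0 G N θ (x⁻¹ * g * x) * ψ g)]
    apply Finset.sum_congr rfl; intro g _
    have e1 : x⁻¹ * ((MulAut.conj x).toEquiv g) * x = g := by
      show x⁻¹ * (x * g * x⁻¹) * x = g
      group
    have e2 : ψ ((MulAut.conj x).toEquiv g) = ψ g := by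
      show ψ (x * g * x⁻¹) = ψ g
      exact hψ g x
    rw [e1, e2]
  rw [Finset.sum_congr rfl (fun x _ => h1 x), Finset.sum_const, Finset.card_univ, nsmul_eq_mul,
    ga_sum_ext0 G N hNG θ ψ, Nat.card_eq_fintype_card]

/-- The unnormalized induced function at the identity. -/
theorem ga_ind_one [Fintype G] (θ : N → ℂ) :
    ga_ind G N θ 1 = (Nat.card G : ℂ) * θ 1 := by
  classical
  unfold ga_ind
  have h1 : ∀ x : G, ga_ext0 G N θ (x⁻¹ * 1 * x) = θ 1 := by
    intro x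
    have e : x⁻¹ * 1 * x = 1 := by group
    rw [e]
    unfold ga_ext0
    rw [dif_pos (show (((1 : G) : Γ)) ∈ N from N.one_mem)]
    rfl
  rw [Finset.sum_congr rfl (fun x _ => h1 x), Finset.sum_const, Finset.card_univ, nsmul_eq_mul,
    Nat.card_eq_fintype_card]

/-- The coefficient of an irreducible character in the unnormalized induced function. -/
theorem ga_coef [Fintype G] [Fintype N] (hNG : N ≤ G) (θ : N → ℂ) (χ : IrrCharacter G) :
    classInner (ga_ind G N θ) (χ : G → ℂ) = (Nat.card N : ℂ) *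
      conj (classInner (fun n : N => (χ : G → ℂ) (Subgroup.inclusion hNG n)) θ) := by
  have hG : (Nat.card G : ℂ) ≠ 0 := by exact_mod_cast Nat.card_pos.ne'
  have hN : (Nat.card N : ℂ) ≠ 0 := by exact_mod_cast Nat.card_pos.ne'
  have hcl : IsClassFunction G (fun g => conj ((χ : G → ℂ) g)) := by
    intro g h
    show conj ((χ : G → ℂ) (h * g * h⁻¹)) = conj ((χ : G → ℂ) g)
    rw [Helper2.isClassFunction_of_isCharacter (Helper2.isCharacter_of_isIrrCharacter χ.2) g h]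
  have h1 := ga_frob G N hNG θ (fun g => conj ((χ : G → ℂ) g)) hcl
  rw [← Helper2.classInner_conj_symm]
  unfold classInner
  rw [h1]
  field_simp

/-- Every irreducible character of `N` lies under some irreducible character of `G`. -/
theorem ga_exists_over [Fintype G] [Fintype N] (hNG : N ≤ G) (θ : IrrCharacter N) :
    ∃ χ : IrrCharacter G,
      classInner (fun n : N => (χ : G → ℂ) (Subgroup.inclusion hNG n)) (θ : N → ℂ) ≠ 0 := by
  classical
  by_contra hno
  push Not at hno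
  have h := Helper2.classFun_eq_sum_classInner (ga_ind_class G N (θ : N → ℂ))
  have h0 : ga_ind G N (θ : N → ℂ) = 0 := by
    rw [h]
    apply Finset.sum_eq_zero
    intro χ _
    rw [ga_coef G N hNG, hno χ]; simp
  have h1 := congrFun h0 1
  rw [ga_ind_one] at h1
  have hG : (Nat.card G : ℂ) ≠ 0 := by exact_mod_cast Nat.card_pos.ne'
  rcases mul_eq_zero.mp h1 with h2 | h2
  · exact hG h2
  · exact Helper25.irr_one_ne_zero θ h2

end Frob

/-- Clifford: the multiplicity of an irreducible constituent of the restriction to a normal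
subgroup divides the group order. -/
theorem ga_mult_dvd_card {Γ : Type u} [Group Γ] (G N : Subgroup Γ) [Fintype G] [Fintype N]
    (hNG : N ≤ G) (hNn : ∀ g ∈ G, ∀ n ∈ N, g * n * g⁻¹ ∈ N) (χ : IrrCharacter G)
    (θ : IrrCharacter N) (e : ℕ)
    (he : classInner (fun n : N => (χ : G → ℂ) (Subgroup.inclusion hNG n)) (θ : N → ℂ) = e)
    (he0 : e ≠ 0) : e ∣ Nat.card G := by
  classical
  haveI hLn : (N.subgroupOf G).Normal := by
    constructor
    intro n hn g
    exact Subgroup.mem_subgroupOf.mpr (hNn g.1 g.2 n.1 (Subgroup.mem_subgroupOf.mp hn))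
  letI : Fintype ↥(N.subgroupOf G) := Fintype.ofFinite _
  have hθ' : IsIrrCharacter ↥(N.subgroupOf G)
      (fun a => (θ : N → ℂ) (Subgroup.subgroupOfEquivOfLe hNG a)) :=
    Helper2.isIrrCharacter_comp_of_surjective
      ((Subgroup.subgroupOfEquivOfLe hNG : ↥(N.subgroupOf G) ≃* N) : ↥(N.subgroupOf G) →* N)
      (Subgroup.subgroupOfEquivOfLe hNG).surjective θ.2
  obtain ⟨θ', hθ'def⟩ : ∃ θ' : IrrCharacter ↥(N.subgroupOf G), θ' = ⟨_, hθ'⟩ := ⟨_, rfl⟩
  have hover := Helper24.over_subgroupOf G N hNG (χ : G → ℂ) (θ : N → ℂ)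
  have he' : classInner (fun a : ↥(N.subgroupOf G) => (χ : G → ℂ) a)
      (θ' : ↥(N.subgroupOf G) → ℂ) = e := by
    rw [← he, hθ'def]; exact hover
  have hne : classInner (fun a : ↥(N.subgroupOf G) => (χ : G → ℂ) a)
      (θ' : ↥(N.subgroupOf G) → ℂ) ≠ 0 := by
    rw [he']; exact_mod_cast he0
  obtain ⟨a, ha0, heq⟩ := Helper2.clifford_orbit (N.subgroupOf G) χ θ' hne
  have hmem : θ' ∈ Finset.univ.filter (fun ξ : IrrCharacter ↥(N.subgroupOf G) =>
      ∃ k : G, (ξ : ↥(N.subgroupOf G) → ℂ) =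
        Helper2.conjChar (N.subgroupOf G) (θ' : ↥(N.subgroupOf G) → ℂ) k) := by
    rw [Finset.mem_filter]
    exact ⟨Finset.mem_univ _, 1, (Helper2.conjChar_one _ _).symm⟩
  have hea : (e : ℂ) = a := by
    rw [← he', heq, Helper2.classInner_smul_left, Helper2.classInner_sum_left]
    have hterm : ∀ ξ ∈ Finset.univ.filter (fun ξ : IrrCharacter ↥(N.subgroupOf G) =>
        ∃ k : G, (ξ : ↥(N.subgroupOf G) → ℂ) =
          Helper2.conjChar (N.subgroupOf G) (θ' : ↥(N.subgroupOf G) → ℂ) k),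
        classInner (ξ : ↥(N.subgroupOf G) → ℂ) (θ' : ↥(N.subgroupOf G) → ℂ) =
          if ξ = θ' then 1 else 0 :=
      fun ξ _ => Helper2.classInner_irr_irr ξ θ'
    rw [Finset.sum_congr rfl hterm, Finset.sum_ite_eq', if_pos hmem, mul_one]
  have hea' : e = a := by exact_mod_cast hea
  have h1 := congrFun heq 1
  rw [Pi.smul_apply, Finset.sum_apply, smul_eq_mul] at h1
  have h2 : (χ : G → ℂ) ((1 : ↥(N.subgroupOf G)) : G) = (charDegree (χ : G → ℂ) : ℂ) := by
    rw [← Helper25.irr_one_eq_degree χ]; rfl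
  rw [h2, Finset.sum_congr rfl (fun ξ _ => Helper25.irr_one_eq_degree ξ)] at h1
  have h3 : charDegree (χ : G → ℂ) = a * ∑ ξ ∈ Finset.univ.filter
      (fun ξ : IrrCharacter ↥(N.subgroupOf G) =>
        ∃ k : G, (ξ : ↥(N.subgroupOf G) → ℂ) =
          Helper2.conjChar (N.subgroupOf G) (θ' : ↥(N.subgroupOf G) → ℂ) k),
      charDegree (ξ : ↥(N.subgroupOf G) → ℂ) := by
    exact_mod_cast h1
  rw [hea']
  exact (Dvd.intro _ h3.symm).trans (Helper25.irr_degree_dvd_card χ)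

section Cong

variable {Γ : Type u} [Group Γ] (G N P : Subgroup Γ) [Fintype G] [Fintype N]
  (hnorm : ∀ s ∈ P, ∀ g ∈ G, s * g * s⁻¹ ∈ G) (hnormN : ∀ s ∈ P, ∀ n ∈ N, s * n * s⁻¹ ∈ N)
  (hNG : N ≤ G)
  (C D : Subgroup Γ) [Fintype C] [Fintype D]
  (hC : C = G ⊓ Subgroup.centralizer (P : Set Γ)) (hD : D = N ⊓ Subgroup.centralizer (P : Set Γ))
  (hCG : C ≤ G) (hDN : D ≤ N) (hDC : D ≤ C)
  (p : ℕ) [Fact p.Prime] (hP : IsPGroup p P) (hpG : ¬ p ∣ Nat.card G)

omit [Fintype G] [Fintype N] in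
/-- The extension by zero of a `P`-invariant function is `P`-invariant. -/
theorem ga_ext0_inv (θ : N → ℂ)
    (hθ : ∀ (s : P) (n : N), θ (gb_conjHom N P hnormN s n) = θ n) (s : P) (g : G) :
    ga_ext0 G N θ (gb_conjHom G P hnorm s g) = ga_ext0 G N θ g := by
  classical
  unfold ga_ext0
  by_cases h : (g : Γ) ∈ N
  · have h' : ((gb_conjHom G P hnorm s g : G) : Γ) ∈ N := by
      rw [gb_conjHom_coe]; exact hnormN s s.2 g h
    rw [dif_pos h, dif_pos h']
    have := hθ s ⟨g, h⟩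
    rw [← this]
    rfl
  · have h' : ¬ ((gb_conjHom G P hnorm s g : G) : Γ) ∈ N := by
      intro h2
      rw [gb_conjHom_coe] at h2
      apply h
      have := hnormN (s⁻¹ : P) (s⁻¹ : P).2 _ h2
      have e : ((s⁻¹ : P) : Γ) * ((s : Γ) * g * (s : Γ)⁻¹) * ((s⁻¹ : P) : Γ)⁻¹ = g := by
        rw [Subgroup.coe_inv]; group
      rw [e] at this; exact this
    rw [dif_neg h, dif_neg h']

include hC hD hP hpG in
/-- The basic congruence relating multiplicities above and below the Glauberman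
correspondence. -/
theorem ga_cong (χ : IrrCharacter G) (θ : IrrCharacter N) (β : IrrCharacter C)
    (φ : IrrCharacter D)
    (hχ : ∀ (s : P) (g : G), (χ : G → ℂ) (gb_conjHom G P hnorm s g) = (χ : G → ℂ) g)
    (hθ : ∀ (s : P) (n : N), (θ : N → ℂ) (gb_conjHom N P hnormN s n) = (θ : N → ℂ) n)
    (m m' a b : ℕ)
    (hm : classInner (fun c : C => (χ : G → ℂ) (Subgroup.inclusion hCG c)) (β : C → ℂ) = m)
    (hpm : ¬ p ∣ m)
    (hm' : classInner (fun d : D => (θ : N → ℂ) (Subgroup.inclusion hDN d)) (φ : D → ℂ) = m')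
    (hpm' : ¬ p ∣ m')
    (ha : classInner (fun n : N => (χ : G → ℂ) (Subgroup.inclusion hNG n)) (θ : N → ℂ) = a)
    (hb : classInner (fun d : D => (β : C → ℂ) (Subgroup.inclusion hDC d)) (φ : D → ℂ) = b) :
    (p : ℤ) ∣ (Nat.card N : ℤ) * a * m - (Nat.card D : ℤ) * m' * b := by
  classical
  have hprime := (Fact.out : p.Prime)
  have hCc : (Nat.card C : ℂ) ≠ 0 := by exact_mod_cast Nat.card_pos.ne'
  have hDc : (Nat.card D : ℂ) ≠ 0 := by exact_mod_cast Nat.card_pos.ne'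
  have hpN : ¬ p ∣ Nat.card N := fun h => hpG (h.trans (Subgroup.card_dvd_of_le hNG))
  have haa : ∀ χ' : IrrCharacter G, ∃ k : ℕ,
      classInner (fun n : N => (χ' : G → ℂ) (Subgroup.inclusion hNG n)) (θ : N → ℂ) = k :=
    fun χ' => Helper2.classInner_char_nat
      (Helper2.isCharacter_comp (Subgroup.inclusion hNG)
        (Helper2.isCharacter_of_isIrrCharacter χ'.2))
      (Helper2.isCharacter_of_isIrrCharacter θ.2)
  choose aa haa using haa
  have hbb : ∀ χ' : IrrCharacter G, ∃ k : ℕ,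
      classInner (fun c : C => (χ' : G → ℂ) (Subgroup.inclusion hCG c)) (β : C → ℂ) = k :=
    fun χ' => Helper2.classInner_char_nat
      (Helper2.isCharacter_comp (Subgroup.inclusion hCG)
        (Helper2.isCharacter_of_isIrrCharacter χ'.2))
      (Helper2.isCharacter_of_isIrrCharacter β.2)
  choose bb hbb using hbb
  have hmm : ∀ φ' : IrrCharacter D, ∃ k : ℕ,
      classInner (fun d : D => (θ : N → ℂ) (Subgroup.inclusion hDN d)) (φ' : D → ℂ) = k :=
    fun φ' => Helper2.classInner_char_nat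
      (Helper2.isCharacter_comp (Subgroup.inclusion hDN)
        (Helper2.isCharacter_of_isIrrCharacter θ.2))
      (Helper2.isCharacter_of_isIrrCharacter φ'.2)
  choose mm hmm using hmm
  have hnn : ∀ φ' : IrrCharacter D, ∃ k : ℕ,
      classInner (fun d : D => (β : C → ℂ) (Subgroup.inclusion hDC d)) (φ' : D → ℂ) = k :=
    fun φ' => Helper2.classInner_char_nat
      (Helper2.isCharacter_comp (Subgroup.inclusion hDC)
        (Helper2.isCharacter_of_isIrrCharacter β.2))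
      (Helper2.isCharacter_of_isIrrCharacter φ'.2)
  choose nn hnn using hnn
  have haχ : aa χ = a := Nat.cast_injective (R := ℂ) ((haa χ).symm.trans ha)
  have hbχ : bb χ = m := Nat.cast_injective (R := ℂ) ((hbb χ).symm.trans hm)
  have hmφ : mm φ = m' := Nat.cast_injective (R := ℂ) ((hmm φ).symm.trans hm')
  have hnφ : nn φ = b := Nat.cast_injective (R := ℂ) ((hnn φ).symm.trans hb)
  obtain ⟨Y, hY⟩ : ∃ Y : ℂ, Y = ∑ c : C, ga_ind G N (θ : N → ℂ) (Subgroup.inclusion hCG c) *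
      conj ((β : C → ℂ) c) := ⟨_, rfl⟩
  -- Way 1
  have way1 : Y = (Nat.card N : ℂ) * (Nat.card C : ℂ) *
      ∑ χ' : IrrCharacter G, ((aa χ' * bb χ' : ℕ) : ℂ) := by
    have hdec := Helper2.classFun_eq_sum_classInner (ga_ind_class G N (θ : N → ℂ))
    have hcoef : ∀ χ' : IrrCharacter G,
        classInner (ga_ind G N (θ : N → ℂ)) (χ' : G → ℂ) = (Nat.card N : ℂ) * aa χ' := by
      intro χ'
      rw [ga_coef G N hNG, haa χ', Complex.conj_natCast]
    have hval : ∀ c : C, ga_ind G N (θ : N → ℂ) (Subgroup.inclusion hCG c) =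
        ∑ χ' : IrrCharacter G,
          (Nat.card N : ℂ) * aa χ' * (χ' : G → ℂ) (Subgroup.inclusion hCG c) := by
      intro c
      have := congrFun hdec (Subgroup.inclusion hCG c)
      rw [Finset.sum_apply] at this
      rw [this]
      apply Finset.sum_congr rfl; intro χ' _
      rw [Pi.smul_apply, smul_eq_mul, hcoef]
    have hinner : ∀ χ' : IrrCharacter G,
        ∑ c : C, (χ' : G → ℂ) (Subgroup.inclusion hCG c) * conj ((β : C → ℂ) c) =
          (Nat.card C : ℂ) * bb χ' := by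
      intro χ'
      have := hbb χ'
      unfold classInner at this
      rw [← this]; field_simp
    rw [hY]
    simp_rw [hval, Finset.sum_mul]
    rw [Finset.sum_comm, Finset.mul_sum]
    apply Finset.sum_congr rfl; intro χ' _
    have : ∑ c : C, (Nat.card N : ℂ) * aa χ' * (χ' : G → ℂ) (Subgroup.inclusion hCG c) *
          conj ((β : C → ℂ) c) =
        (Nat.card N : ℂ) * aa χ' *
          ∑ c : C, (χ' : G → ℂ) (Subgroup.inclusion hCG c) * conj ((β : C → ℂ) c) := by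
      rw [Finset.mul_sum]; apply Finset.sum_congr rfl; intro c _; ring
    rw [this, hinner]; push_cast; ring
  -- orbit sum on Irr(G)
  letI := gb_actIrr G P hnorm
  have hbbinv : ∀ (s : P) (χ' : IrrCharacter G), bb (s • χ') = bb χ' := by
    intro s χ'
    apply Nat.cast_injective (R := ℂ)
    rw [← hbb (s • χ'), ← hbb χ']
    congr 1
    funext c
    show (χ' : G → ℂ) (gb_conjHom G P hnorm s⁻¹ (Subgroup.inclusion hCG c)) =
      (χ' : G → ℂ) (Subgroup.inclusion hCG c)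
    rw [gb_mem_C_fixed G P hnorm C hC hCG c s⁻¹]
  have haainv : ∀ (s : P) (χ' : IrrCharacter G), aa (s • χ') = aa χ' := by
    intro s χ'
    apply Nat.cast_injective (R := ℂ)
    rw [← haa (s • χ'), ← haa χ']
    let σ : N ≃ N :=
      { toFun := fun n => gb_conjHom N P hnormN s⁻¹ n
        invFun := fun n => gb_conjHom N P hnormN s n
        left_inv := fun n => gb_conjHom_inv_right N P hnormN s n
        right_inv := fun n => gb_conjHom_inv_left N P hnormN s n }
    have h1 := Helper24.classInner_equiv' σ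
      (fun n : N => (χ' : G → ℂ) (Subgroup.inclusion hNG n)) (θ : N → ℂ)
    rw [← h1]
    congr 1
    funext n; exact (hθ s⁻¹ n).symm
  have hnat : ∀ q : ℕ, IsIntegral ℤ ((q : ℕ) : ℂ) := fun q => by
    have := isIntegral_algebraMap (R := ℤ) (A := ℂ) (x := (q : ℤ))
    simpa using this
  obtain ⟨r₁, hr₁, horb⟩ := gb_orbit_sum p hP
    (fun χ' : IrrCharacter G => ((aa χ' * bb χ' : ℕ) : ℂ))
    (fun s χ' => by rw [haainv, hbbinv]) (fun χ' => hnat _)
  have hχfix : ∀ s : P, s • χ = χ := by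
    intro s; apply Subtype.ext; funext g
    show (χ : G → ℂ) (gb_conjHom G P hnorm s⁻¹ g) = (χ : G → ℂ) g
    exact hχ s⁻¹ g
  have hfixsum : ∃ k₁ : ℕ, ∑ χ' ∈ Finset.univ.filter
      (fun χ' : IrrCharacter G => ∀ s : P, s • χ' = χ'), aa χ' * bb χ' = a * m + p * k₁ := by
    have hmem : χ ∈ Finset.univ.filter (fun χ' : IrrCharacter G => ∀ s : P, s • χ' = χ') :=
      Finset.mem_filter.mpr ⟨Finset.mem_univ _, hχfix⟩
    rw [← Finset.add_sum_erase _ _ hmem, haχ, hbχ]
    have hdvd : p ∣ ∑ χ' ∈ (Finset.univ.filter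
        (fun χ' : IrrCharacter G => ∀ s : P, s • χ' = χ')).erase χ, aa χ' * bb χ' := by
      apply Finset.dvd_sum
      intro χ' hχ'
      have hne : χ' ≠ χ := (Finset.mem_erase.mp hχ').1
      have hfix' := (Finset.mem_filter.mp (Finset.mem_erase.mp hχ').2).2
      apply Dvd.dvd.mul_left
      by_contra hnd
      apply hne
      have hinv' : ∀ (s : P) (g : G),
          (χ' : G → ℂ) (gb_conjHom G P hnorm s g) = (χ' : G → ℂ) g := by
        intro s g
        have h1 := hfix' s⁻¹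
        have h2 := congrFun (congrArg Subtype.val h1) g
        have h3 : (χ' : G → ℂ) (gb_conjHom G P hnorm s⁻¹⁻¹ g) = (χ' : G → ℂ) g := h2
        rw [inv_inv] at h3; exact h3
      exact gb_main_inj G P hnorm C hC hCG p hP hpG χ' χ hinv' hχ β (bb χ') m (hbb χ') hnd
        hm hpm
    obtain ⟨k₁, hk₁⟩ := hdvd
    exact ⟨k₁, by rw [hk₁]⟩
  obtain ⟨k₁, hk₁⟩ := hfixsum
  -- Way 2: pointwise congruence
  have hpt : ∀ c : C, ∃ r : ℂ, IsIntegral ℤ r ∧
      ga_ind G N (θ : N → ℂ) (Subgroup.inclusion hCG c) =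
        ∑ x : C, ga_ext0 G N (θ : N → ℂ) (Subgroup.inclusion hCG (x⁻¹ * c * x)) + p * r := by
    intro c
    obtain ⟨r, hr, h⟩ := gb_orbit_G G P hnorm C hC hCG p hP
      (fun x : G => ga_ext0 G N (θ : N → ℂ) (x⁻¹ * Subgroup.inclusion hCG c * x))
      (fun s x => by
        have e : (gb_conjHom G P hnorm s x)⁻¹ * Subgroup.inclusion hCG c *
            gb_conjHom G P hnorm s x =
            gb_conjHom G P hnorm s (x⁻¹ * Subgroup.inclusion hCG c * x) := by
          rw [map_mul, map_mul, map_inv, gb_mem_C_fixed G P hnorm C hC hCG c s]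
        show ga_ext0 G N (θ : N → ℂ) ((gb_conjHom G P hnorm s x)⁻¹ *
          Subgroup.inclusion hCG c * gb_conjHom G P hnorm s x) = _
        rw [e, ga_ext0_inv G N P hnorm hnormN (θ : N → ℂ) hθ])
      (fun x => by
        show IsIntegral ℤ (ga_ext0 G N (θ : N → ℂ) (x⁻¹ * Subgroup.inclusion hCG c * x))
        unfold ga_ext0
        split_ifs
        · exact Helper25.irr_isIntegral θ _
        · exact isIntegral_zero)
    refine ⟨r, hr, ?_⟩
    show ∑ x : G, ga_ext0 G N (θ : N → ℂ) (x⁻¹ * Subgroup.inclusion hCG c * x) = _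
    rw [h]
    congr 1
  choose r hr hrv using hpt
  obtain ⟨θC, hθC⟩ : ∃ θC : C → ℂ,
      θC = fun c => ga_ext0 G N (θ : N → ℂ) (Subgroup.inclusion hCG c) := ⟨_, rfl⟩
  have hθC_eq : θC = ga_ext0 C D (fun d : D => (θ : N → ℂ) (Subgroup.inclusion hDN d)) := by
    rw [hθC]
    funext c
    show ga_ext0 G N (θ : N → ℂ) (Subgroup.inclusion hCG c) =
      ga_ext0 C D (fun d : D => (θ : N → ℂ) (Subgroup.inclusion hDN d)) c
    unfold ga_ext0
    by_cases h : (c : Γ) ∈ N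
    · have hcD : (c : Γ) ∈ D := by
        rw [hD]; refine Subgroup.mem_inf.mpr ⟨h, ?_⟩
        have hle : C ≤ Subgroup.centralizer (P : Set Γ) := by rw [hC]; exact inf_le_right
        exact hle c.2
      rw [dif_pos (show ((Subgroup.inclusion hCG c : G) : Γ) ∈ N from h), dif_pos hcD]
      rfl
    · have hcD : ¬ (c : Γ) ∈ D := fun h2 => h (hDN h2)
      rw [dif_neg (show ¬ ((Subgroup.inclusion hCG c : G) : Γ) ∈ N from h), dif_neg hcD]
  have hconj_sum : ∀ x : C, ∑ c : C, θC (x⁻¹ * c * x) * conj ((β : C → ℂ) c) =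
      ∑ c : C, θC c * conj ((β : C → ℂ) c) := by
    intro x
    rw [← Equiv.sum_comp (MulAut.conj x).toEquiv
      (fun c => θC (x⁻¹ * c * x) * conj ((β : C → ℂ) c))]
    apply Finset.sum_congr rfl; intro c _
    have e1 : x⁻¹ * ((MulAut.conj x).toEquiv c) * x = c := by
      show x⁻¹ * (x * c * x⁻¹) * x = c
      group
    have e2 : (β : C → ℂ) ((MulAut.conj x).toEquiv c) = (β : C → ℂ) c := by
      show (β : C → ℂ) (x * c * x⁻¹) = (β : C → ℂ) c
      exact Helper2.isClassFunction_of_isCharacter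
        (Helper2.isCharacter_of_isIrrCharacter β.2) c x
    rw [e1, e2]
  have hDsum : ∑ c : C, θC c * conj ((β : C → ℂ) c) =
      (Nat.card D : ℂ) * ∑ φ' : IrrCharacter D, ((mm φ' * nn φ' : ℕ) : ℂ) := by
    rw [hθC_eq, ga_sum_ext0 C D hDC _ (fun c => conj ((β : C → ℂ) c))]
    have hpars := Helper2.classInner_eq_sum_mul
      (φ := fun d : D => (θ : N → ℂ) (Subgroup.inclusion hDN d))
      (Helper2.isClassFunction_of_isCharacter
        (Helper2.isCharacter_comp (Subgroup.inclusion hDN)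
          (Helper2.isCharacter_of_isIrrCharacter θ.2)))
      (fun d : D => (β : C → ℂ) (Subgroup.inclusion hDC d))
    have h1 : ∑ d : D, (θ : N → ℂ) (Subgroup.inclusion hDN d) *
          conj ((β : C → ℂ) (Subgroup.inclusion hDC d)) =
        (Nat.card D : ℂ) * classInner (fun d : D => (θ : N → ℂ) (Subgroup.inclusion hDN d))
          (fun d : D => (β : C → ℂ) (Subgroup.inclusion hDC d)) := by
      unfold classInner; field_simp
    rw [h1, hpars]
    congr 1
    apply Finset.sum_congr rfl; intro φ' _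
    rw [hmm φ', hnn φ', Complex.conj_natCast]; push_cast; ring
  have way2 : Y = (Nat.card C : ℂ) *
      ((Nat.card D : ℂ) * ∑ φ' : IrrCharacter D, ((mm φ' * nn φ' : ℕ) : ℂ)) +
        p * ∑ c : C, r c * conj ((β : C → ℂ) c) := by
    rw [hY]
    have hterm : ∀ c : C, ga_ind G N (θ : N → ℂ) (Subgroup.inclusion hCG c) *
          conj ((β : C → ℂ) c) =
        ∑ x : C, θC (x⁻¹ * c * x) * conj ((β : C → ℂ) c) +
          p * (r c * conj ((β : C → ℂ) c)) := by
      intro c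
      rw [hrv c, add_mul, Finset.sum_mul, hθC]; ring
    rw [Finset.sum_congr rfl (fun c _ => hterm c), Finset.sum_add_distrib, Finset.sum_comm,
      Finset.sum_congr rfl (fun x _ => hconj_sum x), Finset.sum_const, Finset.card_univ,
      ← Nat.card_eq_fintype_card, nsmul_eq_mul, hDsum, ← Finset.mul_sum]
  have hDfix : ∃ k₂ : ℕ, ∑ φ' : IrrCharacter D, mm φ' * nn φ' = m' * b + p * k₂ := by
    obtain ⟨φ₀, hφ₀, huniq⟩ := gb_main_unique N P hnormN D hD hDN p hP hpN θ hθ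
    have hφeq : φ = φ₀ := huniq φ ⟨m', hm', hpm'⟩
    rw [← Finset.add_sum_erase _ _ (Finset.mem_univ φ), hmφ, hnφ]
    have hdvd : p ∣ ∑ φ' ∈ Finset.univ.erase φ, mm φ' * nn φ' := by
      apply Finset.dvd_sum
      intro φ' hφ'
      have hne : φ' ≠ φ := (Finset.mem_erase.mp hφ').1
      apply Dvd.dvd.mul_right
      by_contra hnd
      apply hne
      rw [hφeq]; exact huniq φ' ⟨mm φ', hmm φ', hnd⟩
    obtain ⟨k₂, hk₂⟩ := hdvd
    exact ⟨k₂, by rw [hk₂]⟩
  obtain ⟨k₂, hk₂⟩ := hDfix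
  have hR : IsIntegral ℤ (∑ c : C, r c * conj ((β : C → ℂ) c)) := by
    apply IsIntegral.sum; intro c _
    apply (hr c).mul
    rw [← Helper1.irr_inv β c]; exact Helper25.irr_isIntegral β _
  have hsum1 : ∑ χ' : IrrCharacter G, ((aa χ' * bb χ' : ℕ) : ℂ) =
      ((a * m + p * k₁ : ℕ) : ℂ) + p * r₁ := by
    rw [horb, ← hk₁, Nat.cast_sum]
  have hsum2 : ∑ φ' : IrrCharacter D, ((mm φ' * nn φ' : ℕ) : ℂ) =
      ((m' * b + p * k₂ : ℕ) : ℂ) := by
    rw [← hk₂, Nat.cast_sum]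
  have hkey : (((Nat.card C : ℤ) * ((Nat.card N : ℤ) * a * m - (Nat.card D : ℤ) * m' * b) : ℤ)
        : ℂ) =
      p * ((∑ c : C, r c * conj ((β : C → ℂ) c)) + (Nat.card C : ℂ) * (Nat.card D : ℂ) * k₂ -
        (Nat.card N : ℂ) * (Nat.card C : ℂ) * k₁ - (Nat.card N : ℂ) * (Nat.card C : ℂ) * r₁) := by
    have := way1.symm.trans way2
    rw [hsum1, hsum2] at this
    push_cast at this ⊢
    linear_combination this
  have hint : IsIntegral ℤ ((∑ c : C, r c * conj ((β : C → ℂ) c)) +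
      (Nat.card C : ℂ) * (Nat.card D : ℂ) * k₂ -
        (Nat.card N : ℂ) * (Nat.card C : ℂ) * k₁ - (Nat.card N : ℂ) * (Nat.card C : ℂ) * r₁) :=
    ((hR.add (((hnat _).mul (hnat _)).mul (hnat _))).sub
      (((hnat _).mul (hnat _)).mul (hnat _))).sub (((hnat _).mul (hnat _)).mul hr₁)
  have hdvd := gb_int_dvd p hprime.ne_zero _ _ hint hkey
  have hpC : ¬ (p : ℤ) ∣ (Nat.card C : ℤ) := by
    intro h
    exact hpG ((Int.natCast_dvd_natCast.mp h).trans (Subgroup.card_dvd_of_le hCG))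
  exact ((Nat.prime_iff_prime_int.mp hprime).dvd_or_dvd hdvd).resolve_left hpC

include hC hD hP hpG in
/-- If the Glauberman correspondent `β` of `χ` lies over the correspondent `φ` of `θ`, then
`χ` lies over `θ`. -/
theorem ga_star (hNn : ∀ g ∈ G, ∀ n ∈ N, g * n * g⁻¹ ∈ N)
    (χ : IrrCharacter G) (θ : IrrCharacter N) (β : IrrCharacter C) (φ : IrrCharacter D)
    (hχ : ∀ (s : P) (g : G), (χ : G → ℂ) (gb_conjHom G P hnorm s g) = (χ : G → ℂ) g)
    (hθ : ∀ (s : P) (n : N), (θ : N → ℂ) (gb_conjHom N P hnormN s n) = (θ : N → ℂ) n)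
    (m m' : ℕ)
    (hm : classInner (fun c : C => (χ : G → ℂ) (Subgroup.inclusion hCG c)) (β : C → ℂ) = m)
    (hpm : ¬ p ∣ m)
    (hm' : classInner (fun d : D => (θ : N → ℂ) (Subgroup.inclusion hDN d)) (φ : D → ℂ) = m')
    (hpm' : ¬ p ∣ m')
    (hb : classInner (fun d : D => (β : C → ℂ) (Subgroup.inclusion hDC d)) (φ : D → ℂ) ≠ 0) :
    classInner (fun n : N => (χ : G → ℂ) (Subgroup.inclusion hNG n)) (θ : N → ℂ) ≠ 0 := by
  classical
  have hprime := (Fact.out : p.Prime)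
  obtain ⟨a, ha⟩ := Helper2.classInner_char_nat
    (Helper2.isCharacter_comp (Subgroup.inclusion hNG)
      (Helper2.isCharacter_of_isIrrCharacter χ.2))
    (Helper2.isCharacter_of_isIrrCharacter θ.2)
  obtain ⟨b, hb'⟩ := Helper2.classInner_char_nat
    (Helper2.isCharacter_comp (Subgroup.inclusion hDC)
      (Helper2.isCharacter_of_isIrrCharacter β.2))
    (Helper2.isCharacter_of_isIrrCharacter φ.2)
  have hb0 : b ≠ 0 := by
    rintro rfl; apply hb; rw [hb']; simp
  have hcong := ga_cong G N P hnorm hnormN hNG C D hC hD hCG hDN hDC p hP hpG χ θ β φ hχ hθ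
    m m' a b hm hpm hm' hpm' ha hb'
  rw [ha]
  intro ha0
  have ha0' : a = 0 := by exact_mod_cast ha0
  rw [ha0'] at hcong
  have h1 : (p : ℤ) ∣ ((Nat.card D * m' * b : ℕ) : ℤ) := by
    have e : (Nat.card N : ℤ) * ((0 : ℕ) : ℤ) * m - (Nat.card D : ℤ) * m' * b =
        -((Nat.card D * m' * b : ℕ) : ℤ) := by push_cast; ring
    rw [e] at hcong
    exact (dvd_neg.mp hcong)
  have h2 : p ∣ Nat.card D * m' * b := Int.natCast_dvd_natCast.mp h1
  have hCle : C ≤ Subgroup.centralizer (P : Set Γ) := by rw [hC]; exact inf_le_right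
  have hDn : ∀ c ∈ C, ∀ d ∈ D, c * d * c⁻¹ ∈ D := by
    intro c hc d hd
    rw [hD]
    refine Subgroup.mem_inf.mpr ⟨hNn c (hCG hc) d (hDN hd), ?_⟩
    exact Subgroup.mul_mem _ (Subgroup.mul_mem _ (hCle hc) (hCle (hDC hd)))
      (Subgroup.inv_mem _ (hCle hc))
  have hbC : b ∣ Nat.card C := ga_mult_dvd_card C D hDC hDn β φ b hb' hb0
  have hpC : ¬ p ∣ Nat.card C := fun h => hpG (h.trans (Subgroup.card_dvd_of_le hCG))
  have hpD : ¬ p ∣ Nat.card D := fun h =>
    hpG (h.trans ((Subgroup.card_dvd_of_le hDN).trans (Subgroup.card_dvd_of_le hNG)))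
  rcases hprime.dvd_mul.mp h2 with h3 | h3
  · rcases hprime.dvd_mul.mp h3 with h4 | h4
    · exact hpD h4
    · exact hpm' h4
  · exact hpC (h3.trans hbC)

end Cong

section Transfer

variable {Γ : Type u} [Group Γ] (G S P₀ C : Subgroup Γ) [Fintype G] [Fintype C]
  (p : ℕ) [Fact p.Prime]
  (hnorm : ∀ s ∈ S, ∀ g ∈ G, s * g * s⁻¹ ∈ G) (hP₀S : P₀ ≤ S) (hP : IsPGroup p P₀)
  (hpG : ¬ p ∣ Nat.card G) (hC : C = G ⊓ Subgroup.centralizer (P₀ : Set Γ))
  (hnormC : ∀ s ∈ S, ∀ c ∈ C, s * c * s⁻¹ ∈ C) (hCG : C ≤ G)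
  (T : Subgroup Γ) (hTc : ∀ t ∈ T, ∀ g ∈ G, t * g = g * t)
  (hdec : ∀ s ∈ S, ∀ x ∈ P₀, ∃ y ∈ P₀, ∃ t ∈ T, s * x * s⁻¹ = y * t)

include hnorm hP₀S hP hpG hC hnormC hTc hdec in
/-- The `p`-group Glauberman correspondence transports `S`-invariance in both directions. -/
theorem ga_transfer :
    (∀ χ : IrrCharacter G, gc_InvFun G S (χ : G → ℂ) →
      ∃ β : IrrCharacter C, gc_InvFun C S (β : C → ℂ) ∧ ∃ m : ℕ,
        classInner (fun c : C => (χ : G → ℂ) (Subgroup.inclusion hCG c)) (β : C → ℂ) = m ∧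
          ¬ p ∣ m) ∧
    (∀ β : IrrCharacter C, gc_InvFun C S (β : C → ℂ) →
      ∃ χ : IrrCharacter G, gc_InvFun G S (χ : G → ℂ) ∧ ∃ m : ℕ,
        classInner (fun c : C => (χ : G → ℂ) (Subgroup.inclusion hCG c)) (β : C → ℂ) = m ∧
          ¬ p ∣ m) := by
  classical
  have hnormP : ∀ s ∈ P₀, ∀ g ∈ G, s * g * s⁻¹ ∈ G := fun s hs => hnorm s (hP₀S hs)
  letI aG := gb_actIrr G S hnorm
  letI aC := gb_actIrr C S hnormC
  let R : IrrCharacter G → IrrCharacter C → Prop := fun χ β =>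
    ∃ m : ℕ, classInner (fun c : C => (χ : G → ℂ) (Subgroup.inclusion hCG c)) (β : C → ℂ) = m ∧
      ¬ p ∣ m
  have toP : ∀ χ : IrrCharacter G, gc_InvFun G S (χ : G → ℂ) →
      ∀ (x : P₀) (g : G), (χ : G → ℂ) (gb_conjHom G P₀ hnormP x g) = (χ : G → ℂ) g :=
    fun χ h x g => h x.1 (hP₀S x.2) g _ (gb_conjHom_coe G P₀ hnormP x g)
  have invG : ∀ χ : IrrCharacter G, gc_InvFun G S (χ : G → ℂ) ↔ ∀ s : S, s • χ = χ := by
    intro χ
    constructor
    · intro h s
      apply Subtype.ext; funext g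
      show (χ : G → ℂ) (gb_conjHom G S hnorm s⁻¹ g) = (χ : G → ℂ) g
      exact h (s⁻¹ : S).1 (s⁻¹ : S).2 g _ (gb_conjHom_coe G S hnorm s⁻¹ g)
    · intro h s hs g g' hg'
      have h1 := congrFun (congrArg Subtype.val (h (⟨s, hs⟩ : S)⁻¹)) g
      have h2 : ((⟨s, hs⟩ : S)⁻¹ • χ : IrrCharacter G).1 g =
          (χ : G → ℂ) (gb_conjHom G S hnorm (⟨s, hs⟩ : S)⁻¹⁻¹ g) := rfl
      rw [h2, inv_inv] at h1
      have h3 : g' = gb_conjHom G S hnorm ⟨s, hs⟩ g :=
        Subtype.ext (by rw [hg', gb_conjHom_coe])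
      rw [h3]; exact h1
  have invC : ∀ β : IrrCharacter C, gc_InvFun C S (β : C → ℂ) ↔ ∀ s : S, s • β = β := by
    intro β
    constructor
    · intro h s
      apply Subtype.ext; funext g
      show (β : C → ℂ) (gb_conjHom C S hnormC s⁻¹ g) = (β : C → ℂ) g
      exact h (s⁻¹ : S).1 (s⁻¹ : S).2 g _ (gb_conjHom_coe C S hnormC s⁻¹ g)
    · intro h s hs g g' hg'
      have h1 := congrFun (congrArg Subtype.val (h (⟨s, hs⟩ : S)⁻¹)) g
      have h2 : ((⟨s, hs⟩ : S)⁻¹ • β : IrrCharacter C).1 g =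
          (β : C → ℂ) (gb_conjHom C S hnormC (⟨s, hs⟩ : S)⁻¹⁻¹ g) := rfl
      rw [h2, inv_inv] at h1
      have h3 : g' = gb_conjHom C S hnormC ⟨s, hs⟩ g :=
        Subtype.ext (by rw [hg', gb_conjHom_coe])
      rw [h3]; exact h1
  have hequiv : ∀ (s : S) (χ : IrrCharacter G) (β : IrrCharacter C), R χ β →
      R (s • χ) (s • β) := by
    rintro s χ β ⟨m, hm, hpm⟩
    refine ⟨m, ?_, hpm⟩
    rw [← hm]
    unfold classInner
    congr 1
    let σ : C ≃ C :=
      { toFun := fun c => gb_conjHom C S hnormC s⁻¹ c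
        invFun := fun c => gb_conjHom C S hnormC s c
        left_inv := fun c => gb_conjHom_inv_right C S hnormC s c
        right_inv := fun c => gb_conjHom_inv_left C S hnormC s c }
    rw [← Equiv.sum_comp σ (fun c : C => (χ : G → ℂ) (Subgroup.inclusion hCG c) *
      (starRingEnd ℂ) ((β : C → ℂ) c))]
    apply Finset.sum_congr rfl; intro c _
    rfl
  have hPinv : ∀ (s : S) (χ : IrrCharacter G),
      (∀ (x : P₀) (g : G), (χ : G → ℂ) (gb_conjHom G P₀ hnormP x g) = (χ : G → ℂ) g) →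
      ∀ (x : P₀) (g : G), ((s • χ : IrrCharacter G) : G → ℂ) (gb_conjHom G P₀ hnormP x g) =
        ((s • χ : IrrCharacter G) : G → ℂ) g := by
    intro s χ h x g
    show (χ : G → ℂ) (gb_conjHom G S hnorm s⁻¹ (gb_conjHom G P₀ hnormP x g)) =
      (χ : G → ℂ) (gb_conjHom G S hnorm s⁻¹ g)
    obtain ⟨y, hy, t, ht, hyt⟩ := hdec (s⁻¹ : S).1 (s⁻¹ : S).2 x.1 x.2
    have key : gb_conjHom G S hnorm s⁻¹ (gb_conjHom G P₀ hnormP x g) =
        gb_conjHom G P₀ hnormP ⟨y, hy⟩ (gb_conjHom G S hnorm s⁻¹ g) := by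
      apply Subtype.ext
      have htc := hTc t ht _ (gb_conjHom G S hnorm s⁻¹ g).2
      rw [gb_conjHom_coe] at htc
      rw [gb_conjHom_coe, gb_conjHom_coe, gb_conjHom_coe, gb_conjHom_coe]
      calc ((s⁻¹ : S) : Γ) * (x * g * (x : Γ)⁻¹) * ((s⁻¹ : S) : Γ)⁻¹
          = (((s⁻¹ : S) : Γ) * x * ((s⁻¹ : S) : Γ)⁻¹) *
              (((s⁻¹ : S) : Γ) * g * ((s⁻¹ : S) : Γ)⁻¹) *
              (((s⁻¹ : S) : Γ) * x * ((s⁻¹ : S) : Γ)⁻¹)⁻¹ := by group
        _ = y * (t * (((s⁻¹ : S) : Γ) * g * ((s⁻¹ : S) : Γ)⁻¹)) * t⁻¹ * y⁻¹ := by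
            rw [hyt]; group
        _ = y * (((s⁻¹ : S) : Γ) * g * ((s⁻¹ : S) : Γ)⁻¹) * y⁻¹ := by rw [htc]; group
    rw [key, h]
  refine ⟨?_, ?_⟩
  · intro χ hχ
    obtain ⟨β, hβ, huniq⟩ := gb_main_unique G P₀ hnormP C hC hCG p hP hpG χ (toP χ hχ)
    refine ⟨β, ?_, hβ⟩
    rw [invC]
    intro s
    have h1 := hequiv s χ β hβ
    rw [(invG χ).mp hχ s] at h1
    exact huniq _ h1
  · intro β hβ
    obtain ⟨χ, hχ, hR⟩ := gb_main_surj G P₀ hnormP C hC hCG p hP hpG β
    refine ⟨χ, ?_, hR⟩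
    rw [invG]
    intro s
    have h1 := hequiv s χ β hR
    rw [(invC β).mp hβ s] at h1
    obtain ⟨m, hm, hpm⟩ := hR
    obtain ⟨m', hm', hpm'⟩ := h1
    exact gb_main_inj G P₀ hnormP C hC hCG p hP hpG (s • χ) χ (hPinv s χ hχ) hχ β m' m
      hm' hpm' hm hpm

end Transfer

/-- Invariant constituents above, generalized for induction (`T ≤ S` normalized by `S`,
centralizing `G`, with `|S : T|` coprime to `|G|`). -/
theorem ga_above {Γ : Type u} [Group Γ] [Finite Γ] (S : Subgroup Γ)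
    (hsolv : Group.IsSolvable S) :
    ∀ (n : ℕ) (G N T : Subgroup Γ) [Fintype G] [Fintype N] (hNG : N ≤ G), T ≤ S →
      (∀ s ∈ S, ∀ t ∈ T, s * t * s⁻¹ ∈ T) → (∀ t ∈ T, ∀ g ∈ G, t * g = g * t) →
      (∀ s ∈ S, ∀ g ∈ G, s * g * s⁻¹ ∈ G) → (∀ s ∈ S, ∀ x ∈ N, s * x * s⁻¹ ∈ N) →
      (∀ g ∈ G, ∀ x ∈ N, g * x * g⁻¹ ∈ N) →
      (Nat.card G).Coprime (T.relIndex S) → T.relIndex S ≤ n →
      ∀ θ : IrrCharacter N, gc_InvFun N S (θ : N → ℂ) →
        ∃ χ : IrrCharacter G,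
          classInner (fun x : N => (χ : G → ℂ) (Subgroup.inclusion hNG x)) (θ : N → ℂ) ≠ 0 ∧
            gc_InvFun G S (χ : G → ℂ) := by
  intro n
  induction n with
  | zero =>
    intro G N T _ _ hNG hTS hTn hTc hnorm hnormN hNn hcop hle
    exfalso
    have : T.relIndex S ≠ 0 := gc_relIndex_ne_zero T S
    omega
  | succ n ih =>
    intro G N T _ _ hNG hTS hTn hTc hnorm hnormN hNn hcop hle θ hθ
    by_cases hST : S ≤ T
    · obtain ⟨χ, hχ⟩ := ga_exists_over G N hNG θ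
      refine ⟨χ, hχ, ?_⟩
      intro s hs g g' hg'
      have hg : g' = g := by
        apply Subtype.ext
        rw [hg', hTc s (hST hs) g g.2]; group
      rw [hg]
    · obtain ⟨p, P₀, Pn, hp, hPp, hnle, hPnn, hTPn, hP₀Pn, hPnS, hdec, hdvd⟩ :=
        gc_exists_p S T hsolv hTS hTn hST
      haveI : Fact p.Prime := ⟨hp⟩
      have hpG : ¬ p ∣ Nat.card G := by
        intro h
        have h1 : p ∣ Nat.gcd (Nat.card G) (T.relIndex S) := Nat.dvd_gcd h hdvd
        rw [Nat.Coprime.gcd_eq_one hcop] at h1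
        exact hp.one_lt.ne' (Nat.dvd_one.mp h1)
      have hpN : ¬ p ∣ Nat.card N := fun h => hpG (h.trans (Subgroup.card_dvd_of_le hNG))
      obtain ⟨C, hC⟩ : ∃ C : Subgroup Γ, C = G ⊓ Subgroup.centralizer (P₀ : Set Γ) := ⟨_, rfl⟩
      obtain ⟨D, hD⟩ : ∃ D : Subgroup Γ, D = N ⊓ Subgroup.centralizer (P₀ : Set Γ) := ⟨_, rfl⟩
      letI : Fintype C := Fintype.ofFinite C
      letI : Fintype D := Fintype.ofFinite D
      have hCG : C ≤ G := by rw [hC]; exact inf_le_left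
      have hDN : D ≤ N := by rw [hD]; exact inf_le_left
      have hDC : D ≤ C := by rw [hC, hD]; exact inf_le_inf_right _ hNG
      have hCle : C ≤ Subgroup.centralizer (P₀ : Set Γ) := by rw [hC]; exact inf_le_right
      have hCcent : ∀ c ∈ C, ∀ y ∈ P₀, y * c = c * y := by
        intro c hc y hy
        exact (Subgroup.mem_centralizer_iff.mp (hCle hc) y hy)
      have hPc : ∀ x ∈ Pn, ∀ c ∈ C, x * c = c * x := by
        intro x hx c hc
        obtain ⟨y, hy, t, ht, rfl⟩ := hdec x hx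
        have h1 := hTc t ht c (hCG hc)
        have h2 := hCcent c hc y hy
        calc y * t * c = y * (t * c) := by group
          _ = y * (c * t) := by rw [h1]
          _ = (y * c) * t := by group
          _ = (c * y) * t := by rw [h2]
          _ = c * (y * t) := by group
      have hnormC : ∀ s ∈ S, ∀ c ∈ C, s * c * s⁻¹ ∈ C := by
        intro s hs c hc
        rw [hC]
        refine Subgroup.mem_inf.mpr ⟨hnorm s hs c (hCG hc), ?_⟩
        rw [Subgroup.mem_centralizer_iff]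
        intro x hx
        have h1 : s⁻¹ * x * s⁻¹⁻¹ ∈ Pn := hPnn s⁻¹ (S.inv_mem hs) x (hP₀Pn hx)
        have h2 := hPc _ h1 c hc
        calc x * (s * c * s⁻¹) = s * ((s⁻¹ * x * s⁻¹⁻¹) * c) * s⁻¹ := by group
          _ = s * (c * (s⁻¹ * x * s⁻¹⁻¹)) * s⁻¹ := by rw [h2]
          _ = s * c * s⁻¹ * x := by group
      have hnormD : ∀ s ∈ S, ∀ d ∈ D, s * d * s⁻¹ ∈ D := by
        intro s hs d hd
        rw [hD]
        exact Subgroup.mem_inf.mpr ⟨hnormN s hs d (hDN hd), hCle (hnormC s hs d (hDC hd))⟩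
      have hDn : ∀ c ∈ C, ∀ d ∈ D, c * d * c⁻¹ ∈ D := by
        intro c hc d hd
        rw [hD]
        refine Subgroup.mem_inf.mpr ⟨hNn c (hCG hc) d (hDN hd), ?_⟩
        exact Subgroup.mul_mem _ (Subgroup.mul_mem _ (hCle hc) (hCle (hDC hd)))
          (Subgroup.inv_mem _ (hCle hc))
      have hdec' : ∀ s ∈ S, ∀ x ∈ P₀, ∃ y ∈ P₀, ∃ t ∈ T, s * x * s⁻¹ = y * t :=
        fun s hs x hx => hdec _ (hPnn s hs x (hP₀Pn hx))
      have hP₀S : P₀ ≤ S := hP₀Pn.trans hPnS
      have hcop' : (Nat.card C).Coprime (Pn.relIndex S) :=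
        Nat.Coprime.coprime_dvd_left (Subgroup.card_dvd_of_le hCG)
          (Nat.Coprime.coprime_dvd_right (Subgroup.relIndex_dvd_of_le_left S hTPn) hcop)
      have hlt : Pn.relIndex S < T.relIndex S := by
        rw [← Subgroup.relIndex_mul_relIndex T Pn S hTPn hPnS]
        have h1 : T.relIndex Pn ≠ 1 := by
          intro h
          exact hnle (hP₀Pn.trans (Subgroup.relIndex_eq_one.mp h))
        have h0 : T.relIndex Pn ≠ 0 := gc_relIndex_ne_zero T Pn
        have h2 : Pn.relIndex S ≠ 0 := gc_relIndex_ne_zero Pn S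
        calc Pn.relIndex S = 1 * Pn.relIndex S := (one_mul _).symm
          _ < T.relIndex Pn * Pn.relIndex S :=
            Nat.mul_lt_mul_of_pos_right (by omega) (Nat.pos_of_ne_zero h2)
      have hnormP : ∀ s ∈ P₀, ∀ g ∈ G, s * g * s⁻¹ ∈ G := fun s hs => hnorm s (hP₀S hs)
      have hnormNP : ∀ s ∈ P₀, ∀ x ∈ N, s * x * s⁻¹ ∈ N := fun s hs => hnormN s (hP₀S hs)
      obtain ⟨φ, hφinv, m', hm', hpm'⟩ :=
        (ga_transfer N S P₀ D p hnormN hP₀S hPp hpN hD hnormD hDN T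
          (fun t ht x hx => hTc t ht x (hNG hx)) hdec').1 θ hθ
      obtain ⟨β, hβ, hβinv⟩ := ih C D Pn hDC hPnS hPnn hPc hnormC hnormD hDn hcop' (by omega)
        φ hφinv
      obtain ⟨χ, hχinv, m, hm, hpm⟩ :=
        (ga_transfer G S P₀ C p hnorm hP₀S hPp hpG hC hnormC hCG T hTc hdec').2 β hβinv
      refine ⟨χ, ?_, hχinv⟩
      exact ga_star G N P₀ hnormP hnormNP hNG C D hC hD hCG hDN hDC p hPp hpG hNn χ θ β φ
        (fun s g => hχinv s.1 (hP₀S s.2) g _ (gb_conjHom_coe G P₀ hnormP s g))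
        (fun s x => hθ s.1 (hP₀S s.2) x _ (gb_conjHom_coe N P₀ hnormNP s x))
        m m' hm hpm hm' hpm' hβ

/-- Coprime solvable operators: an invariant irreducible character of an invariant normal
subgroup lies under an invariant irreducible character. -/
theorem ga_main {Γ : Type u} [Group Γ] [Finite Γ] (G S N : Subgroup Γ) [Fintype G] [Fintype N]
    (hnorm : ∀ s ∈ S, ∀ g ∈ G, s * g * s⁻¹ ∈ G) (hNG : N ≤ G)
    (hNn : ∀ g ∈ G, ∀ x ∈ N, g * x * g⁻¹ ∈ N) (hNS : ∀ s ∈ S, ∀ x ∈ N, s * x * s⁻¹ ∈ N)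
    (hcop : (Nat.card G).Coprime (Nat.card S)) (hsolv : Group.IsSolvable S)
    (θ : IrrCharacter N) (hinv : gc_InvFun N S (θ : N → ℂ)) :
    ∃ χ : IrrCharacter G,
      classInner (fun x : N => (χ : G → ℂ) (Subgroup.inclusion hNG x)) (θ : N → ℂ) ≠ 0 ∧
        gc_InvFun G S (χ : G → ℂ) := by
  refine ga_above S hsolv (Nat.card S) G N ⊥ hNG bot_le ?_ ?_ hnorm hNS hNn ?_ ?_ θ hinv
  · intro s _ t ht
    rw [Subgroup.mem_bot] at ht ⊢
    rw [ht]; group
  · intro t ht g _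
    rw [Subgroup.mem_bot] at ht
    rw [ht]; simp
  · rw [Subgroup.relIndex_bot_left]; exact hcop
  · rw [Subgroup.relIndex_bot_left]

end Cfsg.Agent.Helper26
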