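import Mathlib
import Cfsg.Agent.Helper26.GlaubCount

/-!
# Real invariant characters and classes under a coprime `p`-group action (helper26)

Prefix `gr_`.
-/

set_option autoImplicit false

namespace Cfsg.Agent.Helper26

open Cfsg

open scoped ComplexConjugate

universe u

theorem gr_isConj_inv {H : Type*} [Group H] {a b : H} (h : IsConj a b) : IsConj a⁻¹ b⁻¹ := by
  obtain ⟨x, hx⟩ := isConj_iff.mp h
  exact isConj_iff.mpr ⟨x, by rw [← hx]; group⟩

/-- The complex conjugate of an irreducible character. -/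
noncomputable def gr_cj {H : Type u} [Group H] [Fintype H] (χ : IrrCharacter H) :
    IrrCharacter H :=
  ⟨fun g => conj ((χ : H → ℂ) g), Helper2.isIrrCharacter_conj χ.2⟩

theorem gr_cj_eq_iff {H : Type u} [Group H] [Fintype H] (χ : IrrCharacter H) :
    gr_cj χ = χ ↔ ∀ g : H, ((χ : H → ℂ) g).im = 0 := by
  constructor
  · intro h g; exact Complex.conj_eq_iff_im.mp (congrFun (congrArg Subtype.val h) g)
  · intro h; apply Subtype.ext; funext g; exact Complex.conj_eq_iff_im.mpr (h g)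

/-- The number of real-valued irreducible characters equals the number of real classes. -/
theorem gr_real_count (H : Type u) [Group H] [Finite H] :
    Nat.card {χ : IrrCharacter H // ∀ g : H, ((χ : H → ℂ) g).im = 0} =
      Nat.card {c : ConjClasses H // ∀ k : H, ConjClasses.mk k = c → IsConj k k⁻¹} := by
  classical
  letI : Fintype H := Fintype.ofFinite H
  have hb := Helper2.brauer_count (G := H) (fun g => g⁻¹) gr_cj
    (fun χ g => (Helper1.irr_inv χ g).symm) (fun g h hgh => gr_isConj_inv hgh)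
  have e1 : Nat.card {χ : IrrCharacter H // ∀ g : H, ((χ : H → ℂ) g).im = 0} =
      Nat.card {χ : IrrCharacter H // gr_cj χ = χ} :=
    Nat.card_congr (Equiv.subtypeEquivRight (fun χ => (gr_cj_eq_iff χ).symm))
  rw [e1, hb]
  apply Nat.card_congr
  apply Equiv.subtypeEquivRight
  intro C
  have hout : ∀ k : H, ConjClasses.mk k = C → IsConj k (Quotient.out C) := by
    intro k hk
    apply ConjClasses.mk_eq_mk_iff_isConj.mp
    rw [hk]; exact (Quotient.out_eq C).symm
  constructor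
  · intro h k hk
    have h1 := hout k hk
    exact (h1.trans h.symm).trans (gr_isConj_inv h1).symm
  · intro h
    exact (h (Quotient.out C) (Quotient.out_eq C)).symm

theorem gr_classInner_conj {H : Type u} [Group H] [Fintype H] (φ ψ : H → ℂ) :
    classInner (fun g => conj (φ g)) (fun g => conj (ψ g)) = conj (classInner φ ψ) := by
  simp only [classInner, map_mul, map_sum, map_inv₀, Complex.conj_natCast, Complex.conj_conj]

section Real

variable {Γ : Type u} [Group Γ] [Finite Γ] (p : ℕ) [Fact p.Prime] (P K : Subgroup Γ)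
  (hP : IsPGroup p P) (hK : ¬ p ∣ Nat.card K) (hnorm : ∀ s ∈ P, ∀ g ∈ K, s * g * s⁻¹ ∈ K)

include hP hK in
/-- A `P`-invariant class of `K` contains a `P`-fixed element. -/
theorem gr_fixed_in_class (c : ConjClasses K)
    (hc : ∀ k : K, ConjClasses.mk k = c → ∀ x ∈ P, ∀ k' : K, (k' : Γ) = x * k * x⁻¹ →
      ConjClasses.mk k' = c) :
    ∃ g : K, ConjClasses.mk g = c ∧ ∀ s : P, gb_conjHom K P hnorm s g = g := by
  classical
  letI : MulAction P {g : K // ConjClasses.mk g = c} :=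
    { smul := fun s g => ⟨gb_conjHom K P hnorm s g.1,
        hc g.1 g.2 s.1 s.2 _ (gb_conjHom_coe K P hnorm s g.1)⟩
      one_smul := fun g => Subtype.ext (gb_conjHom_one K P hnorm g.1)
      mul_smul := fun s t g => Subtype.ext (gb_conjHom_mul K P hnorm s t g.1) }
  have hcard : ¬ p ∣ Nat.card {g : K // ConjClasses.mk g = c} := by
    have e : {g : K // ConjClasses.mk g = c} ≃ c.carrier :=
      Equiv.subtypeEquivRight (fun g => ConjClasses.mem_carrier_iff_mk_eq.symm)
    rw [Nat.card_congr e, Nat.card_coe_set_eq]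
    intro h
    exact hK (h.trans (Helper25.ncard_carrier_dvd c))
  obtain ⟨g₁, hg₁⟩ := hP.nonempty_fixed_point_of_prime_not_dvd_card _ hcard
  exact ⟨g₁.1, g₁.2, fun s => congrArg Subtype.val (hg₁ s)⟩

include hP hK hnorm in
/-- Real invariant characters versus real invariant classes. -/
theorem gr_count :
    Nat.card {θ : IrrCharacter K // (∀ k : K, ((θ : K → ℂ) k).im = 0) ∧
        (∀ x ∈ P, ∀ k k' : K, (k' : Γ) = x * (k : Γ) * x⁻¹ →
          (θ : K → ℂ) k' = (θ : K → ℂ) k)} =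
      Nat.card {c : ConjClasses K // (∀ k : K, ConjClasses.mk k = c → IsConj k k⁻¹) ∧
        ∀ k : K, ConjClasses.mk k = c → ∀ x ∈ P, ∀ k' : K, (k' : Γ) = x * (k : Γ) * x⁻¹ →
          ConjClasses.mk k' = c} := by
  classical
  letI : Fintype K := Fintype.ofFinite K
  obtain ⟨C, hC⟩ : ∃ C : Subgroup Γ, C = K ⊓ Subgroup.centralizer (P : Set Γ) := ⟨_, rfl⟩
  letI : Fintype C := Fintype.ofFinite C
  have hCG : C ≤ K := by rw [hC]; exact inf_le_left
  have F1 : ∀ (c : C) (s : P), gb_conjHom K P hnorm s (Subgroup.inclusion hCG c) =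
      Subgroup.inclusion hCG c := fun c s => gb_mem_C_fixed K P hnorm C hC hCG c s
  have F2 : ∀ g : K, (∀ s : P, gb_conjHom K P hnorm s g = g) → (g : Γ) ∈ C := by
    intro g hg; rw [hC]; exact (gb_fixed_iff K P hnorm g).mp hg
  have F3 : ∀ c c' : C, IsConj (Subgroup.inclusion hCG c) (Subgroup.inclusion hCG c') →
      IsConj c c' := by
    intro c c' h
    obtain ⟨x, hx⟩ := isConj_iff.mp h
    obtain ⟨y, hyfix, hy⟩ := gb_conj_in_C K P hnorm p hP hK _ _ (F1 c) (F1 c') x hx
    refine isConj_iff.mpr ⟨⟨y, F2 y hyfix⟩, Subtype.ext ?_⟩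
    have := congrArg (fun z : K => (z : Γ)) hy
    simpa using this
  -- Step A
  have stepA : Nat.card {θ : IrrCharacter K // (∀ k : K, ((θ : K → ℂ) k).im = 0) ∧
        (∀ x ∈ P, ∀ k k' : K, (k' : Γ) = x * (k : Γ) * x⁻¹ →
          (θ : K → ℂ) k' = (θ : K → ℂ) k)} =
      Nat.card {β : IrrCharacter C // ∀ c : C, ((β : C → ℂ) c).im = 0} := by
    let R : IrrCharacter K → IrrCharacter C → Prop := fun χ β =>
      ∃ m : ℕ, classInner (fun c : C => (χ : K → ℂ) (Subgroup.inclusion hCG c)) (β : C → ℂ) = m ∧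
        ¬ p ∣ m
    have toP : ∀ χ : IrrCharacter K, (∀ x ∈ P, ∀ k k' : K, (k' : Γ) = x * (k : Γ) * x⁻¹ →
          (χ : K → ℂ) k' = (χ : K → ℂ) k) →
        ∀ (x : P) (g : K), (χ : K → ℂ) (gb_conjHom K P hnorm x g) = (χ : K → ℂ) g :=
      fun χ h x g => h x.1 x.2 g _ (gb_conjHom_coe K P hnorm x g)
    have ofP : ∀ χ : IrrCharacter K,
        (∀ (x : P) (g : K), (χ : K → ℂ) (gb_conjHom K P hnorm x g) = (χ : K → ℂ) g) →
        (∀ x ∈ P, ∀ k k' : K, (k' : Γ) = x * (k : Γ) * x⁻¹ →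
          (χ : K → ℂ) k' = (χ : K → ℂ) k) := by
      intro χ h x hx k k' hk'
      have h3 : k' = gb_conjHom K P hnorm ⟨x, hx⟩ k :=
        Subtype.ext (by rw [hk', gb_conjHom_coe])
      rw [h3]; exact h ⟨x, hx⟩ k
    have hcj : ∀ (χ : IrrCharacter K) (β : IrrCharacter C), R χ β → R (gr_cj χ) (gr_cj β) := by
      rintro χ β ⟨m, hm, hpm⟩
      refine ⟨m, ?_, hpm⟩
      have h1 := gr_classInner_conj (fun c : C => (χ : K → ℂ) (Subgroup.inclusion hCG c))
        (β : C → ℂ)
      rw [hm, Complex.conj_natCast] at h1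
      exact h1
    have hcjP : ∀ χ : IrrCharacter K,
        (∀ (x : P) (g : K), (χ : K → ℂ) (gb_conjHom K P hnorm x g) = (χ : K → ℂ) g) →
        (∀ (x : P) (g : K), (gr_cj χ : K → ℂ) (gb_conjHom K P hnorm x g) =
          (gr_cj χ : K → ℂ) g) := by
      intro χ h x g
      show conj ((χ : K → ℂ) (gb_conjHom K P hnorm x g)) = conj ((χ : K → ℂ) g)
      rw [h]
    refine gc_card_of_rel _ _ R ?_ ?_ ?_ ?_
    · rintro χ ⟨hre, hχ⟩
      obtain ⟨β, hβ, huniq⟩ := gb_main_unique K P hnorm C hC hCG p hP hK χ (toP χ hχ)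
      refine ⟨β, ?_, hβ⟩
      rw [← gr_cj_eq_iff]
      have h1 := hcj χ β hβ
      rw [(gr_cj_eq_iff χ).mpr hre] at h1
      exact huniq _ h1
    · intro β hβ
      obtain ⟨χ, hχ, hR⟩ := gb_main_surj K P hnorm C hC hCG p hP hK β
      refine ⟨χ, ⟨?_, ofP χ hχ⟩, hR⟩
      rw [← gr_cj_eq_iff]
      have h1 := hcj χ β hR
      rw [(gr_cj_eq_iff β).mpr hβ] at h1
      obtain ⟨m, hm, hpm⟩ := hR
      obtain ⟨m', hm', hpm'⟩ := h1
      exact gb_main_inj K P hnorm C hC hCG p hP hK (gr_cj χ) χ (hcjP χ hχ) hχ β m' m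
        hm' hpm' hm hpm
    · rintro χ β β' ⟨_, hχ⟩ _ _ hR hR'
      obtain ⟨β₀, _, huniq⟩ := gb_main_unique K P hnorm C hC hCG p hP hK χ (toP χ hχ)
      rw [huniq β hR, huniq β' hR']
    · rintro χ χ' β ⟨_, hχ⟩ ⟨_, hχ'⟩ _ ⟨m, hm, hpm⟩ ⟨m', hm', hpm'⟩
      exact gb_main_inj K P hnorm C hC hCG p hP hK χ χ' (toP χ hχ) (toP χ' hχ') β m m'
        hm hpm hm' hpm'
  -- Step C
  have stepC : Nat.card {D : ConjClasses C // ∀ c : C, ConjClasses.mk c = D → IsConj c c⁻¹} =
      Nat.card {c : ConjClasses K // (∀ k : K, ConjClasses.mk k = c → IsConj k k⁻¹) ∧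
        ∀ k : K, ConjClasses.mk k = c → ∀ x ∈ P, ∀ k' : K, (k' : Γ) = x * (k : Γ) * x⁻¹ →
          ConjClasses.mk k' = c} := by
    refine gc_card_of_rel _ _
      (fun D Kc => ConjClasses.map (Subgroup.inclusion hCG) D = Kc) ?_ ?_ ?_ ?_
    · intro D hD
      refine ⟨_, ⟨?_, ?_⟩, rfl⟩
      · obtain ⟨c, rfl⟩ := ConjClasses.mk_surjective D
        intro k hk
        have hk' : IsConj k (Subgroup.inclusion hCG c) := ConjClasses.mk_eq_mk_iff_isConj.mp hk
        have hc : IsConj (Subgroup.inclusion hCG c) (Subgroup.inclusion hCG c)⁻¹ := by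
          have := (Subgroup.inclusion hCG).map_isConj (hD c rfl)
          rw [map_inv] at this
          exact this
        exact (hk'.trans hc).trans (gr_isConj_inv hk').symm
      · obtain ⟨c, rfl⟩ := ConjClasses.mk_surjective D
        intro k hk x hx k' hk'
        have hkc : IsConj k (Subgroup.inclusion hCG c) := ConjClasses.mk_eq_mk_iff_isConj.mp hk
        obtain ⟨y, hy⟩ := isConj_iff.mp hkc
        show ConjClasses.mk k' = ConjClasses.mk (Subgroup.inclusion hCG c)
        rw [ConjClasses.mk_eq_mk_iff_isConj]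
        refine isConj_iff.mpr ⟨gb_conjHom K P hnorm ⟨x, hx⟩ y, ?_⟩
        have h3 : k' = gb_conjHom K P hnorm ⟨x, hx⟩ k :=
          Subtype.ext (by rw [hk', gb_conjHom_coe])
        rw [h3, ← map_inv, ← map_mul, ← map_mul, hy]
        exact F1 c ⟨x, hx⟩
    · rintro Kc ⟨hre, hinv⟩
      obtain ⟨g₁, hg₁, hfix⟩ := gr_fixed_in_class p P K hP hK hnorm Kc hinv
      let c₁ : C := ⟨g₁, F2 g₁ hfix⟩
      have hc₁ : ConjClasses.mk (Subgroup.inclusion hCG c₁) = Kc := hg₁
      refine ⟨ConjClasses.mk c₁, ?_, hc₁⟩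
      have hc₁real : IsConj c₁ c₁⁻¹ := by
        apply F3
        rw [map_inv]
        exact hre _ hc₁
      intro c hc
      have h1 : IsConj c c₁ := ConjClasses.mk_eq_mk_iff_isConj.mp hc
      exact (h1.trans hc₁real).trans (gr_isConj_inv h1).symm
    · intro D Kc Kc' _ _ _ h h'; exact h.symm.trans h'
    · intro D D' Kc _ _ _ h h'
      obtain ⟨c, rfl⟩ := ConjClasses.mk_surjective D
      obtain ⟨c', rfl⟩ := ConjClasses.mk_surjective D'
      have h0 : ConjClasses.mk (Subgroup.inclusion hCG c) =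
          ConjClasses.mk (Subgroup.inclusion hCG c') := h.trans h'.symm
      exact ConjClasses.mk_eq_mk_iff_isConj.mpr
        (F3 c c' (ConjClasses.mk_eq_mk_iff_isConj.mp h0))
  rw [stepA, gr_real_count C, stepC]

include hP hK hnorm in
/-- If all real irreducible characters of `K` are `P`-invariant, every real element is conjugate
to a `P`-fixed element. -/
theorem gr_fixed
    (hall : ∀ θ : IrrCharacter K, (∀ k : K, ((θ : K → ℂ) k).im = 0) →
      (∀ x ∈ P, ∀ k k' : K, (k' : Γ) = x * (k : Γ) * x⁻¹ → (θ : K → ℂ) k' = (θ : K → ℂ) k))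
    (k : K) (hk : IsConj k k⁻¹) :
    ∃ k' : K, IsConj k k' ∧ ∀ x ∈ P, x * (k' : Γ) * x⁻¹ = (k' : Γ) := by
  classical
  have h1 := gr_count p P K hP hK hnorm
  have e1 : Nat.card {θ : IrrCharacter K // (∀ k : K, ((θ : K → ℂ) k).im = 0) ∧
        (∀ x ∈ P, ∀ k k' : K, (k' : Γ) = x * (k : Γ) * x⁻¹ →
          (θ : K → ℂ) k' = (θ : K → ℂ) k)} =
      Nat.card {θ : IrrCharacter K // ∀ k : K, ((θ : K → ℂ) k).im = 0} :=
    Nat.card_congr (Equiv.subtypeEquivRight (fun θ => ⟨fun h => h.1, fun h => ⟨h, hall θ h⟩⟩))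
  rw [e1, gr_real_count K] at h1
  let f : {c : ConjClasses K // (∀ k : K, ConjClasses.mk k = c → IsConj k k⁻¹) ∧
        ∀ k : K, ConjClasses.mk k = c → ∀ x ∈ P, ∀ k' : K, (k' : Γ) = x * (k : Γ) * x⁻¹ →
          ConjClasses.mk k' = c} →
      {c : ConjClasses K // ∀ k : K, ConjClasses.mk k = c → IsConj k k⁻¹} :=
    fun c => ⟨c.1, c.2.1⟩
  have hf : Function.Injective f := by
    intro a b h
    have h' : (f a).1 = (f b).1 := congrArg Subtype.val h
    exact Subtype.ext h'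
  have hbij := hf.bijective_of_nat_card_le h1.le
  have hreal : ∀ k' : K, ConjClasses.mk k' = ConjClasses.mk k → IsConj k' k'⁻¹ := by
    intro k' hk'
    have h2 : IsConj k' k := ConjClasses.mk_eq_mk_iff_isConj.mp hk'
    exact (h2.trans hk).trans (gr_isConj_inv h2).symm
  obtain ⟨c, hc⟩ := hbij.2 ⟨ConjClasses.mk k, hreal⟩
  have hc1 : c.1 = ConjClasses.mk k := congrArg Subtype.val hc
  obtain ⟨g₁, hg₁, hfix⟩ := gr_fixed_in_class p P K hP hK hnorm c.1 c.2.2
  refine ⟨g₁, ?_, ?_⟩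
  · rw [hc1] at hg₁
    exact (ConjClasses.mk_eq_mk_iff_isConj.mp hg₁).symm
  · intro x hx
    have := congrArg Subtype.val (hfix ⟨x, hx⟩)
    rw [gb_conjHom_coe] at this
    exact this

end Real

end Cfsg.Agent.Helper26
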