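import Mathlib
import Cfsg.Agent.Helper26.Kul5

set_option autoImplicit false

namespace Cfsg.Agent.Helper26

open Subgroup
open scoped commutatorElement

universe u

section Gen

/-- a nontrivial normal subgroup of a finite `p`-group meets the centre nontrivially -/
theorem kul_normal_inf_center {G : Type*} [Group G] [Finite G] (p : ℕ) [Fact p.Prime]
    (hG : IsPGroup p G) (N : Subgroup G) [hN : N.Normal] (hne : N ≠ ⊥) :
    ∃ b ∈ N, b ≠ 1 ∧ b ∈ Subgroup.center G := by
  have hNnt : Nontrivial N := (Subgroup.nontrivial_iff_ne_bot N).mpr hne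
  have hdvd : p ∣ Nat.card N := by
    obtain ⟨n, hn0, hn⟩ := (hG.to_subgroup N).nontrivial_iff_card.mp hNnt
    exact hn.symm ▸ dvd_pow_self _ (ne_of_gt hn0)
  have h1 : (1 : N) ∈ MulAction.fixedPoints (ConjAct G) N := by
    intro g
    apply Subtype.ext
    show g • ((1 : N) : G) = ((1 : N) : G)
    rw [ConjAct.smul_def]
    simp
  obtain ⟨b, hb, hb1⟩ :=
    (hG.of_equiv ConjAct.toConjAct).exists_fixed_point_of_prime_dvd_card_of_fixed_point N hdvd h1
  refine ⟨b, b.2, ?_, ?_⟩
  · intro h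
    exact hb1 (Subtype.ext h.symm)
  · rw [Subgroup.mem_center_iff]
    intro x
    have h2 := hb (ConjAct.toConjAct x)
    have h3 : x * (b : G) * x⁻¹ = b := by
      have := congrArg Subtype.val h2
      exact this
    calc x * (b : G) = (x * (b : G) * x⁻¹) * x := by group
      _ = b * x := by rw [h3]

/-- card of the image in a quotient -/
theorem kul_card_map_mk {G : Type*} [Group G] [Finite G] (N : Subgroup G) [N.Normal]
    (H : Subgroup G) (hNH : N ≤ H) :
    Nat.card (H.map (QuotientGroup.mk' N)) * Nat.card N = Nat.card H := by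
  have h1 : (H.map (QuotientGroup.mk' N)).index = H.index :=
    Subgroup.index_map_eq H (QuotientGroup.mk'_surjective N)
      (by rw [QuotientGroup.ker_mk']; exact hNH)
  have h2 := Subgroup.card_mul_index (H.map (QuotientGroup.mk' N))
  have h3 := Subgroup.card_mul_index H
  have h4 := Subgroup.card_eq_card_quotient_mul_card_subgroup N
  rw [h1] at h2
  have hpos : 0 < H.index := Nat.pos_of_ne_zero Subgroup.index_ne_zero_of_finite
  have h5 : Nat.card (H.map (QuotientGroup.mk' N)) * Nat.card N * H.index =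
      Nat.card H * H.index := by
    rw [h3, h4, ← h2]; ring
  exact Nat.eq_of_mul_eq_mul_right hpos h5

/-- card of the preimage under the quotient map -/
theorem kul_card_comap_mk {G : Type*} [Group G] [Finite G] (N : Subgroup G) [N.Normal]
    (H' : Subgroup (G ⧸ N)) :
    Nat.card (H'.comap (QuotientGroup.mk' N)) = Nat.card H' * Nat.card N := by
  have h := kul_card_map_mk N (H'.comap (QuotientGroup.mk' N)) (by
    intro x hx
    rw [Subgroup.mem_comap]
    have h1 : (QuotientGroup.mk' N) x = 1 := (QuotientGroup.eq_one_iff x).mpr hx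
    rw [h1]; exact H'.one_mem)
  rw [Subgroup.map_comap_eq_self_of_surjective (QuotientGroup.mk'_surjective N)] at h
  exact h.symm

/-- elements relative to a subgroup of index two -/
theorem kul_idx2_cases {G : Type*} [Group G] (B : Subgroup G) (hB : B.index = 2) {y : G}
    (hy : y ∉ B) (g : G) : g ∈ B ∨ g * y⁻¹ ∈ B := by
  by_cases hg : g ∈ B
  · exact Or.inl hg
  · right
    have hy' : y⁻¹ ∉ B := fun h => hy (by simpa using B.inv_mem h)
    exact (Subgroup.mul_mem_iff_of_index_two hB).mpr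
      ⟨fun h => absurd h hg, fun h => absurd h hy'⟩

/-- abelian subgroup `B` of index two: `|G'| * |C_B(y)| = |B|` and `C_B(y) ≤ Z(G)` -/
theorem kul_ab_idx2 {G : Type*} [Group G] [Finite G] (B : Subgroup G) (hB : B.index = 2)
    (hab : ∀ b ∈ B, ∀ b' ∈ B, b * b' = b' * b) {y : G} (hy : y ∉ B) :
    Nat.card (commutator G) * Nat.card (B ⊓ Subgroup.centralizer {y} : Subgroup G) =
      Nat.card B ∧ B ⊓ Subgroup.centralizer {y} ≤ Subgroup.center G := by
  haveI hBn : B.Normal := Subgroup.normal_of_index_eq_two hB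
  have hconj : ∀ b ∈ B, y * b * y⁻¹ ∈ B := fun b hb => hBn.conj_mem b hb y
  have hcc : ∀ b ∈ B, y * b * y⁻¹ * b⁻¹ ∈ B := fun b hb =>
    B.mul_mem (hconj b hb) (B.inv_mem hb)
  let c : B →* B :=
    { toFun := fun b => ⟨y * b * y⁻¹ * (b : G)⁻¹, hcc b b.2⟩
      map_one' := by
        apply Subtype.ext
        show y * ((1 : B) : G) * y⁻¹ * ((1 : B) : G)⁻¹ = 1
        simp
      map_mul' := by
        intro b b'
        apply Subtype.ext
        show y * ((b : G) * (b' : G)) * y⁻¹ * ((b : G) * (b' : G))⁻¹ =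
          (y * b * y⁻¹ * (b : G)⁻¹) * (y * b' * y⁻¹ * (b' : G)⁻¹)
        have e1 := hab ((b : G)⁻¹) (B.inv_mem b.2) (y * b' * y⁻¹ * (b' : G)⁻¹) (hcc b' b'.2)
        calc y * ((b : G) * (b' : G)) * y⁻¹ * ((b : G) * (b' : G))⁻¹
            = y * b * y⁻¹ * ((y * b' * y⁻¹ * (b' : G)⁻¹) * (b : G)⁻¹) := by group
          _ = y * b * y⁻¹ * ((b : G)⁻¹ * (y * b' * y⁻¹ * (b' : G)⁻¹)) := by rw [e1]
          _ = _ := by group }
  have hc : ∀ b : B, ((c b : B) : G) = y * b * y⁻¹ * (b : G)⁻¹ := fun b => rfl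
  -- the image
  have hI : ∀ b ∈ B, y * b * y⁻¹ * b⁻¹ ∈ (c.range).map B.subtype := by
    intro b hb
    exact ⟨c ⟨b, hb⟩, ⟨⟨b, hb⟩, rfl⟩, rfl⟩
  have h2 : ∀ g1 ∈ B, ∀ g2 : G, g2 ∉ B → ⁅g1, g2⁆ ∈ (c.range).map B.subtype := by
    intro g1 hg1 g2 hg2
    have hb2 : g2 * y⁻¹ ∈ B := (kul_idx2_cases B hB hy g2).resolve_left hg2
    have hd : y * g1⁻¹ * y⁻¹ ∈ B := hconj _ (B.inv_mem hg1)
    have e1 : ⁅g1, g2⁆ = g1 * ((g2 * y⁻¹) * (y * g1⁻¹ * y⁻¹)) * (g2 * y⁻¹)⁻¹ := by
      rw [commutatorElement_def]; group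
    have e2 : g1 * ((y * g1⁻¹ * y⁻¹) * (g2 * y⁻¹)) * (g2 * y⁻¹)⁻¹ = g1 * (y * g1⁻¹ * y⁻¹) := by
      group
    rw [e1, hab _ hb2 _ hd, e2, hab _ hg1 _ hd]
    have := hI g1⁻¹ (B.inv_mem hg1)
    rwa [inv_inv] at this
  have hle : commutator G ≤ (c.range).map B.subtype := by
    rw [_root_.commutator_def, Subgroup.commutator_le]
    intro g1 _ g2 _
    by_cases hg1 : g1 ∈ B
    · by_cases hg2 : g2 ∈ B
      · have : ⁅g1, g2⁆ = 1 := commutatorElement_eq_one_iff_mul_comm.mpr (hab g1 hg1 g2 hg2)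
        rw [this]; exact Subgroup.one_mem _
      · exact h2 g1 hg1 g2 hg2
    · by_cases hg2 : g2 ∈ B
      · rw [← commutatorElement_inv]
        exact Subgroup.inv_mem _ (h2 g2 hg2 g1 hg1)
      · have hb1 : g1 * y⁻¹ ∈ B := (kul_idx2_cases B hB hy g1).resolve_left hg1
        have hb2 : g2 * y⁻¹ ∈ B := (kul_idx2_cases B hB hy g2).resolve_left hg2
        have hbb : (g2 * y⁻¹) * (g1 * y⁻¹)⁻¹ ∈ B := B.mul_mem hb2 (B.inv_mem hb1)
        have hd : y * ((g2 * y⁻¹) * (g1 * y⁻¹)⁻¹) * y⁻¹ ∈ B := hconj _ hbb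
        have e1 : ⁅g1, g2⁆ = (g1 * y⁻¹) * (y * ((g2 * y⁻¹) * (g1 * y⁻¹)⁻¹) * y⁻¹) *
            (g2 * y⁻¹)⁻¹ := by
          rw [commutatorElement_def]; group
        have e2 : (y * ((g2 * y⁻¹) * (g1 * y⁻¹)⁻¹) * y⁻¹) * (g1 * y⁻¹) * (g2 * y⁻¹)⁻¹ =
            y * ((g2 * y⁻¹) * (g1 * y⁻¹)⁻¹) * y⁻¹ * ((g2 * y⁻¹) * (g1 * y⁻¹)⁻¹)⁻¹ := by
          group
        rw [e1, hab _ hb1 _ hd, e2]
        exact hI _ hbb
  have hge : (c.range).map B.subtype ≤ commutator G := by
    rintro _ ⟨_, ⟨b, rfl⟩, rfl⟩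
    have : (B.subtype (c b) : G) = ⁅y, (b : G)⁆ := by
      rw [commutatorElement_def]; rfl
    rw [this, _root_.commutator_def]
    exact Subgroup.commutator_mem_commutator (Subgroup.mem_top _) (Subgroup.mem_top _)
  have heq : commutator G = (c.range).map B.subtype := le_antisymm hle hge
  have hcard1 : Nat.card (commutator G) = Nat.card c.range := by
    rw [heq]; exact Subgroup.card_map_of_injective B.subtype_injective
  have hker : (c.ker).map B.subtype = B ⊓ Subgroup.centralizer {y} := by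
    ext g
    constructor
    · rintro ⟨b, hb, rfl⟩
      refine Subgroup.mem_inf.mpr ⟨b.2, ?_⟩
      rw [Subgroup.mem_centralizer_iff]
      intro h hh
      rw [Set.mem_singleton_iff] at hh
      subst hh
      have h1 : ((c b : B) : G) = 1 := by
        have := (MonoidHom.mem_ker).mp hb
        rw [this]; rfl
      rw [hc] at h1
      show h * (b : G) = (b : G) * h
      calc h * (b : G) = (h * b * h⁻¹ * (b : G)⁻¹) * (b * h) := by group
        _ = (b : G) * h := by rw [h1, one_mul]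
    · intro hg
      obtain ⟨hgB, hgc⟩ := Subgroup.mem_inf.mp hg
      refine ⟨⟨g, hgB⟩, ?_, rfl⟩
      rw [SetLike.mem_coe, MonoidHom.mem_ker]
      apply Subtype.ext
      rw [hc]
      have h1 : y * g = g * y := (Subgroup.mem_centralizer_iff.mp hgc) y rfl
      show y * g * y⁻¹ * g⁻¹ = 1
      rw [h1]; group
  have hcard2 : Nat.card (B ⊓ Subgroup.centralizer {y} : Subgroup G) = Nat.card c.ker := by
    rw [← hker]; exact Subgroup.card_map_of_injective B.subtype_injective
  refine ⟨?_, ?_⟩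
  · rw [hcard1, hcard2, ← Subgroup.index_ker, mul_comm]
    exact Subgroup.card_mul_index c.ker
  · intro g hg
    obtain ⟨hgB, hgc⟩ := Subgroup.mem_inf.mp hg
    rw [Subgroup.mem_center_iff]
    intro h
    have h1 : y * g = g * y := (Subgroup.mem_centralizer_iff.mp hgc) y rfl
    rcases kul_idx2_cases B hB hy h with hh | hh
    · exact hab h hh g hgB
    · have e := hab (h * y⁻¹) hh g hgB
      calc h * g = (h * y⁻¹) * (y * g) := by group
        _ = (h * y⁻¹) * (g * y) := by rw [h1]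
        _ = ((h * y⁻¹) * g) * y := by group
        _ = (g * (h * y⁻¹)) * y := by rw [e]
        _ = g * h := by group

/-- in a noncyclic `p`-group the commutator subgroup has index at least `p ^ 2` -/
theorem kul_comm_card {P : Type u} [Group P] [Finite P] {p : ℕ} [Fact p.Prime] {n : ℕ}
    (hP : Nat.card P = p ^ n) (hnc : ¬ IsCyclic P) :
    ∃ j, j + 2 ≤ n ∧ Nat.card (commutator P) = p ^ j := by
  have hp := (Fact.out : p.Prime)
  have h2 := kul_two_max hP hnc
  haveI : Nontrivial (KulMax p (⊥ : Subgroup P)) :=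
    Finite.one_lt_card_iff_nontrivial.mp (by omega)
  obtain ⟨K1, K2, hK⟩ := exists_pair_ne (KulMax p (⊥ : Subgroup P))
  have hle : ∀ K : KulMax p (⊥ : Subgroup P), commutator P ≤ K.1 := by
    intro K
    haveI := K.2.1
    have hc : Nat.card (P ⧸ K.1) = p := by rw [← Subgroup.index_eq_card]; exact K.2.2.1
    haveI : IsCyclic (P ⧸ K.1) := isCyclic_of_prime_card hc
    exact Subgroup.Normal.quotient_commutative_iff_commutator_le.mp inferInstance
  obtain ⟨j, hj, hcj⟩ := kul_sub_card hP (commutator P)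
  refine ⟨j, ?_, hcj⟩
  have hK1 := kul_card_of_index hP K1.1 K1.2.2.1
  have hlt : Nat.card (commutator P) < Nat.card K1.1 := by
    have hle1 := Subgroup.card_le_of_le (hle K1)
    rcases Nat.lt_or_ge (Nat.card (commutator P)) (Nat.card K1.1) with h | h
    · exact h
    · exfalso
      have heq : commutator P = K1.1 := Subgroup.eq_of_le_of_card_ge (hle K1) h
      have h12 : K1.1 ≤ K2.1 := heq ▸ hle K2
      have hne : K2.1 ≠ ⊤ := by
        intro h
        have := K2.2.2.1
        rw [h, Subgroup.index_top] at this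
        exact hp.one_lt.ne this
      have := kul_index_prime_max K1.2.2.1 h12 hne
      exact hK (Subtype.ext this.symm)
  rw [hcj, hK1.1] at hlt
  have := (Nat.pow_lt_pow_iff_right hp.one_lt).mp hlt
  omega

end Gen

end Cfsg.Agent.Helper26
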