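import Mathlib
import Cfsg.Agent.Helper26.Kul8

set_option autoImplicit false

namespace Cfsg.Agent.Helper26

open Subgroup
open scoped commutatorElement

universe u

/-- `|X : X'| = 4` -/
def KulTK (X : Type*) [Group X] : Prop := Nat.card (commutator X) * 4 = Nat.card X

/-- maximal class data for a `2`-group: a cyclic subgroup of index two on which an outside
element acts by an exponent `≡ 3 (mod 4)` -/
def KulMC (X : Type*) [Group X] : Prop :=
  ∃ a y : X, (Subgroup.zpowers a).index = 2 ∧ y ∉ Subgroup.zpowers a ∧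
    ∃ k : ℤ, y * a * y⁻¹ = a ^ (4 * k - 1)

section Basic

variable {X : Type*} [Group X]

theorem kul_conj_zpow (a y : X) (m : ℤ) (h : y * a * y⁻¹ = a ^ m) :
    ∀ b ∈ Subgroup.zpowers a, y * b * y⁻¹ = b ^ m := by
  intro b hb
  obtain ⟨i, rfl⟩ := Subgroup.mem_zpowers_iff.mp hb
  rw [← conj_zpow, h, ← zpow_mul, ← zpow_mul, mul_comm]

theorem kul_zpowers_comm (a : X) :
    ∀ b ∈ Subgroup.zpowers a, ∀ b' ∈ Subgroup.zpowers a, b * b' = b' * b := by
  intro b hb b' hb'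
  obtain ⟨i, rfl⟩ := Subgroup.mem_zpowers_iff.mp hb
  obtain ⟨j, rfl⟩ := Subgroup.mem_zpowers_iff.mp hb'
  rw [← zpow_add, ← zpow_add, add_comm]

theorem kul_zpow_two_cases (z : X) (hz : z ^ 2 = 1) (j : ℤ) : z ^ j = 1 ∨ z ^ j = z := by
  have hz' : z ^ (2 : ℤ) = 1 := by
    rw [show (2 : ℤ) = ((2 : ℕ) : ℤ) from rfl, zpow_natCast]; exact hz
  have h1 : z ^ j = z ^ (j % 2) := by
    conv_lhs => rw [← Int.mul_ediv_add_emod j 2]
    rw [zpow_add, zpow_mul, hz', one_zpow, one_mul]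
  rcases Int.emod_two_eq_zero_or_one j with h | h
  · left; rw [h1, h, zpow_zero]
  · right; rw [h1, h, zpow_one]

end Basic

section MC

variable {X : Type u} [Group X] [Finite X] {m : ℕ} {a y : X} {k : ℤ}

theorem kul_mc_order (hX : Nat.card X = 2 ^ (m + 3)) (hidx : (Subgroup.zpowers a).index = 2) :
    orderOf a = 2 ^ (m + 2) := by
  have h1 := Subgroup.card_mul_index (Subgroup.zpowers a)
  rw [hidx, hX, Nat.card_zpowers] at h1
  have h2 : (2 : ℕ) ^ (m + 3) = 2 ^ (m + 2) * 2 := by ring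
  rw [h2] at h1
  exact Nat.eq_of_mul_eq_mul_right (by norm_num) h1

theorem kul_mc_zpow_one (hX : Nat.card X = 2 ^ (m + 3)) (hidx : (Subgroup.zpowers a).index = 2)
    (i : ℤ) : a ^ i = 1 ↔ (2 : ℤ) ^ (m + 2) ∣ i := by
  rw [← orderOf_dvd_iff_zpow_eq_one, kul_mc_order hX hidx]
  push_cast
  rfl

theorem kul_mc_conj (hidx : (Subgroup.zpowers a).index = 2) (hy : y ∉ Subgroup.zpowers a)
    (hrel : y * a * y⁻¹ = a ^ (4 * k - 1)) (g : X) (hg : g ∉ Subgroup.zpowers a) :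
    ∀ b ∈ Subgroup.zpowers a, g * b * g⁻¹ = b ^ (4 * k - 1) := by
  intro b hb
  have hb' : g * y⁻¹ ∈ Subgroup.zpowers a := (kul_idx2_cases _ hidx hy g).resolve_left hg
  calc g * b * g⁻¹ = (g * y⁻¹) * (y * b * y⁻¹) * (g * y⁻¹)⁻¹ := by group
    _ = (g * y⁻¹) * b ^ (4 * k - 1) * (g * y⁻¹)⁻¹ := by rw [kul_conj_zpow a y _ hrel b hb]
    _ = b ^ (4 * k - 1) := by
      rw [kul_zpowers_comm a _ hb' _ (Subgroup.zpow_mem _ hb _), mul_inv_cancel_right]

theorem kul_mc_comm_elt (hX : Nat.card X = 2 ^ (m + 3))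
    (hidx : (Subgroup.zpowers a).index = 2) (hrel : y * a * y⁻¹ = a ^ (4 * k - 1)) :
    ⁅y, a⁆ = a ^ (4 * k - 2) ∧ orderOf (a ^ (4 * k - 2)) = 2 ^ (m + 1) := by
  refine ⟨?_, ?_⟩
  · rw [commutatorElement_def, hrel, ← zpow_neg_one, ← zpow_add]
    congr 1; ring
  · have hpow : ∀ j : ℕ, (a ^ (4 * k - 2)) ^ (2 ^ j) = a ^ ((4 * k - 2) * 2 ^ j) := by
      intro j
      rw [← zpow_natCast, ← zpow_mul]
      push_cast
      rfl
    refine orderOf_eq_prime_pow (p := 2) (n := m) ?_ ?_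
    · rw [hpow, kul_mc_zpow_one hX hidx]
      rintro ⟨c, hc⟩
      have h1 : (2 : ℤ) ^ m * (4 * k - 2) = 2 ^ m * (4 * c) := by
        have : (2 : ℤ) ^ (m + 2) = 2 ^ m * 4 := by ring
        rw [this] at hc
        linarith
      have h2 := mul_left_cancel₀ (pow_ne_zero m (two_ne_zero : (2 : ℤ) ≠ 0)) h1
      omega
    · rw [hpow, kul_mc_zpow_one hX hidx]
      exact ⟨2 * k - 1, by ring⟩

theorem kul_mc_noncyc (hX : Nat.card X = 2 ^ (m + 3))
    (hidx : (Subgroup.zpowers a).index = 2) (hrel : y * a * y⁻¹ = a ^ (4 * k - 1)) :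
    ¬ IsCyclic X := by
  intro hc
  have hcomm := isMulCommutative_iff.mp (inferInstance : IsMulCommutative X)
  obtain ⟨h1, h2⟩ := kul_mc_comm_elt hX hidx hrel
  have h3 : ⁅y, a⁆ = 1 := commutatorElement_eq_one_iff_mul_comm.mpr (hcomm y a)
  rw [h1] at h3
  rw [h3, orderOf_one] at h2
  have : 1 < 2 ^ (m + 1) := Nat.one_lt_two_pow (by omega)
  omega

theorem kul_mc_comm (hX : Nat.card X = 2 ^ (m + 3))
    (hidx : (Subgroup.zpowers a).index = 2) (hrel : y * a * y⁻¹ = a ^ (4 * k - 1)) :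
    commutator X = Subgroup.zpowers (a ^ (4 * k - 2)) ∧
      Nat.card (commutator X) = 2 ^ (m + 1) := by
  haveI : Fact (Nat.Prime 2) := ⟨Nat.prime_two⟩
  obtain ⟨h1, h2⟩ := kul_mc_comm_elt hX hidx hrel
  obtain ⟨j, hj, hcj⟩ := kul_comm_card hX (kul_mc_noncyc hX hidx hrel)
  have hle : Subgroup.zpowers (a ^ (4 * k - 2)) ≤ commutator X := by
    rw [Subgroup.zpowers_le, ← h1, _root_.commutator_def]
    exact Subgroup.commutator_mem_commutator (Subgroup.mem_top _) (Subgroup.mem_top _)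
  have hc1 := Subgroup.card_le_of_le hle
  rw [Nat.card_zpowers, h2, hcj] at hc1
  have hj' : m + 1 ≤ j := (Nat.pow_le_pow_iff_right (by norm_num)).mp hc1
  have hj2 : j = m + 1 := by omega
  subst hj2
  refine ⟨?_, hcj⟩
  refine (Subgroup.eq_of_le_of_card_ge hle ?_).symm
  rw [Nat.card_zpowers, h2, hcj]

theorem kul_mc_tk (hX : Nat.card X = 2 ^ (m + 3))
    (hidx : (Subgroup.zpowers a).index = 2) (hrel : y * a * y⁻¹ = a ^ (4 * k - 1)) :
    KulTK X := by
  unfold KulTK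
  rw [(kul_mc_comm hX hidx hrel).2, hX]
  ring

theorem kul_mc_class (hX : Nat.card X = 2 ^ (m + 3))
    (hidx : (Subgroup.zpowers a).index = 2) (hy : y ∉ Subgroup.zpowers a)
    (hrel : y * a * y⁻¹ = a ^ (4 * k - 1)) :
    Group.nilpotencyClass X = m + 2 := by
  haveI : Fact (Nat.Prime 2) := ⟨Nat.prime_two⟩
  haveI : Group.IsNilpotent X := (IsPGroup.of_card hX).isNilpotent
  -- lower bound
  have c1 : ∀ i : ℕ, a ^ ((4 * k - 2) ^ i) ∈ Subgroup.lowerCentralSeries (⊤ : Subgroup X) i := by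
    intro i
    induction i with
    | zero => exact Subgroup.mem_top _
    | succ i ih =>
      have hb' := kul_conj_zpow a y _ hrel _ (Subgroup.zpow_mem_zpowers a ((4 * k - 2) ^ i))
      have e : ⁅a ^ ((4 * k - 2) ^ i), y⁆ = (a ^ ((4 * k - 2) ^ (i + 1)))⁻¹ := by
        rw [commutatorElement_def]
        have e1 : a ^ ((4 * k - 2) ^ i) * y * (a ^ ((4 * k - 2) ^ i))⁻¹ * y⁻¹ =
            a ^ ((4 * k - 2) ^ i) * (y * a ^ ((4 * k - 2) ^ i) * y⁻¹)⁻¹ := by group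
        rw [e1, hb', ← zpow_neg, ← zpow_mul, ← zpow_add, ← zpow_neg]
        congr 1; ring
      have h1 : ⁅a ^ ((4 * k - 2) ^ i), y⁆ ∈ Subgroup.lowerCentralSeries (⊤ : Subgroup X) (i + 1) := by
        rw [Subgroup.lowerCentralSeries_succ]
        exact Subgroup.commutator_mem_commutator ih (Subgroup.mem_top _)
      rw [e] at h1
      simpa using Subgroup.inv_mem _ h1
  have c2 : a ^ ((4 * k - 2) ^ (m + 1)) ≠ 1 := by
    rw [Ne, kul_mc_zpow_one hX hidx]
    rintro ⟨c, hc⟩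
    have h1 : (4 * k - 2 : ℤ) ^ (m + 1) = 2 ^ (m + 1) * (2 * k - 1) ^ (m + 1) := by
      rw [← mul_pow]; congr 1; ring
    have h2 : (2 : ℤ) ^ (m + 1) * (2 * k - 1) ^ (m + 1) = 2 ^ (m + 1) * (2 * c) := by
      rw [← h1, hc]; ring
    have h3 := mul_left_cancel₀ (pow_ne_zero (m + 1) (two_ne_zero : (2 : ℤ) ≠ 0)) h2
    have h4 : Odd ((2 * k - 1 : ℤ) ^ (m + 1)) := Odd.pow ⟨k - 1, by ring⟩
    rw [h3] at h4
    exact (Int.not_odd_iff_even.mpr ⟨c, by ring⟩) h4
  have hlow : ¬ Group.nilpotencyClass X ≤ m + 1 := by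
    intro h
    have h1 := Subgroup.lowerCentralSeries_eq_bot_iff_nilpotencyClass_le.mpr h
    have h2 := c1 (m + 1)
    rw [h1, Subgroup.mem_bot] at h2
    exact c2 h2
  -- upper bound
  have c3 : ∀ i : ℕ, Subgroup.lowerCentralSeries (⊤ : Subgroup X) (i + 1) ≤
      Subgroup.zpowers (a ^ (2 ^ (i + 1))) := by
    intro i
    induction i with
    | zero =>
      have h0 : Subgroup.lowerCentralSeries (⊤ : Subgroup X) (0 + 1) = commutator X := rfl
      rw [h0, (kul_mc_comm hX hidx hrel).1, Subgroup.zpowers_le]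
      have : a ^ (4 * k - 2) = (a ^ (2 ^ (0 + 1))) ^ (2 * k - 1) := by
        rw [← zpow_natCast, ← zpow_mul]; congr 1; push_cast; ring
      rw [this]
      exact Subgroup.zpow_mem_zpowers _ _
    | succ i ih =>
      rw [Subgroup.lowerCentralSeries_succ, Subgroup.commutator_le]
      intro b hb g _
      obtain ⟨j, rfl⟩ := Subgroup.mem_zpowers_iff.mp (ih hb)
      have hbA : (a ^ (2 ^ (i + 1))) ^ j ∈ Subgroup.zpowers a :=
        Subgroup.zpow_mem _ (Subgroup.pow_mem _ (Subgroup.mem_zpowers a) _) _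
      by_cases hg : g ∈ Subgroup.zpowers a
      · have : ⁅(a ^ (2 ^ (i + 1))) ^ j, g⁆ = 1 :=
          commutatorElement_eq_one_iff_mul_comm.mpr (kul_zpowers_comm a _ hbA _ hg)
        rw [this]; exact Subgroup.one_mem _
      · have h1 := kul_mc_conj hidx hy hrel g hg _ hbA
        have e : ⁅(a ^ (2 ^ (i + 1))) ^ j, g⁆ = (a ^ (2 ^ (i + 1 + 1))) ^ (j * (1 - 2 * k)) := by
          rw [commutatorElement_def]
          have e1 : (a ^ (2 ^ (i + 1))) ^ j * g * ((a ^ (2 ^ (i + 1))) ^ j)⁻¹ * g⁻¹ =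
              (a ^ (2 ^ (i + 1))) ^ j * (g * (a ^ (2 ^ (i + 1))) ^ j * g⁻¹)⁻¹ := by group
          rw [e1, h1]
          simp only [← zpow_natCast, ← zpow_mul, ← zpow_neg, ← zpow_add]
          congr 1; push_cast; ring
        rw [e]
        exact Subgroup.zpow_mem_zpowers _ _
  have hup : Group.nilpotencyClass X ≤ m + 2 := by
    apply Subgroup.lowerCentralSeries_eq_bot_iff_nilpotencyClass_le.mp
    rw [eq_bot_iff]
    refine (c3 (m + 1)).trans ?_
    rw [Subgroup.zpowers_le, ← kul_mc_order hX hidx, pow_orderOf_eq_one]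
    exact Subgroup.one_mem _
  omega

end MC

end Cfsg.Agent.Helper26
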