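import Mathlib
import Cfsg.Agent.Helper26.Kul9

set_option autoImplicit false

namespace Cfsg.Agent.Helper26

open Subgroup
open scoped commutatorElement

universe u

/-- the commutator subgroup of a quotient -/
theorem kul_comm_quot {X : Type*} [Group X] (N : Subgroup X) [N.Normal] :
    commutator (X ⧸ N) = (commutator X).map (QuotientGroup.mk' N) := by
  rw [_root_.commutator_def, _root_.commutator_def, Subgroup.map_commutator,
    ← MonoidHom.range_eq_map, MonoidHom.range_eq_top.mpr (QuotientGroup.mk'_surjective N)]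

theorem kul_taussky_base (X : Type u) [Group X] [Finite X] (hX : Nat.card X = 2 ^ 3)
    (hTK : KulTK X) : KulMC X := by
  haveI : Fact (Nat.Prime 2) := ⟨Nat.prime_two⟩
  have hc2 : Nat.card (commutator X) = 2 := by
    unfold KulTK at hTK; rw [hX] at hTK; omega
  have hnab : ¬ ∀ g h : X, g * h = h * g := by
    intro hab
    have : commutator X = ⊥ := by
      rw [eq_bot_iff, _root_.commutator_def, Subgroup.commutator_le]
      intro g _ h _
      rw [Subgroup.mem_bot]
      exact commutatorElement_eq_one_iff_mul_comm.mpr (hab g h)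
    rw [this, Subgroup.card_bot] at hc2
    omega
  have hnc : ¬ IsCyclic X := by
    intro hc
    exact hnab (isMulCommutative_iff.mp inferInstance)
  have h4 : ∀ h : X, h ^ 4 = 1 := by
    intro h
    have := kul_order_dvd hX hnc h
    simpa using this
  obtain ⟨a, ha⟩ : ∃ a : X, a ^ 2 ≠ 1 := by
    by_contra hcon
    push_neg at hcon
    apply hnab
    intro g h
    have hg : g⁻¹ = g := inv_eq_of_mul_eq_one_left (by rw [← pow_two]; exact hcon g)
    have hh : h⁻¹ = h := inv_eq_of_mul_eq_one_left (by rw [← pow_two]; exact hcon h)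
    have hgh : (g * h)⁻¹ = g * h :=
      inv_eq_of_mul_eq_one_left (by rw [← pow_two]; exact hcon (g * h))
    rw [mul_inv_rev, hg, hh] at hgh
    exact hgh.symm
  have hord : orderOf a = 4 := by
    have := orderOf_eq_prime_pow (p := 2) (n := 1) (x := a) (by simpa using ha)
      (by simpa using h4 a)
    simpa using this
  have hidx : (Subgroup.zpowers a).index = 2 := by
    have h1 := Subgroup.card_mul_index (Subgroup.zpowers a)
    rw [hX, Nat.card_zpowers, hord] at h1
    omega
  haveI hn : (Subgroup.zpowers a).Normal := Subgroup.normal_of_index_eq_two hidx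
  obtain ⟨y, hy⟩ : ∃ y : X, y ∉ Subgroup.zpowers a := by
    by_contra hcon
    push_neg at hcon
    have : Subgroup.zpowers a = ⊤ := eq_top_iff.mpr fun x _ => hcon x
    rw [this, Subgroup.index_top] at hidx
    omega
  have hconj : y * a * y⁻¹ ∈ Subgroup.zpowers a := hn.conj_mem a (Subgroup.mem_zpowers a) y
  obtain ⟨i, hi⟩ := Subgroup.mem_zpowers_iff.mp hconj
  have hi' : a ^ (i % 4) = y * a * y⁻¹ := by
    rw [← hi, ← zpow_mod_orderOf a i, hord]; rfl
  have hr0 : 0 ≤ i % 4 := Int.emod_nonneg _ (by norm_num)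
  have hr4 : i % 4 < 4 := Int.emod_lt_of_pos _ (by norm_num)
  have ha1 : a ≠ 1 := by rintro rfl; exact ha (one_pow 2)
  have hcases : i % 4 = 0 ∨ i % 4 = 1 ∨ i % 4 = 2 ∨ i % 4 = 3 := by omega
  rcases hcases with h | h | h | h
  · exfalso
    rw [h, zpow_zero] at hi'
    have : a = 1 := by
      have h1 : y⁻¹ * (y * a * y⁻¹) * y = a := by group
      rw [← hi'] at h1
      rw [← h1]; group
    exact ha1 this
  · exfalso
    rw [h, zpow_one] at hi'
    have hya : y * a = a * y := by
      calc y * a = (y * a * y⁻¹) * y := by group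
        _ = a * y := by rw [← hi']
    obtain ⟨h1, -⟩ := kul_ab_idx2 (Subgroup.zpowers a) hidx (kul_zpowers_comm a) hy
    have h2 : Subgroup.zpowers a ⊓ Subgroup.centralizer {y} = Subgroup.zpowers a := by
      apply inf_eq_left.mpr
      rw [Subgroup.zpowers_le, Subgroup.mem_centralizer_iff]
      intro h hh
      rw [Set.mem_singleton_iff] at hh
      subst hh
      exact hya
    rw [h2, hc2, Nat.card_zpowers, hord] at h1
    omega
  · exfalso
    rw [h] at hi'
    have h1 : (y * a * y⁻¹) ^ 2 = 1 := by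
      rw [← hi', ← zpow_natCast, ← zpow_mul]
      have : (2 : ℤ) * ((2 : ℕ) : ℤ) = ((4 : ℕ) : ℤ) := by norm_num
      rw [this, zpow_natCast]; exact h4 a
    rw [conj_pow] at h1
    apply ha
    calc a ^ 2 = y⁻¹ * (y * a ^ 2 * y⁻¹) * y := by group
      _ = 1 := by rw [h1]; group
  · refine ⟨a, y, hidx, hy, 1, ?_⟩
    rw [← hi', h]; norm_num

/-- **Taussky**: a `2`-group of order `≥ 8` with `|X : X'| = 4` has a cyclic subgroup of index
two on which an outside element acts by an exponent `≡ 3 (mod 4)` -/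
theorem kul_taussky : ∀ (m : ℕ) (X : Type u) [Group X] [Finite X],
    Nat.card X = 2 ^ (m + 3) → KulTK X → KulMC X := by
  intro m
  induction m with
  | zero => intro X _ _ hX hTK; exact kul_taussky_base X hX hTK
  | succ m ih =>
    intro X _ _ hX hTK
    haveI : Fact (Nat.Prime 2) := ⟨Nat.prime_two⟩
    have hcX : Nat.card (commutator X) = 2 ^ (m + 2) := by
      unfold KulTK at hTK
      rw [hX] at hTK
      have : (2 : ℕ) ^ (m + 1 + 3) = 2 ^ (m + 2) * 4 := by ring
      rw [this] at hTK
      exact Nat.eq_of_mul_eq_mul_right (by norm_num) hTK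
    have hne : commutator X ≠ ⊥ := by
      intro h
      rw [h, Subgroup.card_bot] at hcX
      have : 1 < 2 ^ (m + 2) := Nat.one_lt_two_pow (by omega)
      omega
    obtain ⟨z0, hz0N, hz01, hz0c⟩ :=
      kul_normal_inf_center 2 (IsPGroup.of_card hX) (commutator X) hne
    obtain ⟨z, hzN, hzc, hz1, hz2⟩ :
        ∃ z : X, z ∈ commutator X ∧ z ∈ Subgroup.center X ∧ z ≠ 1 ∧ z ^ 2 = 1 := by
      have h1 : orderOf z0 ∣ 2 ^ (m + 1 + 3) := hX ▸ orderOf_dvd_natCard z0
      obtain ⟨s, -, hs⟩ := (Nat.dvd_prime_pow Nat.prime_two).mp h1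
      have hs0 : s ≠ 0 := by
        rintro rfl
        rw [pow_zero, orderOf_eq_one_iff] at hs
        exact hz01 hs
      obtain ⟨s', rfl⟩ : ∃ s', s = s' + 1 := ⟨s - 1, by omega⟩
      refine ⟨z0 ^ (2 ^ s'), Subgroup.pow_mem _ hz0N _, Subgroup.pow_mem _ hz0c _, ?_, ?_⟩
      · intro h
        have h2 := orderOf_dvd_of_pow_eq_one h
        rw [hs] at h2
        have := (Nat.pow_dvd_pow_iff_le_right (by norm_num : 1 < 2)).mp h2
        omega
      · rw [← pow_mul, ← pow_succ, ← hs, pow_orderOf_eq_one]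
    have hzcomm : ∀ g : X, g * z = z * g := Subgroup.mem_center_iff.mp hzc
    have hzj : ∀ (j : ℤ) (g : X), g * z ^ j = z ^ j * g := fun j g =>
      Subgroup.mem_center_iff.mp (Subgroup.zpow_mem _ hzc j) g
    have hzord : orderOf z = 2 := orderOf_eq_prime hz2 hz1
    haveI hZn : (Subgroup.zpowers z).Normal := by
      refine ⟨fun w hw g => ?_⟩
      obtain ⟨j, rfl⟩ := Subgroup.mem_zpowers_iff.mp hw
      rw [hzj j g, mul_inv_cancel_right]
      exact Subgroup.zpow_mem_zpowers z j
    have hZcard : Nat.card (Subgroup.zpowers z) = 2 := by rw [Nat.card_zpowers, hzord]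
    have hZle : Subgroup.zpowers z ≤ commutator X := Subgroup.zpowers_le.mpr hzN
    have hQcard : Nat.card (X ⧸ Subgroup.zpowers z) = 2 ^ (m + 3) := by
      have h1 := Subgroup.card_eq_card_quotient_mul_card_subgroup (Subgroup.zpowers z)
      rw [hX, hZcard] at h1
      have : (2 : ℕ) ^ (m + 1 + 3) = 2 ^ (m + 3) * 2 := by ring
      rw [this] at h1
      exact (Nat.eq_of_mul_eq_mul_right (by norm_num) h1).symm
    have hQTK : KulTK (X ⧸ Subgroup.zpowers z) := by
      unfold KulTK
      have h1 := kul_card_map_mk (Subgroup.zpowers z) (commutator X) hZle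
      rw [← kul_comm_quot, hZcard, hcX] at h1
      rw [hQcard]
      have : (2 : ℕ) ^ (m + 2) = 2 ^ (m + 1) * 2 := by ring
      rw [this] at h1
      have h2 := Nat.eq_of_mul_eq_mul_right (by norm_num) h1
      rw [h2]; ring
    obtain ⟨a', y', hidx', hy', k, hrel'⟩ := ih (X ⧸ Subgroup.zpowers z) hQcard hQTK
    obtain ⟨π, hπ⟩ : ∃ π : X →* X ⧸ Subgroup.zpowers z,
        π = QuotientGroup.mk' (Subgroup.zpowers z) := ⟨_, rfl⟩
    have hπs : Function.Surjective π := by rw [hπ]; exact QuotientGroup.mk'_surjective _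
    have hπker : ∀ x : X, π x = 1 ↔ x ∈ Subgroup.zpowers z := by
      intro x; rw [hπ]; exact QuotientGroup.eq_one_iff x
    have hπeq : ∀ x x' : X, π x = π x' → ∃ j : ℤ, x' = x * z ^ j := by
      intro x x' h
      have h1 : π (x⁻¹ * x') = 1 := by rw [map_mul, map_inv, h, inv_mul_cancel]
      obtain ⟨j, hj⟩ := Subgroup.mem_zpowers_iff.mp ((hπker _).mp h1)
      exact ⟨j, by rw [hj]; group⟩
    obtain ⟨a, rfl⟩ := hπs a'
    obtain ⟨y, rfl⟩ := hπs y'
    obtain ⟨B, hB⟩ : ∃ B : Subgroup X, B = (Subgroup.zpowers (π a)).comap π := ⟨_, rfl⟩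
    have hBidx : B.index = 2 := by
      rw [hB, Subgroup.index_comap_of_surjective _ hπs]; exact hidx'
    have hBmem : ∀ b : X, b ∈ B ↔ π b ∈ Subgroup.zpowers (π a) := by
      intro b; rw [hB]; exact Subgroup.mem_comap
    have hBelt : ∀ b ∈ B, ∃ i j : ℤ, b = a ^ i * z ^ j := by
      intro b hb
      obtain ⟨i, hi⟩ := Subgroup.mem_zpowers_iff.mp ((hBmem b).mp hb)
      rw [← map_zpow] at hi
      obtain ⟨j, hj⟩ := hπeq _ _ hi
      exact ⟨i, j, hj⟩
    have haB : a ∈ B := (hBmem a).mpr (Subgroup.mem_zpowers _)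
    have hzB : z ∈ B := by
      rw [hBmem, (hπker z).mpr (Subgroup.mem_zpowers z)]; exact Subgroup.one_mem _
    have hyB : y ∉ B := fun h => hy' ((hBmem y).mp h)
    have hab : ∀ b ∈ B, ∀ b' ∈ B, b * b' = b' * b := by
      intro b hb b' hb'
      obtain ⟨i, j, rfl⟩ := hBelt b hb
      obtain ⟨i', j', rfl⟩ := hBelt b' hb'
      have h1 : Commute (a ^ i) (a ^ i' * z ^ j') :=
        ((Commute.refl a).zpow_zpow i i').mul_right (hzj j' (a ^ i))
      have h2 : Commute (z ^ j) (a ^ i' * z ^ j') :=
        (Commute.symm (hzj j (a ^ i'))).mul_right ((Commute.refl z).zpow_zpow j j')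
      exact (h1.mul_left h2).eq
    obtain ⟨ε, hε⟩ : ∃ ε : ℤ, y * a * y⁻¹ = a ^ (4 * k - 1) * z ^ ε := by
      have h1 : π (a ^ (4 * k - 1)) = π (y * a * y⁻¹) := by
        rw [map_zpow, map_mul, map_mul, map_inv]; exact hrel'.symm
      exact hπeq _ _ h1
    have hordQ : orderOf (π a) = 2 ^ (m + 2) := kul_mc_order hQcard hidx'
    have hpowZ : a ^ (2 ^ (m + 2)) ∈ Subgroup.zpowers z := by
      rw [← hπker, map_pow, ← hordQ, pow_orderOf_eq_one]
    obtain ⟨j0, hj0⟩ := Subgroup.mem_zpowers_iff.mp hpowZ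
    have hBcard : Nat.card B = 2 ^ (m + 3) := by
      have h1 := Subgroup.card_mul_index B
      rw [hBidx, hX] at h1
      have : (2 : ℕ) ^ (m + 1 + 3) = 2 ^ (m + 3) * 2 := by ring
      rw [this] at h1
      exact Nat.eq_of_mul_eq_mul_right (by norm_num) h1
    rcases kul_zpow_two_cases z hz2 j0 with hcase | hcase
    · exfalso
      rw [hcase] at hj0
      obtain ⟨t, ht⟩ : ∃ t : X, t = a ^ (2 ^ (m + 1)) := ⟨_, rfl⟩
      have ht2 : t ^ 2 = 1 := by
        rw [ht, ← pow_mul, ← pow_succ]; exact hj0.symm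
      have htZ : t ∉ Subgroup.zpowers z := by
        intro h
        have h1 := (hπker t).mpr h
        rw [ht, map_pow] at h1
        have h2 := orderOf_dvd_of_pow_eq_one h1
        rw [hordQ] at h2
        have := (Nat.pow_dvd_pow_iff_le_right (by norm_num : 1 < 2)).mp h2
        omega
      have htB : t ∈ B := by rw [ht]; exact Subgroup.pow_mem _ haB _
      have hyt : y * t = t * y := by
        have h1 : y * t * y⁻¹ = t := by
          have hc : Commute (a ^ (4 * k - 1)) (z ^ ε) := hzj ε (a ^ (4 * k - 1))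
          have e0 : (z ^ ε) ^ 2 = 1 := by
            rcases kul_zpow_two_cases z hz2 ε with h | h <;> rw [h]
            · exact one_pow 2
            · exact hz2
          have e1 : (z ^ ε) ^ (2 ^ (m + 1)) = 1 := by
            rw [pow_succ', pow_mul, e0, one_pow]
          have e2 : (a ^ (4 * k - 1)) ^ (2 ^ (m + 1)) = t ^ (4 * k - 1) := by
            rw [ht]
            simp only [← zpow_natCast, ← zpow_mul]
            congr 1; ring
          have e3 : t ^ (4 * k - 1) = t := by
            have ht2' : t ^ (2 : ℤ) = 1 := by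
              rw [show (2 : ℤ) = ((2 : ℕ) : ℤ) from rfl, zpow_natCast]; exact ht2
            have : (4 * k - 1 : ℤ) = 2 * (2 * k - 1) + 1 := by ring
            rw [this, zpow_add, zpow_mul, ht2', one_zpow, one_mul, zpow_one]
          have e4 : y * t * y⁻¹ = (y * a * y⁻¹) ^ (2 ^ (m + 1)) := by
            rw [ht, conj_pow]
          rw [e4, hε, hc.mul_pow, e1, mul_one, e2, e3]
        calc y * t = (y * t * y⁻¹) * y := by group
          _ = t * y := by rw [h1]
      obtain ⟨h1, -⟩ := kul_ab_idx2 B hBidx hab hyB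
      have hZW : Subgroup.zpowers z ≤ B ⊓ Subgroup.centralizer {y} := by
        rw [Subgroup.zpowers_le]
        refine Subgroup.mem_inf.mpr ⟨hzB, ?_⟩
        rw [Subgroup.mem_centralizer_iff]
        intro h hh; rw [Set.mem_singleton_iff] at hh; subst hh
        exact hzcomm h
      have htW : t ∈ B ⊓ Subgroup.centralizer {y} := by
        refine Subgroup.mem_inf.mpr ⟨htB, ?_⟩
        rw [Subgroup.mem_centralizer_iff]
        intro h hh; rw [Set.mem_singleton_iff] at hh; subst hh
        exact hyt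
      have hWgt : 2 < Nat.card (B ⊓ Subgroup.centralizer {y} : Subgroup X) := by
        rcases Nat.lt_or_ge 2 (Nat.card (B ⊓ Subgroup.centralizer {y} : Subgroup X)) with h | h
        · exact h
        · exfalso
          have := Subgroup.eq_of_le_of_card_ge hZW (by rw [hZcard]; exact h)
          exact htZ (this ▸ htW)
      rw [hcX, hBcard] at h1
      have h3 : (2 : ℕ) ^ (m + 3) = 2 ^ (m + 2) * 2 := by ring
      rw [h3] at h1
      have := Nat.eq_of_mul_eq_mul_left (by positivity) h1
      omega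
    · rw [hcase] at hj0
      have hBeq : Subgroup.zpowers a = B := by
        apply le_antisymm
        · rw [Subgroup.zpowers_le]; exact haB
        · intro b hb
          obtain ⟨i, j, rfl⟩ := hBelt b hb
          refine Subgroup.mul_mem _ (Subgroup.zpow_mem_zpowers a i) (Subgroup.zpow_mem _ ?_ j)
          rw [hj0]; exact Subgroup.pow_mem _ (Subgroup.mem_zpowers a) _
      refine ⟨a, y, by rw [hBeq]; exact hBidx, by rw [hBeq]; exact hyB, ?_⟩
      rcases kul_zpow_two_cases z hz2 ε with h | h
      · exact ⟨k, by rw [hε, h, mul_one]⟩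
      · refine ⟨k + 2 ^ m, ?_⟩
        rw [hε, h]
        conv_lhs => rw [hj0]
        rw [← zpow_natCast a, ← zpow_add]
        congr 1; push_cast; ring

end Cfsg.Agent.Helper26
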