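import Mathlib
import Cfsg.Agent.Helper26.Kul10
import Cfsg.Agent.Helper26.Kul7

set_option autoImplicit false

namespace Cfsg.Agent.Helper26

open Subgroup
open scoped commutatorElement

universe u

/-- free left multiplication action: the order of the group divides the size of an invariant set -/
theorem kul_free_dvd {X : Type*} [Group X] [Finite X] (Γ : Subgroup X) (T : X → Prop)
    (hT : ∀ g ∈ Γ, ∀ x, T x → T (g * x)) : Nat.card Γ ∣ Nat.card {x : X // T x} := by
  classical
  letI : MulAction Γ {x : X // T x} :=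
    { smul := fun g x => ⟨(g : X) * x.1, hT g g.2 x.1 x.2⟩
      one_smul := fun x => Subtype.ext (one_mul _)
      mul_smul := fun g h x => Subtype.ext (mul_assoc _ _ _) }
  haveI : Fintype {x : X // T x} := Fintype.ofFinite _
  have hstab : ∀ z : {x : X // T x}, MulAction.stabilizer Γ z = ⊥ := by
    intro z
    rw [eq_bot_iff]
    intro g hg
    have h1 : g • z = z := MulAction.mem_stabilizer_iff.mp hg
    have h2 : (g : X) * z.1 = z.1 := congrArg Subtype.val h1
    rw [Subgroup.mem_bot]
    apply Subtype.ext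
    exact mul_right_cancel (h2.trans (one_mul _).symm)
  have h := kul_orbit_sum (Γ := Γ) (Z := {x : X // T x}) (fun _ => 1) (fun _ _ => rfl)
    (Nat.card Γ) (fun z => by rw [hstab z, Subgroup.index_bot, mul_one])
  rw [Finset.sum_const, Finset.card_univ, smul_eq_mul, mul_one, ← Nat.card_eq_fintype_card] at h
  exact h

/-- counting subgroups through a quotient by a normal subgroup of order two contained in all of
them -/
theorem kul_quot_count {X : Type*} [Group X] [Finite X] (Z : Subgroup X) [Z.Normal]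
    (hZ : Nat.card Z = 2) (e : ℕ) (he : 1 ≤ e)
    (hall : ∀ H : Subgroup X, Nat.card H = 2 ^ e → Z ≤ H) :
    Nat.card {H : Subgroup X // Nat.card H = 2 ^ e} =
      Nat.card {H' : Subgroup (X ⧸ Z) // Nat.card H' = 2 ^ (e - 1)} := by
  have hpow : (2 : ℕ) ^ e = 2 ^ (e - 1) * 2 := by
    rw [← pow_succ]; congr 1; omega
  refine Nat.card_congr ?_
  exact
    { toFun := fun H => ⟨H.1.map (QuotientGroup.mk' Z), by
        have h1 := kul_card_map_mk Z H.1 (hall H.1 H.2)
        have h2 : Nat.card H.1 = 2 ^ (e - 1) * 2 := H.2.trans hpow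
        rw [hZ] at h1
        exact Nat.eq_of_mul_eq_mul_right (by norm_num) (h1.trans h2)⟩
      invFun := fun H' => ⟨H'.1.comap (QuotientGroup.mk' Z), by
        have h1 := kul_card_comap_mk Z H'.1
        rw [hZ] at h1
        exact h1.trans ((congrArg (· * 2) H'.2).trans hpow.symm)⟩
      left_inv := fun H => Subtype.ext (Subgroup.comap_map_eq_self (by
        rw [QuotientGroup.ker_mk']; exact hall H.1 H.2))
      right_inv := fun H' => Subtype.ext
        (Subgroup.map_comap_eq_self_of_surjective (QuotientGroup.mk'_surjective Z) H'.1) }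

theorem kul_zpow_4k {X : Type*} [Group X] (t : X) (ht : t ^ 2 = 1) (k : ℤ) :
    t ^ (4 * k - 1) = t := by
  have ht2' : t ^ (2 : ℤ) = 1 := by
    rw [show (2 : ℤ) = ((2 : ℕ) : ℤ) from rfl, zpow_natCast]; exact ht
  have : (4 * k - 1 : ℤ) = 2 * (2 * k - 1) + 1 := by ring
  rw [this, zpow_add, zpow_mul, ht2', one_zpow, one_mul, zpow_one]

section MC

variable {X : Type u} [Group X] [Finite X] {m : ℕ} {a y : X} {k : ℤ}

theorem kul_mc_z_sq (hX : Nat.card X = 2 ^ (m + 3)) (hidx : (Subgroup.zpowers a).index = 2) :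
    (a ^ (2 ^ (m + 1))) ^ 2 = 1 ∧ a ^ (2 ^ (m + 1)) ≠ 1 := by
  refine ⟨?_, ?_⟩
  · rw [← pow_mul, ← pow_succ, ← kul_mc_order hX hidx, pow_orderOf_eq_one]
  · intro h
    have h2 := orderOf_dvd_of_pow_eq_one h
    rw [kul_mc_order hX hidx] at h2
    have := (Nat.pow_dvd_pow_iff_le_right (by norm_num : 1 < 2)).mp h2
    omega

/-- the unique involution of the cyclic subgroup -/
theorem kul_mc_invol (hX : Nat.card X = 2 ^ (m + 3)) (hidx : (Subgroup.zpowers a).index = 2) :
    ∀ w ∈ Subgroup.zpowers a, w ^ 2 = 1 → w ≠ 1 → w = a ^ (2 ^ (m + 1)) := by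
  intro w hw hw2 hw1
  obtain ⟨i, rfl⟩ := Subgroup.mem_zpowers_iff.mp hw
  have h1 : a ^ (i * 2) = 1 := by rw [zpow_mul, zpow_ofNat]; exact hw2
  obtain ⟨c, hc⟩ := (kul_mc_zpow_one hX hidx _).mp h1
  have h2 : i = 2 ^ (m + 1) * c := by
    have h3 : i * 2 = (2 ^ (m + 1) * c) * 2 := by rw [hc]; ring
    exact mul_right_cancel₀ (two_ne_zero) h3
  have h4 : a ^ i = (a ^ (2 ^ (m + 1))) ^ c := by
    rw [h2, zpow_mul]
    congr 1
    rw [← zpow_natCast]
    push_cast
    rfl
  rcases kul_zpow_two_cases _ (kul_mc_z_sq hX hidx).1 c with h | h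
  · exact absurd (h4.trans h) hw1
  · exact h4.trans h

theorem kul_mc_z_central (hX : Nat.card X = 2 ^ (m + 3))
    (hidx : (Subgroup.zpowers a).index = 2) (hy : y ∉ Subgroup.zpowers a)
    (hrel : y * a * y⁻¹ = a ^ (4 * k - 1)) :
    ∀ g : X, g * a ^ (2 ^ (m + 1)) = a ^ (2 ^ (m + 1)) * g := by
  intro g
  have hzA : a ^ (2 ^ (m + 1)) ∈ Subgroup.zpowers a :=
    Subgroup.pow_mem _ (Subgroup.mem_zpowers a) _
  by_cases hg : g ∈ Subgroup.zpowers a
  · exact kul_zpowers_comm a g hg _ hzA
  · have h1 := kul_mc_conj hidx hy hrel g hg _ hzA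
    rw [kul_zpow_4k _ (kul_mc_z_sq hX hidx).1] at h1
    calc g * a ^ (2 ^ (m + 1)) = (g * a ^ (2 ^ (m + 1)) * g⁻¹) * g := by group
      _ = a ^ (2 ^ (m + 1)) * g := by rw [h1]

/-- the number of subgroups of order two is `≡ 1 (mod 4)` -/
theorem kul_mc_count_one (hX : Nat.card X = 2 ^ (m + 3))
    (hidx : (Subgroup.zpowers a).index = 2) (hy : y ∉ Subgroup.zpowers a)
    (hrel : y * a * y⁻¹ = a ^ (4 * k - 1)) :
    Nat.card {H : Subgroup X // Nat.card H = 2 ^ 1} ≡ 1 [MOD 4] := by
  haveI : Fact (Nat.Prime 2) := ⟨Nat.prime_two⟩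
  have hord := kul_mc_order hX hidx
  have hsplit := kul_card_split (fun H : Subgroup X => Nat.card H = 2 ^ 1)
    (fun H : Subgroup X => H ≤ Subgroup.zpowers a)
  -- inside A
  have hin : Nat.card {H : Subgroup X // Nat.card H = 2 ^ 1 ∧ H ≤ Subgroup.zpowers a} = 1 := by
    have e1 : Nat.card {H : Subgroup X // Nat.card H = 2 ^ 1 ∧ H ≤ Subgroup.zpowers a} =
        Nat.card {H : Subgroup X // H ≤ Subgroup.zpowers a ∧ Nat.card H = 2 ^ 1} :=
      Nat.card_congr (Equiv.subtypeEquivRight fun H => and_comm)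
    rw [e1, kul_transfer]
    have hAcard : Nat.card (Subgroup.zpowers a) = 2 ^ (m + 2) := by rw [Nat.card_zpowers, hord]
    exact kul_cyclic_count hAcard inferInstance 1 (by omega)
  -- outside A
  have hout : 4 ∣ Nat.card {H : Subgroup X // Nat.card H = 2 ^ 1 ∧ ¬ H ≤ Subgroup.zpowers a} := by
    have e1 : Nat.card {x : X // x ∉ Subgroup.zpowers a ∧ x ^ 2 = 1} =
        Nat.card {H : Subgroup X // Nat.card H = 2 ^ 1 ∧ ¬ H ≤ Subgroup.zpowers a} := by
      have hx1 : ∀ x : X, x ∉ Subgroup.zpowers a → x ≠ 1 := by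
        rintro x hx rfl; exact hx (Subgroup.one_mem _)
      refine Nat.card_congr (Equiv.ofBijective
        (fun x => ⟨Subgroup.zpowers x.1, by
          rw [Nat.card_zpowers, orderOf_eq_prime x.2.2 (hx1 x.1 x.2.1)]; rfl,
          fun h => x.2.1 (h (Subgroup.mem_zpowers x.1))⟩) ⟨?_, ?_⟩)
      · intro x x' h
        have h1 : Subgroup.zpowers x.1 = Subgroup.zpowers x'.1 := congrArg Subtype.val h
        have h2 : x'.1 ∈ Subgroup.zpowers x.1 := h1 ▸ Subgroup.mem_zpowers x'.1
        obtain ⟨j, hj⟩ := Subgroup.mem_zpowers_iff.mp h2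
        apply Subtype.ext
        rcases kul_zpow_two_cases x.1 x.2.2 j with h3 | h3
        · exact absurd (hj.symm.trans h3) (hx1 x'.1 x'.2.1)
        · exact (hj.symm.trans h3).symm
      · rintro ⟨H, hH, hHA⟩
        obtain ⟨x, hxH, hxA⟩ := SetLike.not_le_iff_exists.mp hHA
        have h1 : orderOf x ∣ 2 := by
          have := orderOf_dvd_natCard (⟨x, hxH⟩ : H)
          rwa [Subgroup.orderOf_mk, hH, pow_one] at this
        have hx2 : x ^ 2 = 1 := orderOf_dvd_iff_pow_eq_one.mp h1
        refine ⟨⟨x, hxA, hx2⟩, Subtype.ext ?_⟩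
        show Subgroup.zpowers x = H
        refine Subgroup.eq_of_le_of_card_ge (Subgroup.zpowers_le.mpr hxH) ?_
        rw [Nat.card_zpowers, orderOf_eq_prime hx2 (hx1 x hxA), hH, pow_one]
    rw [← e1]
    -- free action of a cyclic group of order four
    obtain ⟨v, hv⟩ : ∃ v : X, v = a ^ (2 ^ m) := ⟨_, rfl⟩
    have hv4 : v ^ 4 = 1 := by
      rw [hv, ← pow_mul]
      have : 2 ^ m * 4 = 2 ^ (m + 2) := by ring
      rw [this, ← hord, pow_orderOf_eq_one]
    have hv2 : ¬ v ^ 2 = 1 := by
      rw [hv, ← pow_mul, ← pow_succ]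
      exact (kul_mc_z_sq hX hidx).2
    have hvord : orderOf v = 4 := by
      have := orderOf_eq_prime_pow (p := 2) (n := 1) (x := v) (by simpa using hv2)
        (by simpa using hv4)
      simpa using this
    have hvA : Subgroup.zpowers v ≤ Subgroup.zpowers a := by
      rw [Subgroup.zpowers_le, hv]; exact Subgroup.pow_mem _ (Subgroup.mem_zpowers a) _
    have hdvd := kul_free_dvd (Subgroup.zpowers v)
      (fun x : X => x ∉ Subgroup.zpowers a ∧ x ^ 2 = 1) (by
        intro g hg x hx
        have hgA := hvA hg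
        refine ⟨fun h => hx.1 ?_, ?_⟩
        · have : x = g⁻¹ * (g * x) := by group
          rw [this]
          exact Subgroup.mul_mem _ (Subgroup.inv_mem _ hgA) h
        · have h1 := kul_mc_conj hidx hy hrel x hx.1 g hgA
          have hg4 : g ^ 4 = 1 := by
            obtain ⟨j, rfl⟩ := Subgroup.mem_zpowers_iff.mp hg
            rw [← zpow_natCast, ← zpow_mul, mul_comm, zpow_mul, zpow_natCast, hv4, one_zpow]
          calc (g * x) ^ 2 = g * (x * g * x⁻¹) * x ^ 2 := by rw [pow_two, pow_two]; group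
            _ = g * g ^ (4 * k - 1) := by rw [h1, hx.2, mul_one]
            _ = g ^ (4 * k) := by rw [← zpow_one_add]; congr 1; ring
            _ = 1 := by rw [zpow_mul, zpow_ofNat, hg4, one_zpow])
    rwa [Nat.card_zpowers, hvord] at hdvd
  rw [hsplit, hin]
  obtain ⟨c, hc⟩ := hout
  rw [hc]
  exact (Nat.modEq_iff_dvd' (by omega)).mpr ⟨c, by omega⟩ |>.symm

end MC

/-- in a `2`-group of maximal class of order `2 ^ n`, `n ≥ 3`, the number of subgroups of order
`2 ^ e`, `1 ≤ e ≤ n - 2`, is `≡ 1 (mod 4)` -/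
theorem kul_mc_count : ∀ (m : ℕ) (X : Type u) [Group X] [Finite X], Nat.card X = 2 ^ (m + 3) →
    KulMC X → ∀ e : ℕ, 1 ≤ e → e + 2 ≤ m + 3 →
      Nat.card {H : Subgroup X // Nat.card H = 2 ^ e} ≡ 1 [MOD 4] := by
  intro m
  induction m with
  | zero =>
    intro X _ _ hX hMC e he1 he2
    obtain ⟨a, y, hidx, hy, k, hrel⟩ := hMC
    have : e = 1 := by omega
    subst this
    exact kul_mc_count_one hX hidx hy hrel
  | succ m ih =>
    intro X _ _ hX hMC e he1 he2
    obtain ⟨a, y, hidx, hy, k, hrel⟩ := hMC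
    rcases Nat.lt_or_ge e 2 with h | h
    · have : e = 1 := by omega
      subst this
      exact kul_mc_count_one hX hidx hy hrel
    · obtain ⟨z, hz⟩ : ∃ z : X, z = a ^ (2 ^ (m + 1 + 1)) := ⟨_, rfl⟩
      obtain ⟨hz2, hz1⟩ := kul_mc_z_sq hX hidx
      have hzc := kul_mc_z_central hX hidx hy hrel
      rw [← hz] at hz2 hz1 hzc
      have hzA : z ∈ Subgroup.zpowers a := by
        rw [hz]; exact Subgroup.pow_mem _ (Subgroup.mem_zpowers a) _
      have hzj : ∀ (j : ℤ) (g : X), g * z ^ j = z ^ j * g := fun j g =>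
        Subgroup.mem_center_iff.mp (Subgroup.zpow_mem _ (Subgroup.mem_center_iff.mpr hzc) j) g
      haveI hZn : (Subgroup.zpowers z).Normal := by
        refine ⟨fun w hw g => ?_⟩
        obtain ⟨j, rfl⟩ := Subgroup.mem_zpowers_iff.mp hw
        rw [hzj j g, mul_inv_cancel_right]
        exact Subgroup.zpow_mem_zpowers z j
      have hZcard : Nat.card (Subgroup.zpowers z) = 2 := by
        rw [Nat.card_zpowers, orderOf_eq_prime hz2 hz1]
      haveI hAn : (Subgroup.zpowers a).Normal := Subgroup.normal_of_index_eq_two hidx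
      -- every subgroup of order `2 ^ e` contains `z`
      have hall : ∀ H : Subgroup X, Nat.card H = 2 ^ e → Subgroup.zpowers z ≤ H := by
        intro H hH
        have hH4 : 2 < Nat.card H := by
          rw [hH]
          calc 2 < 2 ^ 2 := by norm_num
            _ ≤ 2 ^ e := Nat.pow_le_pow_right (by norm_num) h
        -- a nontrivial element of `H ⊓ A`
        obtain ⟨x, hxH, hxA, hx1⟩ : ∃ x ∈ H, x ∈ Subgroup.zpowers a ∧ x ≠ 1 := by
          haveI : Nontrivial H := Finite.one_lt_card_iff_nontrivial.mp (by omega)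
          obtain ⟨h0, hh0⟩ := exists_ne (1 : H)
          have hh01 : (h0 : X) ≠ 1 := fun hh => hh0 (Subtype.ext hh)
          by_cases hA : (h0 : X) ∈ Subgroup.zpowers a
          · exact ⟨h0, h0.2, hA, hh01⟩
          · have hsq : (h0 : X) * h0 ∈ Subgroup.zpowers a :=
              (Subgroup.mul_mem_iff_of_index_two hidx).mpr ⟨fun hh => absurd hh hA,
                fun hh => absurd hh hA⟩
            by_cases hsq1 : (h0 : X) * h0 = 1
            · -- find another element
              have hlt : Nat.card (Subgroup.zpowers (h0 : X)) < Nat.card H := by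
                rw [Nat.card_zpowers, orderOf_eq_prime (by rw [pow_two]; exact hsq1) hh01]
                exact hH4
              obtain ⟨h', hh'H, hh'⟩ : ∃ h' ∈ H, h' ∉ Subgroup.zpowers (h0 : X) := by
                by_contra hcon
                push_neg at hcon
                have hle : H ≤ Subgroup.zpowers (h0 : X) := fun w hw => hcon w hw
                have := Subgroup.card_le_of_le hle
                omega
              by_cases hA' : h' ∈ Subgroup.zpowers a
              · refine ⟨h', hh'H, hA', ?_⟩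
                rintro rfl
                exact hh' (Subgroup.one_mem _)
              · refine ⟨(h0 : X) * h', H.mul_mem h0.2 hh'H,
                  (Subgroup.mul_mem_iff_of_index_two hidx).mpr ⟨fun hh => absurd hh hA,
                    fun hh => absurd hh hA'⟩, ?_⟩
                intro hh
                apply hh'
                have : h' = (h0 : X)⁻¹ := eq_inv_of_mul_eq_one_right hh
                rw [this]
                exact Subgroup.inv_mem _ (Subgroup.mem_zpowers _)
            · exact ⟨(h0 : X) * h0, H.mul_mem h0.2 h0.2, hsq, hsq1⟩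
        -- the involution in `⟨x⟩`
        have h1 : orderOf x ∣ 2 ^ (m + 1 + 3) := hX ▸ orderOf_dvd_natCard x
        obtain ⟨s, -, hs⟩ := (Nat.dvd_prime_pow Nat.prime_two).mp h1
        have hs0 : s ≠ 0 := by
          rintro rfl
          rw [pow_zero, orderOf_eq_one_iff] at hs
          exact hx1 hs
        obtain ⟨s', rfl⟩ : ∃ s', s = s' + 1 := ⟨s - 1, by omega⟩
        have hw : x ^ (2 ^ s') = z := by
          rw [hz]
          refine kul_mc_invol hX hidx _ (Subgroup.pow_mem _ hxA _) ?_ ?_
          · rw [← pow_mul, ← pow_succ, ← hs, pow_orderOf_eq_one]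
          · intro hh
            have h2 := orderOf_dvd_of_pow_eq_one hh
            rw [hs] at h2
            have := (Nat.pow_dvd_pow_iff_le_right (by norm_num : 1 < 2)).mp h2
            omega
        rw [Subgroup.zpowers_le, ← hw]
        exact H.pow_mem hxH _
      have hcount := kul_quot_count (Subgroup.zpowers z) hZcard e he1 hall
      rw [hcount]
      -- the quotient is again of maximal class
      have hQcard : Nat.card (X ⧸ Subgroup.zpowers z) = 2 ^ (m + 3) := by
        have h1 := Subgroup.card_eq_card_quotient_mul_card_subgroup (Subgroup.zpowers z)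
        rw [hX, hZcard] at h1
        have : (2 : ℕ) ^ (m + 1 + 3) = 2 ^ (m + 3) * 2 := by ring
        rw [this] at h1
        exact (Nat.eq_of_mul_eq_mul_right (by norm_num) h1).symm
      have hZA : Subgroup.zpowers z ≤ Subgroup.zpowers a := Subgroup.zpowers_le.mpr hzA
      have hQMC : KulMC (X ⧸ Subgroup.zpowers z) := by
        refine ⟨QuotientGroup.mk' (Subgroup.zpowers z) a, QuotientGroup.mk' (Subgroup.zpowers z) y,
          ?_, ?_, k, ?_⟩
        · rw [← MonoidHom.map_zpowers]
          rw [Subgroup.index_map_eq _ (QuotientGroup.mk'_surjective _)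
            (by rw [QuotientGroup.ker_mk']; exact hZA)]
          exact hidx
        · intro hh
          rw [← MonoidHom.map_zpowers] at hh
          obtain ⟨b, hb, hby⟩ := hh
          have h1 : b⁻¹ * y ∈ Subgroup.zpowers z := QuotientGroup.eq.mp hby
          apply hy
          have : y = b * (b⁻¹ * y) := by group
          rw [this]
          exact Subgroup.mul_mem _ hb (hZA h1)
        · rw [← map_mul, ← map_inv, ← map_mul, hrel, map_zpow]
      exact ih (X ⧸ Subgroup.zpowers z) hQcard hQMC (e - 1) (by omega) (by omega)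

end Cfsg.Agent.Helper26
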