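import Mathlib
import Cfsg.Agent.Helper26.Kul11

set_option autoImplicit false

namespace Cfsg.Agent.Helper26

open Subgroup
open scoped commutatorElement

universe u

section CycGen

variable {P : Type u} [Group P] [Finite P] {p : ℕ} [Fact p.Prime]

/-- the conjugation exponent on a cyclic maximal subgroup -/
theorem kul_cyc_exp {n : ℕ} (hP : Nat.card P = p ^ n) (hn : 3 ≤ n)
    (C : Subgroup P) [hCn : C.Normal] (hCi : C.index = p) (x : P)
    (hx : C = Subgroup.zpowers x) (g : P) :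
    ∃ r : ℕ, x ^ r = g⁻¹ * x * g ∧ r ^ p ≡ 1 [MOD p ^ (n - 1)] := by
  have hp := (Fact.out : p.Prime)
  have hCcard := (kul_card_of_index hP C hCi).1
  have hxord : orderOf x = p ^ (n - 1) := by
    rw [← Nat.card_zpowers, ← hx, hCcard]
  obtain ⟨w, hw⟩ : ∃ w : P, w = x ^ (p ^ (n - 2)) := ⟨_, rfl⟩
  have hpp : p ^ (n - 2) * p = p ^ (n - 1) := by
    rw [← pow_succ]; congr 1; omega
  have hw_p : w ^ p = 1 := by
    rw [hw, ← pow_mul, hpp, ← hxord, pow_orderOf_eq_one]
  have hw_ne : w ≠ 1 := by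
    intro h
    rw [hw] at h
    have h1 := orderOf_dvd_of_pow_eq_one h
    rw [hxord] at h1
    have := (Nat.pow_dvd_pow_iff_le_right hp.one_lt).mp h1
    omega
  have hxw : Commute x w := by
    rw [hw]; exact (Commute.refl x).pow_right _
  have hxC : x ∈ C := by rw [hx]; exact Subgroup.mem_zpowers x
  have hgoal : ∃ r : ℕ, x ^ r = g⁻¹ * x * g ∧ r ^ p ≡ 1 [MOD p ^ (n - 1)] := by
    have h1 : g⁻¹ * x * g ∈ C := by
      have := hCn.conj_mem x hxC g⁻¹
      rwa [inv_inv] at this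
    rw [hx] at h1
    obtain ⟨r, hr⟩ : ∃ r : ℕ, x ^ r = g⁻¹ * x * g :=
      (Submonoid.mem_powers_iff _ _).mp (mem_powers_iff_mem_zpowers.mpr h1)
    have h2 : g ^ p ∈ C := by
      have := C.pow_index_mem g
      rwa [hCi] at this
    have hcomm : g ^ p * x = x * g ^ p := by
      rw [hx] at h2
      obtain ⟨s, hs⟩ := Subgroup.mem_zpowers_iff.mp h2
      rw [← hs]
      exact (Commute.zpow_left (Commute.refl x) s).eq
    have hiter : ∀ k : ℕ, (g ^ k)⁻¹ * x * g ^ k = x ^ (r ^ k) := by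
      intro k
      induction k with
      | zero => simp
      | succ k ih =>
        have e1 : (g ^ (k + 1))⁻¹ * x * g ^ (k + 1) = g⁻¹ * ((g ^ k)⁻¹ * x * g ^ k) * g := by
          rw [pow_succ, mul_inv_rev]; simp only [mul_assoc]
        have e2 : g⁻¹ * x ^ (r ^ k) * g = (g⁻¹ * x * g) ^ (r ^ k) := by
          have := conj_pow (a := g⁻¹) (b := x) (i := r ^ k)
          rw [inv_inv] at this
          exact this.symm
        rw [e1, ih, e2, ← hr, ← pow_mul, pow_succ, mul_comm]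
    have h3 : x ^ (r ^ p) = x ^ 1 := by
      rw [← hiter p, pow_one, mul_assoc, ← hcomm, ← mul_assoc, inv_mul_cancel, one_mul]
    have h4 : r ^ p ≡ 1 [MOD p ^ (n - 1)] := by
      rw [← hxord]; exact pow_eq_pow_iff_modEq.mp h3
    exact ⟨r, hr, h4⟩
  exact hgoal

theorem kul_cyc_comm {n : ℕ} (hP : Nat.card P = p ^ n) (hn : 3 ≤ n)
    (C : Subgroup P) [hCn : C.Normal] (hCi : C.index = p) (x : P)
    (hx : C = Subgroup.zpowers x)
    (hconj' : ∀ g : P, ∃ j : ℕ, g⁻¹ * x * g = x * (x ^ (p ^ (n - 2))) ^ j) :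
    (∀ g : P, g * x ^ (p ^ (n - 2)) = x ^ (p ^ (n - 2)) * g) ∧
      ∀ a b : P, ∃ j : ℕ, b * a = a * b * (x ^ (p ^ (n - 2))) ^ j := by
  have hp := (Fact.out : p.Prime)
  have hCcard := (kul_card_of_index hP C hCi).1
  have hxord : orderOf x = p ^ (n - 1) := by
    rw [← Nat.card_zpowers, ← hx, hCcard]
  obtain ⟨w, hw⟩ : ∃ w : P, w = x ^ (p ^ (n - 2)) := ⟨_, rfl⟩
  have hpp : p ^ (n - 2) * p = p ^ (n - 1) := by
    rw [← pow_succ]; congr 1; omega
  have hw_p : w ^ p = 1 := by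
    rw [hw, ← pow_mul, hpp, ← hxord, pow_orderOf_eq_one]
  have hw_ne : w ≠ 1 := by
    intro h
    rw [hw] at h
    have h1 := orderOf_dvd_of_pow_eq_one h
    rw [hxord] at h1
    have := (Nat.pow_dvd_pow_iff_le_right hp.one_lt).mp h1
    omega
  have hxw : Commute x w := by
    rw [hw]; exact (Commute.refl x).pow_right _
  have hxC : x ∈ C := by rw [hx]; exact Subgroup.mem_zpowers x
  have hconj : ∀ g : P, ∃ j : ℕ, g⁻¹ * x * g = x * w ^ j := by
    intro g; rw [hw]; exact hconj' g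
  -- w is central
  have hwc : ∀ g : P, g * w = w * g := by
    intro g
    obtain ⟨j, hj⟩ := hconj g
    have e2 : g⁻¹ * x ^ (p ^ (n - 2)) * g = (g⁻¹ * x * g) ^ (p ^ (n - 2)) := by
      have := conj_pow (a := g⁻¹) (b := x) (i := p ^ (n - 2))
      rw [inv_inv] at this
      exact this.symm
    have h1 : g⁻¹ * w * g = w := by
      rw [hw, e2, hj, (hxw.pow_right j).mul_pow, ← hw, ← pow_mul]
      have : j * p ^ (n - 2) = p * (j * p ^ (n - 3)) := by
        have : p ^ (n - 2) = p * p ^ (n - 3) := by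
          rw [← pow_succ']; congr 1; omega
        rw [this]; ring
      rw [this, pow_mul, hw_p, one_pow, mul_one]
    calc g * w = g * (g⁻¹ * w * g) := by rw [h1]
      _ = w * g := by group
  -- commutators lie in zpowers w
  have hZc : Subgroup.zpowers w ≤ Subgroup.center P :=
    Subgroup.zpowers_le.mpr (Subgroup.mem_center_iff.mpr hwc)
  haveI hZn : (Subgroup.zpowers w).Normal := by
    refine ⟨fun z hz g => ?_⟩
    have := Subgroup.mem_center_iff.mp (hZc hz) g
    rw [this, mul_inv_cancel_right]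
    exact hz
  have hZC : Subgroup.zpowers w ≤ C := by
    rw [Subgroup.zpowers_le, hw]
    exact C.pow_mem hxC _
  have hcomm2 : ∀ a b : P, ∃ j : ℕ, b * a = a * b * w ^ j := by
    let f : P ⧸ Subgroup.zpowers w →* P ⧸ C :=
      QuotientGroup.map (Subgroup.zpowers w) C (MonoidHom.id P) (by
        rw [Subgroup.comap_id]; exact hZC)
    have hkerf : f.ker = C.map (QuotientGroup.mk' (Subgroup.zpowers w)) := by
      have := QuotientGroup.ker_map (N := Subgroup.zpowers w) C (MonoidHom.id P) (by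
        rw [Subgroup.comap_id]; exact hZC)
      exact this.trans (by rw [Subgroup.comap_id])
    have hxbar : (QuotientGroup.mk' (Subgroup.zpowers w) x) ∈
        Subgroup.center (P ⧸ Subgroup.zpowers w) := by
      rw [Subgroup.mem_center_iff]
      intro q
      induction q using QuotientGroup.induction_on with
      | H g =>
        show ((g * x : P) : P ⧸ Subgroup.zpowers w) = ((x * g : P) : P ⧸ Subgroup.zpowers w)
        rw [QuotientGroup.eq]
        obtain ⟨j, hj⟩ := hconj g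
        have : (g * x)⁻¹ * (x * g) = w ^ j := by
          calc (g * x)⁻¹ * (x * g) = x⁻¹ * (g⁻¹ * x * g) := by group
            _ = w ^ j := by rw [hj]; group
        rw [this]
        exact Subgroup.pow_mem _ (Subgroup.mem_zpowers w) j
    have hker : f.ker ≤ Subgroup.center (P ⧸ Subgroup.zpowers w) := by
      rw [hkerf, hx, MonoidHom.map_zpowers, Subgroup.zpowers_le]
      exact hxbar
    haveI : IsCyclic (P ⧸ C) := by
      have : Nat.card (P ⧸ C) = p := by rw [← Subgroup.index_eq_card]; exact hCi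
      exact isCyclic_of_prime_card this
    have hab := commutative_of_cyclic_center_quotient f hker
    intro a b
    have h1 : ((a * b : P) : P ⧸ Subgroup.zpowers w) = ((b * a : P) : P ⧸ Subgroup.zpowers w) :=
      hab (a : P ⧸ Subgroup.zpowers w) (b : P ⧸ Subgroup.zpowers w)
    rw [QuotientGroup.eq] at h1
    obtain ⟨j, hj⟩ : ∃ j : ℕ, w ^ j = (a * b)⁻¹ * (b * a) :=
      (Submonoid.mem_powers_iff _ _).mp (mem_powers_iff_mem_zpowers.mpr h1)
    exact ⟨j, by rw [hj]; group⟩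
  rw [← hw]
  exact ⟨hwc, hcomm2⟩

theorem kul_cyc_struct_of_mul {n : ℕ} (hP : Nat.card P = p ^ n) (hn : 3 ≤ n)
    (hnc : ¬ IsCyclic P) (C : Subgroup P) [hCn : C.Normal] (hCi : C.index = p) (x : P)
    (hx : C = Subgroup.zpowers x)
    (hmul : ∀ a b : P, (a * b) ^ (p ^ (n - 2)) = a ^ (p ^ (n - 2)) * b ^ (p ^ (n - 2))) :
    ∃ Ω : Subgroup P, Ω.Normal ∧ Ω.index = p ∧ ∀ h : P, h ∈ Ω ↔ h ^ (p ^ (n - 2)) = 1 := by
  have hp := (Fact.out : p.Prime)
  have hCcard := (kul_card_of_index hP C hCi).1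
  have hxord : orderOf x = p ^ (n - 1) := by
    rw [← Nat.card_zpowers, ← hx, hCcard]
  obtain ⟨w, hw⟩ : ∃ w : P, w = x ^ (p ^ (n - 2)) := ⟨_, rfl⟩
  have hpp : p ^ (n - 2) * p = p ^ (n - 1) := by
    rw [← pow_succ]; congr 1; omega
  have hw_p : w ^ p = 1 := by
    rw [hw, ← pow_mul, hpp, ← hxord, pow_orderOf_eq_one]
  have hw_ne : w ≠ 1 := by
    intro h
    rw [hw] at h
    have h1 := orderOf_dvd_of_pow_eq_one h
    rw [hxord] at h1
    have := (Nat.pow_dvd_pow_iff_le_right hp.one_lt).mp h1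
    omega
  have hxw : Commute x w := by
    rw [hw]; exact (Commute.refl x).pow_right _
  have hxC : x ∈ C := by rw [hx]; exact Subgroup.mem_zpowers x
  let φ : P →* P :=
    { toFun := fun g => g ^ (p ^ (n - 2))
      map_one' := one_pow _
      map_mul' := hmul }
  have hφ : ∀ g : P, φ g = g ^ (p ^ (n - 2)) := fun g => rfl
  refine ⟨φ.ker, MonoidHom.normal_ker φ, ?_, fun h => by rw [MonoidHom.mem_ker, hφ]⟩
  rw [Subgroup.index_ker]
  -- the range is zpowers w
  have hZcard : Nat.card (Subgroup.zpowers w) = p := by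
    rw [Nat.card_zpowers]
    have h1 : orderOf w ∣ p := orderOf_dvd_of_pow_eq_one hw_p
    rcases (Nat.dvd_prime hp).mp h1 with h2 | h2
    · exact absurd (orderOf_eq_one_iff.mp h2) hw_ne
    · exact h2
  have hrange : φ.range ≤ Subgroup.zpowers w := by
    rintro y ⟨g, rfl⟩
    rw [hφ]
    have h2 : g ^ p ∈ C := by
      have := C.pow_index_mem g
      rwa [hCi] at this
    rw [hx] at h2
    obtain ⟨s, hs⟩ : ∃ s : ℕ, x ^ s = g ^ p :=
      (Submonoid.mem_powers_iff _ _).mp (mem_powers_iff_mem_zpowers.mpr h2)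
    have h3 : p ^ (n - 2) = p * p ^ (n - 3) := by
      rw [← pow_succ']; congr 1; omega
    have h4 : g ^ (p ^ (n - 2)) = x ^ (s * p ^ (n - 3)) := by
      rw [h3, pow_mul, ← hs, ← pow_mul]
    have h5 : x ^ (s * p ^ (n - 3) * p) = 1 := by
      rw [pow_mul, ← h4, ← pow_mul, hpp]
      exact kul_order_dvd hP hnc g
    have h6 : p ^ (n - 1) ∣ s * p ^ (n - 3) * p := by
      rw [← hxord]; exact orderOf_dvd_of_pow_eq_one h5
    have h7 : p ∣ s := by
      have e1 : s * p ^ (n - 3) * p = s * p ^ (n - 2) := by rw [h3]; ring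
      have e2 : p ^ (n - 1) = p * p ^ (n - 2) := by
        rw [← pow_succ']; congr 1; omega
      rw [e1, e2] at h6
      exact Nat.dvd_of_mul_dvd_mul_right (pow_pos hp.pos _) h6
    obtain ⟨s', rfl⟩ := h7
    rw [h4]
    have : p * s' * p ^ (n - 3) = p ^ (n - 2) * s' := by rw [h3]; ring
    rw [this, pow_mul, ← hw]
    exact Subgroup.pow_mem _ (Subgroup.mem_zpowers w) _
  have h1 := Subgroup.card_dvd_of_le hrange
  rw [hZcard] at h1
  rcases (Nat.dvd_prime hp).mp h1 with h2 | h2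
  · exfalso
    have h3 : φ.range = ⊥ := Subgroup.card_eq_one.mp h2
    have h4 : w ∈ φ.range := ⟨x, by rw [hφ, hw]⟩
    rw [h3, Subgroup.mem_bot] at h4
    exact hw_ne h4
  · exact h2

theorem kul_cyc_count_of_struct {n : ℕ} (hP : Nat.card P = p ^ n) (hn : 3 ≤ n)
    (hnc : ¬ IsCyclic P)
    (hstr : ∀ (C : Subgroup P) [C.Normal], C.index = p → ∀ x : P, C = Subgroup.zpowers x →
      ∃ Ω : Subgroup P, Ω.Normal ∧ Ω.index = p ∧ ∀ h : P, h ∈ Ω ↔ h ^ (p ^ (n - 2)) = 1) :
    Nat.card {K : KulMax p (⊥ : Subgroup P) // IsCyclic K.1} ≡ 0 [MOD p] := by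
  classical
  have hp := (Fact.out : p.Prime)
  by_cases hex : ∃ K : KulMax p (⊥ : Subgroup P), IsCyclic K.1
  · obtain ⟨K₀, hK₀⟩ := hex
    obtain ⟨y, hy⟩ := hK₀.exists_generator
    have hx : K₀.1 = Subgroup.zpowers (y : P) := by
      ext z
      constructor
      · intro hz
        obtain ⟨k, hk⟩ := Subgroup.mem_zpowers_iff.mp (hy ⟨z, hz⟩)
        rw [Subgroup.mem_zpowers_iff]
        exact ⟨k, by
          have := congrArg Subtype.val hk
          simpa using this⟩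
      · intro hz
        obtain ⟨k, hk⟩ := Subgroup.mem_zpowers_iff.mp hz
        rw [← hk]
        exact K₀.1.zpow_mem y.2 k
    haveI := K₀.2.1
    obtain ⟨Ω, hΩn, hΩi, hΩ⟩ := hstr K₀.1 K₀.2.2.1 (y : P) hx
    have hΩne : Ω ≠ ⊤ := by
      intro h
      rw [h, Subgroup.index_top] at hΩi
      exact hp.one_lt.ne hΩi
    obtain ⟨Ω', hΩ'⟩ : ∃ Ω' : KulMax p (⊥ : Subgroup P), Ω'.1 = Ω :=
      ⟨⟨Ω, hΩn, hΩi, bot_le⟩, rfl⟩
    have key : ∀ K : KulMax p (⊥ : Subgroup P), IsCyclic K.1 ↔ K ≠ Ω' := by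
      intro K
      have hKcard := (kul_card_of_index hP K.1 K.2.2.1).1
      constructor
      · intro hcyc hK
        obtain ⟨z, hz⟩ := hcyc.exists_generator
        have h1 : orderOf z = p ^ (n - 1) := by
          rw [orderOf_eq_card_of_forall_mem_zpowers hz, hKcard]
        have h2 : (z : P) ∈ Ω := by
          have : K.1 = Ω := by rw [hK]; exact hΩ'
          rw [← this]; exact z.2
        have h3 := (hΩ _).mp h2
        have h4 := orderOf_dvd_of_pow_eq_one h3
        rw [Subgroup.orderOf_coe, h1] at h4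
        have := (Nat.pow_dvd_pow_iff_le_right hp.one_lt).mp h4
        omega
      · intro hK
        obtain ⟨h, hhK, hhΩ⟩ : ∃ h ∈ K.1, h ∉ Ω := by
          by_contra hcon
          push_neg at hcon
          have h1 : K.1 ≤ Ω := fun z hz => hcon z hz
          have h2 := kul_index_prime_max K.2.2.1 h1 hΩne
          exact hK (Subtype.ext (h2.symm.trans hΩ'.symm))
        have h1 : h ^ (p ^ (n - 2)) ≠ 1 := fun h0 => hhΩ ((hΩ h).mpr h0)
        have h2 : orderOf h ∣ p ^ (n - 1) := orderOf_dvd_of_pow_eq_one (kul_order_dvd hP hnc h)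
        obtain ⟨j, hj, h3⟩ := (Nat.dvd_prime_pow hp).mp h2
        have hj' : j = n - 1 := by
          by_contra hne
          apply h1
          apply orderOf_dvd_iff_pow_eq_one.mp
          rw [h3]
          exact pow_dvd_pow p (by omega)
        refine isCyclic_of_orderOf_eq_card (⟨h, hhK⟩ : K.1) ?_
        rw [Subgroup.orderOf_mk, h3, hj', hKcard]
    have h1 : Nat.card {K : KulMax p (⊥ : Subgroup P) // IsCyclic K.1} =
        Nat.card {K : KulMax p (⊥ : Subgroup P) // K ≠ Ω'} :=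
      Nat.card_congr (Equiv.subtypeEquivRight key)
    rw [h1]
    haveI : Fintype (KulMax p (⊥ : Subgroup P)) := Fintype.ofFinite _
    rw [Nat.card_eq_fintype_card, Fintype.card_subtype_compl, Fintype.card_subtype_eq,
      ← Nat.card_eq_fintype_card]
    have hm := kul_max_mod_p hP (⊥ : Subgroup P) (a := 0) (by simp) (by omega)
    have hpos : 1 ≤ Nat.card (KulMax p (⊥ : Subgroup P)) := by
      haveI : Nonempty (KulMax p (⊥ : Subgroup P)) := ⟨K₀⟩
      exact Nat.card_pos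
    have h2 : p ∣ Nat.card (KulMax p (⊥ : Subgroup P)) - 1 :=
      (Nat.modEq_iff_dvd' hpos).mp hm.symm
    exact (Nat.modEq_zero_iff_dvd).mpr h2
  · have : IsEmpty {K : KulMax p (⊥ : Subgroup P) // IsCyclic K.1} :=
      ⟨fun K => hex ⟨K.1, K.2⟩⟩
    rw [Nat.card_of_isEmpty]

end CycGen

theorem kul2_lte (r k : ℕ) (hr : r % 4 = 1) (h : r ^ 2 ≡ 1 [MOD 2 ^ (k + 1)]) :
    ∃ j : ℕ, r = 1 + 2 ^ k * j := by
  obtain ⟨t, rfl⟩ : ∃ t, r = 1 + 4 * t := ⟨r / 4, by omega⟩
  have h1 : 2 ^ (k + 1) ∣ (1 + 4 * t) ^ 2 - 1 :=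
    (Nat.modEq_iff_dvd' (Nat.one_le_pow _ _ (by omega))).mp h.symm
  have h2 : (1 + 4 * t) ^ 2 - 1 = (2 * (4 * t)) * (1 + 2 * t) := by
    have : (1 + 4 * t) ^ 2 = (2 * (4 * t)) * (1 + 2 * t) + 1 := by ring
    omega
  rw [h2] at h1
  have hcop : Nat.Coprime (2 ^ (k + 1)) (1 + 2 * t) :=
    Nat.Coprime.pow_left _ ((Nat.Prime.coprime_iff_not_dvd Nat.prime_two).mpr (by omega))
  have h3 := hcop.dvd_of_dvd_mul_right h1
  rw [pow_succ'] at h3
  obtain ⟨j, hj⟩ := Nat.dvd_of_mul_dvd_mul_left (by norm_num) h3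
  exact ⟨j, by rw [hj]⟩

section Two

variable {P : Type u} [Group P] [Finite P]

theorem kul2_conj {m : ℕ} (hP : Nat.card P = 2 ^ (m + 3))
    (hTK : ¬ KulTK P) (C : Subgroup P) [hCn : C.Normal] (hCi : C.index = 2) (x : P)
    (hx : C = Subgroup.zpowers x) :
    ∀ g : P, ∃ j : ℕ, g⁻¹ * x * g = x * (x ^ (2 ^ (m + 3 - 2))) ^ j := by
  intro g
  obtain ⟨r, hr, h4⟩ := kul_cyc_exp (p := 2) hP (by omega) C hCi x hx g
  have e1 : m + 3 - 1 = m + 1 + 1 := by omega
  have e2 : m + 3 - 2 = m + 1 := by omega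
  rw [e1] at h4
  rw [e2]
  have hmod4 : r ^ 2 % 4 = 1 := by
    have h5 : r ^ 2 ≡ 1 [MOD 4] := Nat.ModEq.of_dvd ⟨2 ^ m, by ring⟩ h4
    exact h5
  have hr4 : r % 4 = 1 ∨ r % 4 = 3 := by
    rw [Nat.pow_mod] at hmod4
    have := Nat.mod_lt r (by norm_num : 4 > 0)
    interval_cases hrr : r % 4 <;> simp_all
  rcases hr4 with h | h
  · obtain ⟨j, hj⟩ := kul2_lte r (m + 1) h h4
    exact ⟨j, by rw [← hr, hj, pow_add, pow_one, pow_mul]⟩
  · exfalso
    apply hTK
    have hidx : (Subgroup.zpowers x).index = 2 := hx ▸ hCi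
    refine kul_mc_tk (a := x) (y := g⁻¹) (k := ((r + 1) / 4 : ℕ)) hP hidx ?_
    rw [inv_inv, ← hr, ← zpow_natCast]
    congr 1
    omega

theorem kul2_cyc_struct {m : ℕ} (hP : Nat.card P = 2 ^ (m + 3))
    (hnc : ¬ IsCyclic P) (hTK : ¬ KulTK P) (C : Subgroup P) [hCn : C.Normal] (hCi : C.index = 2)
    (x : P) (hx : C = Subgroup.zpowers x) :
    ∃ Ω : Subgroup P, Ω.Normal ∧ Ω.index = 2 ∧ ∀ h : P, h ∈ Ω ↔ h ^ (2 ^ (m + 3 - 2)) = 1 := by
  refine kul_cyc_struct_of_mul (p := 2) hP (by omega) hnc C hCi x hx ?_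
  have e2 : m + 3 - 2 = m + 1 := by omega
  rcases Nat.eq_zero_or_pos m with hm | hm
  · subst hm
    obtain ⟨j, hj, hcj⟩ := kul_comm_card hP hnc
    have hj0 : j = 0 := by
      by_contra hne
      have hj1 : j = 1 := by omega
      apply hTK
      unfold KulTK
      rw [hcj, hP, hj1]
      norm_num
    have hbot : commutator P = ⊥ := by
      rw [← Subgroup.card_eq_one, hcj, hj0, pow_zero]
    intro a b
    have hab : a * b = b * a := by
      apply commutatorElement_eq_one_iff_mul_comm.mp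
      have : ⁅a, b⁆ ∈ commutator P := by
        rw [_root_.commutator_def]
        exact Subgroup.commutator_mem_commutator (Subgroup.mem_top _) (Subgroup.mem_top _)
      rwa [hbot, Subgroup.mem_bot] at this
    exact (show Commute a b from hab).mul_pow _
  · obtain ⟨hwc, hcomm2⟩ := kul_cyc_comm (p := 2) hP (by omega) C hCi x hx
      (kul2_conj hP hTK C hCi x hx)
    rw [e2] at hwc hcomm2 ⊢
    intro a b
    obtain ⟨j, hj⟩ := hcomm2 a b
    have hw2 : (x ^ (2 ^ (m + 1))) ^ 2 = 1 := by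
      have hxord : orderOf x = 2 ^ (m + 2) := by
        have := (kul_card_of_index hP C hCi).1
        rw [hx, Nat.card_zpowers] at this
        rw [this]; congr 1
      rw [← pow_mul, ← pow_succ, ← hxord, pow_orderOf_eq_one]
    have hc : ∀ g : P, g * (x ^ (2 ^ (m + 1))) ^ j = (x ^ (2 ^ (m + 1))) ^ j * g :=
      fun g => (Commute.pow_right (hwc g) j).eq
    rw [kul_mul_pow a b _ hc hj (2 ^ (m + 1))]
    obtain ⟨m', rfl⟩ : ∃ m', m = m' + 1 := ⟨m - 1, by omega⟩
    have hexp : 2 ^ (m' + 1 + 1) * (2 ^ (m' + 1 + 1) - 1) / 2 =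
        2 * (2 ^ m' * (2 ^ (m' + 1 + 1) - 1)) := by
      have h1 : 2 ^ (m' + 1 + 1) * (2 ^ (m' + 1 + 1) - 1) =
          2 * (2 * (2 ^ m' * (2 ^ (m' + 1 + 1) - 1))) := by
        generalize 2 ^ (m' + 1 + 1) - 1 = K
        ring
      rw [h1, Nat.mul_div_cancel_left _ (by norm_num)]
    have h1 : ((x ^ (2 ^ (m' + 1 + 1))) ^ j) ^ 2 = 1 := by
      rw [← pow_mul, mul_comm, pow_mul, hw2, one_pow]
    rw [hexp, pow_mul, h1, one_pow, mul_one]

/-- in a noncyclic `2`-group of order `≥ 8` with `|P : P'| ≠ 4` the number of cyclic maximal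
subgroups is even -/
theorem kul2_cyc_count {n : ℕ} (hP : Nat.card P = 2 ^ n) (hn : 3 ≤ n)
    (hnc : ¬ IsCyclic P) (hTK : ¬ KulTK P) :
    Nat.card {K : KulMax 2 (⊥ : Subgroup P) // IsCyclic K.1} ≡ 0 [MOD 2] := by
  obtain ⟨m, rfl⟩ : ∃ m, n = m + 3 := ⟨n - 3, by omega⟩
  exact kul_cyc_count_of_struct (p := 2) hP hn hnc
    (fun C _ hCi x hx => kul2_cyc_struct hP hnc hTK C hCi x hx)

end Two

end Cfsg.Agent.Helper26
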