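import Mathlib
import Cfsg.Agent.Helper26.Kul12

set_option autoImplicit false

namespace Cfsg.Agent.Helper26

open Subgroup
open scoped commutatorElement

universe u

theorem kul_card_two_unique {Q : Type*} [Group Q] (H : Subgroup Q) (hH : Nat.card H = 2)
    {c d : Q} (hc : c ∈ H) (hc1 : c ≠ 1) (hd : d ∈ H) (hd1 : d ≠ 1) : d = c := by
  haveI : Finite H := Nat.finite_of_card_ne_zero (by omega)
  have hord : orderOf c = 2 := by
    have h1 : orderOf c ∣ 2 := by
      have := orderOf_dvd_natCard (⟨c, hc⟩ : H)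
      rwa [Subgroup.orderOf_mk, hH] at this
    rcases (Nat.dvd_prime Nat.prime_two).mp h1 with h | h
    · exact absurd (orderOf_eq_one_iff.mp h) hc1
    · exact h
  have heq : Subgroup.zpowers c = H :=
    Subgroup.eq_of_le_of_card_ge (Subgroup.zpowers_le.mpr hc)
      (by rw [Nat.card_zpowers, hord, hH])
  have hd' : d ∈ Subgroup.zpowers c := by rw [heq]; exact hd
  obtain ⟨j, rfl⟩ := Subgroup.mem_zpowers_iff.mp hd'
  have hc2 : c ^ 2 = 1 := by rw [← hord]; exact pow_orderOf_eq_one c
  rcases kul_zpow_two_cases c hc2 j with h | h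
  · exact absurd h hd1
  · exact h

theorem kul_mem_inf_cent {Q : Type*} [Group Q] (K : Subgroup Q) (u v : Q) :
    v ∈ K ⊓ Subgroup.centralizer {u} ↔ v ∈ K ∧ u * v = v * u := by
  rw [Subgroup.mem_inf, Subgroup.mem_centralizer_iff]
  constructor
  · rintro ⟨h1, h2⟩; exact ⟨h1, h2 u rfl⟩
  · rintro ⟨h1, h2⟩
    exact ⟨h1, fun w hw => by rw [Set.mem_singleton_iff] at hw; subst hw; exact h2⟩

/-- a group of order 16 with commutator subgroup of order 2 has an odd number of abelian
maximal subgroups -/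
theorem kul_q16 {Q : Type u} [Group Q] [Finite Q] (hQ : Nat.card Q = 2 ^ 4)
    (hc : Nat.card (commutator Q) = 2) :
    Nat.card {K : Subgroup Q // K.index = 2 ∧ ⁅K, K⁆ = ⊥} ≡ 1 [MOD 2] := by
  haveI : Fact (Nat.Prime 2) := ⟨Nat.prime_two⟩
  obtain ⟨c, hcN, hc1⟩ : ∃ c ∈ commutator Q, c ≠ 1 := by
    by_contra hcon
    push_neg at hcon
    have : commutator Q = ⊥ := eq_bot_iff.mpr fun x hx => Subgroup.mem_bot.mpr (hcon x hx)
    rw [this, Subgroup.card_bot] at hc
    omega
  have hcases : ∀ g h : Q, ⁅g, h⁆ = 1 ∨ ⁅g, h⁆ = c := by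
    intro g h
    by_cases h1 : ⁅g, h⁆ = 1
    · exact Or.inl h1
    · right
      refine kul_card_two_unique (commutator Q) hc hcN hc1 ?_ h1
      rw [_root_.commutator_def]
      exact Subgroup.commutator_mem_commutator (Subgroup.mem_top _) (Subgroup.mem_top _)
  have hc2 : c ^ 2 = 1 := by
    have h1 : orderOf c ∣ 2 := by
      have := orderOf_dvd_natCard (⟨c, hcN⟩ : commutator Q)
      rwa [Subgroup.orderOf_mk, hc] at this
    exact orderOf_dvd_iff_pow_eq_one.mp h1
  have hcc : ∀ w : Q, w * c = c * w := by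
    intro w
    have h1 : w * c * w⁻¹ ∈ commutator Q :=
      (inferInstance : (commutator Q).Normal).conj_mem c hcN w
    have h2 : w * c * w⁻¹ ≠ 1 := by
      intro h
      apply hc1
      calc c = w⁻¹ * (w * c * w⁻¹) * w := by group
        _ = 1 := by rw [h]; group
    have h3 := kul_card_two_unique (commutator Q) hc hcN hc1 h1 h2
    calc w * c = (w * c * w⁻¹) * w := by group
      _ = c * w := by rw [h3]
  have hcZ : c ∈ Subgroup.center Q := Subgroup.mem_center_iff.mpr hcc
  obtain ⟨x, hxZ⟩ : ∃ x : Q, x ∉ Subgroup.center Q := by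
    by_contra hcon
    push_neg at hcon
    apply hc1
    have : commutator Q = ⊥ := by
      rw [eq_bot_iff, _root_.commutator_def, Subgroup.commutator_le]
      intro g _ h _
      rw [Subgroup.mem_bot]
      exact commutatorElement_eq_one_iff_mul_comm.mpr ((Subgroup.mem_center_iff.mp (hcon h)) g)
    rw [this] at hcN
    exact Subgroup.mem_bot.mp hcN
  obtain ⟨A, hAdef⟩ : ∃ A : Subgroup Q, A = Subgroup.centralizer {x} := ⟨_, rfl⟩
  have hA : ∀ g, g ∈ A ↔ x * g = g * x := by
    intro g
    rw [hAdef, Subgroup.mem_centralizer_iff]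
    constructor
    · intro h; exact h x rfl
    · intro h w hw; rw [Set.mem_singleton_iff] at hw; subst hw; exact h
  obtain ⟨g0, hg0⟩ : ∃ g0 : Q, g0 ∉ A := by
    by_contra hcon
    push_neg at hcon
    apply hxZ
    rw [Subgroup.mem_center_iff]
    intro g
    exact ((hA g).mp (hcon g)).symm
  have hcx : ∀ b : Q, b ∉ A → b * x = c * x * b := by
    intro b hb
    have h1 : ⁅b, x⁆ = c := by
      rcases hcases b x with h | h
      · exfalso
        apply hb
        rw [hA]
        exact (commutatorElement_eq_one_iff_mul_comm.mp h).symm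
      · exact h
    calc b * x = (b * x * b⁻¹ * x⁻¹) * x * b := by group
      _ = c * x * b := by rw [← commutatorElement_def, h1]
  have hAidx : A.index = 2 := by
    rw [Subgroup.index_eq_two_iff]
    refine ⟨g0, fun b => ?_⟩
    by_cases hb : b ∈ A
    · right
      refine ⟨hb, fun h => hg0 ?_⟩
      have : g0 = b⁻¹ * (b * g0) := by group
      rw [this]
      exact A.mul_mem (A.inv_mem hb) h
    · left
      refine ⟨?_, hb⟩
      rw [hA]
      have e1 := hcx b hb
      have e2 := hcx g0 hg0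
      calc x * (b * g0) = (c * c) * x * b * g0 := by rw [← pow_two, hc2, one_mul]; group
        _ = c * (c * x * b) * g0 := by group
        _ = c * (b * x) * g0 := by rw [e1]
        _ = (c * b) * x * g0 := by group
        _ = (b * c) * x * g0 := by rw [hcc b]
        _ = b * (c * x * g0) := by group
        _ = b * (g0 * x) := by rw [e2]
        _ = (b * g0) * x := by group
  have hKcard : ∀ K : Subgroup Q, K.index = 2 → Nat.card K = 2 ^ 3 := by
    intro K hK
    have h1 := Subgroup.card_mul_index K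
    rw [hK, hQ] at h1
    norm_num at h1 ⊢
    omega
  have hAcard := hKcard A hAidx
  have hZA : Subgroup.center Q ≤ A := fun z hz => (hA z).mpr (Subgroup.mem_center_iff.mp hz x)
  have hxA : x ∈ A := (hA x).mpr rfl
  have hpow2 : ∀ (S : Subgroup Q) (b : ℕ), 2 ^ b < Nat.card S → 2 ^ (b + 1) ≤ Nat.card S := by
    intro S b hb
    obtain ⟨t, -, ht⟩ := kul_sub_card hQ S
    rw [ht] at hb ⊢
    have := (Nat.pow_lt_pow_iff_right (by norm_num : 1 < 2)).mp hb
    exact Nat.pow_le_pow_right (by norm_num) (by omega)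
  have hlt_of : ∀ (S S' : Subgroup Q) (w : Q), S ≤ S' → w ∈ S' → w ∉ S →
      Nat.card S < Nat.card S' := by
    intro S S' w hle hw hw'
    rcases Nat.lt_or_ge (Nat.card S) (Nat.card S') with h | h
    · exact h
    · exfalso
      have heq := Subgroup.eq_of_le_of_card_ge hle h
      rw [← heq] at hw
      exact hw' hw
  have hZ2 : 2 ^ 1 ≤ Nat.card (Subgroup.center Q) := by
    have hne : (Subgroup.center Q) ≠ ⊥ := by
      intro h
      rw [h] at hcZ
      exact hc1 (Subgroup.mem_bot.mp hcZ)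
    have h1 : 2 ^ 0 < Nat.card (Subgroup.center Q) := by
      rw [pow_zero]; exact (Subgroup.one_lt_card_iff_ne_bot _).mpr hne
    exact hpow2 _ 0 h1
  have hab : ∀ b ∈ A, ∀ b' ∈ A, b * b' = b' * b := by
    obtain ⟨T, hT⟩ : ∃ T : Subgroup Q, T = A ⊓ Subgroup.centralizer (A : Set Q) := ⟨_, rfl⟩
    have hTmem : ∀ u, u ∈ T ↔ u ∈ A ∧ ∀ v ∈ A, v * u = u * v := by
      intro u; rw [hT, Subgroup.mem_inf, Subgroup.mem_centralizer_iff]; rfl
    have hZT : Subgroup.center Q ≤ T := fun z hz =>
      (hTmem z).mpr ⟨hZA hz, fun v _ => Subgroup.mem_center_iff.mp hz v⟩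
    have hxT : x ∈ T := (hTmem x).mpr ⟨hxA, fun v hv => ((hA v).mp hv).symm⟩
    have hT4 : 2 ^ 2 ≤ Nat.card T := by
      apply hpow2 T 1
      have := hlt_of _ _ x hZT hxT hxZ
      omega
    have hall : ∀ u ∈ A, u ∈ T := by
      intro u huA
      by_contra huT
      have hTC : T ≤ A ⊓ Subgroup.centralizer {u} := fun v hv =>
        (kul_mem_inf_cent A u v).mpr ⟨((hTmem v).mp hv).1, ((hTmem v).mp hv).2 u huA⟩
      have huC : u ∈ A ⊓ Subgroup.centralizer {u} := (kul_mem_inf_cent A u u).mpr ⟨huA, rfl⟩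
      have hlt := hlt_of _ _ u hTC huC huT
      have h8 : 2 ^ 3 ≤ Nat.card (A ⊓ Subgroup.centralizer {u} : Subgroup Q) :=
        hpow2 _ 2 (by omega)
      have heq : A ⊓ Subgroup.centralizer {u} = A :=
        Subgroup.eq_of_le_of_card_ge inf_le_left (by rw [hAcard]; exact h8)
      apply huT
      refine (hTmem u).mpr ⟨huA, fun v hv => ?_⟩
      have hv' : v ∈ A ⊓ Subgroup.centralizer {u} := by rw [heq]; exact hv
      exact ((kul_mem_inf_cent A u v).mp hv').2.symm
    intro b hb b' hb'
    exact ((hTmem b').mp (hall b' hb')).2 b hb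
  obtain ⟨h1, h2⟩ := kul_ab_idx2 A hAidx hab hg0
  have hZ4 : 2 ^ 2 ≤ Nat.card (Subgroup.center Q) := by
    rw [hc, hAcard] at h1
    have h3 := Subgroup.card_le_of_le h2
    have h4 : (2 : ℕ) ^ 3 = 2 * 4 := by norm_num
    rw [h4] at h1
    have h5 := Nat.eq_of_mul_eq_mul_left (by norm_num) h1
    rw [h5] at h3
    have h6 : (2 : ℕ) ^ 2 = 4 := by norm_num
    rw [h6]
    exact h3
  obtain ⟨s, hs4, hs⟩ := kul_sub_card hQ (Subgroup.center Q)
  have hs4' : s ≠ 4 := by
    rintro rfl
    have : Subgroup.center Q = ⊤ := (Subgroup.card_eq_iff_eq_top _).mp (by rw [hs, hQ])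
    rw [this] at hxZ
    exact hxZ (Subgroup.mem_top x)
  have key : ∀ K : Subgroup Q, K.index = 2 → (⁅K, K⁆ = ⊥ ↔ Subgroup.center Q ≤ K) := by
    intro K hK
    rw [Subgroup.commutator_eq_bot_iff_le_centralizer]
    constructor
    · intro hKab
      by_contra hZK
      obtain ⟨z0, hz0Z, hz0K⟩ := SetLike.not_le_iff_exists.mp hZK
      have hab' : ∀ b ∈ K, ∀ b' ∈ K, b * b' = b' * b := fun b hb b' hb' =>
        ((Subgroup.mem_centralizer_iff.mp (hKab hb)) b' hb').symm
      obtain ⟨h1, -⟩ := kul_ab_idx2 K hK hab' hz0K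
      have h3 : K ⊓ Subgroup.centralizer {z0} = K := by
        apply inf_eq_left.mpr
        intro v _
        rw [Subgroup.mem_centralizer_iff]
        intro w hw; rw [Set.mem_singleton_iff] at hw; subst hw
        exact (Subgroup.mem_center_iff.mp hz0Z v).symm
      rw [h3, hc, hKcard K hK] at h1
      norm_num at h1
    · intro hZK u huK
      rw [Subgroup.mem_centralizer_iff]
      by_cases huZ : u ∈ Subgroup.center Q
      · intro v _; exact Subgroup.mem_center_iff.mp huZ v
      · have hZC : Subgroup.center Q ≤ K ⊓ Subgroup.centralizer {u} := fun z hz =>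
          (kul_mem_inf_cent K u z).mpr ⟨hZK hz, Subgroup.mem_center_iff.mp hz u⟩
        have huC : u ∈ K ⊓ Subgroup.centralizer {u} := (kul_mem_inf_cent K u u).mpr ⟨huK, rfl⟩
        have hlt := hlt_of _ _ u hZC huC huZ
        have h8 : 2 ^ 3 ≤ Nat.card (K ⊓ Subgroup.centralizer {u} : Subgroup Q) :=
          hpow2 _ 2 (by omega)
        have heq : K ⊓ Subgroup.centralizer {u} = K :=
          Subgroup.eq_of_le_of_card_ge inf_le_left (by rw [hKcard K hK]; exact h8)
        intro v hv
        have hv' : v ∈ K ⊓ Subgroup.centralizer {u} := by rw [heq]; exact hv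
        exact ((kul_mem_inf_cent K u v).mp hv').2.symm
  have hcongr : Nat.card {K : Subgroup Q // K.index = 2 ∧ ⁅K, K⁆ = ⊥} =
      Nat.card (KulMax 2 (Subgroup.center Q)) := by
    unfold KulMax
    refine Nat.card_congr (Equiv.subtypeEquivRight fun K => ?_)
    constructor
    · rintro ⟨h1, h2⟩; exact ⟨Subgroup.normal_of_index_eq_two h1, h1, (key K h1).mp h2⟩
    · rintro ⟨-, h1, h2⟩; exact ⟨h1, (key K h1).mpr h2⟩
  rw [hcongr]
  exact kul_max_mod_p hQ (Subgroup.center Q) hs (by omega)

end Cfsg.Agent.Helper26
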