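import Mathlib
import Cfsg.Agent.Helper26.Kul13

set_option autoImplicit false

namespace Cfsg.Agent.Helper26

open Subgroup
open scoped commutatorElement

universe u

theorem kul_comm_le_max {P : Type u} [Group P] [Finite P] {p : ℕ} [Fact p.Prime]
    (K : KulMax p (⊥ : Subgroup P)) : commutator P ≤ K.1 := by
  haveI := K.2.1
  have hc : Nat.card (P ⧸ K.1) = p := by rw [← Subgroup.index_eq_card]; exact K.2.2.1
  haveI : IsCyclic (P ⧸ K.1) := isCyclic_of_prime_card hc
  exact Subgroup.Normal.quotient_commutative_iff_commutator_le.mp inferInstance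

theorem kul_card_compl {α : Type*} [Finite α] (Q : α → Prop) :
    Nat.card {x // Q x} + Nat.card {x // ¬ Q x} = Nat.card α := by
  classical
  haveI : Fintype α := Fintype.ofFinite α
  rw [Nat.card_eq_fintype_card, Nat.card_eq_fintype_card, Nat.card_eq_fintype_card,
    Fintype.card_subtype_compl]
  have := Fintype.card_subtype_le Q
  omega

/-- card of the commutator subgroup of a subgroup -/
theorem kul_card_comm_sub {P : Type*} [Group P] (K : Subgroup P) :
    Nat.card (commutator K) = Nat.card (⁅K, K⁆ : Subgroup P) := by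
  rw [← Subgroup.map_subtype_commutator]
  exact (Subgroup.card_map_of_injective K.subtype_injective).symm

theorem kul_tk_not_cyclic {X : Type*} [Group X] [Finite X] {j : ℕ} (hX : Nat.card X = 2 ^ j)
    (hj : 3 ≤ j) (hTK : KulTK X) : ¬ IsCyclic X := by
  intro hc
  have hcomm := isMulCommutative_iff.mp (inferInstance : IsMulCommutative X)
  have hbot : commutator X = ⊥ := by
    rw [eq_bot_iff, _root_.commutator_def, Subgroup.commutator_le]
    intro g _ h _
    rw [Subgroup.mem_bot]
    exact commutatorElement_eq_one_iff_mul_comm.mpr (hcomm g h)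
  unfold KulTK at hTK
  rw [hbot, Subgroup.card_bot, hX] at hTK
  have : 2 ^ 3 ≤ 2 ^ j := Nat.pow_le_pow_right (by norm_num) hj
  omega

/-- in a noncyclic `2`-group of order `≥ 16` with `|P : P'| ≠ 4` the number of maximal subgroups
`K` with `|K : K'| = 4` is even -/
theorem kul2_tk_count {P : Type u} [Group P] [Finite P] {n : ℕ} (hP : Nat.card P = 2 ^ n)
    (hn : 4 ≤ n) (hnc : ¬ IsCyclic P) (hTK : ¬ KulTK P) :
    Nat.card {K : KulMax 2 (⊥ : Subgroup P) // KulTK K.1} ≡ 0 [MOD 2] := by
  classical
  haveI : Fact (Nat.Prime 2) := ⟨Nat.prime_two⟩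
  by_cases hex : ∃ K : KulMax 2 (⊥ : Subgroup P), KulTK K.1
  · obtain ⟨M, hM⟩ := hex
    obtain ⟨m, rfl⟩ : ∃ m, n = m + 4 := ⟨n - 4, by omega⟩
    have hKcard : ∀ K : KulMax 2 (⊥ : Subgroup P), Nat.card K.1 = 2 ^ (m + 3) := by
      intro K
      have := (kul_card_of_index hP K.1 K.2.2.1).1
      rw [this]; congr 1
    obtain ⟨a, y, hidx, hy, k, hrel⟩ := kul_taussky m M.1 (hKcard M) hM
    obtain ⟨hcomm_elt, hcord⟩ := kul_mc_comm_elt (hKcard M) hidx hrel
    obtain ⟨c, hc⟩ : ∃ c : P, c = ((a ^ (4 * k - 2) : M.1) : P) := ⟨_, rfl⟩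
    have hcord' : orderOf c = 2 ^ (m + 1) := by
      rw [hc, Subgroup.orderOf_coe]; exact hcord
    have hcP : c ∈ commutator P := by
      have h1 : (a ^ (4 * k - 2) : M.1) ∈ commutator M.1 := by
        rw [← hcomm_elt, _root_.commutator_def]
        exact Subgroup.commutator_mem_commutator (Subgroup.mem_top _) (Subgroup.mem_top _)
      have h2 : c ∈ (commutator M.1).map M.1.subtype := ⟨_, h1, hc.symm⟩
      rw [Subgroup.map_subtype_commutator] at h2
      rw [_root_.commutator_def]
      exact Subgroup.commutator_mono le_top le_top h2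
    obtain ⟨j, hj, hcj⟩ := kul_comm_card hP hnc
    have hzle : Subgroup.zpowers c ≤ commutator P := Subgroup.zpowers_le.mpr hcP
    have hj1 : j = m + 1 := by
      have h1 := Subgroup.card_le_of_le hzle
      rw [Nat.card_zpowers, hcord', hcj] at h1
      have h2 : m + 1 ≤ j := (Nat.pow_le_pow_iff_right (by norm_num)).mp h1
      have h3 : j ≠ m + 2 := by
        rintro rfl
        apply hTK
        unfold KulTK
        rw [hcj, hP]; ring
      omega
    subst hj1
    have hcommP : commutator P = Subgroup.zpowers c :=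
      (Subgroup.eq_of_le_of_card_ge hzle (by rw [Nat.card_zpowers, hcord', hcj])).symm
    obtain ⟨D, hD⟩ : ∃ D : Subgroup P, D = Subgroup.zpowers (c ^ 2) := ⟨_, rfl⟩
    have hDcard : Nat.card D = 2 ^ m := by
      rw [hD, Nat.card_zpowers, orderOf_pow_of_dvd (by norm_num)
        (by rw [hcord']; exact dvd_pow_self 2 (by omega)), hcord', pow_succ]
      exact Nat.mul_div_cancel _ (by norm_num)
    have hDle : D ≤ commutator P := by
      rw [hD, Subgroup.zpowers_le]
      exact Subgroup.pow_mem _ hcP _
    haveI hDn : D.Normal := by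
      refine ⟨fun w hw g => ?_⟩
      rw [hD] at hw ⊢
      obtain ⟨i, rfl⟩ := Subgroup.mem_zpowers_iff.mp hw
      have h1 : g * c * g⁻¹ ∈ Subgroup.zpowers c := by
        rw [← hcommP]
        exact (inferInstance : (commutator P).Normal).conj_mem c hcP g
      obtain ⟨i', hi'⟩ := Subgroup.mem_zpowers_iff.mp h1
      have h2 : g * (c ^ 2) ^ i * g⁻¹ = (c ^ 2) ^ (i' * i) := by
        rw [← conj_zpow, ← conj_pow, ← hi']
        simp only [← zpow_natCast, ← zpow_mul]
        congr 1; push_cast; ring
      rw [h2]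
      exact Subgroup.zpow_mem_zpowers _ _
    have hQcard : Nat.card (P ⧸ D) = 2 ^ 4 := by
      have h1 := Subgroup.card_eq_card_quotient_mul_card_subgroup D
      rw [hP, hDcard] at h1
      have h2 : (2 : ℕ) ^ (m + 4) = 2 ^ 4 * 2 ^ m := by ring
      rw [h2] at h1
      exact (Nat.eq_of_mul_eq_mul_right (by positivity) h1).symm
    have hQc : Nat.card (commutator (P ⧸ D)) = 2 := by
      have h1 := kul_card_map_mk D (commutator P) hDle
      rw [← kul_comm_quot, hDcard, hcj] at h1
      have h2 : (2 : ℕ) ^ (m + 1) = 2 * 2 ^ m := by ring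
      rw [h2] at h1
      exact Nat.eq_of_mul_eq_mul_right (by positivity) h1
    have hq := kul_q16 hQcard hQc
    have hDK : ∀ K : KulMax 2 (⊥ : Subgroup P), D ≤ K.1 := fun K =>
      hDle.trans (kul_comm_le_max K)
    have hbij : Nat.card {K : KulMax 2 (⊥ : Subgroup P) // ⁅K.1, K.1⁆ ≤ D} =
        Nat.card {K : Subgroup (P ⧸ D) // K.index = 2 ∧ ⁅K, K⁆ = ⊥} := by
      refine Nat.card_congr ?_
      exact
        { toFun := fun K => ⟨K.1.1.map (QuotientGroup.mk' D), by
            rw [Subgroup.index_map_eq _ (QuotientGroup.mk'_surjective D)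
              (by rw [QuotientGroup.ker_mk']; exact hDK K.1)]
            exact K.1.2.2.1, by
            rw [← Subgroup.map_commutator, Subgroup.map_eq_bot_iff, QuotientGroup.ker_mk']
            exact K.2⟩
          invFun := fun K => ⟨⟨K.1.comap (QuotientGroup.mk' D),
              Subgroup.normal_of_index_eq_two (by
                rw [Subgroup.index_comap_of_surjective _ (QuotientGroup.mk'_surjective D)]
                exact K.2.1),
              by
                rw [Subgroup.index_comap_of_surjective _ (QuotientGroup.mk'_surjective D)]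
                exact K.2.1, bot_le⟩, by
            show ⁅K.1.comap (QuotientGroup.mk' D), K.1.comap (QuotientGroup.mk' D)⁆ ≤ D
            have h1 : (⁅K.1.comap (QuotientGroup.mk' D),
                K.1.comap (QuotientGroup.mk' D)⁆).map (QuotientGroup.mk' D) = ⊥ := by
              rw [Subgroup.map_commutator,
                Subgroup.map_comap_eq_self_of_surjective (QuotientGroup.mk'_surjective D)]
              exact K.2.2
            rw [Subgroup.map_eq_bot_iff, QuotientGroup.ker_mk'] at h1
            exact h1⟩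
          left_inv := fun K => Subtype.ext (Subtype.ext (Subgroup.comap_map_eq_self (by
            rw [QuotientGroup.ker_mk']; exact hDK K.1)))
          right_inv := fun K => Subtype.ext
            (Subgroup.map_comap_eq_self_of_surjective (QuotientGroup.mk'_surjective D) K.1) }
    have hiff : ∀ K : KulMax 2 (⊥ : Subgroup P), KulTK K.1 ↔ ¬ ⁅K.1, K.1⁆ ≤ D := by
      intro K
      have hle : ⁅K.1, K.1⁆ ≤ Subgroup.zpowers c := by
        rw [← hcommP, _root_.commutator_def]
        exact Subgroup.commutator_mono le_top le_top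
      unfold KulTK
      rw [kul_card_comm_sub, hKcard K]
      constructor
      · intro h hle'
        have h1 : Nat.card (⁅K.1, K.1⁆ : Subgroup P) = 2 ^ (m + 1) := by
          have h2 : (2 : ℕ) ^ (m + 3) = 2 ^ (m + 1) * 4 := by ring
          rw [h2] at h
          exact Nat.eq_of_mul_eq_mul_right (by norm_num) h
        have h3 := Subgroup.card_le_of_le hle'
        rw [h1, hDcard] at h3
        have := (Nat.pow_le_pow_iff_right (by norm_num : 1 < 2)).mp h3
        omega
      · intro h
        obtain ⟨w, hwK, hwD⟩ := SetLike.not_le_iff_exists.mp h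
        obtain ⟨i, rfl⟩ := Subgroup.mem_zpowers_iff.mp (hle hwK)
        have hword : orderOf (c ^ i) = 2 ^ (m + 1) := by
          refine orderOf_eq_prime_pow (p := 2) (n := m) ?_ ?_
          · intro h1
            rw [← zpow_natCast, ← zpow_mul, ← orderOf_dvd_iff_zpow_eq_one, hcord'] at h1
            obtain ⟨q, hq⟩ := h1
            have h2 : i * ((2 ^ m : ℕ) : ℤ) = (2 * q) * ((2 ^ m : ℕ) : ℤ) := by
              rw [hq]; push_cast; ring
            have h3 := mul_right_cancel₀ (by positivity) h2
            apply hwD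
            rw [hD, h3, zpow_mul, zpow_ofNat]
            exact Subgroup.zpow_mem_zpowers _ _
          · rw [← zpow_natCast, ← zpow_mul, ← orderOf_dvd_iff_zpow_eq_one, hcord']
            exact dvd_mul_left _ _
        have h4 := Subgroup.card_le_of_le (Subgroup.zpowers_le.mpr hwK)
        have h5 := Subgroup.card_le_of_le hle
        rw [Nat.card_zpowers, hword] at h4
        rw [Nat.card_zpowers, hcord'] at h5
        have h6 : Nat.card (⁅K.1, K.1⁆ : Subgroup P) = 2 ^ (m + 1) := le_antisymm h5 h4
        rw [h6]; ring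
    have h1 : Nat.card {K : KulMax 2 (⊥ : Subgroup P) // KulTK K.1} =
        Nat.card {K : KulMax 2 (⊥ : Subgroup P) // ¬ ⁅K.1, K.1⁆ ≤ D} :=
      Nat.card_congr (Equiv.subtypeEquivRight hiff)
    have h2 := kul_card_compl (fun K : KulMax 2 (⊥ : Subgroup P) => ⁅K.1, K.1⁆ ≤ D)
    have h3 := kul_max_mod_p hP (⊥ : Subgroup P) (a := 0) (by simp) (by omega)
    rw [h1]
    rw [← hbij] at hq
    unfold Nat.ModEq at hq h3 ⊢
    omega
  · have : IsEmpty {K : KulMax 2 (⊥ : Subgroup P) // KulTK K.1} :=
      ⟨fun K => hex ⟨K.1, K.2⟩⟩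
    rw [Nat.card_of_isEmpty]

end Cfsg.Agent.Helper26
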