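import Mathlib
import Cfsg.Agent.Helper26.Kul14

set_option autoImplicit false

namespace Cfsg.Agent.Helper26

open Subgroup
open scoped commutatorElement

universe u

/-- the number of maximal subgroups of a noncyclic `p`-group -/
theorem kul_top_count {P : Type u} [Group P] [Finite P] {p : ℕ} [Fact p.Prime] {n : ℕ}
    (hP : Nat.card P = p ^ n) (hnc : ¬ IsCyclic P) (hn : 1 ≤ n) :
    Nat.card {H : Subgroup P // Nat.card H = p ^ (n - 1)} ≡ 1 + p [MOD p ^ 2] := by
  have hm2 := kul_two_max hP hnc
  have hmax : Nat.card (KulMax p (⊥ : Subgroup P)) ≡ 1 + p [MOD p ^ 2] := by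
    rcases kul_max_cases hP (⊥ : Subgroup P) (a := 0) (by simp) (by omega) with h | h
    · omega
    · exact h.2
  have hcongr : Nat.card {H : Subgroup P // Nat.card H = p ^ (n - 1)} =
      Nat.card (KulMax p (⊥ : Subgroup P)) := by
    refine Nat.card_congr ?_
    exact
      { toFun := fun H =>
          have hidx := kul_index_of_card hP (by omega) H.1 H.2
          ⟨H.1, kul_normal_of_index hP H.1 hidx, hidx, bot_le⟩
        invFun := fun K => ⟨K.1, (kul_card_of_index hP K.1 K.2.2.1).1⟩
        left_inv := fun H => rfl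
        right_inv := fun K => rfl }
  rw [hcongr]
  exact hmax

/-- the exceptional maximal subgroups -/
def kulBad {P : Type u} [Group P] (n a : ℕ) (K : Subgroup P) : Prop :=
  IsCyclic K ∨ (KulTK K ∧ a + 3 ≤ n)

/-- **Kulakoff for `p = 2`**: in a noncyclic `2`-group with `|P : P'| ≠ 4` the number of
subgroups of order `2 ^ a`, `1 ≤ a < n`, is `≡ 3 (mod 4)` -/
theorem kul2_kulakoff : ∀ (n : ℕ) (P : Type u) [Group P] [Finite P], Nat.card P = 2 ^ n →
    ¬ IsCyclic P → ¬ KulTK P → ∀ a : ℕ, 1 ≤ a → a < n →
      Nat.card {H : Subgroup P // Nat.card H = 2 ^ a} ≡ 1 + 2 [MOD 2 ^ 2] := by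
  intro n
  induction n using Nat.strong_induction_on with
  | _ n ih =>
    intro P _ _ hP hnc hTK a ha1 han
    classical
    haveI : Fact (Nat.Prime 2) := ⟨Nat.prime_two⟩
    have hm2 := kul_two_max hP hnc
    have hmax : Nat.card (KulMax 2 (⊥ : Subgroup P)) ≡ 1 + 2 [MOD 2 ^ 2] := by
      rcases kul_max_cases hP (⊥ : Subgroup P) (a := 0) (by simp) (by omega) with h | h
      · omega
      · exact h.2
    have hmaxp : Nat.card (KulMax 2 (⊥ : Subgroup P)) ≡ 1 [MOD 2] :=
      kul_max_mod_p hP (⊥ : Subgroup P) (a := 0) (by simp) (by omega)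
    rcases Nat.lt_or_ge (a + 1) n with han2 | han2
    · haveI : Fintype (KulMax 2 (⊥ : Subgroup P)) := Fintype.ofFinite _
      haveI : Fintype {H : Subgroup P // Nat.card H = 2 ^ a} := Fintype.ofFinite _
      have hdc := kul_double_count
        (fun (K : KulMax 2 (⊥ : Subgroup P)) (H : {H : Subgroup P // Nat.card H = 2 ^ a}) =>
          H.1 ≤ K.1)
      have hL : ∑ K : KulMax 2 (⊥ : Subgroup P),
          Nat.card {H : {H : Subgroup P // Nat.card H = 2 ^ a} // H.1 ≤ K.1} ≡
            ∑ K : KulMax 2 (⊥ : Subgroup P), (if ¬ kulBad n a K.1 then 1 + 2 else 1)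
              [MOD 2 ^ 2] := by
        refine kul_sum_modEq _ _ _ _ fun K _ => ?_
        rw [kul_under_max K.1 (2 ^ a)]
        have hK := kul_card_of_index hP K.1 K.2.2.1
        by_cases hb : kulBad n a K.1
        · rw [if_neg (not_not.mpr hb)]
          by_cases hc : IsCyclic K.1
          · rw [kul_cyclic_count hK.1 hc a (by omega)]
          · have hb' : KulTK K.1 ∧ a + 3 ≤ n := hb.resolve_left hc
            obtain ⟨m, hm⟩ : ∃ m, n - 1 = m + 3 := ⟨n - 4, by omega⟩
            have hK' : Nat.card K.1 = 2 ^ (m + 3) := hm ▸ hK.1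
            have hMC := kul_taussky m K.1 hK' hb'.1
            have h4 : (2 : ℕ) ^ 2 = 4 := by norm_num
            rw [h4]
            exact kul_mc_count m K.1 hK' hMC a ha1 (by omega)
        · rw [if_pos hb]
          have hc : ¬ IsCyclic K.1 := fun h => hb (Or.inl h)
          by_cases ht : KulTK K.1
          · have ha3 : ¬ a + 3 ≤ n := fun h => hb (Or.inr ⟨ht, h⟩)
            have han' : a = (n - 1) - 1 := by omega
            rw [han']
            exact kul_top_count hK.1 hc (by omega)
          · exact ih (n - 1) (by omega) K.1 hK.1 hc ht a ha1 (by omega)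
      have hR : ∑ H : {H : Subgroup P // Nat.card H = 2 ^ a},
          Nat.card {K : KulMax 2 (⊥ : Subgroup P) // H.1 ≤ K.1} ≡
            ∑ H : {H : Subgroup P // Nat.card H = 2 ^ a},
              (if 2 ≤ Nat.card (KulMax 2 H.1) then 1 + 2 else 1) [MOD 2 ^ 2] := by
        refine kul_sum_modEq _ _ _ _ fun H _ => ?_
        rw [kul_max_over H.1]
        rcases kul_max_cases hP H.1 H.2 han with h | h
        · rw [if_neg (by omega), h]
        · rw [if_pos h.1]; exact h.2
      rw [hdc, kul_sum_ite] at hL
      rw [kul_sum_ite] at hR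
      have h1 := hR.symm.trans hL
      have ht := kul_t_mod hP (a := a) (by omega) hm2
      have hbad : Nat.card {K : KulMax 2 (⊥ : Subgroup P) // kulBad n a K.1} ≡ 0 [MOD 2] := by
        have hcyc := kul2_cyc_count hP (by omega) hnc hTK
        rcases Nat.lt_or_ge (a + 2) n with h3 | h3
        · have htk := kul2_tk_count hP (by omega) hnc hTK
          have hsplit := kul_card_split (fun K : KulMax 2 (⊥ : Subgroup P) => kulBad n a K.1)
            (fun K => IsCyclic K.1)
          have e1 : Nat.card {K : KulMax 2 (⊥ : Subgroup P) // kulBad n a K.1 ∧ IsCyclic K.1} =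
              Nat.card {K : KulMax 2 (⊥ : Subgroup P) // IsCyclic K.1} :=
            Nat.card_congr (Equiv.subtypeEquivRight fun K =>
              ⟨fun h => h.2, fun h => ⟨Or.inl h, h⟩⟩)
          have e2 : Nat.card {K : KulMax 2 (⊥ : Subgroup P) // kulBad n a K.1 ∧ ¬ IsCyclic K.1} =
              Nat.card {K : KulMax 2 (⊥ : Subgroup P) // KulTK K.1} := by
            refine Nat.card_congr (Equiv.subtypeEquivRight fun K =>
              ⟨fun h => (h.1.resolve_left h.2).1, fun h => ⟨Or.inr ⟨h, by omega⟩, ?_⟩⟩)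
            have hK := kul_card_of_index hP K.1 K.2.2.1
            exact kul_tk_not_cyclic hK.1 (by omega) h
          rw [hsplit, e1, e2]
          unfold Nat.ModEq at hcyc htk ⊢
          omega
        · have e1 : Nat.card {K : KulMax 2 (⊥ : Subgroup P) // kulBad n a K.1} =
              Nat.card {K : KulMax 2 (⊥ : Subgroup P) // IsCyclic K.1} :=
            Nat.card_congr (Equiv.subtypeEquivRight fun K =>
              ⟨fun h => h.resolve_right (fun h' => by omega), fun h => Or.inl h⟩)
          rw [e1]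
          exact hcyc
      have hgood : Nat.card {K : KulMax 2 (⊥ : Subgroup P) // ¬ kulBad n a K.1} ≡ 1 [MOD 2] := by
        have h2 := kul_card_compl (fun K : KulMax 2 (⊥ : Subgroup P) => kulBad n a K.1)
        unfold Nat.ModEq at hbad hmaxp ⊢
        omega
      have e1 : 2 * Nat.card {K : KulMax 2 (⊥ : Subgroup P) // ¬ kulBad n a K.1} ≡ 2 * 1
          [MOD 2 ^ 2] := by
        rw [pow_two]; exact Nat.ModEq.mul_left' 2 hgood
      have e2 : 2 * Nat.card {H : {H : Subgroup P // Nat.card H = 2 ^ a} //
          2 ≤ Nat.card (KulMax 2 H.1)} ≡ 2 * 1 [MOD 2 ^ 2] := by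
        rw [pow_two]; exact Nat.ModEq.mul_left' 2 ht
      have e3 : Nat.card {H : Subgroup P // Nat.card H = 2 ^ a} + 2 * 1 ≡
          (1 + 2) + 2 * 1 [MOD 2 ^ 2] := by
        have e4 := (Nat.ModEq.add_left _ e2).symm.trans h1
        exact e4.trans (Nat.ModEq.add hmax e1)
      exact Nat.ModEq.add_right_cancel' (2 * 1) e3
    · have han' : a = n - 1 := by omega
      rw [han']
      exact kul_top_count hP hnc (by omega)

end Cfsg.Agent.Helper26
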