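import Mathlib
import Cfsg.Prelude.Def_FusionSystem
import Cfsg.Agent.Helper26.NormalSeries

set_option autoImplicit false

namespace Cfsg.Agent.Helper26

open Cfsg Cfsg.FusionSystem

open scoped commutatorElement

/-- in a finite group a set containing `1` and closed under multiplication is a subgroup -/
def subgroupOfMulMem {G : Type*} [Group G] [Finite G] (T : Set G) (h1 : (1 : G) ∈ T)
    (hmul : ∀ a ∈ T, ∀ b ∈ T, a * b ∈ T) : Subgroup G where
  carrier := T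
  one_mem' := h1
  mul_mem' := fun ha hb => hmul _ ha _ hb
  inv_mem' := by
    intro a ha
    have hpow : ∀ m : ℕ, a ^ m ∈ T := by
      intro m
      induction m with
      | zero => rw [pow_zero]; exact h1
      | succ m ih => rw [pow_succ]; exact hmul _ ih _ ha
    have e : a⁻¹ = a ^ (orderOf a - 1) := by
      rw [inv_eq_iff_mul_eq_one, ← pow_succ', Nat.sub_add_cancel (orderOf_pos a),
        pow_orderOf_eq_one]
    show a⁻¹ ∈ T
    rw [e]
    exact hpow _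

theorem mem_subgroupOfMulMem {G : Type*} [Group G] [Finite G] (T : Set G) (h1 : (1 : G) ∈ T)
    (hmul : ∀ a ∈ T, ∀ b ∈ T, a * b ∈ T) {a : G} : a ∈ subgroupOfMulMem T h1 hmul ↔ a ∈ T :=
  Iff.rfl

variable {Ω : Type*} [Group Ω] {S : Subgroup Ω}

/-- the chain `P ≥ Q ∩ P ≥ Q₁ ∩ P ≥ 1` -/
def chain3 (P Q Q₁ : Subgroup Ω) : ℕ → Subgroup P
  | 0 => ⊤
  | 1 => Q.subgroupOf P
  | 2 => Q₁.subgroupOf P
  | _ => ⊥

/-- the automorphisms in `Aut_F(P)` acting trivially on `P/(P ∩ Q)` and on `(P ∩ Q)/Q₁` -/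
def stabQ (F : FusionSystem S) (P Q Q₁ : Subgroup Ω) : Set (MulAut P) :=
  {α | α ∈ F.autGroup P ∧ (∀ x : P, (x : Ω)⁻¹ * ((α x : P) : Ω) ∈ Q) ∧
    (∀ x : P, (x : Ω) ∈ Q → (x : Ω)⁻¹ * ((α x : P) : Ω) ∈ Q₁)}

theorem normal_of_abelian_over [Finite S] (p : ℕ) [Fact p.Prime] (hS : IsPGroup p S)
    (F : FusionSystem S) (hF : F.IsSaturated p) (Q Q₁ : Subgroup Ω) (hQ : F.StronglyClosed Q)
    (hQ₁Q : Q₁ ≤ Q) (hQ₁ : F.IsNormal Q₁) (hab : ⁅Q, Q⁆ ≤ Q₁)
    (hAut : IsPGroup p ↥(F.autGroup Q₁)) : F.IsNormal Q := by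
  rw [normal_iff_stronglyClosed_le_centric_radical p hS F hF]
  refine ⟨hQ, fun P hcen hrad => ?_⟩
  have hP := hcen.1
  have hC : centralizerIn S P ≤ P := hcen.2 P (isConj_refl F hP)
  have : Finite P := finite_of_le hP
  have hPp : IsPGroup p P := hS.to_le hP
  have hQ₁P : Q₁ ≤ P := normal_le_centric_radical p hS F hQ₁ hcen hrad
  have hQS := hQ.1
  have hQ₁S := hQ₁.1
  have hQn := stronglyClosed_normalizer F hQ
  apply le_of_inf_normalizer_le hS hP hQS hQn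
  -- the set `T` is closed under multiplication
  have hT1 : (1 : MulAut P) ∈ stabQ F P Q Q₁ := by
    refine ⟨Subgroup.one_mem _, fun x => ?_, fun x _ => ?_⟩
    · simp
    · simp
  have hTmul : ∀ a ∈ stabQ F P Q Q₁, ∀ b ∈ stabQ F P Q Q₁, a * b ∈ stabQ F P Q Q₁ := by
    rintro a ⟨haA, ha1, ha2⟩ b ⟨hbA, hb1, hb2⟩
    have e : ∀ x : P, (x : Ω)⁻¹ * (((a * b) x : P) : Ω) =
        ((x : Ω)⁻¹ * ((a x : P) : Ω)) * ((a (x⁻¹ * b x) : P) : Ω) := by
      intro x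
      rw [MulAut.mul_apply, map_mul, map_inv]
      push_cast
      group
    refine ⟨Subgroup.mul_mem _ haA hbA, fun x => ?_, fun x hx => ?_⟩
    · rw [e]
      refine Q.mul_mem (ha1 x) ?_
      exact stronglyClosed_aut_invariant F hQ hP haA _ (hb1 x)
    · rw [e]
      refine Q₁.mul_mem (ha2 x hx) ?_
      exact normal_aut_invariant F hQ₁ hP haA _ (hb2 x hx)
  -- `T` is a `p`-group
  have hTp : IsPGroup p (subgroupOfMulMem (stabQ F P Q Q₁) hT1 hTmul) := by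
    rintro ⟨α, hα⟩
    have hα' : α ∈ stabQ F P Q Q₁ := hα
    obtain ⟨hαA, -, -⟩ := hα'
    -- restriction of `α` to `Q₁`
    let ρ : MulAut Q₁ :=
      { toFun := fun x => ⟨α ⟨x, hQ₁P x.2⟩, normal_aut_invariant F hQ₁ hP hαA _ x.2⟩
        invFun := fun x => ⟨α⁻¹ ⟨x, hQ₁P x.2⟩,
          normal_aut_invariant F hQ₁ hP ((F.autGroup P).inv_mem hαA) _ x.2⟩
        left_inv := fun x => by
          apply Subtype.ext
          show ((α⁻¹ ⟨((α ⟨x, hQ₁P x.2⟩ : P) : Ω), _⟩ : P) : Ω) = x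
          have : (⟨((α ⟨x, hQ₁P x.2⟩ : P) : Ω), hQ₁P
              (normal_aut_invariant F hQ₁ hP hαA _ x.2)⟩ : P) = α ⟨x, hQ₁P x.2⟩ := rfl
          rw [this, MulAut.inv_apply_self]
        right_inv := fun x => by
          apply Subtype.ext
          show ((α ⟨((α⁻¹ ⟨x, hQ₁P x.2⟩ : P) : Ω), _⟩ : P) : Ω) = x
          have : (⟨((α⁻¹ ⟨x, hQ₁P x.2⟩ : P) : Ω), hQ₁P
              (normal_aut_invariant F hQ₁ hP ((F.autGroup P).inv_mem hαA) _ x.2)⟩ : P) =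
                α⁻¹ ⟨x, hQ₁P x.2⟩ := rfl
          rw [this, MulAut.apply_inv_self]
        map_mul' := fun x y => by
          apply Subtype.ext
          show ((α ⟨(x * y : Q₁), _⟩ : P) : Ω) = ((α ⟨x, _⟩ : P) : Ω) * ((α ⟨y, _⟩ : P) : Ω)
          rw [← Subgroup.coe_mul, ← map_mul]
          rfl }
    have hρA : ρ ∈ F.autGroup Q₁ := by
      rw [mem_autGroup_iff F hQ₁S]
      have e : Q₁.subtype.comp ρ.toMonoidHom =
          (P.subtype.comp α.toMonoidHom).comp (Subgroup.inclusion hQ₁P) := by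
        ext x
        rfl
      rw [e]
      exact restrict_mem F ((mem_autGroup_iff F hP).mp hαA) hQ₁P
    obtain ⟨k, hk⟩ := hAut ⟨ρ, hρA⟩
    have hk' : ρ ^ (p ^ k) = 1 := by
      have := congrArg Subtype.val hk
      simpa using this
    have hpow : ∀ (t : ℕ) (x : Q₁), (((ρ ^ t) x : Q₁) : Ω) = (((α ^ t) ⟨x, hQ₁P x.2⟩ : P) : Ω) := by
      intro t
      induction t with
      | zero => intro x; rfl
      | succ t ih =>
        intro x
        rw [pow_succ', pow_succ', MulAut.mul_apply, MulAut.mul_apply]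
        show ((α ⟨(((ρ ^ t) x : Q₁) : Ω), _⟩ : P) : Ω) = _
        congr 2
        apply Subtype.ext
        exact ih x
    have hfix : ∀ x : P, (x : Ω) ∈ Q₁ → (α ^ (p ^ k)) x = x := by
      intro x hx
      apply Subtype.ext
      have := hpow (p ^ k) ⟨x, hx⟩
      rw [hk'] at this
      exact this.symm
    have hβT : α ^ (p ^ k) ∈ subgroupOfMulMem (stabQ F P Q Q₁) hT1 hTmul :=
      Subgroup.pow_mem _ hα _
    obtain ⟨-, hβ1, hβ2⟩ := (mem_subgroupOfMulMem _ hT1 hTmul).mp hβT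
    have hstab : α ^ (p ^ k) ∈ stabSet (chain3 P Q Q₁) 3 := by
      intro j hj x hx
      have hj' : j = 0 ∨ j = 1 ∨ j = 2 := by omega
      rcases hj' with rfl | rfl | rfl
      · show x⁻¹ * (α ^ (p ^ k)) x ∈ Q.subgroupOf P
        rw [Subgroup.mem_subgroupOf]
        exact hβ1 x
      · show x⁻¹ * (α ^ (p ^ k)) x ∈ Q₁.subgroupOf P
        rw [Subgroup.mem_subgroupOf]
        exact hβ2 x (Subgroup.mem_subgroupOf.mp hx)
      · show x⁻¹ * (α ^ (p ^ k)) x ∈ (⊥ : Subgroup P)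
        rw [hfix x (Subgroup.mem_subgroupOf.mp hx), inv_mul_cancel]
        exact Subgroup.one_mem _
    have hd : ∀ j < 3, chain3 P Q Q₁ (j + 1) ≤ chain3 P Q Q₁ j := by
      intro j hj
      have hj' : j = 0 ∨ j = 1 ∨ j = 2 := by omega
      rcases hj' with rfl | rfl | rfl
      · exact le_top
      · intro x hx
        exact Subgroup.mem_subgroupOf.mpr (hQ₁Q (Subgroup.mem_subgroupOf.mp hx))
      · exact bot_le
    obtain ⟨k₂, hk₂⟩ := exists_pow_eq_one_of_mem_stabSet hPp (d := chain3 P Q Q₁) (n := 3)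
      rfl rfl hd hstab
    refine ⟨k + k₂, Subtype.ext ?_⟩
    show α ^ (p ^ (k + k₂)) = 1
    rw [pow_add, pow_mul, hk₂]
  -- `T` is normalized by `Aut_F(P)`
  have hTn : ∀ a ∈ F.autGroup P, ∀ α ∈ subgroupOfMulMem (stabQ F P Q Q₁) hT1 hTmul,
      α ∈ F.autGroup P → a * α * a⁻¹ ∈ subgroupOfMulMem (stabQ F P Q Q₁) hT1 hTmul := by
    rintro a haA α ⟨hαA, hα1, hα2⟩ -
    have hainv := (F.autGroup P).inv_mem haA
    have e : ∀ x : P, (x : Ω)⁻¹ * (((a * α * a⁻¹) x : P) : Ω) =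
        ((a ((a⁻¹ x)⁻¹ * α (a⁻¹ x)) : P) : Ω) := by
      intro x
      rw [map_mul, map_inv, MulAut.apply_inv_self]
      rfl
    refine ⟨Subgroup.mul_mem _ (Subgroup.mul_mem _ haA hαA) hainv, fun x => ?_, fun x hx => ?_⟩
    · rw [e]
      exact stronglyClosed_aut_invariant F hQ hP haA _ (hα1 (a⁻¹ x))
    · rw [e]
      have hx' : ((a⁻¹ x : P) : Ω) ∈ Q := stronglyClosed_aut_invariant F hQ hP hainv x hx
      exact normal_aut_invariant F hQ₁ hP haA _ (hα2 (a⁻¹ x) hx')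
  have hInn := le_inn_of_normal_pgroup p F hrad _ hTp hTn
  rintro m ⟨hmQ, hmN⟩
  have hmS : m ∈ S := hQS hmQ
  have hA : P.normalizerMonoidHom ⟨m, hmN⟩ ∈ F.autGroup P :=
    autInducedBy_le_autGroup F hP (Subgroup.subset_closure ⟨m, hmS, fun x => rfl⟩)
  have hmT : P.normalizerMonoidHom ⟨m, hmN⟩ ∈ subgroupOfMulMem (stabQ F P Q Q₁) hT1 hTmul := by
    refine ⟨hA, fun x => ?_, fun x hx => ?_⟩
    · show (x : Ω)⁻¹ * (m * x * m⁻¹) ∈ Q
      have h1 : (x : Ω)⁻¹ * m * (x : Ω)⁻¹⁻¹ ∈ Q :=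
        (Subgroup.mem_normalizer_iff.mp (hQn (S.inv_mem (hP x.2))) m).mp hmQ
      have e : (x : Ω)⁻¹ * (m * x * m⁻¹) = ((x : Ω)⁻¹ * m * (x : Ω)⁻¹⁻¹) * m⁻¹ := by group
      rw [e]
      exact Subgroup.mul_mem _ h1 (Subgroup.inv_mem _ hmQ)
    · show (x : Ω)⁻¹ * (m * x * m⁻¹) ∈ Q₁
      have h2 : ⁅(x : Ω)⁻¹, m⁆ ∈ ⁅Q, Q⁆ :=
        Subgroup.commutator_mem_commutator (Subgroup.inv_mem _ hx) hmQ
      have e : (x : Ω)⁻¹ * (m * x * m⁻¹) = ⁅(x : Ω)⁻¹, m⁆ := by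
        rw [commutatorElement_def]
        group
      rw [e]
      exact hab h2
  exact mem_of_conj_mem_inn hP hC hmS (fun x => rfl) (hInn ⟨hmT, hA⟩)

end Cfsg.Agent.Helper26
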