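import Mathlib
import Cfsg.Agent.Helper26.GlaubAbove
import Cfsg.Agent.S0854
import Cfsg.Agent.Helper25.CharOrth
import Cfsg.Agent.Helper25.CharKer

/-!
# Clifford correspondence and Gallagher's theorem, ambient form (helper26)

Prefix `pc_`.  All groups are subgroups of one ambient group `Γ`; induction is the unnormalized
`ga_ind` of `GlaubAbove`.
-/

set_option autoImplicit false

namespace Cfsg.Agent.Helper26

open Cfsg
open scoped ComplexConjugate

universe u

section PcFrob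

variable {Γ : Type u} [Group Γ] (G N : Subgroup Γ)

/-- Frobenius reciprocity (ambient, unnormalized), inner product form. -/
theorem pc_frob [Fintype G] [Fintype N] (hNG : N ≤ G) (φ : N → ℂ) (Ψ : G → ℂ)
    (hΨ : IsClassFunction G Ψ) :
    classInner (ga_ind G N φ) Ψ =
      (Nat.card N : ℂ) * classInner φ (fun n : N => Ψ (Subgroup.inclusion hNG n)) := by
  have hG : (Nat.card G : ℂ) ≠ 0 := by exact_mod_cast Nat.card_pos.ne'
  have hN : (Nat.card N : ℂ) ≠ 0 := by exact_mod_cast Nat.card_pos.ne'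
  have hcl : IsClassFunction G (fun g => conj (Ψ g)) := by
    intro g h
    show conj (Ψ (h * g * h⁻¹)) = conj (Ψ g)
    rw [hΨ g h]
  have h1 := ga_frob G N hNG φ (fun g => conj (Ψ g)) hcl
  unfold classInner
  rw [h1]
  field_simp

/-- The induced function on an element of a subgroup `Q ≤ N` normalized by `G`. -/
theorem pc_ind_normal [Fintype G] (Q : Subgroup Γ) (hQN : Q ≤ N) (hQG : Q ≤ G)
    (hQn : ∀ g ∈ G, ∀ q ∈ Q, g * q * g⁻¹ ∈ Q) (φ : N → ℂ) (q : Q) :
    ga_ind G N φ (Subgroup.inclusion hQG q) =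
      ∑ x : G, φ (Subgroup.inclusion hQN (gb_conjHom Q G hQn x⁻¹ q)) := by
  classical
  unfold ga_ind
  apply Finset.sum_congr rfl
  intro x _
  have hmem : ((x⁻¹ * Subgroup.inclusion hQG q * x : G) : Γ) ∈ N := by
    apply hQN
    have h1 := hQn ((x⁻¹ : G) : Γ) (x⁻¹).2 q q.2
    have h2 : ((x⁻¹ * Subgroup.inclusion hQG q * x : G) : Γ)
        = ((x⁻¹ : G) : Γ) * (q : Γ) * ((x⁻¹ : G) : Γ)⁻¹ := by
      simp
    rw [h2]; exact h1
  unfold ga_ext0
  rw [dif_pos hmem]
  congr 1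
  apply Subtype.ext
  show ((x⁻¹ * Subgroup.inclusion hQG q * x : G) : Γ) = ((gb_conjHom Q G hQn x⁻¹ q : Q) : Γ)
  rw [gb_conjHom_coe]
  simp

/-- Composition with conjugation preserves irreducibility. -/
theorem pc_irr_conj (hNn : ∀ g ∈ G, ∀ n ∈ N, g * n * g⁻¹ ∈ N) (θ : IrrCharacter N) (g : G) :
    IsIrrCharacter N (fun n => (θ : N → ℂ) (gb_conjHom N G hNn g n)) :=
  Helper2.isIrrCharacter_comp_of_surjective (gb_conjHom N G hNn g)
    (fun n => ⟨gb_conjHom N G hNn g⁻¹ n, gb_conjHom_inv_right N G hNn g n⟩) θ.2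

/-- The inner product is invariant under conjugation. -/
theorem pc_inner_conj [Fintype N] (hNn : ∀ g ∈ G, ∀ n ∈ N, g * n * g⁻¹ ∈ N) (g : G)
    (φ ψ : N → ℂ) :
    classInner (fun n => φ (gb_conjHom N G hNn g n)) (fun n => ψ (gb_conjHom N G hNn g n))
      = classInner φ ψ := by
  have e : N ≃ N :=
    { toFun := gb_conjHom N G hNn g
      invFun := gb_conjHom N G hNn g⁻¹
      left_inv := fun n => gb_conjHom_inv_left N G hNn g n
      right_inv := fun n => gb_conjHom_inv_right N G hNn g n }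
  exact Cfsg.Agent.S0854.classInner_equiv
    ({ toFun := gb_conjHom N G hNn g
       invFun := gb_conjHom N G hNn g⁻¹
       left_inv := fun n => gb_conjHom_inv_left N G hNn g n
       right_inv := fun n => gb_conjHom_inv_right N G hNn g n } : N ≃ N) φ ψ

end PcFrob

section PcAC

variable {Γ : Type u} [Group Γ] (G N : Subgroup Γ) [Fintype G] [Fintype N] (hNG : N ≤ G)
  (hNn : ∀ g ∈ G, ∀ n ∈ N, g * n * g⁻¹ ∈ N)

/-- Clifford: two irreducible constituents of the restriction of an irreducible character to a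
normalized subgroup are conjugate. -/
theorem pc_clifford_conj (χ : IrrCharacter G) (θ η : IrrCharacter N)
    (hθ : classInner (fun n : N => (χ : G → ℂ) (Subgroup.inclusion hNG n)) (θ : N → ℂ) ≠ 0)
    (hη : classInner (fun n : N => (χ : G → ℂ) (Subgroup.inclusion hNG n)) (η : N → ℂ) ≠ 0) :
    ∃ g : G, ∀ n : N, (η : N → ℂ) n = (θ : N → ℂ) (gb_conjHom N G hNn g n) := by
  classical
  have ha : ∀ χ' : IrrCharacter G, ∃ a : ℕ,
      classInner (fun n : N => (χ' : G → ℂ) (Subgroup.inclusion hNG n)) (θ : N → ℂ) = a :=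
    fun χ' => Helper2.classInner_char_nat (Helper2.isCharacter_comp (Subgroup.inclusion hNG)
      (Helper2.isCharacter_of_isIrrCharacter χ'.2)) (Helper2.isCharacter_of_isIrrCharacter θ.2)
  have hb : ∀ χ' : IrrCharacter G, ∃ b : ℕ,
      classInner (fun n : N => (χ' : G → ℂ) (Subgroup.inclusion hNG n)) (η : N → ℂ) = b :=
    fun χ' => Helper2.classInner_char_nat (Helper2.isCharacter_comp (Subgroup.inclusion hNG)
      (Helper2.isCharacter_of_isIrrCharacter χ'.2)) (Helper2.isCharacter_of_isIrrCharacter η.2)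
  choose a ha using ha
  choose b hb using hb
  have h1 := Cfsg.Agent.S0854.classInner_comp_expand (fun n : N => Subgroup.inclusion hNG n)
    (ga_ind G N (θ : N → ℂ)) (ga_ind_class G N _) (η : N → ℂ)
  have h2 : ∀ χ' : IrrCharacter G, classInner (ga_ind G N (θ : N → ℂ)) (χ' : G → ℂ) *
      classInner (fun n : N => (χ' : G → ℂ) (Subgroup.inclusion hNG n)) (η : N → ℂ)
      = ((Nat.card N * a χ' * b χ' : ℕ) : ℂ) := by
    intro χ'
    rw [ga_coef G N hNG, ha, hb]; push_cast; simp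
  rw [Finset.sum_congr rfl (fun χ' _ => h2 χ')] at h1
  have h3 : (∑ χ' : IrrCharacter G, ((Nat.card N * a χ' * b χ' : ℕ) : ℂ)) ≠ 0 := by
    rw [← Nat.cast_sum]
    have ha0 : a χ ≠ 0 := by
      intro h; apply hθ; rw [ha, h]; simp
    have hb0 : b χ ≠ 0 := by
      intro h; apply hη; rw [hb, h]; simp
    have hpos : 0 < Nat.card N * a χ * b χ :=
      Nat.mul_pos (Nat.mul_pos Nat.card_pos (Nat.pos_of_ne_zero ha0)) (Nat.pos_of_ne_zero hb0)
    have hle := Finset.single_le_sum (f := fun χ' : IrrCharacter G => Nat.card N * a χ' * b χ')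
      (fun _ _ => Nat.zero_le _) (Finset.mem_univ χ)
    have : (∑ χ' : IrrCharacter G, Nat.card N * a χ' * b χ') ≠ 0 := by
      have hle' : Nat.card N * a χ * b χ ≤ ∑ χ' : IrrCharacter G, Nat.card N * a χ' * b χ' := hle
      omega
    exact_mod_cast this
  have h4 : (fun n : N => ga_ind G N (θ : N → ℂ) (Subgroup.inclusion hNG n)) =
      ∑ x : G, (fun n : N => (θ : N → ℂ) (gb_conjHom N G hNn x⁻¹ n)) := by
    funext n
    rw [Finset.sum_apply]
    exact pc_ind_normal G N N le_rfl hNG hNn (θ : N → ℂ) n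
  rw [h4, Helper2.classInner_sum_left] at h1
  rw [← h1] at h3
  obtain ⟨x, -, hx⟩ := Finset.exists_ne_zero_of_sum_ne_zero h3
  have hirr := pc_irr_conj G N hNn θ x⁻¹
  have h5 := Helper2.classInner_irr_irr (⟨_, hirr⟩ : IrrCharacter N) η
  by_cases heq : (⟨_, hirr⟩ : IrrCharacter N) = η
  · refine ⟨x⁻¹, fun n => ?_⟩
    rw [← heq]
  · rw [if_neg heq] at h5
    exact absurd h5 hx

include hNn in
/-- Clifford for an invariant character: no other constituent. -/
theorem pc_clifford_inv (θ : IrrCharacter N) (hinv : gc_InvFun N G (θ : N → ℂ))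
    (χ : IrrCharacter G) (η : IrrCharacter N)
    (hθ : classInner (fun n : N => (χ : G → ℂ) (Subgroup.inclusion hNG n)) (θ : N → ℂ) ≠ 0)
    (hne : η ≠ θ) :
    classInner (fun n : N => (χ : G → ℂ) (Subgroup.inclusion hNG n)) (η : N → ℂ) = 0 := by
  by_contra h
  obtain ⟨g, hg⟩ := pc_clifford_conj G N hNG hNn χ θ η hθ h
  apply hne
  apply Subtype.ext; funext n
  rw [hg n]
  exact hinv g.1 g.2 n _ (gb_conjHom_coe N G hNn g n)

end PcAC

section PcCC

variable {Γ : Type u} [Group Γ] (K T Q : Subgroup Γ) [Fintype K] [Fintype T] [Fintype Q]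
  (hQT : Q ≤ T) (hTK : T ≤ K) (hQn : ∀ k ∈ K, ∀ q ∈ Q, k * q * k⁻¹ ∈ Q) (θ : IrrCharacter Q)
  (hT : ∀ k : Γ, k ∈ T ↔ k ∈ K ∧ ∀ q q' : Q, (q' : Γ) = k * q * k⁻¹ →
    (θ : Q → ℂ) q' = (θ : Q → ℂ) q)

include hT hQn in
/-- Clifford correspondence, induction direction. -/
theorem pc_cc1 (ψ : IrrCharacter T)
    (hψ : classInner (fun q : Q => (ψ : T → ℂ) (Subgroup.inclusion hQT q)) (θ : Q → ℂ) ≠ 0) :
    ∃ χ : IrrCharacter K,
      (∀ k : K, ga_ind K T (ψ : T → ℂ) k = (Nat.card T : ℂ) * (χ : K → ℂ) k) ∧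
      classInner (fun t : T => (χ : K → ℂ) (Subgroup.inclusion hTK t)) (ψ : T → ℂ) = 1 ∧
      (∀ ψ' : IrrCharacter T, ψ' ≠ ψ →
        classInner (fun q : Q => (ψ' : T → ℂ) (Subgroup.inclusion hQT q)) (θ : Q → ℂ) ≠ 0 →
        classInner (fun t : T => (χ : K → ℂ) (Subgroup.inclusion hTK t)) (ψ' : T → ℂ) = 0) ∧
      classInner (fun q : Q => (χ : K → ℂ) (Subgroup.inclusion (hQT.trans hTK) q)) (θ : Q → ℂ) =
        classInner (fun q : Q => (ψ : T → ℂ) (Subgroup.inclusion hQT q)) (θ : Q → ℂ) := by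
  classical
  have hQK : Q ≤ K := hQT.trans hTK
  have hQnT : ∀ t ∈ T, ∀ q ∈ Q, t * q * t⁻¹ ∈ Q := fun t ht => hQn t (hTK ht)
  have hinvT : gc_InvFun Q T (θ : Q → ℂ) := fun t ht q q' h => ((hT t).mp ht).2 q q' h
  have hT0 : (Nat.card T : ℂ) ≠ 0 := by exact_mod_cast Nat.card_pos.ne'
  have hb : ∀ ψ' : IrrCharacter T, ∃ b : ℕ,
      classInner (fun q : Q => (ψ' : T → ℂ) (Subgroup.inclusion hQT q)) (θ : Q → ℂ) = b :=
    fun ψ' => Helper2.classInner_char_nat (Helper2.isCharacter_comp (Subgroup.inclusion hQT)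
      (Helper2.isCharacter_of_isIrrCharacter ψ'.2)) (Helper2.isCharacter_of_isIrrCharacter θ.2)
  choose b hb using hb
  have ha : ∀ (χ : IrrCharacter K) (ψ' : IrrCharacter T), ∃ a : ℕ,
      classInner (fun t : T => (χ : K → ℂ) (Subgroup.inclusion hTK t)) (ψ' : T → ℂ) = a :=
    fun χ ψ' => Helper2.classInner_char_nat (Helper2.isCharacter_comp (Subgroup.inclusion hTK)
      (Helper2.isCharacter_of_isIrrCharacter χ.2)) (Helper2.isCharacter_of_isIrrCharacter ψ'.2)
  choose a ha using ha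
  have hB : ∀ χ : IrrCharacter K, ∃ B : ℕ,
      classInner (fun q : Q => (χ : K → ℂ) (Subgroup.inclusion hQK q)) (θ : Q → ℂ) = B :=
    fun χ => Helper2.classInner_char_nat (Helper2.isCharacter_comp (Subgroup.inclusion hQK)
      (Helper2.isCharacter_of_isIrrCharacter χ.2)) (Helper2.isCharacter_of_isIrrCharacter θ.2)
  choose B hB using hB
  have hf0 : b ψ ≠ 0 := by
    intro h; apply hψ; rw [hb, h]; simp
  have hBexp : ∀ χ : IrrCharacter K, B χ = ∑ ψ' : IrrCharacter T, a χ ψ' * b ψ' := by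
    intro χ
    have h1 := Cfsg.Agent.S0854.classInner_comp_expand (fun q : Q => Subgroup.inclusion hQT q)
      (fun t : T => (χ : K → ℂ) (Subgroup.inclusion hTK t))
      (Helper2.isClassFunction_of_isCharacter (Helper2.isCharacter_comp (Subgroup.inclusion hTK)
        (Helper2.isCharacter_of_isIrrCharacter χ.2))) (θ : Q → ℂ)
    rw [Finset.sum_congr rfl (fun ψ' _ => by rw [ha χ ψ', hb ψ'])] at h1
    have h2 : classInner (fun q : Q => (χ : K → ℂ) (Subgroup.inclusion hQK q)) (θ : Q → ℂ)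
        = ∑ ψ' : IrrCharacter T, (a χ ψ' : ℂ) * (b ψ' : ℂ) := h1
    rw [hB] at h2
    exact_mod_cast h2
  have hstep1 : classInner (fun q : Q => ga_ind K T (ψ : T → ℂ) (Subgroup.inclusion hQK q))
      (θ : Q → ℂ) = (Nat.card T : ℂ) * b ψ := by
    have h4 : (fun q : Q => ga_ind K T (ψ : T → ℂ) (Subgroup.inclusion hQK q)) =
        ∑ x : K, (fun q : Q =>
          (ψ : T → ℂ) (Subgroup.inclusion hQT (gb_conjHom Q K hQn x⁻¹ q))) := by
      funext q
      rw [Finset.sum_apply]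
      exact pc_ind_normal K T Q hQT hQK hQn (ψ : T → ℂ) q
    rw [h4, Helper2.classInner_sum_left]
    have hterm : ∀ x : K, classInner (fun q : Q =>
          (ψ : T → ℂ) (Subgroup.inclusion hQT (gb_conjHom Q K hQn x⁻¹ q))) (θ : Q → ℂ)
        = ga_ext0 K T (fun _ => (b ψ : ℂ)) x * 1 := by
      intro x
      have e1 := pc_inner_conj K Q hQn x⁻¹ (fun q : Q => (ψ : T → ℂ) (Subgroup.inclusion hQT q))
        (fun q => (θ : Q → ℂ) (gb_conjHom Q K hQn x q))
      have e2 : (fun q : Q => (θ : Q → ℂ) (gb_conjHom Q K hQn x (gb_conjHom Q K hQn x⁻¹ q)))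
          = (θ : Q → ℂ) := by
        funext q; rw [gb_conjHom_inv_right]
      rw [e2] at e1
      rw [e1]
      by_cases hx : (x : Γ) ∈ T
      · have e3 : (fun q : Q => (θ : Q → ℂ) (gb_conjHom Q K hQn x q)) = (θ : Q → ℂ) := by
          funext q
          exact ((hT x).mp hx).2 q _ (gb_conjHom_coe Q K hQn x q)
        rw [e3, hb]
        unfold ga_ext0; rw [dif_pos hx, mul_one]
      · have hirr := pc_irr_conj K Q hQn θ x
        have hne : (⟨_, hirr⟩ : IrrCharacter Q) ≠ θ := by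
          intro h
          apply hx
          rw [hT]
          refine ⟨x.2, fun q q' hq' => ?_⟩
          have hq'' : q' = gb_conjHom Q K hQn x q := Subtype.ext (by rw [hq', gb_conjHom_coe])
          rw [hq'']
          exact congrFun (congrArg Subtype.val h) q
        have h0 := pc_clifford_inv T Q hQT hQnT θ hinvT ψ (⟨_, hirr⟩ : IrrCharacter Q) hψ hne
        unfold ga_ext0; rw [dif_neg hx, zero_mul]
        exact h0
    rw [Finset.sum_congr rfl (fun x _ => hterm x),
      ga_sum_ext0 K T hTK (fun _ => (b ψ : ℂ)) (fun _ => 1)]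
    rw [Finset.sum_const, Finset.card_univ, nsmul_eq_mul, mul_one, Nat.card_eq_fintype_card]
  have hA : ∀ χ : IrrCharacter K, classInner (ga_ind K T (ψ : T → ℂ)) (χ : K → ℂ)
      = (Nat.card T : ℂ) * a χ ψ := by
    intro χ
    rw [ga_coef K T hTK, ha]; simp
  have hstep2 := Cfsg.Agent.S0854.classInner_comp_expand (fun q : Q => Subgroup.inclusion hQK q)
    (ga_ind K T (ψ : T → ℂ)) (ga_ind_class K T _) (θ : Q → ℂ)
  rw [hstep1, Finset.sum_congr rfl (fun χ _ => by rw [hA χ, hB χ])] at hstep2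
  have hnat : b ψ = ∑ χ : IrrCharacter K, a χ ψ * B χ := by
    have h1 : (Nat.card T : ℂ) * (b ψ : ℂ)
        = (Nat.card T : ℂ) * ((∑ χ : IrrCharacter K, a χ ψ * B χ : ℕ) : ℂ) := by
      rw [hstep2]; push_cast; rw [Finset.mul_sum]
      apply Finset.sum_congr rfl; intro χ _; ring
    exact_mod_cast mul_left_cancel₀ hT0 h1
  have hBge : ∀ χ, a χ ψ * b ψ ≤ B χ := by
    intro χ; rw [hBexp χ]
    exact Finset.single_le_sum (f := fun ψ' => a χ ψ' * b ψ') (fun _ _ => Nat.zero_le _)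
      (Finset.mem_univ ψ)
  have hbpos : 0 < b ψ := Nat.pos_of_ne_zero hf0
  obtain ⟨χ₀, hχ₀⟩ : ∃ χ₀, a χ₀ ψ ≠ 0 := by
    by_contra hno; push_neg at hno
    apply hf0; rw [hnat]; apply Finset.sum_eq_zero; intro χ _; rw [hno χ, zero_mul]
  have hge : ∀ χ, a χ ψ ≠ 0 → b ψ ≤ a χ ψ * B χ := by
    intro χ h
    calc b ψ = 1 * (1 * b ψ) := by ring
      _ ≤ a χ ψ * (a χ ψ * b ψ) := Nat.mul_le_mul (Nat.one_le_iff_ne_zero.mpr h)
          (Nat.mul_le_mul_right _ (Nat.one_le_iff_ne_zero.mpr h))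
      _ ≤ a χ ψ * B χ := Nat.mul_le_mul_left _ (hBge χ)
  have hkey : ∀ χ, χ ≠ χ₀ → a χ ψ = 0 := by
    intro χ hne
    by_contra h
    have h1 : ∑ x ∈ ({χ₀, χ} : Finset (IrrCharacter K)), a x ψ * B x
        ≤ ∑ χ : IrrCharacter K, a χ ψ * B χ :=
      Finset.sum_le_sum_of_subset (Finset.subset_univ _)
    rw [Finset.sum_pair (Ne.symm hne), ← hnat] at h1
    have h2 := hge χ₀ hχ₀
    have h3 := hge χ h
    omega
  have hsingle : b ψ = a χ₀ ψ * B χ₀ := by
    have h1 : ∑ χ : IrrCharacter K, a χ ψ * B χ = a χ₀ ψ * B χ₀ :=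
      Finset.sum_eq_single χ₀ (fun χ _ hne => by rw [hkey χ hne, zero_mul])
        (fun h => absurd (Finset.mem_univ _) h)
    rw [← h1]; exact hnat
  have ha1 : a χ₀ ψ = 1 := by
    by_contra hne
    have h2 : 2 ≤ a χ₀ ψ := by omega
    have h3 : 2 * (2 * b ψ) ≤ a χ₀ ψ * B χ₀ :=
      calc 2 * (2 * b ψ) ≤ a χ₀ ψ * (a χ₀ ψ * b ψ) :=
            Nat.mul_le_mul h2 (Nat.mul_le_mul_right _ h2)
        _ ≤ _ := Nat.mul_le_mul_left _ (hBge χ₀)
    omega
  have hBχ₀ : B χ₀ = b ψ := by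
    have h1 := hsingle
    rw [ha1, one_mul] at h1; exact h1.symm
  refine ⟨χ₀, ?_, ?_, ?_, ?_⟩
  · intro k
    have hdec := Helper2.classFun_eq_sum_classInner (ga_ind_class K T (ψ : T → ℂ))
    have h1 := congrFun hdec k
    rw [Finset.sum_apply] at h1
    rw [h1, Finset.sum_eq_single χ₀]
    · rw [Pi.smul_apply, smul_eq_mul, hA, ha1]; simp
    · intro χ _ hne; rw [Pi.smul_apply, hA, hkey χ hne]; simp
    · intro h; exact absurd (Finset.mem_univ _) h
  · rw [ha, ha1]; simp
  · intro ψ' hne hov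
    have hbψ' : b ψ' ≠ 0 := by
      intro h; apply hov; rw [hb, h]; simp
    have h1 : ∑ x ∈ ({ψ, ψ'} : Finset (IrrCharacter T)), a χ₀ x * b x
        ≤ ∑ ψ'' : IrrCharacter T, a χ₀ ψ'' * b ψ'' :=
      Finset.sum_le_sum_of_subset (Finset.subset_univ _)
    rw [Finset.sum_pair (Ne.symm hne), ← hBexp, hBχ₀, ha1, one_mul] at h1
    have h2 : a χ₀ ψ' * b ψ' = 0 := by omega
    rcases Nat.mul_eq_zero.mp h2 with h | h
    · rw [ha, h]; simp
    · exact absurd h hbψ'
  · rw [hB, hb, hBχ₀]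

include hT hQn in
/-- Clifford correspondence, restriction direction. -/
theorem pc_cc2 (χ : IrrCharacter K)
    (hχ : classInner (fun q : Q => (χ : K → ℂ) (Subgroup.inclusion (hQT.trans hTK) q))
      (θ : Q → ℂ) ≠ 0) :
    ∃ ψ : IrrCharacter T,
      classInner (fun q : Q => (ψ : T → ℂ) (Subgroup.inclusion hQT q)) (θ : Q → ℂ) ≠ 0 ∧
      ∀ k : K, ga_ind K T (ψ : T → ℂ) k = (Nat.card T : ℂ) * (χ : K → ℂ) k := by
  classical
  have hT0 : (Nat.card T : ℂ) ≠ 0 := by exact_mod_cast Nat.card_pos.ne'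
  have h1 := Cfsg.Agent.S0854.classInner_comp_expand (fun q : Q => Subgroup.inclusion hQT q)
    (fun t : T => (χ : K → ℂ) (Subgroup.inclusion hTK t))
    (Helper2.isClassFunction_of_isCharacter (Helper2.isCharacter_comp (Subgroup.inclusion hTK)
      (Helper2.isCharacter_of_isIrrCharacter χ.2))) (θ : Q → ℂ)
  have h1' : classInner (fun q : Q => (χ : K → ℂ) (Subgroup.inclusion (hQT.trans hTK) q))
      (θ : Q → ℂ) = ∑ φ : IrrCharacter T,
        classInner (fun t : T => (χ : K → ℂ) (Subgroup.inclusion hTK t)) (φ : T → ℂ) *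
        classInner (fun n : Q => (φ : T → ℂ) (Subgroup.inclusion hQT n)) (θ : Q → ℂ) := h1
  rw [h1'] at hχ
  obtain ⟨ψ, -, hψ⟩ := Finset.exists_ne_zero_of_sum_ne_zero hχ
  have hψ1 := left_ne_zero_of_mul hψ
  have hψ2 := right_ne_zero_of_mul hψ
  obtain ⟨χ₀, hind, -, -, -⟩ := pc_cc1 K T Q hQT hTK hQn θ hT ψ hψ2
  refine ⟨ψ, hψ2, ?_⟩
  have h2 : classInner (ga_ind K T (ψ : T → ℂ)) (χ : K → ℂ) ≠ 0 := by
    rw [ga_coef K T hTK]
    exact mul_ne_zero hT0 ((map_ne_zero (starRingEnd ℂ)).mpr hψ1)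
  have h3 : ga_ind K T (ψ : T → ℂ) = (Nat.card T : ℂ) • (χ₀ : K → ℂ) := funext hind
  rw [h3, Helper2.classInner_smul_left, Helper2.classInner_irr_irr] at h2
  by_cases heq : χ₀ = χ
  · rw [← heq]; exact hind
  · rw [if_neg heq, mul_zero] at h2; exact absurd rfl h2

end PcCC

section PcGal

variable {A B Q₀ : Type*} [Group A] [Group B] [Group Q₀] [Fintype A] [Fintype B] [Fintype Q₀]
  (j : Q₀ →* A) (π : A →* B) (hj : Function.Injective j) (hπ : Function.Surjective π)
  (hker : ∀ a : A, π a = 1 ↔ ∃ q : Q₀, j q = a)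

include hj hker in
/-- Sum over the kernel. -/
theorem pc_sum_ker (F : A → ℂ) [DecidablePred (fun a : A => π a = 1)] :
    ∑ a : A, (if π a = 1 then F a else 0) = ∑ q : Q₀, F (j q) := by
  classical
  rw [← Finset.sum_filter]
  symm
  apply Finset.sum_bij (fun (q : Q₀) _ => j q)
  · intro q _; rw [Finset.mem_filter]; exact ⟨Finset.mem_univ _, (hker _).mpr ⟨q, rfl⟩⟩
  · intro a _ b _ h; exact hj h
  · intro a ha
    rw [Finset.mem_filter] at ha
    obtain ⟨q, hq⟩ := (hker a).mp ha.2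
    exact ⟨q, Finset.mem_univ _, hq⟩
  · intro q _; rfl

include hj hπ hker in
theorem pc_card_eq : Nat.card A = Nat.card B * Nat.card Q₀ := by
  have h2 : Nat.card π.ker = Nat.card Q₀ := by
    apply Nat.card_congr
    exact (Equiv.ofBijective
      (fun q : Q₀ => (⟨j q, (MonoidHom.mem_ker).mpr ((hker _).mpr ⟨q, rfl⟩)⟩ : π.ker))
      ⟨fun a b h => hj (congrArg Subtype.val h), fun a => by
        obtain ⟨q, hq⟩ := (hker a.1).mp (MonoidHom.mem_ker.mp a.2)
        exact ⟨q, Subtype.ext hq⟩⟩).symm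
  have h1 := Subgroup.card_eq_card_quotient_mul_card_subgroup π.ker
  rw [Nat.card_congr (QuotientGroup.quotientKerEquivOfSurjective π hπ).toEquiv, h2] at h1
  exact h1

include hj hπ hker in
/-- Gallagher: the products `θ̂ · β` for `β ∈ Irr(A / Q₀)` are orthonormal. -/
theorem pc_gal_orth (θh : IrrCharacter A)
    (hirr : IsIrrCharacter Q₀ (fun q => (θh : A → ℂ) (j q))) :
    ∀ β β' : IrrCharacter B,
      classInner (fun a => (θh : A → ℂ) a * (β : B → ℂ) (π a))
        (fun a => (θh : A → ℂ) a * (β' : B → ℂ) (π a)) = if β = β' then 1 else 0 := by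
  classical
  obtain ⟨W, hW⟩ : ∃ W : IrrCharacter B → A → ℂ,
      W = fun (β : IrrCharacter B) (a : A) => (θh : A → ℂ) a * (β : B → ℂ) (π a) := ⟨_, rfl⟩
  have hWch : ∀ β, IsCharacter A (W β) := by
    intro β; rw [hW]
    exact Helper2.isCharacter_mul (Helper2.isCharacter_of_isIrrCharacter θh.2)
      (Helper2.isCharacter_comp π (Helper2.isCharacter_of_isIrrCharacter β.2))
  have hN : ∀ β β', ∃ n : ℕ, classInner (W β) (W β') = n :=
    fun β β' => Helper2.classInner_char_nat (hWch β) (hWch β')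
  choose N hN using hN
  obtain ⟨d, hd⟩ : ∃ d : IrrCharacter B → ℕ,
      d = fun (β : IrrCharacter B) => charDegree (β : B → ℂ) := ⟨_, rfl⟩
  have hd1 : ∀ β : IrrCharacter B, (β : B → ℂ) 1 = d β :=
    fun β => by rw [hd]; exact Helper25.irr_one_eq_degree β
  have hdpos : ∀ β, 0 < d β := fun β => by rw [hd]; exact Helper25.irr_degree_pos β
  have hdsq : ∑ β : IrrCharacter B, d β ^ 2 = Nat.card B := by
    rw [hd]; exact Helper25.sum_irr_degree_sq_nat
  have hB0 : (Nat.card B : ℂ) ≠ 0 := by exact_mod_cast Nat.card_pos.ne'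
  have hQ0 : (Nat.card Q₀ : ℂ) ≠ 0 := by exact_mod_cast Nat.card_pos.ne'
  obtain ⟨R, hR⟩ : ∃ R : A → ℂ, R = ∑ β : IrrCharacter B, (d β : ℂ) • W β := ⟨_, rfl⟩
  have hRval : ∀ a, R a = if π a = 1 then (Nat.card B : ℂ) * (θh : A → ℂ) a else 0 := by
    intro a
    rw [hR, Finset.sum_apply]
    have h1 : ∀ β : IrrCharacter B, ((d β : ℂ) • W β) a
        = (θh : A → ℂ) a * ((β : B → ℂ) 1 * (β : B → ℂ) (π a)) := by
      intro β; rw [Pi.smul_apply, smul_eq_mul, hW, hd1]; ring
    rw [Finset.sum_congr rfl (fun β _ => h1 β), ← Finset.mul_sum, Helper25.sum_irr_one_mul]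
    split_ifs <;> ring
  have hcard := pc_card_eq j π hj hπ hker
  have hRR : classInner R R = (Nat.card B : ℂ) := by
    unfold classInner
    have h1 : ∀ a, R a * conj (R a) = if π a = 1 then
        (Nat.card B : ℂ) ^ 2 * ((θh : A → ℂ) a * conj ((θh : A → ℂ) a)) else 0 := by
      intro a; rw [hRval a]; split_ifs
      · rw [map_mul, Complex.conj_natCast]; ring
      · simp
    rw [Finset.sum_congr rfl (fun a _ => h1 a), pc_sum_ker j π hj hker]
    have h2 : classInner (fun q : Q₀ => (θh : A → ℂ) (j q)) (fun q : Q₀ => (θh : A → ℂ) (j q))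
        = 1 := by
      have := Helper2.classInner_irr_irr (⟨_, hirr⟩ : IrrCharacter Q₀) ⟨_, hirr⟩
      rw [if_pos rfl] at this; exact this
    have h3 : ∑ q : Q₀, (θh : A → ℂ) (j q) * conj ((θh : A → ℂ) (j q)) = (Nat.card Q₀ : ℂ) := by
      have h4 : (Nat.card Q₀ : ℂ)⁻¹ * ∑ q : Q₀, (θh : A → ℂ) (j q) * conj ((θh : A → ℂ) (j q))
          = 1 := h2
      calc ∑ q : Q₀, (θh : A → ℂ) (j q) * conj ((θh : A → ℂ) (j q))
          = (Nat.card Q₀ : ℂ) * ((Nat.card Q₀ : ℂ)⁻¹ *
              ∑ q : Q₀, (θh : A → ℂ) (j q) * conj ((θh : A → ℂ) (j q))) := by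
            rw [← mul_assoc, mul_inv_cancel₀ hQ0, one_mul]
        _ = (Nat.card Q₀ : ℂ) := by rw [h4, mul_one]
    rw [← Finset.mul_sum, h3, hcard]; push_cast; field_simp
  have hsumN : ∑ β : IrrCharacter B, ∑ β' : IrrCharacter B, d β * d β' * N β β' = Nat.card B := by
    have h1 : classInner R R
        = ((∑ β : IrrCharacter B, ∑ β' : IrrCharacter B, d β * d β' * N β β' : ℕ) : ℂ) := by
      rw [hR, Helper2.classInner_sum_left]
      push_cast
      apply Finset.sum_congr rfl; intro β _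
      rw [Helper2.classInner_smul_left, Helper2.classInner_sum_right, Finset.mul_sum]
      apply Finset.sum_congr rfl; intro β' _
      rw [Helper2.classInner_smul_right, hN, Complex.conj_natCast]; ring
    rw [hRR] at h1; exact_mod_cast h1.symm
  have hNpos : ∀ β, 1 ≤ N β β := by
    intro β
    by_contra h
    have h0 : N β β = 0 := by omega
    have h1 : classInner (W β) (W β) = 0 := by rw [hN, h0]; simp
    rw [Helper2.classInner_self_eq_zero_iff] at h1
    have h2 := congrFun h1 1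
    rw [hW] at h2
    simp only [map_one, Pi.zero_apply] at h2
    rcases mul_eq_zero.mp h2 with h3 | h3
    · exact Helper25.irr_one_ne_zero θh h3
    · exact Helper25.irr_one_ne_zero β h3
  have hrow : ∀ β, d β ^ 2 ≤ ∑ β' : IrrCharacter B, d β * d β' * N β β' := by
    intro β
    calc d β ^ 2 = d β * d β * 1 := by ring
      _ ≤ d β * d β * N β β := Nat.mul_le_mul_left _ (hNpos β)
      _ ≤ _ := Finset.single_le_sum (f := fun β' => d β * d β' * N β β')
          (fun _ _ => Nat.zero_le _) (Finset.mem_univ β)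
  have hroweq : ∀ β, d β ^ 2 = ∑ β' : IrrCharacter B, d β * d β' * N β β' := by
    have h1 := (Finset.sum_eq_sum_iff_of_le (s := Finset.univ) (fun β _ => hrow β)).mp
      (by rw [hsumN, hdsq])
    intro β; exact h1 β (Finset.mem_univ β)
  intro β β'
  have hgoal : classInner (W β) (W β') = if β = β' then 1 else 0 := by
    rw [hN]
    by_cases h : β = β'
    · rw [if_pos h, ← h]
      have h1 : d β * d β * N β β ≤ d β ^ 2 := by
        rw [hroweq β]
        exact Finset.single_le_sum (f := fun β' => d β * d β' * N β β')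
          (fun _ _ => Nat.zero_le _) (Finset.mem_univ β)
      have h2 : N β β ≤ 1 := by
        have h3 : d β * d β * N β β ≤ d β * d β * 1 := by
          rw [mul_one]; rw [pow_two] at h1; exact h1
        exact Nat.le_of_mul_le_mul_left h3 (Nat.mul_pos (hdpos β) (hdpos β))
      have h4 := hNpos β
      have h5 : N β β = 1 := by omega
      rw [h5]; simp
    · rw [if_neg h]
      have h1 : ∑ x ∈ ({β, β'} : Finset (IrrCharacter B)), d β * d x * N β x
          ≤ ∑ β'' : IrrCharacter B, d β * d β'' * N β β'' :=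
        Finset.sum_le_sum_of_subset (Finset.subset_univ _)
      rw [Finset.sum_pair h, ← hroweq β] at h1
      have h2 : d β ^ 2 ≤ d β * d β * N β β := by
        calc d β ^ 2 = d β * d β * 1 := by ring
          _ ≤ _ := Nat.mul_le_mul_left _ (hNpos β)
      have h3 : d β * d β' * N β β' = 0 := by omega
      have h4 : N β β' = 0 := by
        rcases Nat.mul_eq_zero.mp h3 with h5 | h5
        · rcases Nat.mul_eq_zero.mp h5 with h6 | h6
          · exact absurd h6 (hdpos β).ne'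
          · exact absurd h6 (hdpos β').ne'
        · exact h5
      rw [h4]; simp
  rw [hW] at hgoal
  exact hgoal

include hj hπ hker in
/-- Gallagher: the products are irreducible. -/
theorem pc_gal_irr (θh : IrrCharacter A)
    (hirr : IsIrrCharacter Q₀ (fun q => (θh : A → ℂ) (j q))) (β : IrrCharacter B) :
    IsIrrCharacter A (fun a => (θh : A → ℂ) a * (β : B → ℂ) (π a)) := by
  apply Helper2.isIrrCharacter_of_classInner_self
    (Helper2.isCharacter_mul (Helper2.isCharacter_of_isIrrCharacter θh.2)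
      (Helper2.isCharacter_comp π (Helper2.isCharacter_of_isIrrCharacter β.2)))
  have h := pc_gal_orth j π hj hπ hker θh hirr β β
  rw [if_pos rfl] at h
  exact h

include hj hπ hker in
/-- Gallagher: every irreducible character over `θ` is a product. -/
theorem pc_gal_exists (θh : IrrCharacter A)
    (hirr : IsIrrCharacter Q₀ (fun q => (θh : A → ℂ) (j q))) (ψ : IrrCharacter A)
    (hψ : classInner (fun q : Q₀ => (ψ : A → ℂ) (j q)) (fun q : Q₀ => (θh : A → ℂ) (j q)) ≠ 0) :
    ∃ β : IrrCharacter B, ∀ a, (ψ : A → ℂ) a = (θh : A → ℂ) a * (β : B → ℂ) (π a) := by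
  classical
  by_contra hno
  push_neg at hno
  have hA0 : (Nat.card A : ℂ) ≠ 0 := by exact_mod_cast Nat.card_pos.ne'
  have hB0 : (Nat.card B : ℂ) ≠ 0 := by exact_mod_cast Nat.card_pos.ne'
  have hQ0 : (Nat.card Q₀ : ℂ) ≠ 0 := by exact_mod_cast Nat.card_pos.ne'
  have hzero : ∀ β : IrrCharacter B,
      classInner (fun a => (θh : A → ℂ) a * (β : B → ℂ) (π a)) (ψ : A → ℂ) = 0 := by
    intro β
    have h1 := Helper2.classInner_irr_irr
      (⟨_, pc_gal_irr j π hj hπ hker θh hirr β⟩ : IrrCharacter A) ψ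
    rw [h1, if_neg]
    intro h
    obtain ⟨a, ha⟩ := hno β
    apply ha
    rw [← h]
  have hR : classInner (fun a : A => if π a = 1 then (Nat.card B : ℂ) * (θh : A → ℂ) a else 0)
      (ψ : A → ℂ) = 0 := by
    have h1 : (fun a : A => if π a = 1 then (Nat.card B : ℂ) * (θh : A → ℂ) a else 0) =
        ∑ β : IrrCharacter B, ((β : B → ℂ) 1) •
          (fun a => (θh : A → ℂ) a * (β : B → ℂ) (π a)) := by
      funext a
      rw [Finset.sum_apply]
      have h2 : ∀ β : IrrCharacter B, (((β : B → ℂ) 1) •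
          (fun a => (θh : A → ℂ) a * (β : B → ℂ) (π a))) a
          = (θh : A → ℂ) a * ((β : B → ℂ) 1 * (β : B → ℂ) (π a)) := by
        intro β; rw [Pi.smul_apply, smul_eq_mul]; ring
      rw [Finset.sum_congr rfl (fun β _ => h2 β), ← Finset.mul_sum, Helper25.sum_irr_one_mul]
      split_ifs <;> ring
    rw [h1, Helper2.classInner_sum_left]
    apply Finset.sum_eq_zero; intro β _
    rw [Helper2.classInner_smul_left, hzero β, mul_zero]
  unfold classInner at hR
  beta_reduce at hR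
  have h3 : ∀ a : A, (if π a = 1 then (Nat.card B : ℂ) * (θh : A → ℂ) a else 0) *
      conj ((ψ : A → ℂ) a) =
      if π a = 1 then (Nat.card B : ℂ) * ((θh : A → ℂ) a * conj ((ψ : A → ℂ) a)) else 0 := by
    intro a; split_ifs <;> ring
  rw [Finset.sum_congr rfl (fun a _ => h3 a), pc_sum_ker j π hj hker, ← Finset.mul_sum] at hR
  have hS : ∑ q : Q₀, (θh : A → ℂ) (j q) * conj ((ψ : A → ℂ) (j q)) = 0 := by
    rcases mul_eq_zero.mp hR with h | h
    · exact absurd (inv_eq_zero.mp h) hA0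
    · rcases mul_eq_zero.mp h with h' | h'
      · exact absurd h' hB0
      · exact h'
  apply hψ
  rw [Helper2.classInner_conj_symm]
  have h4 : classInner (fun q : Q₀ => (θh : A → ℂ) (j q)) (fun q : Q₀ => (ψ : A → ℂ) (j q)) = 0 := by
    unfold classInner
    rw [hS, mul_zero]
  rw [h4, map_zero]

end PcGal

end Cfsg.Agent.Helper26
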