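import Mathlib
import Cfsg.Agent.Helper26.Glauberman

/-!
# The ambient quotient `N(Q)/Q` (helper26)

Prefix `pq_`.  Images of subgroups of `Γ` in `N_Γ(Q)/Q`, the projection homomorphisms, and a
fixed-point lemma for cosets under a coprime `p`-group of operators.
-/

set_option autoImplicit false

namespace Cfsg.Agent.Helper26

open Cfsg

universe u

section PqDefs

variable {Γ : Type u} [Group Γ] (Q : Subgroup Γ)

/-- The ambient quotient `N(Q)/Q`. -/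
abbrev pq_Bar : Type u :=
  ↥(Subgroup.normalizer (Q : Set Γ)) ⧸ Q.subgroupOf (Subgroup.normalizer (Q : Set Γ))

/-- The image of a subgroup in the quotient. -/
def pq_im (A : Subgroup Γ) : Subgroup (pq_Bar Q) :=
  (A.subgroupOf (Subgroup.normalizer (Q : Set Γ))).map
    (QuotientGroup.mk' (Q.subgroupOf (Subgroup.normalizer (Q : Set Γ))))

theorem pq_mem_im (A : Subgroup Γ) (z : pq_Bar Q) :
    z ∈ pq_im Q A ↔ ∃ a : Γ, ∃ ha : a ∈ Subgroup.normalizer (Q : Set Γ), a ∈ A ∧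
      (QuotientGroup.mk (⟨a, ha⟩ : ↥(Subgroup.normalizer (Q : Set Γ))) : pq_Bar Q) = z := by
  constructor
  · intro h
    obtain ⟨y, hy, hz⟩ := Subgroup.mem_map.mp h
    exact ⟨y.1, y.2, Subgroup.mem_subgroupOf.mp hy, hz⟩
  · rintro ⟨a, ha, haA, hz⟩
    exact Subgroup.mem_map.mpr ⟨⟨a, ha⟩, Subgroup.mem_subgroupOf.mpr haA, hz⟩

theorem pq_mk_eq_iff (a b : Γ) (ha : a ∈ Subgroup.normalizer (Q : Set Γ))
    (hb : b ∈ Subgroup.normalizer (Q : Set Γ)) :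
    (QuotientGroup.mk (⟨a, ha⟩ : ↥(Subgroup.normalizer (Q : Set Γ))) : pq_Bar Q)
      = QuotientGroup.mk (⟨b, hb⟩ : ↥(Subgroup.normalizer (Q : Set Γ))) ↔ a⁻¹ * b ∈ Q := by
  rw [QuotientGroup.eq, Subgroup.mem_subgroupOf]
  rfl

theorem pq_im_mono {A₁ A₂ : Subgroup Γ} (h : A₁ ≤ A₂) : pq_im Q A₁ ≤ pq_im Q A₂ := by
  intro z hz
  rw [pq_mem_im] at hz ⊢
  obtain ⟨a, ha, haA, hz⟩ := hz
  exact ⟨a, ha, h haA, hz⟩

/-- The image of a normalizing subgroup normalizes the image. -/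
theorem pq_im_norm (P A : Subgroup Γ) (hnorm : ∀ x ∈ P, ∀ a ∈ A, x * a * x⁻¹ ∈ A) :
    ∀ s ∈ pq_im Q P, ∀ g ∈ pq_im Q A, s * g * s⁻¹ ∈ pq_im Q A := by
  intro s hs g hg
  rw [pq_mem_im] at hs hg ⊢
  obtain ⟨x, hx, hxP, rfl⟩ := hs
  obtain ⟨a, ha, haA, rfl⟩ := hg
  refine ⟨x * a * x⁻¹, (Subgroup.normalizer (Q : Set Γ)).mul_mem
    ((Subgroup.normalizer (Q : Set Γ)).mul_mem hx ha)
    ((Subgroup.normalizer (Q : Set Γ)).inv_mem hx), hnorm x hxP a haA, ?_⟩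
  rfl

/-- The projection. -/
def pq_hom (A : Subgroup Γ) (hA : A ≤ Subgroup.normalizer (Q : Set Γ)) : ↥A →* ↥(pq_im Q A) :=
  ((QuotientGroup.mk' (Q.subgroupOf (Subgroup.normalizer (Q : Set Γ)))).comp
    (Subgroup.inclusion hA)).codRestrict (pq_im Q A)
    (fun a => Subgroup.mem_map.mpr
      ⟨Subgroup.inclusion hA a, Subgroup.mem_subgroupOf.mpr a.2, rfl⟩)

variable (A : Subgroup Γ) (hA : A ≤ Subgroup.normalizer (Q : Set Γ))

theorem pq_hom_coe (a : A) : ((pq_hom Q A hA a : pq_im Q A) : pq_Bar Q)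
    = QuotientGroup.mk (⟨(a : Γ), hA a.2⟩ : ↥(Subgroup.normalizer (Q : Set Γ))) := rfl

theorem pq_hom_surj : Function.Surjective (pq_hom Q A hA) := by
  intro z
  obtain ⟨a, ha, haA, hz⟩ := (pq_mem_im Q A z.1).mp z.2
  exact ⟨⟨a, haA⟩, Subtype.ext hz⟩

theorem pq_hom_eq_iff (a b : A) :
    pq_hom Q A hA a = pq_hom Q A hA b ↔ (a : Γ)⁻¹ * b ∈ Q := by
  rw [Subtype.ext_iff, pq_hom_coe, pq_hom_coe, pq_mk_eq_iff]

theorem pq_hom_eq_one_iff (a : A) : pq_hom Q A hA a = 1 ↔ (a : Γ) ∈ Q := by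
  have h := pq_hom_eq_iff Q A hA 1 a
  rw [map_one] at h
  rw [eq_comm, h]
  simp

include hA in
/-- The order of the image divides the relative index. -/
theorem pq_card_dvd [Finite Γ] : Nat.card (pq_im Q A) ∣ Q.relIndex A := by
  have h1 := Subgroup.index_ker (pq_hom Q A hA)
  rw [MonoidHom.range_eq_top.mpr (pq_hom_surj Q A hA), Subgroup.card_top] at h1
  rw [← h1]
  apply Subgroup.index_dvd_of_le
  intro a ha
  rw [MonoidHom.mem_ker, pq_hom_eq_one_iff]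
  exact Subgroup.mem_subgroupOf.mp ha

theorem pq_hom_inclusion {A₁ : Subgroup Γ} (h : A₁ ≤ A) (a : A₁) :
    pq_hom Q A hA (Subgroup.inclusion h a) =
      Subgroup.inclusion (pq_im_mono Q h) (pq_hom Q A₁ (h.trans hA) a) := rfl

/-- Compatibility of the projection with conjugation. -/
theorem pq_conj_compat (P : Subgroup Γ) (hP : P ≤ Subgroup.normalizer (Q : Set Γ))
    (hnorm : ∀ x ∈ P, ∀ a ∈ A, x * a * x⁻¹ ∈ A) (x : P) (a : A) :
    pq_hom Q A hA (gb_conjHom A P hnorm x a) =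
      gb_conjHom (pq_im Q A) (pq_im Q P) (pq_im_norm Q P A hnorm) (pq_hom Q P hP x)
        (pq_hom Q A hA a) := rfl

/-- Centralizing the image of `P` means commutators lie in `Q`. -/
theorem pq_mem_centralizer (P : Subgroup Γ) (hP : P ≤ Subgroup.normalizer (Q : Set Γ))
    (t : Γ) (ht : t ∈ Subgroup.normalizer (Q : Set Γ)) :
    (QuotientGroup.mk (⟨t, ht⟩ : ↥(Subgroup.normalizer (Q : Set Γ))) : pq_Bar Q) ∈
      Subgroup.centralizer (pq_im Q P : Set (pq_Bar Q)) ↔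
      ∀ x ∈ P, x * t * x⁻¹ * t⁻¹ ∈ Q := by
  rw [Subgroup.mem_centralizer_iff]
  constructor
  · intro h x hx
    have hx' : x⁻¹ ∈ Subgroup.normalizer (Q : Set Γ) :=
      (Subgroup.normalizer (Q : Set Γ)).inv_mem (hP hx)
    have h1 := h (QuotientGroup.mk (⟨x⁻¹, hx'⟩ : ↥(Subgroup.normalizer (Q : Set Γ))))
      ((pq_mem_im Q P _).mpr ⟨x⁻¹, hx', P.inv_mem hx, rfl⟩)
    have h2 : (QuotientGroup.mk ((⟨x⁻¹, hx'⟩ : ↥(Subgroup.normalizer (Q : Set Γ))) * ⟨t, ht⟩)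
        : pq_Bar Q) = QuotientGroup.mk ((⟨t, ht⟩ : ↥(Subgroup.normalizer (Q : Set Γ))) *
          ⟨x⁻¹, hx'⟩) := h1
    have h3 : (x⁻¹ * t)⁻¹ * (t * x⁻¹) ∈ Q :=
      (pq_mk_eq_iff Q (x⁻¹ * t) (t * x⁻¹) _ _).mp h2
    have h4 := (Subgroup.mem_normalizer_iff.mp ht ((x⁻¹ * t)⁻¹ * (t * x⁻¹))).mp h3
    have h5 : t * ((x⁻¹ * t)⁻¹ * (t * x⁻¹)) * t⁻¹ = x * t * x⁻¹ * t⁻¹ := by group
    rw [h5] at h4; exact h4
  · intro h s hs
    obtain ⟨x, hx, hxP, rfl⟩ := (pq_mem_im Q P s).mp hs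
    show (QuotientGroup.mk ((⟨x, hx⟩ : ↥(Subgroup.normalizer (Q : Set Γ))) * ⟨t, ht⟩)
        : pq_Bar Q) = QuotientGroup.mk ((⟨t, ht⟩ : ↥(Subgroup.normalizer (Q : Set Γ))) *
          ⟨x, hx⟩)
    apply (pq_mk_eq_iff Q (x * t) (t * x) _ _).mpr
    have h1 := h x⁻¹ (P.inv_mem hxP)
    have ht' : t⁻¹ ∈ Subgroup.normalizer (Q : Set Γ) :=
      (Subgroup.normalizer (Q : Set Γ)).inv_mem ht
    have h2 := (Subgroup.mem_normalizer_iff.mp ht' (x⁻¹ * t * x⁻¹⁻¹ * t⁻¹)).mp h1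
    have h3 : t⁻¹ * (x⁻¹ * t * x⁻¹⁻¹ * t⁻¹) * t⁻¹⁻¹ = (x * t)⁻¹ * (t * x) := by group
    rw [h3] at h2; exact h2

/-- The image of the relative fixed points is the centralizer of the image of `P`. -/
theorem pq_im_fixed (P T D : Subgroup Γ) (hP : P ≤ Subgroup.normalizer (Q : Set Γ))
    (hD : ∀ t : Γ, t ∈ D ↔ t ∈ T ∧ ∀ x ∈ P, x * t * x⁻¹ * t⁻¹ ∈ Q) :
    pq_im Q D = pq_im Q T ⊓ Subgroup.centralizer (pq_im Q P : Set (pq_Bar Q)) := by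
  ext z
  rw [Subgroup.mem_inf]
  constructor
  · intro hz
    obtain ⟨d, hd, hdD, rfl⟩ := (pq_mem_im Q D z).mp hz
    exact ⟨(pq_mem_im Q T _).mpr ⟨d, hd, ((hD d).mp hdD).1, rfl⟩,
      (pq_mem_centralizer Q P hP d hd).mpr ((hD d).mp hdD).2⟩
  · rintro ⟨hzT, hzC⟩
    obtain ⟨t, ht, htT, rfl⟩ := (pq_mem_im Q T z).mp hzT
    exact (pq_mem_im Q D _).mpr ⟨t, ht, (hD t).mpr ⟨htT, (pq_mem_centralizer Q P hP t ht).mp hzC⟩,
      rfl⟩

end PqDefs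

/-- A coset of an invariant subgroup, stable under a coprime `p`-group of operators, contains
a fixed element. -/
theorem pq_coset_fixed {Γ : Type u} [Group Γ] (G S H : Subgroup Γ) (p : ℕ) [Fact p.Prime]
    (hP : IsPGroup p S) (hpG : ¬ p ∣ Nat.card G) (hHG : H ≤ G)
    (hnormH : ∀ s ∈ S, ∀ h ∈ H, s * h * s⁻¹ ∈ H)
    (g : Γ) (hcos : ∀ s ∈ S, g⁻¹ * (s * g * s⁻¹) ∈ H) :
    ∃ h ∈ H, ∀ s ∈ S, s * (g * h) * s⁻¹ = g * h := by
  letI : MulAction S {y : Γ // g⁻¹ * y ∈ H} :=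
    { smul := fun s y => ⟨(s : Γ) * y.1 * (s : Γ)⁻¹, by
        have h1 : g⁻¹ * (s * y.1 * (s : Γ)⁻¹)
            = (g⁻¹ * (s * g * (s : Γ)⁻¹)) * (s * (g⁻¹ * y.1) * (s : Γ)⁻¹) := by group
        rw [h1]; exact H.mul_mem (hcos s s.2) (hnormH s s.2 _ y.2)⟩
      one_smul := fun y => Subtype.ext (by
        show ((1 : S) : Γ) * y.1 * ((1 : S) : Γ)⁻¹ = y.1
        simp)
      mul_smul := fun s t y => Subtype.ext (by
        show ((s * t : S) : Γ) * y.1 * ((s * t : S) : Γ)⁻¹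
          = (s : Γ) * ((t : Γ) * y.1 * (t : Γ)⁻¹) * (s : Γ)⁻¹
        rw [Subgroup.coe_mul]; group) }
  have hcard : ¬ p ∣ Nat.card {y : Γ // g⁻¹ * y ∈ H} := by
    have e : {y : Γ // g⁻¹ * y ∈ H} ≃ H :=
      { toFun := fun y => ⟨g⁻¹ * y.1, y.2⟩
        invFun := fun h => ⟨g * h.1, by rw [inv_mul_cancel_left]; exact h.2⟩
        left_inv := fun y => Subtype.ext (by simp)
        right_inv := fun h => Subtype.ext (by simp) }
    rw [Nat.card_congr e]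
    intro h
    exact hpG (h.trans (Subgroup.card_dvd_of_le hHG))
  obtain ⟨y, hy⟩ := hP.nonempty_fixed_point_of_prime_not_dvd_card _ hcard
  refine ⟨g⁻¹ * y.1, y.2, fun s hs => ?_⟩
  have h1 : (s : Γ) * y.1 * s⁻¹ = y.1 := congrArg Subtype.val (hy ⟨s, hs⟩)
  rw [mul_inv_cancel_left]; exact h1

end Cfsg.Agent.Helper26
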