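import Mathlib
import Cfsg.Agent.Helper26.PGCliff
import Cfsg.Agent.Helper26.PGQuot
import Cfsg.Agent.Helper26.CycGlaub

/-!
# Invariant constituents under a `p`-group normalizing a group with normal Sylow (helper26)

Prefix `pv_`.  Stabilizers, the canonical extension of an invariant character of a normal Sylow
subgroup and its invariance, existence and transitivity for invariant constituents.
-/

set_option autoImplicit false

namespace Cfsg.Agent.Helper26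

open Cfsg

universe u

section PvRel

variable {Γ : Type u} [Group Γ] (Q : Subgroup Γ)

/-- `θ' = θ ∘ c_y` on `Q`, in relational form. -/
def pv_rel (θ θ' : Q → ℂ) (y : Γ) : Prop :=
  ∀ q q' : Q, (q' : Γ) = y * q * y⁻¹ → θ' q = θ q'

theorem pv_rel_inv {θ θ' : Q → ℂ} {y : Γ} (h : pv_rel Q θ θ' y) : pv_rel Q θ' θ y⁻¹ := by
  intro q q' hq'
  have h1 := h q' q (by rw [hq']; group)
  exact h1.symm

theorem pv_rel_mul {θ θ' θ'' : Q → ℂ} {a b : Γ} (hb : ∀ q ∈ Q, b * q * b⁻¹ ∈ Q)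
    (h1 : pv_rel Q θ θ' a) (h2 : pv_rel Q θ' θ'' b) : pv_rel Q θ θ'' (a * b) := by
  intro q q' hq'
  have e1 := h2 q ⟨b * q * b⁻¹, hb q q.2⟩ rfl
  have e2 := h1 ⟨b * q * b⁻¹, hb q q.2⟩ q' (by rw [hq']; group)
  rw [e1, e2]

theorem pv_rel_iff_inv (A : Subgroup Γ) (θ : Q → ℂ) :
    gc_InvFun Q A θ ↔ ∀ a ∈ A, pv_rel Q θ θ a := by
  constructor
  · intro h a ha q q' hq'; exact (h a ha q q' hq').symm
  · intro h a ha q q' hq'; exact (h a ha q q' hq').symm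

/-- The stabilizer in `K` of a function on a subgroup `Q` normalized by `K`. -/
def pv_stab (K : Subgroup Γ) (hQn : ∀ k ∈ K, ∀ q ∈ Q, k * q * k⁻¹ ∈ Q) (θ : Q → ℂ) :
    Subgroup Γ where
  carrier := {k | k ∈ K ∧ ∀ q q' : Q, (q' : Γ) = k * q * k⁻¹ → θ q' = θ q}
  one_mem' := ⟨K.one_mem, fun q q' h => by
    have : q' = q := Subtype.ext (by rw [h]; simp)
    rw [this]⟩
  mul_mem' := by
    rintro a b ⟨haK, ha⟩ ⟨hbK, hb⟩
    refine ⟨K.mul_mem haK hbK, fun q q' h => ?_⟩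
    have h1 := hb q ⟨b * q * b⁻¹, hQn b hbK q q.2⟩ rfl
    have h2 := ha ⟨b * q * b⁻¹, hQn b hbK q q.2⟩ q' (by rw [h]; group)
    rw [h2, h1]
  inv_mem' := by
    rintro a ⟨haK, ha⟩
    refine ⟨K.inv_mem haK, fun q q' h => ?_⟩
    have h1 := ha q' q (by rw [h]; group)
    exact h1.symm

theorem pv_mem_stab (K : Subgroup Γ) (hQn : ∀ k ∈ K, ∀ q ∈ Q, k * q * k⁻¹ ∈ Q) (θ : Q → ℂ)
    (k : Γ) : k ∈ pv_stab Q K hQn θ ↔
      k ∈ K ∧ ∀ q q' : Q, (q' : Γ) = k * q * k⁻¹ → θ q' = θ q := Iff.rfl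

theorem pv_stab_le (K : Subgroup Γ) (hQn : ∀ k ∈ K, ∀ q ∈ Q, k * q * k⁻¹ ∈ Q) (θ : Q → ℂ) :
    pv_stab Q K hQn θ ≤ K := fun _ h => h.1

theorem pv_le_stab (K : Subgroup Γ) (hQn : ∀ k ∈ K, ∀ q ∈ Q, k * q * k⁻¹ ∈ Q) (θ : Q → ℂ)
    (hQK : Q ≤ K) (hθ : IsClassFunction Q θ) : Q ≤ pv_stab Q K hQn θ := by
  intro k hk
  refine ⟨hQK hk, fun q q' h => ?_⟩
  have : q' = ⟨k, hk⟩ * q * ⟨k, hk⟩⁻¹ := Subtype.ext (by rw [h]; rfl)
  rw [this]; exact hθ q ⟨k, hk⟩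

theorem pv_stab_inv (K : Subgroup Γ) (hQn : ∀ k ∈ K, ∀ q ∈ Q, k * q * k⁻¹ ∈ Q) (θ : Q → ℂ) :
    gc_InvFun Q (pv_stab Q K hQn θ) θ := fun t ht q q' h => ht.2 q q' h

/-- A group normalizing `K` and `Q` and fixing `θ` normalizes the stabilizer. -/
theorem pv_stab_norm (K P : Subgroup Γ) (hQn : ∀ k ∈ K, ∀ q ∈ Q, k * q * k⁻¹ ∈ Q) (θ : Q → ℂ)
    (hPK : ∀ x ∈ P, ∀ k ∈ K, x * k * x⁻¹ ∈ K) (hPQ : ∀ x ∈ P, ∀ q ∈ Q, x * q * x⁻¹ ∈ Q)
    (hinv : gc_InvFun Q P θ) :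
    ∀ x ∈ P, ∀ t ∈ pv_stab Q K hQn θ, x * t * x⁻¹ ∈ pv_stab Q K hQn θ := by
  intro x hx t ht
  refine ⟨hPK x hx t ht.1, ?_⟩
  have hr := (pv_rel_iff_inv Q P θ).mp hinv
  have h1 : pv_rel Q θ θ x := hr x hx
  have h2 : pv_rel Q θ θ t := fun q q' h => (ht.2 q q' h).symm
  have h3 : pv_rel Q θ θ x⁻¹ := hr x⁻¹ (P.inv_mem hx)
  have h4 := pv_rel_mul Q (hPQ x⁻¹ (P.inv_mem hx))
    (pv_rel_mul Q (hQn t ht.1) h1 h2) h3
  intro q q' h
  exact (h4 q q' h).symm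

theorem pv_le_normalizer (K : Subgroup Γ) (hQn : ∀ k ∈ K, ∀ q ∈ Q, k * q * k⁻¹ ∈ Q) :
    K ≤ Subgroup.normalizer (Q : Set Γ) := by
  intro k hk
  rw [Subgroup.mem_normalizer_iff]
  intro h
  constructor
  · intro hh; exact hQn k hk h hh
  · intro hh
    have h1 := hQn k⁻¹ (K.inv_mem hk) _ hh
    have e : k⁻¹ * (k * h * k⁻¹) * k⁻¹⁻¹ = h := by group
    rw [e] at h1; exact h1

end PvRel

section PvGroup

variable {Γ : Type u} [Group Γ] [Finite Γ] (p : ℕ) [Fact p.Prime] (P K Q C : Subgroup Γ)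

/-- A `p`-group normalizing `K` normalizes the normal Sylow `p`-subgroup of `K`. -/
theorem pv_norm_Q (hPK : ∀ x ∈ P, ∀ k ∈ K, x * k * x⁻¹ ∈ K) (hQK : Q ≤ K)
    (hQn : ∀ k ∈ K, ∀ q ∈ Q, k * q * k⁻¹ ∈ Q) (hQp : IsPGroup p Q)
    (hQsyl : ¬ p ∣ Q.relIndex K) : ∀ x ∈ P, ∀ q ∈ Q, x * q * x⁻¹ ∈ Q := by
  intro x hx q hq
  have hp := (Fact.out : p.Prime)
  haveI hnorm : (Q.subgroupOf K).Normal := by
    constructor
    intro n hn g
    exact Subgroup.mem_subgroupOf.mpr (hQn g.1 g.2 n.1 (Subgroup.mem_subgroupOf.mp hn))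
  obtain ⟨k, hk⟩ := hQp ⟨q, hq⟩
  have hk' : q ^ p ^ k = 1 := by
    have := congrArg Subtype.val hk
    simpa using this
  obtain ⟨y, hy⟩ : ∃ y : K, (y : Γ) = x * q * x⁻¹ := ⟨⟨x * q * x⁻¹, hPK x hx q (hQK hq)⟩, rfl⟩
  have hy1 : y ^ p ^ k = 1 := by
    apply Subtype.ext
    rw [Subgroup.coe_pow, hy, conj_pow, hk']; simp
  have hord : orderOf y ∣ p ^ k := orderOf_dvd_of_pow_eq_one hy1
  have hcop : ((Q.subgroupOf K).index).Coprime (orderOf y) := by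
    apply Nat.Coprime.coprime_dvd_right hord
    exact (Nat.Coprime.pow_left k ((Nat.Prime.coprime_iff_not_dvd hp).mpr hQsyl)).symm
  obtain ⟨m, hm⟩ := exists_pow_eq_self_of_coprime hcop
  have h1 : y ^ (Q.subgroupOf K).index ∈ Q.subgroupOf K := Subgroup.pow_index_mem _ y
  have h2 : y ∈ Q.subgroupOf K := by rw [← hm]; exact Subgroup.pow_mem _ h1 m
  have h3 := Subgroup.mem_subgroupOf.mp h2
  rw [hy] at h3; exact h3

omit [Finite Γ] [Fact p.Prime] in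
/-- Basic facts on the relative fixed-point subgroup. -/
theorem pv_C_facts (hQK : Q ≤ K) (hPQ : ∀ x ∈ P, ∀ q ∈ Q, x * q * x⁻¹ ∈ Q)
    (hPK : ∀ x ∈ P, ∀ k ∈ K, x * k * x⁻¹ ∈ K)
    (hC : ∀ k : Γ, k ∈ C ↔ (k ∈ K ∧ ∀ x ∈ P, x * k * x⁻¹ * k⁻¹ ∈ Q)) :
    Q ≤ C ∧ (∀ x ∈ P, ∀ c ∈ C, x * c * x⁻¹ ∈ C) := by
  constructor
  · intro q hq
    rw [hC]
    exact ⟨hQK hq, fun x hx => Q.mul_mem (hPQ x hx q hq) (Q.inv_mem hq)⟩
  · intro y hy c hc
    rw [hC] at hc ⊢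
    refine ⟨hPK y hy c hc.1, fun x hx => ?_⟩
    have hz : y⁻¹ * x * y ∈ P := P.mul_mem (P.mul_mem (P.inv_mem hy) hx) hy
    have hw := hPQ y hy _ (hc.2 _ hz)
    have e : y * ((y⁻¹ * x * y) * c * (y⁻¹ * x * y)⁻¹ * c⁻¹) * y⁻¹
        = x * (y * c * y⁻¹) * x⁻¹ * (y * c * y⁻¹)⁻¹ := by group
    rw [e] at hw; exact hw

end PvGroup

section PvExt

variable {Γ : Type u} [Group Γ] [Finite Γ] (p : ℕ) [Fact p.Prime] (T Q P : Subgroup Γ)
  [Fintype T] [Fintype Q]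

/-- The order of a function on a group is invariant under composition with a bijection. -/
theorem pv_orderOf_comp {α : Type*} (e : α → α) (he : Function.Surjective e) (f : α → ℂ) :
    orderOf (fun a => f (e a)) = orderOf f := by
  have h := orderOf_injective
    ({ toFun := fun f : α → ℂ => fun a => f (e a)
       map_one' := rfl
       map_mul' := fun _ _ => rfl } : (α → ℂ) →* (α → ℂ))
    (fun f g hfg => by
      funext b
      obtain ⟨a, rfl⟩ := he b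
      exact congrFun hfg a) f
  exact h

/-- An invariant irreducible character of a normal Sylow `p`-subgroup `Q` of `T` has an
extension to `T` that is invariant under every group `P` normalizing `T`, `Q` and fixing it. -/
theorem pv_exists_ext (hQT : Q ≤ T) (hQnT : ∀ t ∈ T, ∀ q ∈ Q, t * q * t⁻¹ ∈ Q)
    (hQp : IsPGroup p Q) (hidx : ¬ p ∣ Q.relIndex T) (θ : IrrCharacter Q)
    (hinvT : gc_InvFun Q T (θ : Q → ℂ))
    (hPT : ∀ x ∈ P, ∀ t ∈ T, x * t * x⁻¹ ∈ T) (hPQ : ∀ x ∈ P, ∀ q ∈ Q, x * q * x⁻¹ ∈ Q)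
    (hinvP : gc_InvFun Q P (θ : Q → ℂ)) :
    ∃ θh : IrrCharacter T, (∀ q : Q, (θh : T → ℂ) (Subgroup.inclusion hQT q) = (θ : Q → ℂ) q) ∧
      gc_InvFun T P (θh : T → ℂ) := by
  classical
  have hp := (Fact.out : p.Prime)
  haveI hnorm : (Q.subgroupOf T).Normal := by
    constructor
    intro n hn g
    exact Subgroup.mem_subgroupOf.mpr (hQnT g.1 g.2 n.1 (Subgroup.mem_subgroupOf.mp hn))
  letI : Fintype ↥(Q.subgroupOf T) := Fintype.ofFinite _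
  obtain ⟨e, he⟩ : ∃ e : ↥(Q.subgroupOf T) ≃* Q, e = Subgroup.subgroupOfEquivOfLe hQT :=
    ⟨_, rfl⟩
  have hev : ∀ g : ↥(Q.subgroupOf T), ((e g : Q) : Γ) = ((g : T) : Γ) := by
    intro g; rw [he]; rfl
  have hθ' : IsIrrCharacter ↥(Q.subgroupOf T) (fun g => (θ : Q → ℂ) (e g)) :=
    Helper2.isIrrCharacter_comp_of_surjective (e : ↥(Q.subgroupOf T) →* Q) e.surjective θ.2
  obtain ⟨θ', hθ'def⟩ : ∃ θ' : IrrCharacter ↥(Q.subgroupOf T), θ' = ⟨_, hθ'⟩ := ⟨_, rfl⟩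
  have hθ'val : ∀ g : ↥(Q.subgroupOf T), (θ' : ↥(Q.subgroupOf T) → ℂ) g = (θ : Q → ℂ) (e g) := by
    intro g; rw [hθ'def]
  -- cardinalities
  have hcardQ : Nat.card ↥(Q.subgroupOf T) = Nat.card Q := Nat.card_congr e.toEquiv
  obtain ⟨a, ha⟩ := (IsPGroup.iff_card).mp hQp
  have hcop0 : (Nat.card ↥(Q.subgroupOf T)).Coprime (Q.subgroupOf T).index := by
    rw [hcardQ, ha]
    exact Nat.Coprime.pow_left a ((Nat.Prime.coprime_iff_not_dvd hp).mpr hidx)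
  obtain ⟨S, hS⟩ := Subgroup.exists_right_complement'_of_coprime hcop0
  letI : Fintype ↥S := Fintype.ofFinite _
  have hsup : Q.subgroupOf T ⊔ S = ⊤ := hS.sup_eq_top
  have hcardS : Nat.card S = (Q.subgroupOf T).index := by
    have h1 := hS.card_mul_card
    have h2 := Subgroup.card_mul_index (Q.subgroupOf T)
    have h3 : Nat.card ↥(Q.subgroupOf T) * Nat.card S
        = Nat.card ↥(Q.subgroupOf T) * (Q.subgroupOf T).index := by rw [h1, h2]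
    exact Nat.eq_of_mul_eq_mul_left Nat.card_pos h3
  have hcop : (Nat.card ↥(Q.subgroupOf T)).Coprime (Nat.card S) := by rw [hcardS]; exact hcop0
  have hinv' : gc_InvFun (Q.subgroupOf T) S (θ' : ↥(Q.subgroupOf T) → ℂ) := by
    intro s _ g g' hg'
    rw [hθ'val, hθ'val]
    apply hinvT (s : Γ) s.2 (e g) (e g')
    rw [hev, hev, hg']; rfl
  obtain ⟨χh, hext, hdet⟩ := cy_exists_canon (Q.subgroupOf T) S hsup hcop θ' hinv'
  have hdeg : (charDegree (θ' : ↥(Q.subgroupOf T) → ℂ)).Coprime (Q.subgroupOf T).index := by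
    apply Nat.Coprime.coprime_dvd_left (Helper25.irr_degree_dvd_card θ')
    exact hcop0
  rw [hcardS] at hdet
  have hextQ : ∀ q : Q, (χh : T → ℂ) (Subgroup.inclusion hQT q) = (θ : Q → ℂ) q := by
    intro q
    have h1 := hext (e.symm q)
    rw [hθ'val, MulEquiv.apply_symm_apply] at h1
    rw [← h1]
    refine congrArg (χh : T → ℂ) (Subtype.ext ?_)
    show (q : Γ) = (((e.symm q : ↥(Q.subgroupOf T)) : T) : Γ)
    rw [← hev (e.symm q), MulEquiv.apply_symm_apply]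
  refine ⟨χh, hextQ, ?_⟩
  intro x hx t t' ht'
  -- the conjugate extension
  obtain ⟨c, hc⟩ : ∃ c : T →* T, c = gb_conjHom T P hPT ⟨x, hx⟩ := ⟨_, rfl⟩
  have hcsurj : Function.Surjective c := by
    intro t
    refine ⟨gb_conjHom T P hPT (⟨x, hx⟩ : P)⁻¹ t, ?_⟩
    rw [hc]; exact gb_conjHom_inv_right T P hPT ⟨x, hx⟩ t
  have hχ₂ : IsIrrCharacter T (fun t => (χh : T → ℂ) (c t)) :=
    Helper2.isIrrCharacter_comp_of_surjective c hcsurj χh.2
  have hext₂ : ∀ g : ↥(Q.subgroupOf T),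
      ((⟨_, hχ₂⟩ : IrrCharacter T) : T → ℂ) g = (θ' : ↥(Q.subgroupOf T) → ℂ) g := by
    intro g
    show (χh : T → ℂ) (c g) = (θ' : ↥(Q.subgroupOf T) → ℂ) g
    have hmem : ((c g : T) : Γ) ∈ Q := by
      rw [hc, gb_conjHom_coe]
      exact hPQ x hx _ (Subgroup.mem_subgroupOf.mp g.2)
    have h1 : c g = Subgroup.inclusion hQT ⟨((c g : T) : Γ), hmem⟩ := Subtype.ext rfl
    rw [h1, hextQ, hθ'val]
    apply hinvP x hx (e g) ⟨((c g : T) : Γ), hmem⟩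
    show ((c g : T) : Γ) = x * ((e g : Q) : Γ) * x⁻¹
    rw [hc, gb_conjHom_coe, hev]
  have hdet₂ : (detOrder ((⟨_, hχ₂⟩ : IrrCharacter T) : T → ℂ)).Coprime
      (Q.subgroupOf T).index := by
    have h1 := Helper7.detChar_comp c (χh : T → ℂ) (Helper2.isCharacter_of_isIrrCharacter χh.2)
    have h2 : detOrder ((⟨_, hχ₂⟩ : IrrCharacter T) : T → ℂ) = detOrder (χh : T → ℂ) := by
      unfold detOrder
      show orderOf (detChar (fun t => (χh : T → ℂ) (c t))) = orderOf (detChar (χh : T → ℂ))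
      rw [h1]
      exact pv_orderOf_comp c hcsurj (detChar (χh : T → ℂ))
    rw [h2]; exact hdet
  have huniq := cy_unique_ext (Q.subgroupOf T) (Q.subgroupOf T).index rfl θ' hdeg
    (⟨_, hχ₂⟩ : IrrCharacter T) χh hext₂ hext hdet₂ hdet
  have h3 := congrFun (congrArg Subtype.val huniq) t
  have h4 : c t = t' := by
    apply Subtype.ext
    rw [hc, gb_conjHom_coe, ht']
  rw [← h4]
  exact h3

end PvExt

/-- The inner product with an invariant function is invariant under conjugation. -/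
theorem pv_inner_conj_right {Γ : Type u} [Group Γ] (Q A : Subgroup Γ) [Fintype Q]
    (hAQ : ∀ x ∈ A, ∀ q ∈ Q, x * q * x⁻¹ ∈ Q)
    (φ : Q → ℂ) (hφ : gc_InvFun Q A φ) (θ : Q → ℂ) (s : A) :
    classInner φ (fun q => θ (gb_conjHom Q A hAQ s q)) = classInner φ θ := by
  have h1 := pc_inner_conj A Q hAQ s φ θ
  have h2 : (fun q => φ (gb_conjHom Q A hAQ s q)) = φ := by
    funext q
    exact hφ s.1 s.2 q _ (gb_conjHom_coe Q A hAQ s q)
  rw [h2] at h1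
  exact h1

theorem pv_comm_of_conj {G : Type*} [Group G] (s z : G) (h : s * z * s⁻¹ = z) :
    s * z = z * s := by
  calc s * z = s * z * s⁻¹ * s := by group
    _ = z * s := by rw [h]

section PvExists

variable {Γ : Type u} [Group Γ] [Finite Γ] (p : ℕ) [Fact p.Prime] (P K Q : Subgroup Γ)
  [Fintype K] [Fintype Q]

/-- An invariant irreducible character of `K` lies over an invariant irreducible character of
the normal Sylow `p`-subgroup. -/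
theorem pv_exists_inv (hP : IsPGroup p P) (hQK : Q ≤ K)
    (hQn : ∀ k ∈ K, ∀ q ∈ Q, k * q * k⁻¹ ∈ Q) (hPQ : ∀ x ∈ P, ∀ q ∈ Q, x * q * x⁻¹ ∈ Q)
    (hQsyl : ¬ p ∣ Q.relIndex K) (χ : IrrCharacter K)
    (hχ : gc_InvFun Q P (fun q : Q => (χ : K → ℂ) (Subgroup.inclusion hQK q))) :
    ∃ θ : IrrCharacter Q, gc_InvFun Q P (θ : Q → ℂ) ∧
      classInner (fun q : Q => (χ : K → ℂ) (Subgroup.inclusion hQK q)) (θ : Q → ℂ) ≠ 0 := by
  classical
  have hp := (Fact.out : p.Prime)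
  by_contra hno
  push_neg at hno
  obtain ⟨res, hres⟩ : ∃ res : Q → ℂ,
      res = fun q : Q => (χ : K → ℂ) (Subgroup.inclusion hQK q) := ⟨_, rfl⟩
  rw [← hres] at hχ hno
  have hresch : IsCharacter Q res := by
    rw [hres]
    exact Helper2.isCharacter_comp (Subgroup.inclusion hQK)
      (Helper2.isCharacter_of_isIrrCharacter χ.2)
  have hresK : gc_InvFun Q K res := by
    intro k hk q q' hq'
    rw [hres]
    show (χ : K → ℂ) (Subgroup.inclusion hQK q') = (χ : K → ℂ) (Subgroup.inclusion hQK q)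
    have h1 : Subgroup.inclusion hQK q' = ⟨k, hk⟩ * Subgroup.inclusion hQK q * ⟨k, hk⟩⁻¹ :=
      Subtype.ext hq'
    rw [h1]; exact Helper25.irr_conj χ _ _
  obtain ⟨θ₀, hθ₀⟩ : ∃ θ₀ : IrrCharacter Q, classInner res (θ₀ : Q → ℂ) ≠ 0 := by
    by_contra h; push_neg at h
    have hdec := Helper2.classFun_eq_sum_classInner
      (Helper2.isClassFunction_of_isCharacter hresch)
    have h1 := congrFun hdec 1
    rw [Finset.sum_apply,
      Finset.sum_eq_zero (fun θ _ => by rw [Pi.smul_apply, h θ, zero_smul])] at h1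
    rw [hres] at h1
    exact Helper25.irr_one_ne_zero χ h1
  letI actK : MulAction K (IrrCharacter Q) := gb_actIrr Q K hQn
  have horb : ∀ θ' : IrrCharacter Q,
      classInner res (θ' : Q → ℂ) ≠ 0 ↔ θ' ∈ MulAction.orbit K θ₀ := by
    intro θ'
    constructor
    · intro h
      rw [hres] at h hθ₀
      obtain ⟨g, hg⟩ := pc_clifford_conj K Q hQK hQn χ θ₀ θ' hθ₀ h
      refine ⟨g⁻¹, ?_⟩
      apply Subtype.ext; funext q
      show (θ₀ : Q → ℂ) (gb_conjHom Q K hQn (g⁻¹)⁻¹ q) = (θ' : Q → ℂ) q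
      rw [inv_inv, hg q]
    · rintro ⟨g, rfl⟩
      have h1 := pv_inner_conj_right Q K hQn res hresK (θ₀ : Q → ℂ) g⁻¹
      have h2 : ((g • θ₀ : IrrCharacter Q) : Q → ℂ)
          = fun q => (θ₀ : Q → ℂ) (gb_conjHom Q K hQn g⁻¹ q) := rfl
      show classInner res ((g • θ₀ : IrrCharacter Q) : Q → ℂ) ≠ 0
      rw [h2, h1]; exact hθ₀
  have hstab : Q.subgroupOf K ≤ MulAction.stabilizer K θ₀ := by
    intro k hk
    rw [MulAction.mem_stabilizer_iff]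
    apply Subtype.ext; funext q
    show (θ₀ : Q → ℂ) (gb_conjHom Q K hQn k⁻¹ q) = (θ₀ : Q → ℂ) q
    have hkQ : (k : Γ) ∈ Q := Subgroup.mem_subgroupOf.mp hk
    have h1 : gb_conjHom Q K hQn k⁻¹ q = (⟨k, hkQ⟩ : Q)⁻¹ * q * (⟨k, hkQ⟩ : Q)⁻¹⁻¹ :=
      Subtype.ext (by rw [gb_conjHom_coe]; simp)
    rw [h1]
    exact Helper2.isClassFunction_of_isCharacter (Helper2.isCharacter_of_isIrrCharacter θ₀.2) q _
  have hncard : ¬ p ∣ (MulAction.orbit K θ₀).ncard := by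
    rw [← MulAction.index_stabilizer]
    intro h
    exact hQsyl (h.trans (Subgroup.index_dvd_of_le hstab))
  letI actP : MulAction P (IrrCharacter Q) := gb_actIrr Q P hPQ
  obtain ⟨F, hF⟩ : ∃ F : IrrCharacter Q → ℂ,
      F = fun θ' : IrrCharacter Q => if classInner res (θ' : Q → ℂ) ≠ 0 then 1 else 0 :=
    ⟨_, rfl⟩
  have hFinv : ∀ (s : P) (θ' : IrrCharacter Q), F (s • θ') = F θ' := by
    intro s θ'
    rw [hF]
    have h1 := pv_inner_conj_right Q P hPQ res hχ (θ' : Q → ℂ) s⁻¹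
    have h2 : ((s • θ' : IrrCharacter Q) : Q → ℂ)
        = fun q => (θ' : Q → ℂ) (gb_conjHom Q P hPQ s⁻¹ q) := rfl
    show (if classInner res ((s • θ' : IrrCharacter Q) : Q → ℂ) ≠ 0 then (1 : ℂ) else 0)
      = if classInner res (θ' : Q → ℂ) ≠ 0 then 1 else 0
    rw [h2, h1]
  have hFint : ∀ θ', IsIntegral ℤ (F θ') := by
    intro θ'; rw [hF]; beta_reduce; split_ifs
    · exact isIntegral_one
    · exact isIntegral_zero
  obtain ⟨r, hr, hsum⟩ := gb_orbit_sum p hP F hFinv hFint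
  have hfix0 : ∑ x ∈ Finset.univ.filter (fun x : IrrCharacter Q => ∀ s : P, s • x = x), F x
      = 0 := by
    apply Finset.sum_eq_zero
    intro θ' hθ'
    rw [Finset.mem_filter] at hθ'
    have hinv : gc_InvFun Q P (θ' : Q → ℂ) := by
      intro x hx q q' hq'
      have h1 := congrFun (congrArg Subtype.val (hθ'.2 (⟨x, hx⟩ : P)⁻¹)) q
      have h2 : (((⟨x, hx⟩ : P)⁻¹ • θ' : IrrCharacter Q) : Q → ℂ) q
          = (θ' : Q → ℂ) (gb_conjHom Q P hPQ (⟨x, hx⟩ : P)⁻¹⁻¹ q) := rfl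
      rw [h2, inv_inv] at h1
      have h3 : gb_conjHom Q P hPQ ⟨x, hx⟩ q = q' :=
        Subtype.ext (by rw [gb_conjHom_coe, hq'])
      rw [h3] at h1; exact h1
    rw [hF]; beta_reduce
    rw [if_neg (not_not.mpr (hno θ' hinv))]
  rw [hfix0, zero_add] at hsum
  have hcount : ∑ θ' : IrrCharacter Q, F θ' = ((MulAction.orbit K θ₀).ncard : ℂ) := by
    rw [hF]
    have h1 : ∀ θ' : IrrCharacter Q,
        (if classInner res (θ' : Q → ℂ) ≠ 0 then (1 : ℂ) else 0)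
          = if θ' ∈ MulAction.orbit K θ₀ then 1 else 0 := by
      intro θ'
      by_cases h : θ' ∈ MulAction.orbit K θ₀
      · rw [if_pos h, if_pos ((horb θ').mpr h)]
      · rw [if_neg h, if_neg (fun h' => h ((horb θ').mp h'))]
    rw [Finset.sum_congr rfl (fun θ' _ => h1 θ'), Finset.sum_boole]
    congr 1
    rw [← Set.ncard_coe_finset, Finset.coe_filter_univ]
    rfl
  rw [hcount] at hsum
  have hdvd := gb_int_dvd p hp.ne_zero ((MulAction.orbit K θ₀).ncard : ℤ) r hr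
    (by push_cast; exact hsum)
  exact hncard (by exact_mod_cast hdvd)

/-- Two invariant constituents are conjugate by an element of the relative fixed points. -/
theorem pv_trans (C : Subgroup Γ) (hP : IsPGroup p P)
    (hPK : ∀ x ∈ P, ∀ k ∈ K, x * k * x⁻¹ ∈ K) (hQK : Q ≤ K)
    (hQn : ∀ k ∈ K, ∀ q ∈ Q, k * q * k⁻¹ ∈ Q) (hPQ : ∀ x ∈ P, ∀ q ∈ Q, x * q * x⁻¹ ∈ Q)
    (hQsyl : ¬ p ∣ Q.relIndex K)
    (hC : ∀ k : Γ, k ∈ C ↔ (k ∈ K ∧ ∀ x ∈ P, x * k * x⁻¹ * k⁻¹ ∈ Q))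
    (χ : IrrCharacter K) (θ θ' : IrrCharacter Q)
    (hθ : gc_InvFun Q P (θ : Q → ℂ)) (hθ' : gc_InvFun Q P (θ' : Q → ℂ))
    (h : classInner (fun q : Q => (χ : K → ℂ) (Subgroup.inclusion hQK q)) (θ : Q → ℂ) ≠ 0)
    (h' : classInner (fun q : Q => (χ : K → ℂ) (Subgroup.inclusion hQK q)) (θ' : Q → ℂ) ≠ 0) :
    ∃ c ∈ C, pv_rel Q (θ : Q → ℂ) (θ' : Q → ℂ) c := by
  classical
  obtain ⟨g, hg⟩ := pc_clifford_conj K Q hQK hQn χ θ θ' h h'
  have hrelg : pv_rel Q (θ : Q → ℂ) (θ' : Q → ℂ) (g : Γ) := by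
    intro q q' hq'
    have h1 : gb_conjHom Q K hQn g q = q' := Subtype.ext (by rw [gb_conjHom_coe, hq'])
    rw [hg q, h1]
  have hKN := pv_le_normalizer Q K hQn
  have hPN := pv_le_normalizer Q P hPQ
  have hrP := (pv_rel_iff_inv Q P (θ : Q → ℂ)).mp hθ
  have hrP' := (pv_rel_iff_inv Q P (θ' : Q → ℂ)).mp hθ'
  obtain ⟨T', hT'⟩ : ∃ T' : Subgroup Γ, T' = pv_stab Q K hQn (θ' : Q → ℂ) := ⟨_, rfl⟩
  have hT'K : T' ≤ K := by rw [hT']; exact pv_stab_le Q K hQn _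
  have hPT' : ∀ x ∈ P, ∀ t ∈ T', x * t * x⁻¹ ∈ T' := by
    rw [hT']; exact pv_stab_norm Q K P hQn _ hPK hPQ hθ'
  have hPbar : IsPGroup p ↥(pq_im Q P) := (hP.comap_subtype).map _
  have hpK : ¬ p ∣ Nat.card ↥(pq_im Q K) :=
    fun hd => hQsyl (hd.trans (pq_card_dvd Q K hKN))
  have hcos : ∀ s ∈ pq_im Q P,
      (QuotientGroup.mk (⟨(g : Γ), hKN g.2⟩ : ↥(Subgroup.normalizer (Q : Set Γ))) : pq_Bar Q)⁻¹ *
        (s * QuotientGroup.mk (⟨(g : Γ), hKN g.2⟩ : ↥(Subgroup.normalizer (Q : Set Γ))) * s⁻¹)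
        ∈ pq_im Q T' := by
    intro s hs
    obtain ⟨x, hxN, hxP, rfl⟩ := (pq_mem_im Q P s).mp hs
    rw [pq_mem_im]
    have hu : (g : Γ)⁻¹ * (x * g * x⁻¹) ∈ T' := by
      rw [hT']
      refine ⟨K.mul_mem (K.inv_mem g.2) (hPK x hxP g g.2), ?_⟩
      have r1 : pv_rel Q (θ' : Q → ℂ) (θ : Q → ℂ) (g : Γ)⁻¹ := pv_rel_inv Q hrelg
      have r2 : pv_rel Q (θ : Q → ℂ) (θ : Q → ℂ) x := hrP x hxP
      have r3 : pv_rel Q (θ' : Q → ℂ) (θ' : Q → ℂ) x⁻¹ := hrP' x⁻¹ (P.inv_mem hxP)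
      have r4 := pv_rel_mul Q (hPQ x⁻¹ (P.inv_mem hxP))
        (pv_rel_mul Q (hQn g g.2) (pv_rel_mul Q (hPQ x hxP) r1 r2) hrelg) r3
      intro q q' hq'
      have e : (g : Γ)⁻¹ * (x * g * x⁻¹) = (g : Γ)⁻¹ * x * g * x⁻¹ := by group
      rw [e] at hq'
      exact (r4 q q' hq').symm
    exact ⟨_, Subgroup.mul_mem _ (Subgroup.inv_mem _ (hKN g.2))
      (Subgroup.mul_mem _ (Subgroup.mul_mem _ hxN (hKN g.2)) (Subgroup.inv_mem _ hxN)), hu, rfl⟩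
  obtain ⟨hbar, hhbar, hfix⟩ := pq_coset_fixed (pq_im Q K) (pq_im Q P) (pq_im Q T') p hPbar hpK
    (pq_im_mono Q hT'K) (pq_im_norm Q P T' hPT') _ hcos
  obtain ⟨t, htN, htT', rfl⟩ := (pq_mem_im Q T' hbar).mp hhbar
  have htK := hT'K htT'
  refine ⟨g * t, ?_, ?_⟩
  · rw [hC]
    refine ⟨K.mul_mem g.2 htK, ?_⟩
    have hcN : (g : Γ) * t ∈ Subgroup.normalizer (Q : Set Γ) :=
      Subgroup.mul_mem _ (hKN g.2) htN
    apply (pq_mem_centralizer Q P hPN ((g : Γ) * t) hcN).mp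
    rw [Subgroup.mem_centralizer_iff]
    intro s hs
    exact pv_comm_of_conj s _ (hfix s hs)
  · have hrt : pv_rel Q (θ' : Q → ℂ) (θ' : Q → ℂ) t := by
      rw [hT'] at htT'
      intro q q' hq'; exact (htT'.2 q q' hq').symm
    exact pv_rel_mul Q (hQn t htK) hrelg hrt

end PvExists

end Cfsg.Agent.Helper26
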