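import Mathlib
import Cfsg.Agent.Helper26.PGInv
import Cfsg.Agent.Helper7.BrauerChar
import Cfsg.Agent.Helper7.Brauer

/-!
# Invariant characters of a group with normal Sylow `p`-subgroup under a `p`-group (helper26)

Prefix `pm_`.  The relative Glauberman correspondence `Irr_P(K) → Irr_P(C)`, where `Q` is a
normal Sylow `p`-subgroup of `K` and `C / Q` is the fixed-point subgroup of `P` on `K / Q`.
-/

set_option autoImplicit false

namespace Cfsg.Agent.Helper26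

open Cfsg
open scoped ComplexConjugate

universe u

/-- Gallagher product of an extension with an inflated character of the quotient. -/
def pm_prod {Γ : Type u} [Group Γ] (T Q : Subgroup Γ)
    (hTN : T ≤ Subgroup.normalizer (Q : Set Γ)) (η : T → ℂ) (β : pq_im Q T → ℂ) : T → ℂ :=
  fun t => η t * β (pq_hom Q T hTN t)

/-- `χ` is induced from the Gallagher product of `η` and `β`. -/
def pm_Corr {Γ : Type u} [Group Γ] (K T Q : Subgroup Γ) [Fintype K]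
    (hTN : T ≤ Subgroup.normalizer (Q : Set Γ)) (η : T → ℂ) (χ : K → ℂ) (β : pq_im Q T → ℂ) :
    Prop :=
  ∀ k : K, ga_ind K T (pm_prod T Q hTN η β) k = (Nat.card T : ℂ) * χ k

theorem pm_hker {Γ : Type u} [Group Γ] (T Q : Subgroup Γ) (hQT : Q ≤ T)
    (hTN : T ≤ Subgroup.normalizer (Q : Set Γ)) :
    ∀ a : T, pq_hom Q T hTN a = 1 ↔ ∃ q : Q, Subgroup.inclusion hQT q = a := by
  intro a
  rw [pq_hom_eq_one_iff]
  constructor
  · intro h; exact ⟨⟨a, h⟩, Subtype.ext rfl⟩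
  · rintro ⟨q, rfl⟩; exact q.2

theorem pm_fixed_iff {Γ : Type u} [Group Γ] (G S : Subgroup Γ)
    (hnorm : ∀ s ∈ S, ∀ g ∈ G, s * g * s⁻¹ ∈ G) (χ : G → ℂ) :
    (∀ (s : S) (g : G), χ (gb_conjHom G S hnorm s⁻¹ g) = χ g) ↔ gc_InvFun G S χ := by
  constructor
  · intro h x hx g g' hg'
    have h1 := h (⟨x, hx⟩ : S)⁻¹ g
    rw [inv_inv] at h1
    have h2 : gb_conjHom G S hnorm ⟨x, hx⟩ g = g' := Subtype.ext (by rw [gb_conjHom_coe, hg'])
    rw [h2] at h1; exact h1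
  · intro h s g
    exact h (s⁻¹ : S).1 (s⁻¹ : S).2 g _ (gb_conjHom_coe G S hnorm s⁻¹ g)

/-- The induced function of an invariant function is invariant. -/
theorem pm_ind_inv {Γ : Type u} [Group Γ] (K T P : Subgroup Γ) [Fintype K]
    (hPK : ∀ s ∈ P, ∀ g ∈ K, s * g * s⁻¹ ∈ K) (hPT : ∀ s ∈ P, ∀ n ∈ T, s * n * s⁻¹ ∈ T)
    (ψ : T → ℂ) (hψ : gc_InvFun T P ψ) : gc_InvFun K P (ga_ind K T ψ) := by
  intro x hx k k' hk'
  unfold ga_ind
  obtain ⟨e, he⟩ : ∃ e : K ≃ K, ∀ y, e y = gb_conjHom K P hPK ⟨x, hx⟩ y :=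
    ⟨{ toFun := gb_conjHom K P hPK ⟨x, hx⟩
       invFun := gb_conjHom K P hPK (⟨x, hx⟩ : P)⁻¹
       left_inv := fun y => gb_conjHom_inv_left K P hPK ⟨x, hx⟩ y
       right_inv := fun y => gb_conjHom_inv_right K P hPK ⟨x, hx⟩ y }, fun _ => rfl⟩
  rw [← Equiv.sum_comp e (fun y => ga_ext0 K T ψ (y⁻¹ * k' * y))]
  apply Finset.sum_congr rfl; intro y _
  have hk'' : k' = gb_conjHom K P hPK ⟨x, hx⟩ k := Subtype.ext (by rw [hk', gb_conjHom_coe])
  have h1 : (e y)⁻¹ * k' * e y = gb_conjHom K P hPK ⟨x, hx⟩ (y⁻¹ * k * y) := by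
    rw [he, hk'', map_mul, map_mul, map_inv]
  rw [h1]
  exact ga_ext0_inv K T P hPK hPT ψ
    (fun s n => hψ s.1 s.2 n _ (gb_conjHom_coe T P hPT s n)) ⟨x, hx⟩ _

section PmCG

variable {Γ : Type u} [Group Γ] (K T Q : Subgroup Γ) [Fintype K] [Fintype T] [Fintype Q]
  (hQT : Q ≤ T) (hTK : T ≤ K) (hQn : ∀ k ∈ K, ∀ q ∈ Q, k * q * k⁻¹ ∈ Q) (θ : IrrCharacter Q)
  (hT : ∀ k : Γ, k ∈ T ↔ k ∈ K ∧ ∀ q q' : Q, (q' : Γ) = k * q * k⁻¹ →
    (θ : Q → ℂ) q' = (θ : Q → ℂ) q)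
  (η : IrrCharacter T) (hη : ∀ q : Q, (η : T → ℂ) (Subgroup.inclusion hQT q) = (θ : Q → ℂ) q)
  (hTN : T ≤ Subgroup.normalizer (Q : Set Γ)) [Fintype (pq_im Q T)]

include hη in
theorem pm_irr_res : IsIrrCharacter Q (fun q => (η : T → ℂ) (Subgroup.inclusion hQT q)) := by
  have h : (fun q => (η : T → ℂ) (Subgroup.inclusion hQT q)) = (θ : Q → ℂ) := funext hη
  rw [h]; exact θ.2

include hη in
theorem pm_prod_orth (β β' : IrrCharacter (pq_im Q T)) :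
    classInner (pm_prod T Q hTN (η : T → ℂ) (β : pq_im Q T → ℂ))
      (pm_prod T Q hTN (η : T → ℂ) (β' : pq_im Q T → ℂ)) = if β = β' then 1 else 0 :=
  pc_gal_orth (Subgroup.inclusion hQT) (pq_hom Q T hTN) (Subgroup.inclusion_injective hQT)
    (pq_hom_surj Q T hTN) (pm_hker T Q hQT hTN) η (pm_irr_res T Q hQT θ η hη) β β'

include hη in
theorem pm_prod_irr (β : IrrCharacter (pq_im Q T)) :
    IsIrrCharacter T (pm_prod T Q hTN (η : T → ℂ) (β : pq_im Q T → ℂ)) :=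
  pc_gal_irr (Subgroup.inclusion hQT) (pq_hom Q T hTN) (Subgroup.inclusion_injective hQT)
    (pq_hom_surj Q T hTN) (pm_hker T Q hQT hTN) η (pm_irr_res T Q hQT θ η hη) β

include hη in
theorem pm_prod_inj (β β' : IrrCharacter (pq_im Q T))
    (h : pm_prod T Q hTN (η : T → ℂ) (β : pq_im Q T → ℂ)
      = pm_prod T Q hTN (η : T → ℂ) (β' : pq_im Q T → ℂ)) : β = β' := by
  by_contra hne
  have h0 := pm_prod_orth T Q hQT θ η hη hTN β β'
  rw [if_neg hne, ← h] at h0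
  have h1 := pm_prod_orth T Q hQT θ η hη hTN β β
  rw [if_pos rfl, h0] at h1
  exact zero_ne_one h1

include hη in
theorem pm_prod_res (β : pq_im Q T → ℂ) (q : Q) :
    pm_prod T Q hTN (η : T → ℂ) β (Subgroup.inclusion hQT q) = (θ : Q → ℂ) q * β 1 := by
  unfold pm_prod
  rw [hη, (pq_hom_eq_one_iff Q T hTN _).mpr q.2]

include hη in
theorem pm_prod_over (β : IrrCharacter (pq_im Q T)) :
    classInner (fun q : Q => pm_prod T Q hTN (η : T → ℂ) (β : pq_im Q T → ℂ)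
      (Subgroup.inclusion hQT q)) (θ : Q → ℂ) ≠ 0 := by
  have h1 : (fun q : Q => pm_prod T Q hTN (η : T → ℂ) (β : pq_im Q T → ℂ)
      (Subgroup.inclusion hQT q)) = ((β : pq_im Q T → ℂ) 1) • (θ : Q → ℂ) := by
    funext q
    rw [pm_prod_res T Q hQT θ η hη hTN, Pi.smul_apply, smul_eq_mul, mul_comm]
  rw [h1, Helper2.classInner_smul_left, Helper2.classInner_irr_irr, if_pos rfl, mul_one]
  exact Helper25.irr_one_ne_zero β

include hη in
theorem pm_prod_exists (ψ : IrrCharacter T)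
    (hψ : classInner (fun q : Q => (ψ : T → ℂ) (Subgroup.inclusion hQT q)) (θ : Q → ℂ) ≠ 0) :
    ∃ β : IrrCharacter (pq_im Q T),
      (ψ : T → ℂ) = pm_prod T Q hTN (η : T → ℂ) (β : pq_im Q T → ℂ) := by
  have hηQ : (fun q => (η : T → ℂ) (Subgroup.inclusion hQT q)) = (θ : Q → ℂ) := funext hη
  obtain ⟨β, hβ⟩ := pc_gal_exists (Subgroup.inclusion hQT) (pq_hom Q T hTN)
    (Subgroup.inclusion_injective hQT) (pq_hom_surj Q T hTN) (pm_hker T Q hQT hTN) η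
    (pm_irr_res T Q hQT θ η hη) ψ (by rw [hηQ]; exact hψ)
  exact ⟨β, funext hβ⟩

include hT hQn hη hTK in
theorem pm_corr_exists (β : IrrCharacter (pq_im Q T)) :
    ∃ χ : IrrCharacter K, pm_Corr K T Q hTN (η : T → ℂ) (χ : K → ℂ) (β : pq_im Q T → ℂ) := by
  obtain ⟨χ, h1, -⟩ := pc_cc1 K T Q hQT hTK hQn θ hT
    ⟨_, pm_prod_irr T Q hQT θ η hη hTN β⟩ (pm_prod_over T Q hQT θ η hη hTN β)
  exact ⟨χ, h1⟩

omit [Fintype T] [Fintype Q] [Fintype (pq_im Q T)] in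
theorem pm_corr_unique_left [Finite T] (χ χ' : IrrCharacter K) (β : pq_im Q T → ℂ)
    (h : pm_Corr K T Q hTN (η : T → ℂ) (χ : K → ℂ) β)
    (h' : pm_Corr K T Q hTN (η : T → ℂ) (χ' : K → ℂ) β) : χ = χ' := by
  have hT0 : (Nat.card T : ℂ) ≠ 0 := by exact_mod_cast Nat.card_pos.ne'
  apply Subtype.ext; funext k
  exact mul_left_cancel₀ hT0 ((h k).symm.trans (h' k))

include hT hQn hη in
theorem pm_corr_res (χ : IrrCharacter K) (β : IrrCharacter (pq_im Q T))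
    (h : pm_Corr K T Q hTN (η : T → ℂ) (χ : K → ℂ) (β : pq_im Q T → ℂ)) :
    classInner (fun t : T => (χ : K → ℂ) (Subgroup.inclusion hTK t))
        (pm_prod T Q hTN (η : T → ℂ) (β : pq_im Q T → ℂ)) = 1 ∧
    (∀ ψ' : IrrCharacter T, (ψ' : T → ℂ) ≠ pm_prod T Q hTN (η : T → ℂ) (β : pq_im Q T → ℂ) →
        classInner (fun q : Q => (ψ' : T → ℂ) (Subgroup.inclusion hQT q)) (θ : Q → ℂ) ≠ 0 →
        classInner (fun t : T => (χ : K → ℂ) (Subgroup.inclusion hTK t)) (ψ' : T → ℂ) = 0) ∧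
    classInner (fun q : Q => (χ : K → ℂ) (Subgroup.inclusion (hQT.trans hTK) q)) (θ : Q → ℂ)
      ≠ 0 := by
  obtain ⟨χ₀, h1, h2, h3, h4⟩ := pc_cc1 K T Q hQT hTK hQn θ hT
    ⟨_, pm_prod_irr T Q hQT θ η hη hTN β⟩ (pm_prod_over T Q hQT θ η hη hTN β)
  have heq : χ₀ = χ := pm_corr_unique_left K T Q η hTN χ₀ χ (β : pq_im Q T → ℂ) h1 h
  subst heq
  refine ⟨h2, fun ψ' hne hov => h3 ψ' (fun e => hne (congrArg Subtype.val e)) hov, ?_⟩
  rw [h4]; exact pm_prod_over T Q hQT θ η hη hTN β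

include hT hQn hη hTK in
theorem pm_corr_unique_right (χ : IrrCharacter K) (β β' : IrrCharacter (pq_im Q T))
    (h : pm_Corr K T Q hTN (η : T → ℂ) (χ : K → ℂ) (β : pq_im Q T → ℂ))
    (h' : pm_Corr K T Q hTN (η : T → ℂ) (χ : K → ℂ) (β' : pq_im Q T → ℂ)) : β = β' := by
  by_contra hne
  obtain ⟨-, h2, -⟩ := pm_corr_res K T Q hQT hTK hQn θ hT η hη hTN χ β h
  obtain ⟨h1', -, -⟩ := pm_corr_res K T Q hQT hTK hQn θ hT η hη hTN χ β' h'
  have h3 := h2 ⟨_, pm_prod_irr T Q hQT θ η hη hTN β'⟩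
    (fun e => hne (pm_prod_inj T Q hQT θ η hη hTN β β' e.symm))
    (pm_prod_over T Q hQT θ η hη hTN β')
  have h3' : classInner (fun t : T => (χ : K → ℂ) (Subgroup.inclusion hTK t))
      (pm_prod T Q hTN (η : T → ℂ) (β' : pq_im Q T → ℂ)) = 0 := h3
  rw [h1'] at h3'
  exact one_ne_zero h3'

include hT hQn hη in
theorem pm_corr_surj (χ : IrrCharacter K)
    (hχ : classInner (fun q : Q => (χ : K → ℂ) (Subgroup.inclusion (hQT.trans hTK) q))
      (θ : Q → ℂ) ≠ 0) :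
    ∃ β : IrrCharacter (pq_im Q T),
      pm_Corr K T Q hTN (η : T → ℂ) (χ : K → ℂ) (β : pq_im Q T → ℂ) := by
  obtain ⟨ψ, hψ, hind⟩ := pc_cc2 K T Q hQT hTK hQn θ hT χ hχ
  obtain ⟨β, hβ⟩ := pm_prod_exists T Q hQT θ η hη hTN ψ hψ
  refine ⟨β, ?_⟩
  intro k; rw [← hβ]; exact hind k

omit [Fintype T] [Fintype Q] [Fintype (pq_im Q T)] in
/-- An invariant inflated character gives an invariant induced character. -/
theorem pm_corr_inv [Finite T] (P : Subgroup Γ) (hPK : ∀ s ∈ P, ∀ g ∈ K, s * g * s⁻¹ ∈ K)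
    (hPT : ∀ s ∈ P, ∀ n ∈ T, s * n * s⁻¹ ∈ T) (hPN : P ≤ Subgroup.normalizer (Q : Set Γ))
    (hηP : gc_InvFun T P (η : T → ℂ)) (χ : IrrCharacter K) (β : pq_im Q T → ℂ)
    (hβ : ∀ (s : pq_im Q P) (g : pq_im Q T),
      β (gb_conjHom (pq_im Q T) (pq_im Q P) (pq_im_norm Q P T hPT) s g) = β g)
    (h : pm_Corr K T Q hTN (η : T → ℂ) (χ : K → ℂ) β) : gc_InvFun K P (χ : K → ℂ) := by
  have hT0 : (Nat.card T : ℂ) ≠ 0 := by exact_mod_cast Nat.card_pos.ne'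
  have hψ : gc_InvFun T P (pm_prod T Q hTN (η : T → ℂ) β) := by
    intro x hx t t' ht'
    unfold pm_prod
    rw [hηP x hx t t' ht']
    have h1 : t' = gb_conjHom T P hPT ⟨x, hx⟩ t := Subtype.ext (by rw [ht', gb_conjHom_coe])
    rw [h1, pq_conj_compat Q T hTN P hPN hPT ⟨x, hx⟩ t, hβ]
  have hind := pm_ind_inv K T P hPK hPT _ hψ
  intro x hx k k' hk'
  have h1 := hind x hx k k' hk'
  rw [h k', h k] at h1
  exact mul_left_cancel₀ hT0 h1

include hT hQn hη hTK in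
/-- An invariant induced character comes from an invariant inflated character. -/
theorem pm_corr_inv_of (P : Subgroup Γ)
    (hPT : ∀ s ∈ P, ∀ n ∈ T, s * n * s⁻¹ ∈ T) (hPN : P ≤ Subgroup.normalizer (Q : Set Γ))
    (hηP : gc_InvFun T P (η : T → ℂ)) (χ : IrrCharacter K) (hχ : gc_InvFun K P (χ : K → ℂ))
    (β : IrrCharacter (pq_im Q T))
    (h : pm_Corr K T Q hTN (η : T → ℂ) (χ : K → ℂ) (β : pq_im Q T → ℂ)) :
    ∀ (s : pq_im Q P) (g : pq_im Q T),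
      (β : pq_im Q T → ℂ) (gb_conjHom (pq_im Q T) (pq_im Q P) (pq_im_norm Q P T hPT) s g)
        = (β : pq_im Q T → ℂ) g := by
  intro s g
  obtain ⟨x, rfl⟩ := pq_hom_surj Q P hPN s
  have hsurj : Function.Surjective (gb_conjHom (pq_im Q T) (pq_im Q P) (pq_im_norm Q P T hPT)
      (pq_hom Q P hPN x)) := fun z =>
    ⟨gb_conjHom (pq_im Q T) (pq_im Q P) (pq_im_norm Q P T hPT) (pq_hom Q P hPN x)⁻¹ z,
      gb_conjHom_inv_right _ _ _ _ z⟩
  have hβs : IsIrrCharacter (pq_im Q T) (fun z => (β : pq_im Q T → ℂ)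
      (gb_conjHom (pq_im Q T) (pq_im Q P) (pq_im_norm Q P T hPT) (pq_hom Q P hPN x) z)) :=
    Helper2.isIrrCharacter_comp_of_surjective _ hsurj β.2
  obtain ⟨β', hβ'⟩ : ∃ β' : IrrCharacter (pq_im Q T), β' = ⟨_, hβs⟩ := ⟨_, rfl⟩
  have hprod : ∀ t : T, pm_prod T Q hTN (η : T → ℂ) (β' : pq_im Q T → ℂ) t
      = pm_prod T Q hTN (η : T → ℂ) (β : pq_im Q T → ℂ) (gb_conjHom T P hPT x t) := by
    intro t
    unfold pm_prod
    rw [pq_conj_compat Q T hTN P hPN hPT x t, hβ',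
      hηP x.1 x.2 t _ (gb_conjHom_coe T P hPT x t)]
  obtain ⟨h1, h2, -⟩ := pm_corr_res K T Q hQT hTK hQn θ hT η hη hTN χ β h
  have hχT : gc_InvFun T P (fun t : T => (χ : K → ℂ) (Subgroup.inclusion hTK t)) := by
    intro y hy t t' ht'
    exact hχ y hy (Subgroup.inclusion hTK t) (Subgroup.inclusion hTK t') ht'
  have h3 : classInner (fun t : T => (χ : K → ℂ) (Subgroup.inclusion hTK t))
      (pm_prod T Q hTN (η : T → ℂ) (β' : pq_im Q T → ℂ)) = 1 := by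
    have e1 : pm_prod T Q hTN (η : T → ℂ) (β' : pq_im Q T → ℂ)
        = fun t => pm_prod T Q hTN (η : T → ℂ) (β : pq_im Q T → ℂ) (gb_conjHom T P hPT x t) :=
      funext hprod
    rw [e1, pv_inner_conj_right T P hPT _ hχT _ x]
    exact h1
  have h4 : pm_prod T Q hTN (η : T → ℂ) (β' : pq_im Q T → ℂ)
      = pm_prod T Q hTN (η : T → ℂ) (β : pq_im Q T → ℂ) := by
    by_contra hne
    have h5 := h2 ⟨_, pm_prod_irr T Q hQT θ η hη hTN β'⟩ hne
      (pm_prod_over T Q hQT θ η hη hTN β')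
    have h5' : classInner (fun t : T => (χ : K → ℂ) (Subgroup.inclusion hTK t))
        (pm_prod T Q hTN (η : T → ℂ) (β' : pq_im Q T → ℂ)) = 0 := h5
    rw [h3] at h5'
    exact one_ne_zero h5'
  have h6 := pm_prod_inj T Q hQT θ η hη hTN β' β h4
  have h7 := congrFun (congrArg Subtype.val h6) g
  rw [hβ'] at h7
  exact h7

end PmCG

section PmMult

variable {Γ : Type u} [Group Γ] (K T Q C D : Subgroup Γ) [Fintype K] [Fintype T] [Fintype Q]
  [Fintype C] [Fintype D]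
  (hQT : Q ≤ T) (hTK : T ≤ K) (hQn : ∀ k ∈ K, ∀ q ∈ Q, k * q * k⁻¹ ∈ Q) (θ : IrrCharacter Q)
  (hT : ∀ k : Γ, k ∈ T ↔ k ∈ K ∧ ∀ q q' : Q, (q' : Γ) = k * q * k⁻¹ →
    (θ : Q → ℂ) q' = (θ : Q → ℂ) q)
  (η : IrrCharacter T) (hη : ∀ q : Q, (η : T → ℂ) (Subgroup.inclusion hQT q) = (θ : Q → ℂ) q)
  (hTN : T ≤ Subgroup.normalizer (Q : Set Γ)) [Fintype (pq_im Q T)]
  (hQD : Q ≤ D) (hDC : D ≤ C) (hCK : C ≤ K) (hDT : D ≤ T)
  (ηD : IrrCharacter D)
  (hηD : ∀ d : D, (ηD : D → ℂ) d = (η : T → ℂ) (Subgroup.inclusion hDT d))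
  [Fintype (pq_im Q D)]

include hT hQn hη hηD hQD hTK hDC in
/-- The multiplicity formula: `[χ_C, ξ] = [α_{D/Q}, γ]`. -/
theorem pm_mult (χ : IrrCharacter K) (ξ : IrrCharacter C) (α : IrrCharacter (pq_im Q T))
    (γ : IrrCharacter (pq_im Q D))
    (hχ : pm_Corr K T Q hTN (η : T → ℂ) (χ : K → ℂ) (α : pq_im Q T → ℂ))
    (hξ : pm_Corr C D Q (hDT.trans hTN) (ηD : D → ℂ) (ξ : C → ℂ) (γ : pq_im Q D → ℂ)) :
    classInner (fun c : C => (χ : K → ℂ) (Subgroup.inclusion hCK c)) (ξ : C → ℂ) =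
      classInner (fun z : pq_im Q D => (α : pq_im Q T → ℂ)
        (Subgroup.inclusion (pq_im_mono Q hDT) z)) (γ : pq_im Q D → ℂ) := by
  classical
  have hD0 : (Nat.card D : ℂ) ≠ 0 := by exact_mod_cast Nat.card_pos.ne'
  have hDN := hDT.trans hTN
  have hηDQ : ∀ q : Q, (ηD : D → ℂ) (Subgroup.inclusion hQD q) = (θ : Q → ℂ) q := by
    intro q; rw [hηD]; exact hη q
  obtain ⟨φ, hφ⟩ : ∃ φ : D → ℂ, φ = pm_prod D Q hDN (ηD : D → ℂ) (γ : pq_im Q D → ℂ) :=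
    ⟨_, rfl⟩
  have hφirr : IsIrrCharacter D φ := by
    rw [hφ]; exact pm_prod_irr D Q hQD θ ηD hηDQ hDN γ
  have hφover : classInner (fun q : Q => φ (Subgroup.inclusion hQD q)) (θ : Q → ℂ) ≠ 0 := by
    rw [hφ]; exact pm_prod_over D Q hQD θ ηD hηDQ hDN γ
  have hcl : IsClassFunction C (fun c : C => (χ : K → ℂ) (Subgroup.inclusion hCK c)) :=
    Helper2.isClassFunction_of_isCharacter (Helper2.isCharacter_comp (Subgroup.inclusion hCK)
      (Helper2.isCharacter_of_isIrrCharacter χ.2))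
  have ha : classInner (fun c : C => (χ : K → ℂ) (Subgroup.inclusion hCK c)) (ξ : C → ℂ)
      = classInner (fun d : D => (χ : K → ℂ) (Subgroup.inclusion hTK (Subgroup.inclusion hDT d)))
          φ := by
    have h1 := pc_frob C D hDC φ (fun c : C => (χ : K → ℂ) (Subgroup.inclusion hCK c)) hcl
    have h2 : ga_ind C D φ = (Nat.card D : ℂ) • (ξ : C → ℂ) := by
      funext c
      rw [hφ, Pi.smul_apply, smul_eq_mul]; exact hξ c
    rw [h2, Helper2.classInner_smul_left] at h1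
    have h3 := mul_left_cancel₀ hD0 h1
    have h4 : classInner (fun c : C => (χ : K → ℂ) (Subgroup.inclusion hCK c)) (ξ : C → ℂ)
        = conj (classInner (ξ : C → ℂ) (fun c : C => (χ : K → ℂ) (Subgroup.inclusion hCK c))) :=
      Helper2.classInner_conj_symm _ _
    have h5 : classInner
        (fun d : D => (χ : K → ℂ) (Subgroup.inclusion hTK (Subgroup.inclusion hDT d))) φ
        = conj (classInner φ
          (fun d : D => (χ : K → ℂ) (Subgroup.inclusion hTK (Subgroup.inclusion hDT d)))) :=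
      Helper2.classInner_conj_symm _ _
    rw [h4, h5, h3]
    rfl
  obtain ⟨h1, h2, -⟩ := pm_corr_res K T Q hQT hTK hQn θ hT η hη hTN χ α hχ
  obtain ⟨ψ₀, hψ₀⟩ : ∃ ψ₀ : IrrCharacter T, ψ₀ = ⟨_, pm_prod_irr T Q hQT θ η hη hTN α⟩ :=
    ⟨_, rfl⟩
  have hψ₀v : (ψ₀ : T → ℂ) = pm_prod T Q hTN (η : T → ℂ) (α : pq_im Q T → ℂ) := by rw [hψ₀]
  have hb := Cfsg.Agent.S0854.classInner_comp_expand (fun d : D => Subgroup.inclusion hDT d)
    (fun t : T => (χ : K → ℂ) (Subgroup.inclusion hTK t))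
    (Helper2.isClassFunction_of_isCharacter (Helper2.isCharacter_comp (Subgroup.inclusion hTK)
      (Helper2.isCharacter_of_isIrrCharacter χ.2))) φ
  have hb2 : ∑ ψ' : IrrCharacter T,
      classInner (fun t : T => (χ : K → ℂ) (Subgroup.inclusion hTK t)) (ψ' : T → ℂ) *
      classInner (fun d : D => (ψ' : T → ℂ) (Subgroup.inclusion hDT d)) φ
      = classInner (fun d : D => (ψ₀ : T → ℂ) (Subgroup.inclusion hDT d)) φ := by
    rw [Finset.sum_eq_single ψ₀]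
    · rw [hψ₀v, h1, one_mul]
    · intro ψ' _ hne
      by_cases hov : classInner (fun q : Q => (ψ' : T → ℂ) (Subgroup.inclusion hQT q))
          (θ : Q → ℂ) = 0
      · have h0 : classInner (fun d : D => (ψ' : T → ℂ) (Subgroup.inclusion hDT d)) φ = 0 := by
          by_contra hne2
          have h3 := Helper24.over_trans (Subgroup.inclusion hQD)
            (fun d : D => (ψ' : T → ℂ) (Subgroup.inclusion hDT d))
            (Helper2.isCharacter_comp (Subgroup.inclusion hDT)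
              (Helper2.isCharacter_of_isIrrCharacter ψ'.2))
            (⟨φ, hφirr⟩ : IrrCharacter D) θ hne2 hφover
          exact h3 hov
        rw [h0, mul_zero]
      · rw [h2 ψ' (fun e => hne (Subtype.ext (e.trans hψ₀v.symm))) hov, zero_mul]
    · intro h; exact absurd (Finset.mem_univ _) h
  have hclα : IsClassFunction (pq_im Q D) (fun z : pq_im Q D => (α : pq_im Q T → ℂ)
      (Subgroup.inclusion (pq_im_mono Q hDT) z)) :=
    Helper2.isClassFunction_of_isCharacter (Helper2.isCharacter_comp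
      (Subgroup.inclusion (pq_im_mono Q hDT)) (Helper2.isCharacter_of_isIrrCharacter α.2))
  have hdec := Helper2.classFun_eq_sum_classInner hclα
  have hc : classInner (fun d : D => (ψ₀ : T → ℂ) (Subgroup.inclusion hDT d)) φ
      = classInner (fun z : pq_im Q D => (α : pq_im Q T → ℂ)
          (Subgroup.inclusion (pq_im_mono Q hDT) z)) (γ : pq_im Q D → ℂ) := by
    have h3 : (fun d : D => (ψ₀ : T → ℂ) (Subgroup.inclusion hDT d)) =
        ∑ γ' : IrrCharacter (pq_im Q D),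
          classInner (fun z : pq_im Q D => (α : pq_im Q T → ℂ)
            (Subgroup.inclusion (pq_im_mono Q hDT) z)) (γ' : pq_im Q D → ℂ) •
            pm_prod D Q hDN (ηD : D → ℂ) (γ' : pq_im Q D → ℂ) := by
      funext d
      rw [hψ₀v, Finset.sum_apply]
      have h4 : (α : pq_im Q T → ℂ) (Subgroup.inclusion (pq_im_mono Q hDT) (pq_hom Q D hDN d))
          = ∑ c : IrrCharacter (pq_im Q D),
            (classInner (fun z : pq_im Q D => (α : pq_im Q T → ℂ)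
              (Subgroup.inclusion (pq_im_mono Q hDT) z)) (c : pq_im Q D → ℂ) •
                (c : pq_im Q D → ℂ)) (pq_hom Q D hDN d) := by
        have h5 := congrFun hdec (pq_hom Q D hDN d)
        rw [Finset.sum_apply] at h5
        exact h5
      show (η : T → ℂ) (Subgroup.inclusion hDT d) *
        (α : pq_im Q T → ℂ) (pq_hom Q T hTN (Subgroup.inclusion hDT d)) = _
      rw [pq_hom_inclusion Q T hTN hDT d, h4, Finset.mul_sum, ← hηD]
      apply Finset.sum_congr rfl; intro γ' _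
      simp only [Pi.smul_apply, smul_eq_mul, pm_prod]; ring
    rw [h3, Helper2.classInner_sum_left, Finset.sum_eq_single γ]
    · rw [Helper2.classInner_smul_left, hφ, pm_prod_orth D Q hQD θ ηD hηDQ hDN γ γ, if_pos rfl,
        mul_one]
    · intro γ' _ hne
      rw [Helper2.classInner_smul_left, hφ, pm_prod_orth D Q hQD θ ηD hηDQ hDN γ' γ,
        if_neg hne, mul_zero]
    · intro h; exact absurd (Finset.mem_univ _) h
  rw [ha]
  exact hb.trans (hb2.trans hc)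

end PmMult

theorem pm_int_nat (n : ℕ) : IsIntegral ℤ (n : ℂ) := by
  have := isIntegral_algebraMap (R := ℤ) (A := ℂ) (x := (n : ℤ))
  simpa using this

/-- The local theorem: the correspondence above a fixed invariant character of `Q`. -/
theorem pm_local {Γ : Type u} [Group Γ] [Finite Γ] (p : ℕ) [Fact p.Prime] (P K Q C : Subgroup Γ)
    [Fintype K] [Fintype C] [Fintype Q]
    (hP : IsPGroup p P) (hPK : ∀ x ∈ P, ∀ k ∈ K, x * k * x⁻¹ ∈ K) (hQK : Q ≤ K)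
    (hQn : ∀ k ∈ K, ∀ q ∈ Q, k * q * k⁻¹ ∈ Q) (hQp : IsPGroup p Q)
    (hQsyl : ¬ p ∣ Q.relIndex K) (hCK : C ≤ K) (hQC : Q ≤ C)
    (hC : ∀ k : Γ, k ∈ C ↔ (k ∈ K ∧ ∀ x ∈ P, x * k * x⁻¹ * k⁻¹ ∈ Q))
    (θ : IrrCharacter Q) (hθ : gc_InvFun Q P (θ : Q → ℂ)) :
    (∀ χ : IrrCharacter K, gc_InvFun K P (χ : K → ℂ) →
      classInner (fun q : Q => (χ : K → ℂ) (Subgroup.inclusion hQK q)) (θ : Q → ℂ) ≠ 0 →
      ∃ ξ : IrrCharacter C, gc_InvFun C P (ξ : C → ℂ) ∧ ∃ m : ℕ,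
        classInner (fun c : C => (χ : K → ℂ) (Subgroup.inclusion hCK c)) (ξ : C → ℂ) = m ∧
          ¬ p ∣ m) ∧
    (∀ χ : IrrCharacter K, gc_InvFun K P (χ : K → ℂ) →
      classInner (fun q : Q => (χ : K → ℂ) (Subgroup.inclusion hQK q)) (θ : Q → ℂ) ≠ 0 →
      ∀ ξ ξ' : IrrCharacter C,
        classInner (fun q : Q => (ξ : C → ℂ) (Subgroup.inclusion hQC q)) (θ : Q → ℂ) ≠ 0 →
        classInner (fun q : Q => (ξ' : C → ℂ) (Subgroup.inclusion hQC q)) (θ : Q → ℂ) ≠ 0 →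
        ∀ m m' : ℕ,
          classInner (fun c : C => (χ : K → ℂ) (Subgroup.inclusion hCK c)) (ξ : C → ℂ) = m →
          ¬ p ∣ m →
          classInner (fun c : C => (χ : K → ℂ) (Subgroup.inclusion hCK c)) (ξ' : C → ℂ) = m' →
          ¬ p ∣ m' → ξ = ξ') ∧
    (∀ χ : IrrCharacter K, gc_InvFun K P (χ : K → ℂ) →
      classInner (fun q : Q => (χ : K → ℂ) (Subgroup.inclusion hQK q)) (θ : Q → ℂ) ≠ 0 →
      ∀ ξ : IrrCharacter C,
        classInner (fun q : Q => (ξ : C → ℂ) (Subgroup.inclusion hQC q)) (θ : Q → ℂ) ≠ 0 →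
        ∀ m : ℕ,
          classInner (fun c : C => (χ : K → ℂ) (Subgroup.inclusion hCK c)) (ξ : C → ℂ) = m →
          ¬ p ∣ m → ((m : ℤ) ≡ 1 [ZMOD p] ∨ (m : ℤ) ≡ -1 [ZMOD p])) ∧
    (∀ ξ : IrrCharacter C,
      classInner (fun q : Q => (ξ : C → ℂ) (Subgroup.inclusion hQC q)) (θ : Q → ℂ) ≠ 0 →
      ∃ χ : IrrCharacter K, gc_InvFun K P (χ : K → ℂ) ∧ ∃ m : ℕ,
        classInner (fun c : C => (χ : K → ℂ) (Subgroup.inclusion hCK c)) (ξ : C → ℂ) = m ∧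
          ¬ p ∣ m) ∧
    (∀ χ χ' : IrrCharacter K, gc_InvFun K P (χ : K → ℂ) → gc_InvFun K P (χ' : K → ℂ) →
      classInner (fun q : Q => (χ : K → ℂ) (Subgroup.inclusion hQK q)) (θ : Q → ℂ) ≠ 0 →
      classInner (fun q : Q => (χ' : K → ℂ) (Subgroup.inclusion hQK q)) (θ : Q → ℂ) ≠ 0 →
      ∀ ξ : IrrCharacter C,
        classInner (fun q : Q => (ξ : C → ℂ) (Subgroup.inclusion hQC q)) (θ : Q → ℂ) ≠ 0 →
        ∀ m m' : ℕ,
          classInner (fun c : C => (χ : K → ℂ) (Subgroup.inclusion hCK c)) (ξ : C → ℂ) = m →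
          ¬ p ∣ m →
          classInner (fun c : C => (χ' : K → ℂ) (Subgroup.inclusion hCK c)) (ξ : C → ℂ) = m' →
          ¬ p ∣ m' → χ = χ') := by
  classical
  have hp := (Fact.out : p.Prime)
  have hPQ := pv_norm_Q p P K Q hPK hQK hQn hQp hQsyl
  have hQnC : ∀ c ∈ C, ∀ q ∈ Q, c * q * c⁻¹ ∈ Q := fun c hc => hQn c (hCK hc)
  have hPC := (pv_C_facts P K Q C hQK hPQ hPK hC).2
  have hKN := pv_le_normalizer Q K hQn
  have hPN := pv_le_normalizer Q P hPQ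
  have hθcl := Helper2.isClassFunction_of_isCharacter (Helper2.isCharacter_of_isIrrCharacter θ.2)
  obtain ⟨T, hTdef⟩ : ∃ T : Subgroup Γ, T = pv_stab Q K hQn (θ : Q → ℂ) := ⟨_, rfl⟩
  obtain ⟨D, hDdef⟩ : ∃ D : Subgroup Γ, D = pv_stab Q C hQnC (θ : Q → ℂ) := ⟨_, rfl⟩
  have hT : ∀ k : Γ, k ∈ T ↔ k ∈ K ∧ ∀ q q' : Q, (q' : Γ) = k * q * k⁻¹ →
      (θ : Q → ℂ) q' = (θ : Q → ℂ) q := by
    intro k; rw [hTdef]; exact Iff.rfl
  have hD : ∀ k : Γ, k ∈ D ↔ k ∈ C ∧ ∀ q q' : Q, (q' : Γ) = k * q * k⁻¹ →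
      (θ : Q → ℂ) q' = (θ : Q → ℂ) q := by
    intro k; rw [hDdef]; exact Iff.rfl
  have hQT : Q ≤ T := by rw [hTdef]; exact pv_le_stab Q K hQn _ hQK hθcl
  have hTK : T ≤ K := fun k hk => ((hT k).mp hk).1
  have hQD : Q ≤ D := by rw [hDdef]; exact pv_le_stab Q C hQnC _ hQC hθcl
  have hDC : D ≤ C := fun k hk => ((hD k).mp hk).1
  have hDT : D ≤ T := fun k hk => (hT k).mpr ⟨hCK ((hD k).mp hk).1, ((hD k).mp hk).2⟩
  have hTN := hTK.trans hKN
  have hDN := hDT.trans hTN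
  have hPT : ∀ x ∈ P, ∀ t ∈ T, x * t * x⁻¹ ∈ T := by
    rw [hTdef]; exact pv_stab_norm Q K P hQn _ hPK hPQ hθ
  have hPD : ∀ x ∈ P, ∀ t ∈ D, x * t * x⁻¹ ∈ D := by
    rw [hDdef]; exact pv_stab_norm Q C P hQnC _ hPC hPQ hθ
  have hQnT : ∀ t ∈ T, ∀ q ∈ Q, t * q * t⁻¹ ∈ Q := fun t ht => hQn t (hTK ht)
  have hinvT : gc_InvFun Q T (θ : Q → ℂ) := fun t ht q q' h => ((hT t).mp ht).2 q q' h
  have hpT : ¬ p ∣ Q.relIndex T := by
    intro h
    apply hQsyl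
    rw [← Subgroup.relIndex_mul_relIndex Q T K hQT hTK]
    exact Dvd.dvd.mul_right h _
  letI : Fintype T := Fintype.ofFinite _
  letI : Fintype D := Fintype.ofFinite _
  letI : Fintype (pq_im Q T) := Fintype.ofFinite _
  letI : Fintype (pq_im Q D) := Fintype.ofFinite _
  obtain ⟨η, hη, hηP⟩ := pv_exists_ext p T Q P hQT hQnT hQp hpT θ hinvT hPT hPQ hθ
  have hηDirr : IsIrrCharacter D (fun d : D => (η : T → ℂ) (Subgroup.inclusion hDT d)) := by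
    apply Helper7.isIrrCharacter_of_comp (Subgroup.inclusion hQD)
      (Helper2.isCharacter_comp (Subgroup.inclusion hDT)
        (Helper2.isCharacter_of_isIrrCharacter η.2))
    have h1 : (fun q : Q => (η : T → ℂ) (Subgroup.inclusion hDT (Subgroup.inclusion hQD q)))
        = (θ : Q → ℂ) := funext hη
    rw [h1]; exact θ.2
  obtain ⟨ηD, hηDdef⟩ : ∃ ηD : IrrCharacter D, ηD = ⟨_, hηDirr⟩ := ⟨_, rfl⟩
  have hηD : ∀ d : D, (ηD : D → ℂ) d = (η : T → ℂ) (Subgroup.inclusion hDT d) := by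
    intro d; rw [hηDdef]
  have hηDQ : ∀ q : Q, (ηD : D → ℂ) (Subgroup.inclusion hQD q) = (θ : Q → ℂ) q := by
    intro q; rw [hηD]; exact hη q
  have hηDP : gc_InvFun D P (ηD : D → ℂ) := by
    intro x hx d d' hd'
    rw [hηD, hηD]
    exact hηP x hx (Subgroup.inclusion hDT d) (Subgroup.inclusion hDT d') hd'
  have hDfix : ∀ t : Γ, t ∈ D ↔ t ∈ T ∧ ∀ x ∈ P, x * t * x⁻¹ * t⁻¹ ∈ Q := by
    intro t
    constructor
    · intro ht
      exact ⟨hDT ht, ((hC t).mp ((hD t).mp ht).1).2⟩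
    · rintro ⟨htT, hcomm⟩
      exact (hD t).mpr ⟨(hC t).mpr ⟨hTK htT, hcomm⟩, ((hT t).mp htT).2⟩
  have hCbar := pq_im_fixed Q P T D hPN hDfix
  have hPbar : IsPGroup p ↥(pq_im Q P) := (hP.comap_subtype).map _
  have hpTbar : ¬ p ∣ Nat.card ↥(pq_im Q T) :=
    fun hd => hpT (hd.trans (pq_card_dvd Q T hTN))
  have hγinv : ∀ (γ : pq_im Q D → ℂ) (s : pq_im Q P) (g : pq_im Q D),
      γ (gb_conjHom (pq_im Q D) (pq_im Q P) (pq_im_norm Q P D hPD) s g) = γ g := by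
    intro γ s g
    have hle : pq_im Q D ≤ pq_im Q T ⊓ Subgroup.centralizer (pq_im Q P : Set (pq_Bar Q)) :=
      le_of_eq hCbar
    have hg : (g : pq_Bar Q) ∈ Subgroup.centralizer (pq_im Q P : Set (pq_Bar Q)) :=
      (Subgroup.mem_inf.mp (hle g.2)).2
    have h1 := (Subgroup.mem_centralizer_iff.mp hg) s s.2
    have h2 : gb_conjHom (pq_im Q D) (pq_im Q P) (pq_im_norm Q P D hPD) s g = g := by
      apply Subtype.ext
      rw [gb_conjHom_coe, h1]; group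
    rw [h2]
  have hKα : ∀ χ : IrrCharacter K, gc_InvFun K P (χ : K → ℂ) →
      classInner (fun q : Q => (χ : K → ℂ) (Subgroup.inclusion hQK q)) (θ : Q → ℂ) ≠ 0 →
      ∃ α : IrrCharacter (pq_im Q T),
        pm_Corr K T Q hTN (η : T → ℂ) (χ : K → ℂ) (α : pq_im Q T → ℂ) ∧
        ∀ (s : pq_im Q P) (g : pq_im Q T), (α : pq_im Q T → ℂ)
          (gb_conjHom (pq_im Q T) (pq_im Q P) (pq_im_norm Q P T hPT) s g)
            = (α : pq_im Q T → ℂ) g := by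
    intro χ hχ hov
    obtain ⟨α, hα⟩ := pm_corr_surj K T Q hQT hTK hQn θ hT η hη hTN χ hov
    exact ⟨α, hα, pm_corr_inv_of K T Q hQT hTK hQn θ hT η hη hTN P hPT hPN hηP χ hχ α hα⟩
  have hCγ : ∀ ξ : IrrCharacter C,
      classInner (fun q : Q => (ξ : C → ℂ) (Subgroup.inclusion hQC q)) (θ : Q → ℂ) ≠ 0 →
      ∃ γ : IrrCharacter (pq_im Q D),
        pm_Corr C D Q hDN (ηD : D → ℂ) (ξ : C → ℂ) (γ : pq_im Q D → ℂ) :=
    fun ξ hov => pm_corr_surj C D Q hQD hDC hQnC θ hD ηD hηDQ hDN ξ hov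
  have hmult : ∀ (χ : IrrCharacter K) (ξ : IrrCharacter C) (α : IrrCharacter (pq_im Q T))
      (γ : IrrCharacter (pq_im Q D)),
      pm_Corr K T Q hTN (η : T → ℂ) (χ : K → ℂ) (α : pq_im Q T → ℂ) →
      pm_Corr C D Q hDN (ηD : D → ℂ) (ξ : C → ℂ) (γ : pq_im Q D → ℂ) →
      classInner (fun c : C => (χ : K → ℂ) (Subgroup.inclusion hCK c)) (ξ : C → ℂ) =
        classInner (fun z : pq_im Q D => (α : pq_im Q T → ℂ)
          (Subgroup.inclusion (pq_im_mono Q hDT) z)) (γ : pq_im Q D → ℂ) :=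
    fun χ ξ α γ h1 h2 =>
      pm_mult K T Q C D hQT hTK hQn θ hT η hη hTN hQD hDC hCK hDT ηD hηD χ ξ α γ h1 h2
  refine ⟨?_, ?_, ?_, ?_, ?_⟩
  · intro χ hχ hov
    obtain ⟨α, hα, hαinv⟩ := hKα χ hχ hov
    obtain ⟨γ, m, hm, hpm⟩ :=
      gb_exists_mult (pq_im Q T) (pq_im Q D) (pq_im_mono Q hDT) p hpTbar α
    obtain ⟨ξ, hξ⟩ := pm_corr_exists C D Q hQD hDC hQnC θ hD ηD hηDQ hDN γ
    refine ⟨ξ, pm_corr_inv C D Q ηD hDN P hPC hPD hPN hηDP ξ _ (hγinv _) hξ, m, ?_, hpm⟩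
    rw [hmult χ ξ α γ hα hξ]; exact hm
  · intro χ hχ hov ξ ξ' hξov hξ'ov m m' hm hpm hm' hpm'
    obtain ⟨α, hα, hαinv⟩ := hKα χ hχ hov
    obtain ⟨γ, hγ⟩ := hCγ ξ hξov
    obtain ⟨γ', hγ'⟩ := hCγ ξ' hξ'ov
    rw [hmult χ ξ α γ hα hγ] at hm
    rw [hmult χ ξ' α γ' hα hγ'] at hm'
    have huniq := gb_main_unique (pq_im Q T) (pq_im Q P) (pq_im_norm Q P T hPT) (pq_im Q D)
      hCbar (pq_im_mono Q hDT) p hPbar hpTbar α hαinv
    have heq : γ = γ' := huniq.unique ⟨m, hm, hpm⟩ ⟨m', hm', hpm'⟩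
    rw [← heq] at hγ'
    exact pm_corr_unique_left C D Q ηD hDN ξ ξ' _ hγ hγ'
  · intro χ hχ hov ξ hξov m hm hpm
    obtain ⟨α, hα, hαinv⟩ := hKα χ hχ hov
    obtain ⟨γ, hγ⟩ := hCγ ξ hξov
    rw [hmult χ ξ α γ hα hγ] at hm
    exact gb_main_pm (pq_im Q T) (pq_im Q P) (pq_im_norm Q P T hPT) (pq_im Q D)
      hCbar (pq_im_mono Q hDT) p hPbar hpTbar α hαinv γ m hm hpm
  · intro ξ hξov
    obtain ⟨γ, hγ⟩ := hCγ ξ hξov
    obtain ⟨α, hαinv, m, hm, hpm⟩ := gb_main_surj (pq_im Q T) (pq_im Q P)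
      (pq_im_norm Q P T hPT) (pq_im Q D) hCbar (pq_im_mono Q hDT) p hPbar hpTbar γ
    obtain ⟨χ, hχ⟩ := pm_corr_exists K T Q hQT hTK hQn θ hT η hη hTN α
    refine ⟨χ, pm_corr_inv K T Q η hTN P hPK hPT hPN hηP χ _ hαinv hχ, m, ?_, hpm⟩
    rw [hmult χ ξ α γ hχ hγ]; exact hm
  · intro χ χ' hχ hχ' hov hov' ξ hξov m m' hm hpm hm' hpm'
    obtain ⟨α, hα, hαinv⟩ := hKα χ hχ hov
    obtain ⟨α', hα', hα'inv⟩ := hKα χ' hχ' hov'
    obtain ⟨γ, hγ⟩ := hCγ ξ hξov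
    rw [hmult χ ξ α γ hα hγ] at hm
    rw [hmult χ' ξ α' γ hα' hγ] at hm'
    have heq := gb_main_inj (pq_im Q T) (pq_im Q P) (pq_im_norm Q P T hPT) (pq_im Q D)
      hCbar (pq_im_mono Q hDT) p hPbar hpTbar α α' hαinv hα'inv γ m m' hm hpm hm' hpm'
    rw [← heq] at hα'
    exact pm_corr_unique_left K T Q η hTN χ χ' _ hα hα'

/-- The relative Glauberman correspondence for a `p`-group normalizing a group with a normal
Sylow `p`-subgroup. -/
theorem pm_main {Γ : Type u} [Group Γ] [Finite Γ] (p : ℕ) [Fact p.Prime] (P K Q C : Subgroup Γ)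
    [Fintype K] [Fintype C]
    (hP : IsPGroup p P) (hPK : ∀ x ∈ P, ∀ k ∈ K, x * k * x⁻¹ ∈ K) (hQK : Q ≤ K)
    (hQn : ∀ k ∈ K, ∀ q ∈ Q, k * q * k⁻¹ ∈ Q) (hQp : IsPGroup p Q)
    (hQsyl : ¬ p ∣ Q.relIndex K) (hCK : C ≤ K)
    (hC : ∀ k : Γ, k ∈ C ↔ (k ∈ K ∧ ∀ x ∈ P, x * k * x⁻¹ * k⁻¹ ∈ Q)) :
    ∃ f : {χ : IrrCharacter K // gc_InvFun K P (χ : K → ℂ)} →
        {ξ : IrrCharacter C // gc_InvFun C P (ξ : C → ℂ)},
      Function.Bijective f ∧ ∀ χ,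
        (∀ ξ : {ξ : IrrCharacter C // gc_InvFun C P (ξ : C → ℂ)}, ∃ m : ℕ,
          classInner (fun c : C => (χ.1 : K → ℂ) (Subgroup.inclusion hCK c)) (ξ.1 : C → ℂ) = m ∧
          (ξ = f χ → ((m : ZMod p) = 1 ∨ (m : ZMod p) = -1)) ∧ (ξ ≠ f χ → p ∣ m)) ∧
        ((charDegree ((f χ).1 : C → ℂ) : ZMod p) = (charDegree (χ.1 : K → ℂ) : ZMod p) ∨
          (charDegree ((f χ).1 : C → ℂ) : ZMod p) = -(charDegree (χ.1 : K → ℂ) : ZMod p)) := by
  classical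
  have hp := (Fact.out : p.Prime)
  letI : Fintype Q := Fintype.ofFinite _
  have hPQ := pv_norm_Q p P K Q hPK hQK hQn hQp hQsyl
  have hQnC : ∀ c ∈ C, ∀ q ∈ Q, c * q * c⁻¹ ∈ Q := fun c hc => hQn c (hCK hc)
  obtain ⟨hQC, hPC⟩ := pv_C_facts P K Q C hQK hPQ hPK hC
  have hQsylC : ¬ p ∣ Q.relIndex C := by
    intro h; apply hQsyl
    rw [← Subgroup.relIndex_mul_relIndex Q C K hQC hCK]
    exact Dvd.dvd.mul_right h _
  have hM : ∀ (χ : IrrCharacter K) (ξ : IrrCharacter C), ∃ m : ℕ,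
      classInner (fun c : C => (χ : K → ℂ) (Subgroup.inclusion hCK c)) (ξ : C → ℂ) = m :=
    fun χ ξ => Helper2.classInner_char_nat (Helper2.isCharacter_comp (Subgroup.inclusion hCK)
      (Helper2.isCharacter_of_isIrrCharacter χ.2)) (Helper2.isCharacter_of_isIrrCharacter ξ.2)
  choose M hM using hM
  have hloc := pm_local p P K Q C hP hPK hQK hQn hQp hQsyl hCK hQC hC
  have hθK : ∀ χ : IrrCharacter K, gc_InvFun K P (χ : K → ℂ) →
      ∃ θ : IrrCharacter Q, gc_InvFun Q P (θ : Q → ℂ) ∧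
        classInner (fun q : Q => (χ : K → ℂ) (Subgroup.inclusion hQK q)) (θ : Q → ℂ) ≠ 0 := by
    intro χ hχ
    exact pv_exists_inv p P K Q hP hQK hQn hPQ hQsyl χ
      (fun x hx q q' hq' => hχ x hx (Subgroup.inclusion hQK q) (Subgroup.inclusion hQK q') hq')
  have hθC : ∀ ξ : IrrCharacter C, gc_InvFun C P (ξ : C → ℂ) →
      ∃ θ : IrrCharacter Q, gc_InvFun Q P (θ : Q → ℂ) ∧
        classInner (fun q : Q => (ξ : C → ℂ) (Subgroup.inclusion hQC q)) (θ : Q → ℂ) ≠ 0 := by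
    intro ξ hξ
    exact pv_exists_inv p P C Q hP hQC hQnC hPQ hQsylC ξ
      (fun x hx q q' hq' => hξ x hx (Subgroup.inclusion hQC q) (Subgroup.inclusion hQC q') hq')
  have hup : ∀ (χ : IrrCharacter K) (ξ : IrrCharacter C) (θ : IrrCharacter Q), M χ ξ ≠ 0 →
      classInner (fun q : Q => (ξ : C → ℂ) (Subgroup.inclusion hQC q)) (θ : Q → ℂ) ≠ 0 →
      classInner (fun q : Q => (χ : K → ℂ) (Subgroup.inclusion hQK q)) (θ : Q → ℂ) ≠ 0 := by
    intro χ ξ θ hm hov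
    have h1 : classInner (fun c : C => (χ : K → ℂ) (Subgroup.inclusion hCK c)) (ξ : C → ℂ)
        ≠ 0 := by
      rw [hM]; exact_mod_cast hm
    exact Helper24.over_trans (Subgroup.inclusion hQC)
      (fun c : C => (χ : K → ℂ) (Subgroup.inclusion hCK c))
      (Helper2.isCharacter_comp (Subgroup.inclusion hCK)
        (Helper2.isCharacter_of_isIrrCharacter χ.2)) ξ θ h1 hov
  have hdown : ∀ (χ : IrrCharacter K) (ξ : IrrCharacter C) (θ : IrrCharacter Q),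
      gc_InvFun C P (ξ : C → ℂ) → gc_InvFun Q P (θ : Q → ℂ) → M χ ξ ≠ 0 →
      classInner (fun q : Q => (χ : K → ℂ) (Subgroup.inclusion hQK q)) (θ : Q → ℂ) ≠ 0 →
      classInner (fun q : Q => (ξ : C → ℂ) (Subgroup.inclusion hQC q)) (θ : Q → ℂ) ≠ 0 := by
    intro χ ξ θ hξ hθ hm hov
    obtain ⟨θ₁, hθ₁, hov₁⟩ := hθC ξ hξ
    have hov₁' := hup χ ξ θ₁ hm hov₁
    obtain ⟨c, hc, hrel⟩ :=
      pv_trans p P K Q C hP hPK hQK hQn hPQ hQsyl hC χ θ θ₁ hθ hθ₁ hov hov₁'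
    have hξQ : gc_InvFun Q C (fun q : Q => (ξ : C → ℂ) (Subgroup.inclusion hQC q)) := by
      intro k hk q q' hq'
      show (ξ : C → ℂ) (Subgroup.inclusion hQC q') = (ξ : C → ℂ) (Subgroup.inclusion hQC q)
      have h1 : Subgroup.inclusion hQC q' = ⟨k, hk⟩ * Subgroup.inclusion hQC q * ⟨k, hk⟩⁻¹ :=
        Subtype.ext hq'
      rw [h1]; exact Helper25.irr_conj ξ _ _
    have h2 := pv_inner_conj_right Q C hQnC _ hξQ (θ : Q → ℂ) ⟨c, hc⟩
    have h3 : (fun q => (θ : Q → ℂ) (gb_conjHom Q C hQnC ⟨c, hc⟩ q)) = (θ₁ : Q → ℂ) := by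
      funext q
      exact (hrel q _ (gb_conjHom_coe Q C hQnC ⟨c, hc⟩ q)).symm
    rw [h3] at h2
    rw [← h2]; exact hov₁
  have hpne : ∀ m : ℕ, ¬ p ∣ m → m ≠ 0 := fun m h h0 => h (h0 ▸ dvd_zero p)
  have F1 : ∀ χ : {χ : IrrCharacter K // gc_InvFun K P (χ : K → ℂ)},
      ∃ ξ : {ξ : IrrCharacter C // gc_InvFun C P (ξ : C → ℂ)}, ¬ p ∣ M χ.1 ξ.1 := by
    intro χ
    obtain ⟨θ, hθ, hov⟩ := hθK χ.1 χ.2
    obtain ⟨ξ, hξ, m, hm, hpm⟩ := (hloc θ hθ).1 χ.1 χ.2 hov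
    refine ⟨⟨ξ, hξ⟩, ?_⟩
    have h1 : M χ.1 ξ = m := by
      have h2 := (hM χ.1 ξ).symm.trans hm
      exact_mod_cast h2
    show ¬ p ∣ M χ.1 ξ
    rw [h1]; exact hpm
  have F2 : ∀ (χ : IrrCharacter K), gc_InvFun K P (χ : K → ℂ) → ∀ ξ ξ' : IrrCharacter C,
      gc_InvFun C P (ξ : C → ℂ) → gc_InvFun C P (ξ' : C → ℂ) →
      ¬ p ∣ M χ ξ → ¬ p ∣ M χ ξ' → ξ = ξ' := by
    intro χ hχ ξ ξ' hξ hξ' h h'
    obtain ⟨θ, hθ, hov⟩ := hθK χ hχ
    exact (hloc θ hθ).2.1 χ hχ hov ξ ξ' (hdown χ ξ θ hξ hθ (hpne _ h) hov)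
      (hdown χ ξ' θ hξ' hθ (hpne _ h') hov) _ _ (hM χ ξ) h (hM χ ξ') h'
  have F5 : ∀ (χ : IrrCharacter K), gc_InvFun K P (χ : K → ℂ) → ∀ ξ : IrrCharacter C,
      gc_InvFun C P (ξ : C → ℂ) → ¬ p ∣ M χ ξ →
      ((M χ ξ : ℤ) ≡ 1 [ZMOD p] ∨ (M χ ξ : ℤ) ≡ -1 [ZMOD p]) := by
    intro χ hχ ξ hξ h
    obtain ⟨θ, hθ, hov⟩ := hθK χ hχ
    exact (hloc θ hθ).2.2.1 χ hχ hov ξ (hdown χ ξ θ hξ hθ (hpne _ h) hov) _ (hM χ ξ) h
  have F3 : ∀ ξ : {ξ : IrrCharacter C // gc_InvFun C P (ξ : C → ℂ)},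
      ∃ χ : {χ : IrrCharacter K // gc_InvFun K P (χ : K → ℂ)}, ¬ p ∣ M χ.1 ξ.1 := by
    intro ξ
    obtain ⟨θ, hθ, hov⟩ := hθC ξ.1 ξ.2
    obtain ⟨χ, hχ, m, hm, hpm⟩ := (hloc θ hθ).2.2.2.1 ξ.1 hov
    refine ⟨⟨χ, hχ⟩, ?_⟩
    have h1 : M χ ξ.1 = m := by
      have h2 := (hM χ ξ.1).symm.trans hm
      exact_mod_cast h2
    show ¬ p ∣ M χ ξ.1
    rw [h1]; exact hpm
  have F4 : ∀ χ χ' : IrrCharacter K, gc_InvFun K P (χ : K → ℂ) → gc_InvFun K P (χ' : K → ℂ) →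
      ∀ ξ : IrrCharacter C, gc_InvFun C P (ξ : C → ℂ) →
      ¬ p ∣ M χ ξ → ¬ p ∣ M χ' ξ → χ = χ' := by
    intro χ χ' hχ hχ' ξ hξ h h'
    obtain ⟨θ, hθ, hov⟩ := hθC ξ hξ
    exact (hloc θ hθ).2.2.2.2 χ χ' hχ hχ' (hup χ ξ θ (hpne _ h) hov)
      (hup χ' ξ θ (hpne _ h') hov) ξ hov _ _ (hM χ ξ) h (hM χ' ξ) h'
  choose f hf using F1
  refine ⟨f, ⟨?_, ?_⟩, ?_⟩
  · intro χ χ' heq
    apply Subtype.ext
    have h1 := hf χ
    have h2 := hf χ'
    rw [← heq] at h2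
    exact F4 χ.1 χ'.1 χ.2 χ'.2 (f χ).1 (f χ).2 h1 h2
  · intro ξ
    obtain ⟨χ, hχ⟩ := F3 ξ
    refine ⟨χ, ?_⟩
    apply Subtype.ext
    exact F2 χ.1 χ.2 (f χ).1 ξ.1 (f χ).2 ξ.2 (hf χ) hχ
  · intro χ
    constructor
    · intro ξ
      refine ⟨M χ.1 ξ.1, hM χ.1 ξ.1, ?_, ?_⟩
      · intro heq
        have h1 := F5 χ.1 χ.2 ξ.1 ξ.2 (by rw [heq]; exact hf χ)
        rcases h1 with h1 | h1
        · left
          have h6 := (ZMod.intCast_eq_intCast_iff _ _ p).mpr h1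
          push_cast at h6
          exact h6
        · right
          have h6 := (ZMod.intCast_eq_intCast_iff _ _ p).mpr h1
          push_cast at h6
          exact h6
      · intro hne
        by_contra hnd
        exact hne (Subtype.ext (F2 χ.1 χ.2 ξ.1 (f χ).1 ξ.2 (f χ).2 hnd (hf χ)))
    · letI actP : MulAction P (IrrCharacter C) := gb_actIrr C P hPC
      obtain ⟨F, hF⟩ : ∃ F : IrrCharacter C → ℂ, F = fun ξ : IrrCharacter C =>
          (M χ.1 ξ : ℂ) * (charDegree (ξ : C → ℂ) : ℂ) := ⟨_, rfl⟩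
      have hFv : ∀ ξ : IrrCharacter C, F ξ = (M χ.1 ξ : ℂ) * (charDegree (ξ : C → ℂ) : ℂ) := by
        intro ξ; rw [hF]
      have hχC : gc_InvFun C P (fun c : C => (χ.1 : K → ℂ) (Subgroup.inclusion hCK c)) :=
        fun x hx c c' hc' =>
          χ.2 x hx (Subgroup.inclusion hCK c) (Subgroup.inclusion hCK c') hc'
      have hMinv : ∀ (s : P) (ξ : IrrCharacter C), M χ.1 (s • ξ) = M χ.1 ξ := by
        intro s ξ
        have h1 := pv_inner_conj_right C P hPC _ hχC (ξ : C → ℂ) s⁻¹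
        have h2 : ((s • ξ : IrrCharacter C) : C → ℂ)
            = fun c => (ξ : C → ℂ) (gb_conjHom C P hPC s⁻¹ c) := rfl
        have h3 : classInner (fun c : C => (χ.1 : K → ℂ) (Subgroup.inclusion hCK c))
            ((s • ξ : IrrCharacter C) : C → ℂ) = (M χ.1 ξ : ℂ) := by
          rw [h2, h1]; exact hM χ.1 ξ
        have h4 := (hM χ.1 (s • ξ)).symm.trans h3
        exact_mod_cast h4
      have hdinv : ∀ (s : P) (ξ : IrrCharacter C),
          charDegree ((s • ξ : IrrCharacter C) : C → ℂ) = charDegree (ξ : C → ℂ) := by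
        intro s ξ
        have h1 : ((s • ξ : IrrCharacter C) : C → ℂ) 1 = (ξ : C → ℂ) 1 := by
          show (ξ : C → ℂ) (gb_conjHom C P hPC s⁻¹ 1) = (ξ : C → ℂ) 1
          rw [map_one]
        rw [Helper25.irr_one_eq_degree, Helper25.irr_one_eq_degree] at h1
        exact_mod_cast h1
      have hFinv : ∀ (s : P) (ξ : IrrCharacter C), F (s • ξ) = F ξ := by
        intro s ξ; rw [hFv, hFv, hMinv, hdinv]
      have hFint : ∀ ξ, IsIntegral ℤ (F ξ) := by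
        intro ξ; rw [hFv]
        exact (pm_int_nat _).mul (pm_int_nat _)
      obtain ⟨r, hr, hsum⟩ := gb_orbit_sum p hP F hFinv hFint
      have htot : ∑ ξ : IrrCharacter C, F ξ = (charDegree (χ.1 : K → ℂ) : ℂ) := by
        have hdec := Helper2.classFun_eq_sum_classInner (Helper2.isClassFunction_of_isCharacter
          (Helper2.isCharacter_comp (Subgroup.inclusion hCK)
            (Helper2.isCharacter_of_isIrrCharacter χ.1.2)))
        have h1 : (χ.1 : K → ℂ) (Subgroup.inclusion hCK 1) = ∑ ξ : IrrCharacter C,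
            (classInner (fun c : C => (χ.1 : K → ℂ) (Subgroup.inclusion hCK c)) (ξ : C → ℂ) •
              (ξ : C → ℂ)) 1 := by
          have h2 := congrFun hdec 1
          rw [Finset.sum_apply] at h2
          exact h2
        rw [map_one, Helper25.irr_one_eq_degree] at h1
        rw [h1]
        apply Finset.sum_congr rfl; intro ξ _
        rw [hFv, Pi.smul_apply, smul_eq_mul, hM, Helper25.irr_one_eq_degree]
      have hfixinv : ∀ ξ : IrrCharacter C, (∀ s : P, s • ξ = ξ) → gc_InvFun C P (ξ : C → ℂ) := by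
        intro ξ h
        apply (pm_fixed_iff C P hPC (ξ : C → ℂ)).mp
        intro s c
        exact congrFun (congrArg Subtype.val (h s)) c
      have hinvfix : ∀ ξ : IrrCharacter C, gc_InvFun C P (ξ : C → ℂ) → ∀ s : P, s • ξ = ξ := by
        intro ξ h s
        apply Subtype.ext; funext c
        exact (pm_fixed_iff C P hPC (ξ : C → ℂ)).mpr h s c
      obtain ⟨ξ₀, hξ₀⟩ : ∃ ξ₀ : IrrCharacter C, ξ₀ = (f χ).1 := ⟨_, rfl⟩
      have hξ₀inv : gc_InvFun C P (ξ₀ : C → ℂ) := by rw [hξ₀]; exact (f χ).2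
      have hξ₀p : ¬ p ∣ M χ.1 ξ₀ := by rw [hξ₀]; exact hf χ
      have hξ₀mem : ξ₀ ∈ Finset.univ.filter (fun x : IrrCharacter C => ∀ s : P, s • x = x) := by
        rw [Finset.mem_filter]; exact ⟨Finset.mem_univ _, hinvfix ξ₀ hξ₀inv⟩
      have hk : ∀ ξ : IrrCharacter C, ∃ k : ℕ,
          ξ ∈ (Finset.univ.filter (fun x : IrrCharacter C => ∀ s : P, s • x = x)).erase ξ₀ →
            F ξ = p * k := by
        intro ξ
        by_cases hξ : ξ ∈ (Finset.univ.filter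
            (fun x : IrrCharacter C => ∀ s : P, s • x = x)).erase ξ₀
        · have hξ' := hξ
          rw [Finset.mem_erase, Finset.mem_filter] at hξ'
          have hinv := hfixinv ξ hξ'.2.2
          have hdvd : p ∣ M χ.1 ξ := by
            by_contra hnd
            exact hξ'.1 (F2 χ.1 χ.2 ξ ξ₀ hinv hξ₀inv hnd hξ₀p)
          obtain ⟨k, hk⟩ := hdvd
          refine ⟨k * charDegree (ξ : C → ℂ), fun _ => ?_⟩
          rw [hFv, hk]; push_cast; ring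
        · exact ⟨0, fun h' => absurd h' hξ⟩
      choose kk hkk using hk
      have hN : ∑ ξ ∈ (Finset.univ.filter
          (fun x : IrrCharacter C => ∀ s : P, s • x = x)).erase ξ₀, F ξ
          = p * ((∑ ξ ∈ (Finset.univ.filter
            (fun x : IrrCharacter C => ∀ s : P, s • x = x)).erase ξ₀, kk ξ : ℕ) : ℂ) := by
        rw [Finset.sum_congr rfl (fun ξ hξ => hkk ξ hξ)]
        push_cast; rw [Finset.mul_sum]
      rw [htot, ← Finset.add_sum_erase _ _ hξ₀mem, hN] at hsum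
      have hint : (p : ℤ) ∣ ((charDegree (χ.1 : K → ℂ) : ℤ)
          - (M χ.1 ξ₀ : ℤ) * (charDegree (ξ₀ : C → ℂ) : ℤ)) := by
        apply gb_int_dvd p hp.ne_zero _ (((∑ ξ ∈ (Finset.univ.filter
            (fun x : IrrCharacter C => ∀ s : P, s • x = x)).erase ξ₀, kk ξ : ℕ) : ℂ) + r)
          (IsIntegral.add (pm_int_nat _) hr)
        push_cast
        rw [hsum, hFv]; push_cast; ring
      have hz : (charDegree (χ.1 : K → ℂ) : ZMod p)
          = (M χ.1 ξ₀ : ZMod p) * (charDegree (ξ₀ : C → ℂ) : ZMod p) := by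
        have h1 := (ZMod.intCast_zmod_eq_zero_iff_dvd _ p).mpr hint
        push_cast at h1
        exact sub_eq_zero.mp h1
      have h5 := F5 χ.1 χ.2 ξ₀ hξ₀inv hξ₀p
      rw [← hξ₀]
      rcases h5 with h5 | h5
      · left
        have h6 := (ZMod.intCast_eq_intCast_iff _ _ p).mpr h5
        push_cast at h6
        rw [hz, h6, one_mul]
      · right
        have h6 := (ZMod.intCast_eq_intCast_iff _ _ p).mpr h5
        push_cast at h6
        rw [hz, h6]; ring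

end Cfsg.Agent.Helper26
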