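import Mathlib
import Cfsg.Agent.Helper26.LinOver
import Cfsg.Agent.Helper24.FS
import Cfsg.Agent.Helper1.CharEquiv
import Cfsg.Agent.Helper1.CharOrtho

/-!
Helper library (seat helper26): Frobenius–Schur indicator of a character induced from the
stabilizer of a real irreducible character of a normal subgroup (twisted Schur vanishing), and the
indicator-one version of the linear-character count of `LinOver`.
-/

set_option autoImplicit false

namespace Cfsg.Agent.Helper26

open Cfsg Cfsg.Agent.Helper7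
open scoped ComplexConjugate Matrix

universe u

/-- Twisted Schur vanishing, matrix form: if `ρ` restricted along `j` is irreducible and carries
an invariant form, and `σ` is a multiplicative self-map of `B` moving the restricted character,
then `∑ₙ ρ(σ n) Y ρ(n)ᵀ = 0`. -/
theorem ri_twist_mat {A : Type*} {B : Type*} [Group A] [Group B] [Fintype B] (j : B →* A) {d : ℕ}
    (ρ : Representation ℂ A (Fin d → ℂ))
    (hρB : Representation.IsIrreducible (ρ.comp j : Representation ℂ B (Fin d → ℂ)))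
    (S : Matrix (Fin d) (Fin d) ℂ) (hS0 : S ≠ 0)
    (hSinv : ∀ b : B, (repMat ρ (j b))ᵀ * S * repMat ρ (j b) = S)
    (σ : B → B) (hσ : ∀ a b, σ (a * b) = σ a * σ b)
    (hne : ∃ n : B, ρ.character (j (σ n)) ≠ ρ.character (j n))
    (Y : Matrix (Fin d) (Fin d) ℂ) :
    ∑ n : B, repMat ρ (j (σ n)) * Y * (repMat ρ (j n))ᵀ = 0 := by
  classical
  obtain ⟨T, hT⟩ : ∃ T : Matrix (Fin d) (Fin d) ℂ,
      T = ∑ n : B, repMat ρ (j (σ n)) * Y * (repMat ρ (j n))ᵀ := ⟨_, rfl⟩
  rw [← hT]
  have h1 : ∀ m : B, repMat ρ (j (σ m)) * T * (repMat ρ (j m))ᵀ = T := by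
    intro m
    rw [hT, Finset.mul_sum, Finset.sum_mul]
    rw [← Equiv.sum_comp (Equiv.mulLeft m)
      (fun n => repMat ρ (j (σ n)) * Y * (repMat ρ (j n))ᵀ)]
    apply Finset.sum_congr rfl; intro n _
    simp only [Equiv.coe_mulLeft]
    rw [hσ, map_mul, map_mul, repMat_mul, repMat_mul, Matrix.transpose_mul]
    simp only [Matrix.mul_assoc]
  have h2 : ∀ m : B, (repMat ρ (j m))ᵀ * S = S * repMat ρ (j m)⁻¹ := by
    intro m
    calc (repMat ρ (j m))ᵀ * S
        = (repMat ρ (j m))ᵀ * S * (repMat ρ (j m) * repMat ρ (j m)⁻¹) := by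
          rw [repMat_mul_inv, Matrix.mul_one]
      _ = ((repMat ρ (j m))ᵀ * S * repMat ρ (j m)) * repMat ρ (j m)⁻¹ := by
          simp only [Matrix.mul_assoc]
      _ = S * repMat ρ (j m)⁻¹ := by rw [hSinv m]
  have h3 : ∀ m : B, repMat ρ (j (σ m)) * (T * S) = (T * S) * repMat ρ (j m) := by
    intro m
    calc repMat ρ (j (σ m)) * (T * S)
        = repMat ρ (j (σ m)) * (T * S) * (repMat ρ (j m)⁻¹ * repMat ρ (j m)) := by
          rw [repMat_inv_mul, Matrix.mul_one]
      _ = (repMat ρ (j (σ m)) * T * (S * repMat ρ (j m)⁻¹)) * repMat ρ (j m) := by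
          simp only [Matrix.mul_assoc]
      _ = (repMat ρ (j (σ m)) * T * (repMat ρ (j m))ᵀ) * S * repMat ρ (j m) := by
          rw [← h2 m]; simp only [Matrix.mul_assoc]
      _ = T * S * repMat ρ (j m) := by rw [h1 m]
  let W : Submodule ℂ (Fin d → ℂ) := LinearMap.ker (Matrix.toLin' (T * S))
  have hW : ∀ (b : B) ⦃v : Fin d → ℂ⦄, v ∈ W →
      (ρ.comp j : Representation ℂ B (Fin d → ℂ)) b v ∈ W := by
    intro b v hv
    rw [LinearMap.mem_ker] at hv ⊢
    have e : (ρ.comp j : Representation ℂ B (Fin d → ℂ)) b = Matrix.toLin' (repMat ρ (j b)) :=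
      (toLin'_repMat ρ (j b)).symm
    rw [e, ← Matrix.toLin'_mul_apply, ← h3 b, Matrix.toLin'_mul_apply, hv, map_zero]
  rcases hρB.eq_bot_or_eq_top
      (⟨W, hW⟩ : Subrepresentation (ρ.comp j : Representation ℂ B (Fin d → ℂ))) with h | h
  · exfalso
    have hker : W = ⊥ := congrArg Subrepresentation.toSubmodule h
    have hdetTS : (T * S).det ≠ 0 := by
      intro hdet0
      obtain ⟨v, hv0, hv⟩ := Matrix.exists_mulVec_eq_zero_iff.mpr hdet0
      have hvW : v ∈ W := by
        rw [LinearMap.mem_ker, Matrix.toLin'_apply]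
        exact hv
      rw [hker, Submodule.mem_bot] at hvW
      exact hv0 hvW
    obtain ⟨n, hn⟩ := hne
    apply hn
    rw [← repMat_trace, ← repMat_trace]
    have hu : IsUnit (T * S).det := isUnit_iff_ne_zero.mpr hdetTS
    have e : repMat ρ (j (σ n)) = (T * S) * repMat ρ (j n) * (T * S)⁻¹ := by
      rw [← h3 n, Matrix.mul_assoc, Matrix.mul_nonsing_inv _ hu, Matrix.mul_one]
    rw [e, Matrix.trace_mul_comm, ← Matrix.mul_assoc, Matrix.nonsing_inv_mul _ hu,
      Matrix.one_mul]
  · have hker : W = ⊤ := congrArg Subrepresentation.toSubmodule h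
    have h0 : Matrix.toLin' (T * S) = 0 := LinearMap.ker_eq_top.mp hker
    have hTS : T * S = 0 := (LinearEquiv.map_eq_zero_iff _).mp h0
    have hdetS : S.det ≠ 0 :=
      (repMat_form (ρ.comp j : Representation ℂ B (Fin d → ℂ)) hρB S hSinv).resolve_left hS0
    have hu : IsUnit S.det := isUnit_iff_ne_zero.mpr hdetS
    calc T = T * S * S⁻¹ := by rw [Matrix.mul_assoc, Matrix.mul_nonsing_inv _ hu, Matrix.mul_one]
      _ = 0 := by rw [hTS, Matrix.zero_mul]

/-- Twisted Schur vanishing, character form. -/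
theorem ri_twist {A : Type*} {B : Type*} [Group A] [Group B] [Fintype B] (j : B →* A) {d : ℕ}
    (ρ : Representation ℂ A (Fin d → ℂ))
    (hρB : Representation.IsIrreducible (ρ.comp j : Representation ℂ B (Fin d → ℂ)))
    (S : Matrix (Fin d) (Fin d) ℂ) (hS0 : S ≠ 0)
    (hSinv : ∀ b : B, (repMat ρ (j b))ᵀ * S * repMat ρ (j b) = S)
    (σ : B → B) (hσ : ∀ a b, σ (a * b) = σ a * σ b)
    (hne : ∃ n : B, ρ.character (j (σ n)) ≠ ρ.character (j n)) (c : A) :
    ∑ n : B, ρ.character (c * j (σ n) * j n) = 0 := by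
  classical
  have hz := ri_twist_mat j ρ hρB S hS0 hSinv σ hσ hne
  have hcoef : ∀ i k a l : Fin d,
      ∑ n : B, repMat ρ (j (σ n)) i k * repMat ρ (j n) a l = 0 := by
    intro i k a l
    have h := congrFun (congrFun (hz (Matrix.single k l 1)) i) a
    rw [Matrix.sum_apply] at h
    simp only [mul_single_mul_apply, Matrix.transpose_apply] at h
    exact h
  have e : ∀ n : B, ρ.character (c * j (σ n) * j n) =
      ∑ a, ∑ k, ∑ i, repMat ρ c a i * (repMat ρ (j (σ n)) i k * repMat ρ (j n) k a) := by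
    intro n
    rw [← repMat_trace, repMat_mul, repMat_mul, Matrix.trace]
    apply Finset.sum_congr rfl; intro a _
    rw [Matrix.diag_apply, Matrix.mul_apply]
    apply Finset.sum_congr rfl; intro k _
    rw [Matrix.mul_apply, Finset.sum_mul]
    apply Finset.sum_congr rfl; intro i _
    ring
  rw [Finset.sum_congr rfl (fun n _ => e n)]
  rw [Finset.sum_comm]; apply Finset.sum_eq_zero; intro a _
  rw [Finset.sum_comm]; apply Finset.sum_eq_zero; intro k _
  rw [Finset.sum_comm]; apply Finset.sum_eq_zero; intro i _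
  rw [← Finset.mul_sum, hcoef, mul_zero]

/-- The Frobenius–Schur indicator of the character induced from an extension `ψ` (of indicator
one) of `φ` to its stabilizer is one. -/
theorem ri_fs_ind {G : Type u} [Group G] [Fintype G] (N I : Subgroup G) [hN : N.Normal]
    [Fintype I] (φ : IrrCharacter N)
    (hI : ∀ g : G, g ∈ I ↔ ∀ n n' : N, (n' : G) = g * (n : G) * g⁻¹ →
      (φ : N → ℂ) n' = (φ : N → ℂ) n)
    (hNI : N ≤ I) (ψ : IrrCharacter I)
    (hψN : ∀ n : N, (ψ : I → ℂ) (Subgroup.inclusion hNI n) = (φ : N → ℂ) n)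
    (hν : (Nat.card I : ℂ)⁻¹ * ∑ g : I, (ψ : I → ℂ) (g * g) = 1) :
    (Nat.card G : ℂ)⁻¹ * ∑ g : G, indFun I (ψ : I → ℂ) (g * g) = 1 := by
  classical
  haveI : Fintype N := Fintype.ofFinite N
  have hG0 : (Nat.card G : ℂ) ≠ 0 := by exact_mod_cast Nat.card_pos.ne'
  have hI0 : (Nat.card I : ℂ) ≠ 0 := by exact_mod_cast Nat.card_pos.ne'
  have hN0 : (Nat.card N : ℂ) ≠ 0 := by exact_mod_cast Nat.card_pos.ne'
  obtain ⟨E, hE⟩ : ∃ E : G → ℂ, E = extendByZero I (ψ : I → ℂ) := ⟨_, rfl⟩
  have hA : ∑ g : G, indFun I (ψ : I → ℂ) (g * g)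
      = (Nat.card I : ℂ)⁻¹ * ((Nat.card G : ℂ) * ∑ g : G, E (g * g)) := by
    simp_rw [Helper2.indFun_apply]
    rw [← Finset.mul_sum, Finset.sum_comm]
    congr 1
    have hx : ∀ x : G, ∑ g : G, extendByZero I (ψ : I → ℂ) (x⁻¹ * (g * g) * x)
        = ∑ g : G, E (g * g) := by
      intro x
      rw [← Equiv.sum_comp (MulAut.conj x).toEquiv
        (fun g => extendByZero I (ψ : I → ℂ) (x⁻¹ * (g * g) * x))]
      apply Finset.sum_congr rfl; intro g _
      rw [hE]
      refine congrArg _ ?_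
      show x⁻¹ * ((x * g * x⁻¹) * (x * g * x⁻¹)) * x = g * g
      group
    rw [Finset.sum_congr rfl (fun x _ => hx x), Finset.sum_const, Finset.card_univ,
      nsmul_eq_mul, Nat.card_eq_fintype_card]
  have hB : ∑ g : G, E (g * g) = ∑ g : I, (ψ : I → ℂ) (g * g) := by
    obtain ⟨F', hF'⟩ : ∃ F' : G → ℂ, F' = fun g => if g ∈ I then 0 else E (g * g) := ⟨_, rfl⟩
    have hsplit : ∀ g : G, E (g * g) = (if g ∈ I then E (g * g) else 0) + F' g := by
      intro g
      rw [hF']
      by_cases hg : g ∈ I <;> simp [hg]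
    rw [Finset.sum_congr rfl (fun g _ => hsplit g), Finset.sum_add_distrib]
    have h1 : ∑ g : G, (if g ∈ I then E (g * g) else 0) = ∑ g : I, (ψ : I → ℂ) (g * g) := by
      rw [← Finset.sum_filter]
      rw [Finset.sum_subtype (Finset.univ.filter (fun g => g ∈ I)) (p := fun g => g ∈ I)
        (by intro x; simp) (fun g => E (g * g))]
      apply Finset.sum_congr rfl; intro g _
      rw [hE]
      exact Helper2.extendByZero_of_mem I _ (I.mul_mem g.2 g.2)
    have h2 : ∑ g : G, F' g = 0 := by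
      have h3 : (Nat.card N : ℂ) * ∑ g : G, F' g = ∑ g : G, ∑ n : N, F' (g * n) := by
        rw [Finset.sum_comm]
        have hn : ∀ n : N, ∑ g : G, F' (g * n) = ∑ g : G, F' g :=
          fun n => Equiv.sum_comp (Equiv.mulRight (n : G)) F'
        rw [Finset.sum_congr rfl (fun n _ => hn n), Finset.sum_const, Finset.card_univ,
          nsmul_eq_mul, Nat.card_eq_fintype_card]
      have h4 : ∀ g : G, ∑ n : N, F' (g * n) = 0 := by
        intro g
        by_cases hg : g ∈ I
        · apply Finset.sum_eq_zero; intro n _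
          rw [hF']
          simp only
          rw [if_pos (I.mul_mem hg (hNI n.2))]
        · have hgn : ∀ n : N, g * (n : G) ∉ I := fun n h => hg (by
            have := I.mul_mem h (I.inv_mem (hNI n.2))
            simpa using this)
          have hσmem : ∀ n : N, g⁻¹ * (n : G) * g ∈ N := fun n => by
            have := hN.conj_mem n n.2 g⁻¹
            simpa using this
          by_cases hg2 : g * g ∈ I
          · obtain ⟨d, ρ, hρ, hρc⟩ := ψ.2
            obtain ⟨d', τ, hτ, hτc⟩ := φ.2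
            have hc : τ.character = Representation.character
                (ρ.comp (Subgroup.inclusion hNI) : Representation ℂ N (Fin d → ℂ)) := by
              rw [hτc]; funext n
              rw [← hψN n, ← hρc]; rfl
            obtain ⟨Eq⟩ := Helper1.nonempty_equiv_of_character_eq τ
              (ρ.comp (Subgroup.inclusion hNI) : Representation ℂ N (Fin d → ℂ)) hc
            haveI : τ.IsIrreducible := hτ
            have hρB : Representation.IsIrreducible
                (ρ.comp (Subgroup.inclusion hNI) : Representation ℂ N (Fin d → ℂ)) :=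
              Helper1.isIrreducible_of_equiv Eq
            have hreal : ∀ x : I, (ρ.character x).im = 0 := by
              intro x
              rw [hρc]
              apply Helper24.fsInd_real ψ
              unfold Helper24.fsInd
              rw [hν]; exact one_ne_zero
            obtain ⟨S, hS0, hSinv⟩ := Helper24.fs_exists_form ρ hρ hreal
            obtain ⟨σ, hσ⟩ : ∃ σ : N → N, σ = fun n => ⟨g⁻¹ * (n : G) * g, hσmem n⟩ :=
              ⟨_, rfl⟩
            have hσmul : ∀ a b : N, σ (a * b) = σ a * σ b := by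
              intro a b
              rw [hσ]
              apply Subtype.ext
              simp only [Subgroup.coe_mul]
              group
            have hne : ∃ n : N, ρ.character (Subgroup.inclusion hNI (σ n)) ≠
                ρ.character (Subgroup.inclusion hNI n) := by
              have hginv : g⁻¹ ∉ I := fun h => hg (by simpa using I.inv_mem h)
              rw [hI] at hginv
              push_neg at hginv
              obtain ⟨n, n', hn', hne⟩ := hginv
              refine ⟨n, ?_⟩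
              rw [hρc, hψN, hψN]
              have e : σ n = n' := by
                rw [hσ]
                apply Subtype.ext
                rw [hn']
                simp
              rw [e]; exact hne
            have hz := ri_twist (Subgroup.inclusion hNI) ρ hρB S hS0 (fun b => hSinv _) σ hσmul
              hne ⟨g * g, hg2⟩
            rw [← hz]
            apply Finset.sum_congr rfl; intro n _
            rw [hF']
            simp only
            rw [if_neg (hgn n), hE, hρc]
            have hmem : g * (n : G) * (g * (n : G)) ∈ I := by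
              have h5 : g * (n : G) * (g * (n : G)) = (g * g) * ((g⁻¹ * (n : G) * g) * n) := by
                group
              rw [h5]
              exact I.mul_mem hg2 (hNI (N.mul_mem (hσmem n) n.2))
            rw [Helper2.extendByZero_of_mem I _ hmem]
            refine congrArg _ (Subtype.ext ?_)
            rw [hσ]
            simp only [Subgroup.coe_mul, Subgroup.coe_inclusion]
            group
          · apply Finset.sum_eq_zero; intro n _
            rw [hF']
            simp only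
            rw [if_neg (hgn n), hE]
            apply Helper2.extendByZero_of_not_mem
            intro h
            apply hg2
            have hmem : g⁻¹ * (n : G) * g * (n : G) ∈ I := hNI (N.mul_mem (hσmem n) n.2)
            have h6 := I.mul_mem h (I.inv_mem hmem)
            have e : g * (n : G) * (g * (n : G)) * (g⁻¹ * (n : G) * g * (n : G))⁻¹ = g * g := by
              group
            rw [e] at h6; exact h6
      rw [Finset.sum_congr rfl (fun g _ => h4 g), Finset.sum_const_zero] at h3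
      exact (mul_eq_zero.mp h3).resolve_left hN0
    rw [h1, h2, add_zero]
  rw [hA, hB, ← hν]
  field_simp

/-- A real number of absolute value one squares to one. -/
theorem ri_sq_one (z : ℂ) (h1 : Complex.normSq z = 1) (h2 : z.im = 0) : z * z = 1 := by
  have h3 : (starRingEnd ℂ) z = z := Complex.conj_eq_iff_im.mpr h2
  have h4 := Complex.mul_conj z
  rw [h3, h1] at h4
  rw [h4]; simp

/-- Indicator-one version of `lo_main`. -/
theorem ri_main {G : Type u} [Group G] [Fintype G] (N : Subgroup G) [hN : N.Normal]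
    (hNc : N ≤ commutator G) (φ : IrrCharacter N) (I : Subgroup G)
    (hI : ∀ g : G, g ∈ I ↔ ∀ n n' : N, (n' : G) = g * (n : G) * g⁻¹ →
      (φ : N → ℂ) n' = (φ : N → ℂ) n)
    (hNI : N ≤ I) (ψ : IrrCharacter I)
    (hν : (Nat.card I : ℂ)⁻¹ * ∑ᶠ g : I, (ψ : I → ℂ) (g * g) = 1)
    (hψN : ∀ n : N, (ψ : I → ℂ) (Subgroup.inclusion hNI n) = (φ : N → ℂ) n) :
    Nat.card {χ : IrrCharacter G // charDegree (χ : G → ℂ) = 1 ∧
        (Nat.card G : ℂ)⁻¹ * ∑ᶠ g : G, (χ : G → ℂ) (g * g) = 1} ≤
      I.index * Nat.card {χ : IrrCharacter G //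
        charDegree (χ : G → ℂ) = charDegree (φ : N → ℂ) * I.index ∧
        (Nat.card G : ℂ)⁻¹ * ∑ᶠ g : G, (χ : G → ℂ) (g * g) = 1} := by
  classical
  haveI : Fintype I := Fintype.ofFinite I
  rw [finsum_eq_sum_of_fintype] at hν
  obtain ⟨χ₀, hχ₀⟩ : ∃ χ₀ : G → ℂ, χ₀ = indFun I (ψ : I → ℂ) := ⟨_, rfl⟩
  have hχ₀irr : IsIrrCharacter G χ₀ := by
    rw [hχ₀]; exact (lo_ind N I φ hI hNI _ _ ψ.2 ψ.2 hψN hψN).1
  have hχ₀ν : (Nat.card G : ℂ)⁻¹ * ∑ g : G, χ₀ (g * g) = 1 := by
    rw [hχ₀]; exact ri_fs_ind N I φ hI hNI ψ hψN hν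
  have hχ₀1 : χ₀ 1 = ((charDegree (φ : N → ℂ) * I.index : ℕ) : ℂ) := by
    rw [hχ₀, Helper7.indFun_one]
    have e1 : (ψ : I → ℂ) 1 = (φ : N → ℂ) 1 := by
      have := hψN 1
      simpa using this
    rw [e1, Helper25.irr_one_eq_degree φ]
    have hidx : (Nat.card G : ℂ) = Nat.card I * I.index := by
      rw [← Nat.cast_mul, Subgroup.card_mul_index]
    have hI0 : (Nat.card I : ℂ) ≠ 0 := by exact_mod_cast Nat.card_pos.ne'
    rw [hidx]; push_cast; field_simp
  have hlin : ∀ χ : {χ : IrrCharacter G // charDegree (χ : G → ℂ) = 1 ∧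
        (Nat.card G : ℂ)⁻¹ * ∑ᶠ g : G, (χ : G → ℂ) (g * g) = 1},
      ∃ f : G →* ℂˣ, (χ.1 : G → ℂ) = fun g => ((f g : ℂˣ) : ℂ) := by
    intro χ
    apply Helper7.exists_hom_of_linear _ (Helper2.isCharacter_of_isIrrCharacter χ.1.2)
    rw [Helper25.irr_one_eq_degree, χ.2.1]; simp
  choose fh hfh using hlin
  have hirr : ∀ χ : {χ : IrrCharacter G // charDegree (χ : G → ℂ) = 1 ∧
        (Nat.card G : ℂ)⁻¹ * ∑ᶠ g : G, (χ : G → ℂ) (g * g) = 1},
      IsIrrCharacter G (fun g => (χ.1 : G → ℂ) g * χ₀ g) := by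
    intro χ
    have := Helper7.isIrrCharacter_hom_mul (fh χ) χ₀ hχ₀irr
    rw [hfh χ]; exact this
  have hsq : ∀ (χ : {χ : IrrCharacter G // charDegree (χ : G → ℂ) = 1 ∧
        (Nat.card G : ℂ)⁻¹ * ∑ᶠ g : G, (χ : G → ℂ) (g * g) = 1}) (g : G),
      (χ.1 : G → ℂ) (g * g) = 1 := by
    intro χ g
    have hre : ((χ.1 : G → ℂ) g).im = 0 := by
      apply Helper24.fsInd_real χ.1
      unfold Helper24.fsInd
      have h := χ.2.2
      rw [finsum_eq_sum_of_fintype] at h
      rw [h]; exact one_ne_zero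
    have hns : Complex.normSq ((χ.1 : G → ℂ) g) = 1 := by
      rw [hfh χ]; exact lo_hom_normSq (fh χ) g
    have h1 := ri_sq_one _ hns hre
    rw [hfh χ] at h1 ⊢
    simp only at h1 ⊢
    rw [map_mul, Units.val_mul]
    exact h1
  obtain ⟨m, hm⟩ : ∃ m : {χ : IrrCharacter G // charDegree (χ : G → ℂ) = 1 ∧
        (Nat.card G : ℂ)⁻¹ * ∑ᶠ g : G, (χ : G → ℂ) (g * g) = 1} → IrrCharacter G,
      ∀ χ, (m χ : G → ℂ) = fun g => (χ.1 : G → ℂ) g * χ₀ g :=
    ⟨fun χ => ⟨fun g => (χ.1 : G → ℂ) g * χ₀ g, hirr χ⟩, fun χ => rfl⟩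
  have hmaps : ∀ χ ∈ (Finset.univ : Finset {χ : IrrCharacter G // charDegree (χ : G → ℂ) = 1 ∧
        (Nat.card G : ℂ)⁻¹ * ∑ᶠ g : G, (χ : G → ℂ) (g * g) = 1}),
      m χ ∈ Finset.univ.filter (fun χ : IrrCharacter G =>
        charDegree (χ : G → ℂ) = charDegree (φ : N → ℂ) * I.index ∧
        (Nat.card G : ℂ)⁻¹ * ∑ᶠ g : G, (χ : G → ℂ) (g * g) = 1) := by
    intro χ _
    rw [Finset.mem_filter]
    refine ⟨Finset.mem_univ _, ?_, ?_⟩
    · have h1 := Helper25.irr_one_eq_degree (m χ)
      rw [hm χ] at h1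
      simp only at h1
      rw [Helper25.irr_one_eq_degree χ.1, χ.2.1, hχ₀1, Nat.cast_one, one_mul] at h1
      rw [hm χ]
      exact (Nat.cast_injective h1).symm
    · rw [hm χ, finsum_eq_sum_of_fintype]
      refine Eq.trans ?_ hχ₀ν
      refine congrArg _ (Finset.sum_congr rfl ?_)
      intro g _
      simp only
      rw [hsq χ g, one_mul]
  have hfib : ∀ b ∈ Finset.univ.filter (fun χ : IrrCharacter G =>
        charDegree (χ : G → ℂ) = charDegree (φ : N → ℂ) * I.index ∧
        (Nat.card G : ℂ)⁻¹ * ∑ᶠ g : G, (χ : G → ℂ) (g * g) = 1),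
      (Finset.univ.filter (fun χ : {χ : IrrCharacter G // charDegree (χ : G → ℂ) = 1 ∧
        (Nat.card G : ℂ)⁻¹ * ∑ᶠ g : G, (χ : G → ℂ) (g * g) = 1} =>
        m χ = b)).card ≤ I.index := by
    intro b _
    by_cases hne : (Finset.univ.filter
        (fun χ : {χ : IrrCharacter G // charDegree (χ : G → ℂ) = 1 ∧
        (Nat.card G : ℂ)⁻¹ * ∑ᶠ g : G, (χ : G → ℂ) (g * g) = 1} => m χ = b)).Nonempty
    · obtain ⟨χ₁, hχ₁⟩ := hne
      rw [Finset.mem_filter] at hχ₁
      rw [← Finset.card_image_of_injective _ Subtype.val_injective]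
      apply lo_count I _ (fun g => (χ₁.1 : G → ℂ) g)
      · intro x _
        rw [hfh χ₁]
        exact lo_hom_normSq (fh χ₁) x
      · intro χ hχ x hx
        rw [Finset.mem_image] at hχ
        obtain ⟨χ', hχ', rfl⟩ := hχ
        rw [Finset.mem_filter] at hχ'
        have heq : m χ' = m χ₁ := hχ'.2.trans hχ₁.2.symm
        have heq' : (fun g => (χ'.1 : G → ℂ) g * χ₀ g) = (fun g => (χ₁.1 : G → ℂ) g * χ₀ g) := by
          rw [← hm χ', ← hm χ₁, heq]
        rw [hfh χ', hfh χ₁, hχ₀] at heq'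
        have h8 := lo_agree N I φ hI hNI ψ hψN (fh χ') (fh χ₁)
          (fun n => lo_hom_trivial N hNc _ n) (fun n => lo_hom_trivial N hNc _ n) heq' ⟨x, hx⟩
        rw [hfh χ', hfh χ₁]
        show ((fh χ' x : ℂˣ) : ℂ) = ((fh χ₁ x : ℂˣ) : ℂ)
        have h9 : fh χ' x = fh χ₁ x := h8
        rw [h9]
    · rw [Finset.not_nonempty_iff_eq_empty] at hne
      rw [hne]; simp
  have h := Finset.card_le_mul_card_image_of_maps_to hmaps I.index hfib
  rw [Finset.card_univ] at h
  have e1 : Nat.card {χ : IrrCharacter G // charDegree (χ : G → ℂ) = 1 ∧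
        (Nat.card G : ℂ)⁻¹ * ∑ᶠ g : G, (χ : G → ℂ) (g * g) = 1} =
      Fintype.card {χ : IrrCharacter G // charDegree (χ : G → ℂ) = 1 ∧
        (Nat.card G : ℂ)⁻¹ * ∑ᶠ g : G, (χ : G → ℂ) (g * g) = 1} := Nat.card_eq_fintype_card
  have e2 : Nat.card {χ : IrrCharacter G //
        charDegree (χ : G → ℂ) = charDegree (φ : N → ℂ) * I.index ∧
        (Nat.card G : ℂ)⁻¹ * ∑ᶠ g : G, (χ : G → ℂ) (g * g) = 1} =
      (Finset.univ.filter (fun χ : IrrCharacter G =>
        charDegree (χ : G → ℂ) = charDegree (φ : N → ℂ) * I.index ∧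
        (Nat.card G : ℂ)⁻¹ * ∑ᶠ g : G, (χ : G → ℂ) (g * g) = 1)).card :=
    Nat.card_eq_fintype_card.trans (Fintype.card_subtype _)
  rw [e1, e2]
  exact h

end Cfsg.Agent.Helper26
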