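import Mathlib
import Cfsg.Agent.Helper26.RealOrbits
import Cfsg.Agent.Helper2.IndNormal
import Cfsg.Agent.Helper25.FSCount

/-!
Helper library (seat helper26): real-valued irreducible characters of a group `G` lying over
real-valued irreducible characters of a normal subgroup `N` of odd index; Frobenius–Schur
indicators (the unique character of indicator `+1` over a character of indicator `+1`).
-/

set_option autoImplicit false

namespace Cfsg.Agent.Helper26

open Cfsg
open scoped ComplexConjugate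

universe u

section RealOver

variable {G : Type u} [Group G] [Fintype G] (N : Subgroup G) [N.Normal] [Fintype N]

/-- Clifford: two irreducible constituents of the restriction of an irreducible character to a
normal subgroup are conjugate. -/
theorem rov_clifford (χ : IrrCharacter G) (θ ξ : IrrCharacter N)
    (hθ : classInner (fun n : N => (χ : G → ℂ) n) (θ : N → ℂ) ≠ 0)
    (hξ : classInner (fun n : N => (χ : G → ℂ) n) (ξ : N → ℂ) ≠ 0) :
    ∃ g : G, (ξ : N → ℂ) = Helper2.conjChar N (θ : N → ℂ) g := by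
  classical
  by_contra hne
  rw [not_exists] at hne
  apply hξ
  have hχchar : IsCharacter G (χ : G → ℂ) := Helper2.isCharacter_of_isIrrCharacter χ.2
  have hχcl : IsClassFunction G (χ : G → ℂ) := Helper2.isClassFunction_of_isCharacter hχchar
  have hind_char : IsCharacter G (indFun N (θ : N → ℂ)) :=
    Helper2.isCharacter_indFun N (Helper2.isCharacter_of_isIrrCharacter θ.2)
  have hind_cl := Helper2.indFun_isClassFunction N (θ : N → ℂ)
  have hc : ∀ ζ : IrrCharacter G, ∃ c : ℕ, classInner (indFun N (θ : N → ℂ)) (ζ : G → ℂ) = c :=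
    fun ζ => Helper2.classInner_char_nat hind_char (Helper2.isCharacter_of_isIrrCharacter ζ.2)
  choose c hc using hc
  have hm : ∀ ζ : IrrCharacter G, ∃ m : ℕ,
      classInner (fun n : N => (ζ : G → ℂ) n) (ξ : N → ℂ) = m :=
    fun ζ => Helper2.classInner_char_nat
      (Helper2.isCharacter_restrict N (Helper2.isCharacter_of_isIrrCharacter ζ.2))
      (Helper2.isCharacter_of_isIrrCharacter ξ.2)
  choose m hm using hm
  have hdecomp : indFun N (θ : N → ℂ) = ∑ ζ : IrrCharacter G, (c ζ : ℂ) • (ζ : G → ℂ) := by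
    conv_lhs => rw [Helper2.classFun_eq_sum_classInner hind_cl]
    exact Finset.sum_congr rfl (fun ζ _ => by rw [hc ζ])
  have hres : (fun n : N => indFun N (θ : N → ℂ) n) =
      ∑ ζ : IrrCharacter G, (c ζ : ℂ) • (fun n : N => (ζ : G → ℂ) n) := by
    funext n
    rw [hdecomp]
    simp only [Finset.sum_apply, Pi.smul_apply]
  have h1 : classInner (fun n : N => indFun N (θ : N → ℂ) n) (ξ : N → ℂ) =
      ((∑ ζ : IrrCharacter G, c ζ * m ζ : ℕ) : ℂ) := by
    rw [hres, Helper2.classInner_sum_left]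
    push_cast
    apply Finset.sum_congr rfl
    intro ζ _
    rw [Helper2.classInner_smul_left, hm ζ]
  have h2 : classInner (fun n : N => indFun N (θ : N → ℂ) n) (ξ : N → ℂ) = 0 := by
    rw [Helper2.indFun_restrict_normal, Helper2.classInner_smul_left,
      Helper2.classInner_sum_left]
    have : ∀ x : G, classInner (Helper2.conjChar N (θ : N → ℂ) x⁻¹) (ξ : N → ℂ) = 0 := by
      intro x
      rw [Helper2.classInner_conj_symm (ξ : N → ℂ) (Helper2.conjChar N (θ : N → ℂ) x⁻¹)]
      rw [Helper2.classInner_irr_conjChar N θ.2 ξ.2 x⁻¹, if_neg (hne x⁻¹), map_zero]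
    rw [Finset.sum_congr rfl (fun x _ => this x)]
    simp
  rw [h2] at h1
  have h3 : ∑ ζ : IrrCharacter G, c ζ * m ζ = 0 := by exact_mod_cast h1.symm
  have h4 := (Finset.sum_eq_zero_iff.mp h3) χ (Finset.mem_univ _)
  have hcθ : c χ ≠ 0 := by
    intro h0
    have hfr : classInner (indFun N (θ : N → ℂ)) (χ : G → ℂ) = (c χ : ℂ) := hc χ
    rw [Helper2.frobenius_reciprocity N (θ : N → ℂ) (χ : G → ℂ) hχcl, h0] at hfr
    apply hθ
    rw [Helper2.classInner_conj_symm (θ : N → ℂ) _, hfr]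
    simp
  have hmθ : m χ = 0 := by
    rcases Nat.mul_eq_zero.mp h4 with h | h
    · exact absurd h hcθ
    · exact h
  rw [hm χ, hmθ]
  simp

/-- A fixed point of the twisted map is real-valued, when `N` has odd index. -/
theorem rov_real_of_tw (hodd : Odd N.index) (g : G) (θ : IrrCharacter N)
    (hθ : ro_tw N g θ = θ) : ∀ k : N, ((θ : N → ℂ) k).im = 0 := by
  set c : N → N := fun k => MulAut.conjNormal g⁻¹ k with hc
  have hstep : ∀ k : N, (θ : N → ℂ) k = (θ : N → ℂ) ((c k)⁻¹) := by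
    intro k
    exact (congrFun (congrArg Subtype.val hθ) k).symm
  have hcinv : ∀ k : N, c k⁻¹ = (c k)⁻¹ := fun k => map_inv (MulAut.conjNormal g⁻¹ : N ≃* N) k
  have h2 : ∀ k : N, (θ : N → ℂ) k = (θ : N → ℂ) (c (c k)) := by
    intro k
    rw [hstep k, hstep ((c k)⁻¹), hcinv, inv_inv]
  have hj : ∀ (j : ℕ) (k : N), (θ : N → ℂ) k = (θ : N → ℂ) (c^[2 * j] k) := by
    intro j
    induction j with
    | zero => intro k; rfl
    | succ j ih =>
      intro k
      have e : 2 * (j + 1) = 2 * j + 1 + 1 := by ring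
      rw [e, Function.iterate_succ_apply, Function.iterate_succ_apply, ← ih, ← h2]
  have hcoe : ∀ (n : ℕ) (k : N), ((c^[n] k : N) : G) = (g ^ n)⁻¹ * k * g ^ n := by
    intro n
    induction n with
    | zero => intro k; simp
    | succ n ih =>
      intro k
      rw [Function.iterate_succ_apply', hc]
      show ((MulAut.conjNormal g⁻¹ (c^[n] k) : N) : G) = _
      rw [MulAut.conjNormal_apply, ih, pow_succ]
      group
  obtain ⟨j, hj2⟩ := hodd
  have hmem : g ^ N.index ∈ N := Subgroup.pow_index_mem N g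
  have hcl := Helper1.isClassFunction_irr θ
  have hm : ∀ k : N, (θ : N → ℂ) (c^[2 * j + 1] k) = (θ : N → ℂ) k := by
    intro k
    have e : c^[2 * j + 1] k = (⟨g ^ N.index, hmem⟩ : N)⁻¹ * k * (⟨g ^ N.index, hmem⟩ : N)⁻¹⁻¹ := by
      apply Subtype.ext
      rw [hcoe, ← hj2]
      simp
    rw [e, hcl]
  intro k
  apply Complex.conj_eq_iff_im.mp
  have e1 : (θ : N → ℂ) k = conj ((θ : N → ℂ) k) := by
    calc (θ : N → ℂ) k = (θ : N → ℂ) ((c k)⁻¹) := hstep k
      _ = conj ((θ : N → ℂ) (c k)) := Helper1.irr_inv θ _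
      _ = conj ((θ : N → ℂ) (c^[2 * j] (c k))) := by rw [← hj j (c k)]
      _ = conj ((θ : N → ℂ) (c^[2 * j + 1] k)) := by rw [Function.iterate_succ_apply]
      _ = conj ((θ : N → ℂ) k) := by rw [hm]
  exact e1.symm

/-- The constituents of the restriction of a real-valued irreducible character to a normal
subgroup of odd index are real-valued. -/
theorem rov_const_real (hodd : Odd N.index) (χ : IrrCharacter G)
    (hχ : ∀ g : G, ((χ : G → ℂ) g).im = 0) (θ : IrrCharacter N)
    (hθ : classInner (fun n : N => (χ : G → ℂ) n) (θ : N → ℂ) ≠ 0) :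
    ∀ k : N, ((θ : N → ℂ) k).im = 0 := by
  have hreal : ∀ z : ℂ, z.im = 0 → conj z = z := fun z hz => Complex.conj_eq_iff_im.mpr hz
  obtain ⟨θc, hθc⟩ : ∃ θc : IrrCharacter N, (θc : N → ℂ) = fun n => conj ((θ : N → ℂ) n) :=
    ⟨⟨fun n => conj ((θ : N → ℂ) n), Helper2.isIrrCharacter_conj θ.2⟩, rfl⟩
  have h1 : classInner (fun n : N => (χ : G → ℂ) n) (θc : N → ℂ) ≠ 0 := by
    have e : classInner (fun n : N => (χ : G → ℂ) n) (θc : N → ℂ) =
        conj (classInner (fun n : N => (χ : G → ℂ) n) (θ : N → ℂ)) := by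
      unfold classInner
      rw [map_mul, map_inv₀, Complex.conj_natCast, map_sum]
      congr 1
      apply Finset.sum_congr rfl; intro n _
      rw [map_mul, hreal _ (hχ n), hθc]
    rw [e]
    exact (map_ne_zero _).mpr hθ
  obtain ⟨g, hg⟩ := rov_clifford N χ θ θc hθ h1
  apply rov_real_of_tw N hodd g⁻¹ θ
  apply Subtype.ext
  funext k
  show (θ : N → ℂ) ((MulAut.conjNormal g⁻¹⁻¹ k)⁻¹) = (θ : N → ℂ) k
  rw [Helper1.irr_inv θ _, inv_inv]
  have h2 := congrFun hg k
  rw [Helper2.conjChar_apply, hθc] at h2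
  have e : (MulAut.conjNormal g k : N) = ⟨g * k * g⁻¹, ‹N.Normal›.conj_mem k k.2 g⟩ :=
    Subtype.ext (by simp [MulAut.conjNormal_apply])
  rw [e, ← h2]
  simp

omit [Fintype G] [Fintype N] in
/-- A real element of `G` lies in a normal subgroup of odd index and is real there. -/
theorem rov_real_mem (hodd : Odd N.index) (g : G) (hg : IsConj g⁻¹ g) :
    ∃ hmem : g ∈ N, IsConj (⟨g, hmem⟩ : N) (⟨g, hmem⟩ : N)⁻¹ := by
  obtain ⟨a, ha⟩ := isConj_iff.mp hg
  have h1 : a * g * a⁻¹ = g⁻¹ := by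
    calc a * g * a⁻¹ = (a * g⁻¹ * a⁻¹)⁻¹ := by group
      _ = g⁻¹ := by rw [ha]
  have h2 : a ^ 2 * g = g * a ^ 2 := by
    calc a ^ 2 * g = a * (a * g * a⁻¹) * a := by rw [pow_two]; group
      _ = a * g⁻¹ * a := by rw [h1]
      _ = (a * g * a⁻¹)⁻¹ * a ^ 2 := by rw [pow_two]; group
      _ = g * a ^ 2 := by rw [h1, inv_inv]
  have h3 : ∀ j : ℕ, a ^ (2 * j) * g = g * a ^ (2 * j) := by
    intro j
    rw [pow_mul]
    exact (Commute.pow_left (show Commute (a ^ 2) g from h2) j).eq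
  obtain ⟨j, hj⟩ := hodd
  have hamem : a ^ N.index ∈ N := Subgroup.pow_index_mem N a
  have hc : a ^ N.index * g * (a ^ N.index)⁻¹ = g⁻¹ := by
    rw [hj, pow_succ]
    calc a ^ (2 * j) * a * g * (a ^ (2 * j) * a)⁻¹
        = a ^ (2 * j) * (a * g * a⁻¹) * (a ^ (2 * j))⁻¹ := by group
      _ = (a ^ (2 * j) * g * (a ^ (2 * j))⁻¹)⁻¹ := by rw [h1]; group
      _ = (g * a ^ (2 * j) * (a ^ (2 * j))⁻¹)⁻¹ := by rw [h3 j]
      _ = g⁻¹ := by simp
  have hsq : g * g ∈ N := by
    have e : g * g = (g * a ^ N.index * g⁻¹) * (a ^ N.index)⁻¹ := by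
      calc g * g = g * (a ^ N.index * g * (a ^ N.index)⁻¹)⁻¹ := by rw [hc, inv_inv]
        _ = (g * a ^ N.index * g⁻¹) * (a ^ N.index)⁻¹ := by group
    rw [e]
    exact N.mul_mem (‹N.Normal›.conj_mem _ hamem g) (N.inv_mem hamem)
  have hgm : g ^ N.index ∈ N := Subgroup.pow_index_mem N g
  have hmem : g ∈ N := by
    have h2j : g ^ (2 * j) ∈ N := by
      rw [pow_mul, pow_two]; exact N.pow_mem hsq j
    have e : g = (g ^ (2 * j))⁻¹ * g ^ N.index := by
      rw [hj, pow_succ]; group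
    rw [e]
    exact N.mul_mem (N.inv_mem h2j) hgm
  refine ⟨hmem, isConj_iff.mpr ⟨⟨a ^ N.index, hamem⟩, ?_⟩⟩
  apply Subtype.ext
  exact hc

omit [Fintype G] [Fintype N] in
theorem rov_isConj_inv {a b : G} (h : IsConj a b) : IsConj a⁻¹ b⁻¹ := by
  obtain ⟨c, hc⟩ := isConj_iff.mp h
  exact isConj_iff.mpr ⟨c, by rw [← hc]; group⟩

omit [Fintype N] in
/-- The number of real-valued irreducible characters of `G` is the number of `G`-orbits of
real-valued irreducible characters of a normal subgroup `N` of odd index. -/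
theorem rov_card_real (hodd : Odd N.index) :
    Nat.card {χ : IrrCharacter G // ∀ g : G, ((χ : G → ℂ) g).im = 0} =
      Nat.card (Quot (fun θ η : RealIrr N => ∃ g : G, ∀ k k' : N, (k' : G) = g * (k : G) * g⁻¹ →
        (η.1 : N → ℂ) k' = (θ.1 : N → ℂ) k)) := by
  rw [ro_main N hodd]
  have hb := Helper2.brauer_count (G := G) (fun g => g⁻¹)
    (fun χ => ⟨fun g => conj ((χ : G → ℂ) g), Helper2.isIrrCharacter_conj χ.2⟩)
    (fun χ g => (Helper1.irr_inv χ g).symm) (fun g h hgh => rov_isConj_inv hgh)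
  have e1 : Nat.card {χ : IrrCharacter G // ∀ g : G, ((χ : G → ℂ) g).im = 0} =
      Nat.card {χ : IrrCharacter G //
        (⟨fun g => conj ((χ : G → ℂ) g), Helper2.isIrrCharacter_conj χ.2⟩ : IrrCharacter G)
          = χ} := by
    apply Nat.card_congr
    apply Equiv.subtypeEquivRight
    intro χ
    constructor
    · intro h; apply Subtype.ext; funext g; exact Complex.conj_eq_iff_im.mpr (h g)
    · intro h g; exact Complex.conj_eq_iff_im.mp (congrFun (congrArg Subtype.val h) g)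
  rw [e1, hb]
  symm
  have hout : ∀ g : G, IsConj (Quotient.out (ConjClasses.mk g)) g := fun g =>
    ConjClasses.mk_eq_mk_iff_isConj.mp (Quotient.out_eq (ConjClasses.mk g))
  have hwd : ∀ x : RealElt N, IsConj (Quotient.out (ConjClasses.mk (x.1 : G)))⁻¹
      (Quotient.out (ConjClasses.mk (x.1 : G))) := by
    intro x
    have h1 := hout (x.1 : G)
    have h2 : IsConj (x.1 : G) (x.1 : G)⁻¹ := by
      have := (N.subtype).map_isConj x.2
      simpa using this
    exact ((rov_isConj_inv h1).trans h2.symm).trans h1.symm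
  apply Nat.card_eq_of_bijective
    (Quot.lift (fun x : RealElt N =>
      (⟨ConjClasses.mk (x.1 : G), hwd x⟩ :
        {C : ConjClasses G // IsConj (Quotient.out C)⁻¹ (Quotient.out C)})) (by
      rintro x y ⟨g, hg⟩
      apply Subtype.ext
      exact ConjClasses.mk_eq_mk_iff_isConj.mpr (isConj_iff.mpr ⟨g, hg.symm⟩)))
  constructor
  · intro p q
    induction p using Quot.ind with
    | mk x =>
      induction q using Quot.ind with
      | mk y =>
        intro h
        have h1 : ConjClasses.mk (x.1 : G) = ConjClasses.mk (y.1 : G) := congrArg Subtype.val h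
        obtain ⟨g, hg⟩ := isConj_iff.mp (ConjClasses.mk_eq_mk_iff_isConj.mp h1)
        exact Quot.sound ⟨g, hg.symm⟩
  · rintro ⟨C, hC⟩
    obtain ⟨hmem, hreal⟩ := rov_real_mem N hodd (Quotient.out C) hC
    refine ⟨Quot.mk _ ⟨⟨Quotient.out C, hmem⟩, hreal⟩, ?_⟩
    apply Subtype.ext
    exact Quotient.out_eq C

/-- Frobenius–Schur indicators and restriction to a normal subgroup of odd index. -/
theorem rov_fs_restrict (hodd : Odd N.index) (θ : IrrCharacter N) :
    ∑ χ : IrrCharacter G, Helper24.fsInd (χ : G → ℂ) *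
        classInner (fun n : N => (χ : G → ℂ) n) (θ : N → ℂ) = Helper24.fsInd (θ : N → ℂ) := by
  classical
  have hsq : ∀ u : G, u * u ∈ N → u ∈ N := by
    intro u hu
    obtain ⟨j, hj⟩ := hodd
    have hum : u ^ N.index ∈ N := Subgroup.pow_index_mem N u
    have h2j : u ^ (2 * j) ∈ N := by
      rw [pow_mul, pow_two]; exact N.pow_mem hu j
    have e : u = (u ^ (2 * j))⁻¹ * u ^ N.index := by
      rw [hj, pow_succ]; group
    rw [e]
    exact N.mul_mem (N.inv_mem h2j) hum
  have h1 : ∀ n : N, ∑ χ : IrrCharacter G, Helper24.fsInd (χ : G → ℂ) * (χ : G → ℂ) n =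
      ∑ η : IrrCharacter N, Helper24.fsInd (η : N → ℂ) * (η : N → ℂ) n := by
    intro n
    rw [Helper25.fs_sum_eq_card_sqrt, Helper25.fs_sum_eq_card_sqrt]
    congr 1
    symm
    apply Finset.card_bij (fun (u : N) _ => (u : G))
    · intro u hu
      simp only [Finset.mem_filter, Finset.mem_univ, true_and] at hu ⊢
      rw [← hu]; rfl
    · intro a _ b _ h; exact Subtype.ext h
    · intro u hu
      simp only [Finset.mem_filter, Finset.mem_univ, true_and] at hu
      refine ⟨⟨u, hsq u (by rw [hu]; exact n.2)⟩, ?_, rfl⟩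
      simp only [Finset.mem_filter, Finset.mem_univ, true_and]
      apply Subtype.ext
      exact hu
  have h2 : (fun n : N => ∑ χ : IrrCharacter G, Helper24.fsInd (χ : G → ℂ) * (χ : G → ℂ) n) =
      ∑ η : IrrCharacter N, Helper24.fsInd (η : N → ℂ) • (η : N → ℂ) := by
    funext n
    rw [h1 n]
    simp only [Finset.sum_apply, Pi.smul_apply, smul_eq_mul]
  have h3 : classInner
      (fun n : N => ∑ χ : IrrCharacter G, Helper24.fsInd (χ : G → ℂ) * (χ : G → ℂ) n)
      (θ : N → ℂ) = ∑ χ : IrrCharacter G, Helper24.fsInd (χ : G → ℂ) *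
        classInner (fun n : N => (χ : G → ℂ) n) (θ : N → ℂ) := by
    have : (fun n : N => ∑ χ : IrrCharacter G, Helper24.fsInd (χ : G → ℂ) * (χ : G → ℂ) n) =
        ∑ χ : IrrCharacter G, Helper24.fsInd (χ : G → ℂ) • (fun n : N => (χ : G → ℂ) n) := by
      funext n
      simp only [Finset.sum_apply, Pi.smul_apply, smul_eq_mul]
    rw [this, Helper2.classInner_sum_left]
    apply Finset.sum_congr rfl; intro χ _
    rw [Helper2.classInner_smul_left]
  rw [← h3, h2, Helper2.classInner_sum_left]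
  rw [Finset.sum_eq_single θ]
  · rw [Helper2.classInner_smul_left, Helper2.classInner_irr_irr, if_pos rfl, mul_one]
  · intro η _ hne
    rw [Helper2.classInner_smul_left, Helper2.classInner_irr_irr, if_neg hne, mul_zero]
  · intro h; exact absurd (Finset.mem_univ _) h

theorem rov_exists_real_over (hodd : Odd N.index) (θ : IrrCharacter N)
    (hθ : Helper24.fsInd (θ : N → ℂ) ≠ 0) :
    ∃ χ : IrrCharacter G, Helper24.fsInd (χ : G → ℂ) ≠ 0 ∧
      classInner (fun n : N => (χ : G → ℂ) n) (θ : N → ℂ) ≠ 0 := by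
  have h := rov_fs_restrict N hodd θ
  rw [← h] at hθ
  obtain ⟨χ, _, hχ⟩ := Finset.exists_ne_zero_of_sum_ne_zero hθ
  exact ⟨χ, left_ne_zero_of_mul hχ, right_ne_zero_of_mul hχ⟩

omit [N.Normal] in
theorem rov_exists_const (χ : IrrCharacter G) :
    ∃ θ : IrrCharacter N, classInner (fun n : N => (χ : G → ℂ) n) (θ : N → ℂ) ≠ 0 := by
  by_contra h
  simp only [not_exists, not_not] at h
  have hcl : IsClassFunction N (fun n : N => (χ : G → ℂ) n) :=
    Helper2.isClassFunction_of_isCharacter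
      (Helper2.isCharacter_restrict N (Helper2.isCharacter_of_isIrrCharacter χ.2))
  have h1 := Helper2.classFun_eq_sum_classInner hcl
  have h2 : (fun n : N => (χ : G → ℂ) n) = 0 := by
    rw [h1]; apply Finset.sum_eq_zero; intro θ _; rw [h θ, zero_smul]
  have h3 := congrFun h2 1
  exact Helper25.irr_one_ne_zero χ h3

/-- Two real-valued irreducible characters of `G` over the same real-valued irreducible
character of a normal subgroup of odd index coincide. -/
theorem rov_unique_real (hodd : Odd N.index) (χ₁ χ₂ : IrrCharacter G)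
    (h₁ : ∀ g : G, ((χ₁ : G → ℂ) g).im = 0) (h₂ : ∀ g : G, ((χ₂ : G → ℂ) g).im = 0)
    (θ : IrrCharacter N)
    (hθ₁ : classInner (fun n : N => (χ₁ : G → ℂ) n) (θ : N → ℂ) ≠ 0)
    (hθ₂ : classInner (fun n : N => (χ₂ : G → ℂ) n) (θ : N → ℂ) ≠ 0) : χ₁ = χ₂ := by
  classical
  have hF : ∀ χ : {χ : IrrCharacter G // ∀ g : G, ((χ : G → ℂ) g).im = 0},
      ∃ η : RealIrr N, classInner (fun n : N => (χ.1 : G → ℂ) n) (η.1 : N → ℂ) ≠ 0 := by
    intro χ
    obtain ⟨η, hη⟩ := rov_exists_const N χ.1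
    exact ⟨⟨η, rov_const_real N hodd χ.1 χ.2 η hη⟩, hη⟩
  choose F hF using hF
  obtain ⟨r, hr⟩ : ∃ r : RealIrr N → RealIrr N → Prop, r = (fun θ η : RealIrr N =>
      ∃ g : G, ∀ k k' : N, (k' : G) = g * (k : G) * g⁻¹ →
        (η.1 : N → ℂ) k' = (θ.1 : N → ℂ) k) := ⟨_, rfl⟩
  have hrel : ∀ (χ : IrrCharacter G) (η ξ : RealIrr N),
      classInner (fun n : N => (χ : G → ℂ) n) (η.1 : N → ℂ) ≠ 0 →
      classInner (fun n : N => (χ : G → ℂ) n) (ξ.1 : N → ℂ) ≠ 0 → r η ξ := by
    intro χ η ξ hη hξ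
    obtain ⟨g, hg⟩ := rov_clifford N χ η.1 ξ.1 hη hξ
    rw [hr]
    refine ⟨g⁻¹, fun k k' hk => ?_⟩
    rw [hg, Helper2.conjChar_apply]
    refine congrArg _ ?_
    apply Subtype.ext
    show g * (k' : G) * g⁻¹ = (k : G)
    rw [hk]; group
  have hsurj : Function.Surjective
      (fun χ : {χ : IrrCharacter G // ∀ g : G, ((χ : G → ℂ) g).im = 0} => Quot.mk r (F χ)) := by
    intro q
    induction q using Quot.ind with
    | mk η =>
      have hη : Helper24.fsInd (η.1 : N → ℂ) ≠ 0 := by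
        rcases Helper24.fsInd_cases η.1 with h | h
        · exact absurd η.2 h.2
        · rcases h.1 with h | h <;> rw [h] <;> norm_num
      obtain ⟨χ, hχ1, hχ2⟩ := rov_exists_real_over N hodd η.1 hη
      refine ⟨⟨χ, Helper24.fsInd_real χ hχ1⟩, ?_⟩
      exact Quot.sound (hrel χ (F ⟨χ, Helper24.fsInd_real χ hχ1⟩) η
        (hF ⟨χ, Helper24.fsInd_real χ hχ1⟩) hχ2)
  have hcard := rov_card_real N hodd
  rw [← hr] at hcard
  have hle : Nat.card {χ : IrrCharacter G // ∀ g : G, ((χ : G → ℂ) g).im = 0} ≤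
      Nat.card (Quot r) := le_of_eq hcard
  have hbij : Function.Bijective
      (fun χ : {χ : IrrCharacter G // ∀ g : G, ((χ : G → ℂ) g).im = 0} => Quot.mk r (F χ)) :=
    Function.Surjective.bijective_of_nat_card_le hsurj hle
  have e1 : Quot.mk r (F ⟨χ₁, h₁⟩) = Quot.mk r ⟨θ, rov_const_real N hodd χ₁ h₁ θ hθ₁⟩ :=
    Quot.sound (hrel χ₁ (F ⟨χ₁, h₁⟩) ⟨θ, rov_const_real N hodd χ₁ h₁ θ hθ₁⟩ (hF ⟨χ₁, h₁⟩) hθ₁)
  have e2 : Quot.mk r (F ⟨χ₂, h₂⟩) = Quot.mk r ⟨θ, rov_const_real N hodd χ₁ h₁ θ hθ₁⟩ :=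
    Quot.sound (hrel χ₂ (F ⟨χ₂, h₂⟩) ⟨θ, rov_const_real N hodd χ₁ h₁ θ hθ₁⟩ (hF ⟨χ₂, h₂⟩) hθ₂)
  have := hbij.1 (e1.trans e2.symm)
  exact congrArg Subtype.val this

/-- Over an irreducible character of indicator `+1` of a normal subgroup of odd index lies
exactly one irreducible character of indicator `+1`. -/
theorem rov_main (hodd : Odd N.index) (φ : IrrCharacter N)
    (hφ : Helper24.fsInd (φ : N → ℂ) = 1) :
    ∃! χ : IrrCharacter G, Helper24.fsInd (χ : G → ℂ) = 1 ∧
      classInner (fun n : N => (χ : G → ℂ) n) (φ : N → ℂ) ≠ 0 := by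
  classical
  have hφ0 : Helper24.fsInd (φ : N → ℂ) ≠ 0 := by rw [hφ]; exact one_ne_zero
  obtain ⟨χ₀, hχ1, hχ2⟩ := rov_exists_real_over N hodd φ hφ0
  have hχreal := Helper24.fsInd_real χ₀ hχ1
  have hsum := rov_fs_restrict N hodd φ
  rw [Finset.sum_eq_single χ₀, hφ] at hsum
  · obtain ⟨m, hm⟩ := Helper2.classInner_char_nat
      (Helper2.isCharacter_restrict N (Helper2.isCharacter_of_isIrrCharacter χ₀.2))
      (Helper2.isCharacter_of_isIrrCharacter φ.2)
    have hfs : Helper24.fsInd (χ₀ : G → ℂ) = 1 := by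
      rcases Helper24.fsInd_cases χ₀ with h | h
      · exact absurd h.1 hχ1
      · rcases h.1 with h | h
        · exact h
        · exfalso
          rw [h, hm] at hsum
          have h0 : ((m + 1 : ℕ) : ℂ) = 0 := by push_cast; linear_combination -hsum
          exact absurd (Nat.cast_eq_zero.mp h0) (Nat.succ_ne_zero m)
    refine ⟨χ₀, ⟨hfs, hχ2⟩, ?_⟩
    rintro χ ⟨hχa, hχb⟩
    have hχr := Helper24.fsInd_real χ (by rw [hχa]; exact one_ne_zero)
    exact rov_unique_real N hodd χ χ₀ hχr hχreal φ hχb hχ2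
  · intro χ _ hne
    by_cases h0 : Helper24.fsInd (χ : G → ℂ) = 0
    · rw [h0, zero_mul]
    · have hχr := Helper24.fsInd_real χ h0
      by_cases hc : classInner (fun n : N => (χ : G → ℂ) n) (φ : N → ℂ) = 0
      · rw [hc, mul_zero]
      · exact absurd (rov_unique_real N hodd χ χ₀ hχr hχreal φ hc hχ2) hne
  · intro h; exact absurd (Finset.mem_univ _) h

end RealOver

end Cfsg.Agent.Helper26
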