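import Mathlib
import Cfsg.Agent.Helper26.RealInd
import Cfsg.Agent.Helper26.CoprimeExt

/-!
Helper library (seat helper26), prefix `rs_`: strongly real characters of a semidirect product
of an abelian group of odd order by a 2-group containing a central involution that inverts it.
-/

set_option autoImplicit false

namespace Cfsg.Agent.Helper26

open Cfsg
open scoped ComplexConjugate

universe u

/-- `∑_g (ψ^G)(g²) = |I|⁻¹ |G| ∑_g ψ°(g²)`. -/
theorem rs_ind_sq {G : Type u} [Group G] [Fintype G] (I : Subgroup G) (ψ : I → ℂ) :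
    ∑ g : G, indFun I ψ (g * g)
      = (Nat.card I : ℂ)⁻¹ * ((Nat.card G : ℂ) * ∑ g : G, extendByZero I ψ (g * g)) := by
  classical
  simp_rw [Helper2.indFun_apply]
  rw [← Finset.mul_sum, Finset.sum_comm]
  congr 1
  have hx : ∀ x : G, ∑ g : G, extendByZero I ψ (x⁻¹ * (g * g) * x)
      = ∑ g : G, extendByZero I ψ (g * g) := by
    intro x
    rw [← Equiv.sum_comp (MulAut.conj x).toEquiv
      (fun g => extendByZero I ψ (x⁻¹ * (g * g) * x))]
    apply Finset.sum_congr rfl; intro g _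
    refine congrArg _ ?_
    show x⁻¹ * ((x * g * x⁻¹) * (x * g * x⁻¹)) * x = g * g
    group
  rw [Finset.sum_congr rfl (fun x _ => hx x), Finset.sum_const, Finset.card_univ,
    nsmul_eq_mul, Nat.card_eq_fintype_card]

/-- The Frobenius–Schur indicator of the character induced from an extension `f` of a linear
character `δ` of `N` to its stabilizer `I` is one, if some `z` inverts `N` and `f ((z h)²) = 1`
for all `h ∈ I`. -/
theorem rs_fs_lin {G : Type u} [Group G] [Fintype G] (N I : Subgroup G) [hN : N.Normal]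
    [Fintype I] (δ : N →* ℂˣ)
    (hI : ∀ g : G, g ∈ I ↔ ∀ n : N, δ ⟨g * n * g⁻¹, hN.conj_mem n n.2 g⟩ = δ n)
    (hNI : N ≤ I) (f : I →* ℂˣ) (hf : ∀ n : N, f (Subgroup.inclusion hNI n) = δ n)
    (z : G) (hz : ∀ n ∈ N, z * n * z⁻¹ = n⁻¹)
    (hzI : ∀ h : G, h ∈ I → ∃ hm : z * h * (z * h) ∈ I, f ⟨z * h * (z * h), hm⟩ = 1) :
    (Nat.card G : ℂ)⁻¹ * ∑ g : G, indFun I (fun x : I => ((f x : ℂˣ) : ℂ)) (g * g) = 1 := by
  classical
  haveI : Fintype N := Fintype.ofFinite N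
  have hG0 : (Nat.card G : ℂ) ≠ 0 := by exact_mod_cast Nat.card_pos.ne'
  have hI0 : (Nat.card I : ℂ) ≠ 0 := by exact_mod_cast Nat.card_pos.ne'
  have hN0 : (Nat.card N : ℂ) ≠ 0 := by exact_mod_cast Nat.card_pos.ne'
  obtain ⟨E, hE⟩ : ∃ E : G → ℂ, E = extendByZero I (fun x : I => ((f x : ℂˣ) : ℂ)) := ⟨_, rfl⟩
  have hB : ∑ g : G, E (g * g) = (Nat.card I : ℂ) := by
    have h3 : (Nat.card N : ℂ) * ∑ g : G, E (g * g)
        = ∑ h : G, ∑ n : N, E (z * h * n * (z * h * n)) := by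
      rw [Finset.sum_comm]
      have hn : ∀ n : N, ∑ h : G, E (z * h * n * (z * h * n)) = ∑ g : G, E (g * g) := by
        intro n
        exact Equiv.sum_comp ((Equiv.mulLeft z).trans (Equiv.mulRight (n : G)))
          (fun g => E (g * g))
      rw [Finset.sum_congr rfl (fun n _ => hn n), Finset.sum_const, Finset.card_univ,
        nsmul_eq_mul, Nat.card_eq_fintype_card]
    have h4 : ∀ h : G, ∑ n : N, E (z * h * n * (z * h * n))
        = if h ∈ I then (Nat.card N : ℂ) else 0 := by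
      intro h
      by_cases hh : h ∈ I
      · rw [if_pos hh]
        have h5 : ∀ n : N, E (z * h * n * (z * h * n)) = 1 := by
          intro n
          obtain ⟨hm, hf1⟩ := hzI (h * n) (I.mul_mem hh (hNI n.2))
          have e : z * h * (n : G) * (z * h * (n : G)) = z * (h * n) * (z * (h * n)) := by group
          rw [e, hE, Helper2.extendByZero_of_mem I _ hm, hf1]; simp
        rw [Finset.sum_congr rfl (fun n _ => h5 n), Finset.sum_const, Finset.card_univ,
          nsmul_eq_mul, Nat.card_eq_fintype_card, mul_one]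
      · rw [if_neg hh]
        have hσmem : ∀ n : N, (z * h)⁻¹ * (n : G) * (z * h) ∈ N := fun n => by
          have := hN.conj_mem n n.2 (z * h)⁻¹
          simpa using this
        by_cases hg2 : z * h * (z * h) ∈ I
        · have hmem' : ∀ n : N, h⁻¹ * (n : G) * h ∈ N := fun n => by
            have := hN.conj_mem n n.2 h⁻¹
            simpa using this
          obtain ⟨β, hβ⟩ : ∃ β : N →* ℂˣ,
              ∀ n : N, β n = δ n * (δ ⟨h⁻¹ * n * h, hmem' n⟩)⁻¹ := by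
            refine ⟨MonoidHom.mk' (fun n => δ n * (δ ⟨h⁻¹ * n * h, hmem' n⟩)⁻¹) ?_, fun _ => rfl⟩
            intro a b
            have e : (⟨h⁻¹ * ((a * b : N) : G) * h, hmem' (a * b)⟩ : N)
                = ⟨h⁻¹ * a * h, hmem' a⟩ * ⟨h⁻¹ * b * h, hmem' b⟩ := by
              apply Subtype.ext
              simp only [Subgroup.coe_mul]
              group
            show δ (a * b) * (δ _)⁻¹ = _
            rw [e, map_mul, map_mul, mul_inv]
            exact mul_mul_mul_comm _ _ _ _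
          have hβ1 : β ≠ 1 := by
            intro h1
            apply hh
            have hinv : h⁻¹ ∈ I := by
              rw [hI]; intro n
              have h2 := hβ n
              rw [h1] at h2
              simp only [MonoidHom.one_apply] at h2
              have h3 : δ ⟨h⁻¹ * n * h, hmem' n⟩ = δ n := by
                rw [eq_comm, ← mul_inv_eq_one]; exact h2.symm
              have e : (⟨h⁻¹ * (n : G) * h⁻¹⁻¹, hN.conj_mem n n.2 h⁻¹⟩ : N)
                  = ⟨h⁻¹ * n * h, hmem' n⟩ := by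
                apply Subtype.ext; simp
              rw [e]; exact h3
            simpa using I.inv_mem hinv
          have hsum : ∑ n : N, ((β n : ℂˣ) : ℂ) = 0 := by
            have h7 := sum_hom_units_eq_zero ((Units.coeHom ℂ).comp β) (by
              intro h1; apply hβ1
              ext n
              have h8 := congrArg (fun g : N →* ℂ => g n) h1
              simpa using h8)
            simpa using h7
          have hterm : ∀ n : N, E (z * h * n * (z * h * n))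
              = ((f ⟨z * h * (z * h), hg2⟩ : ℂˣ) : ℂ) * ((β n : ℂˣ) : ℂ) := by
            intro n
            have hm : z * h * (n : G) * (z * h * (n : G)) ∈ I := by
              have e : z * h * (n : G) * (z * h * (n : G))
                  = (z * h * (z * h)) * (((z * h)⁻¹ * n * (z * h)) * n) := by group
              rw [e]; exact I.mul_mem hg2 (hNI (N.mul_mem (hσmem n) n.2))
            rw [hE, Helper2.extendByZero_of_mem I _ hm]
            have e : (⟨z * h * (n : G) * (z * h * (n : G)), hm⟩ : I)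
                = ⟨z * h * (z * h), hg2⟩ * Subgroup.inclusion hNI
                    (⟨(z * h)⁻¹ * n * (z * h), hσmem n⟩ * n) := by
              apply Subtype.ext
              simp only [Subgroup.coe_mul, Subgroup.coe_inclusion]
              group
            have hz' : z⁻¹ * (n : G) * z = (n : G)⁻¹ := by
              have h5 := hz (z⁻¹ * n * z) (by
                have := hN.conj_mem n n.2 z⁻¹
                simpa using this)
              have h6 : (n : G) = (z⁻¹ * n * z)⁻¹ := by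
                rw [← h5]; group
              rw [eq_comm, inv_eq_iff_eq_inv]; exact h6
            have e2 : (⟨(z * h)⁻¹ * n * (z * h), hσmem n⟩ : N)
                = (⟨h⁻¹ * n * h, hmem' n⟩ : N)⁻¹ := by
              apply Subtype.ext
              rw [Subgroup.coe_inv]
              show (z * h)⁻¹ * (n : G) * (z * h) = (h⁻¹ * (n : G) * h)⁻¹
              calc (z * h)⁻¹ * (n : G) * (z * h) = h⁻¹ * (z⁻¹ * n * z) * h := by group
                _ = h⁻¹ * (n : G)⁻¹ * h := by rw [hz']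
                _ = (h⁻¹ * n * h)⁻¹ := by group
            rw [e, map_mul, hf, Units.val_mul, map_mul, hβ, e2, map_inv,
              mul_comm (δ _)⁻¹ (δ n)]
          rw [Finset.sum_congr rfl (fun n _ => hterm n), ← Finset.mul_sum, hsum, mul_zero]
        · apply Finset.sum_eq_zero; intro n _
          rw [hE]
          apply Helper2.extendByZero_of_not_mem
          intro hcon
          apply hg2
          have hmem : (z * h)⁻¹ * (n : G) * (z * h) * (n : G) ∈ I :=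
            hNI (N.mul_mem (hσmem n) n.2)
          have h6 := I.mul_mem hcon (I.inv_mem hmem)
          have e : z * h * (n : G) * (z * h * (n : G)) * ((z * h)⁻¹ * (n : G) * (z * h) * (n : G))⁻¹
              = z * h * (z * h) := by group
          rw [e] at h6; exact h6
    rw [Finset.sum_congr rfl (fun h _ => h4 h)] at h3
    rw [← Finset.sum_filter, Finset.sum_const, nsmul_eq_mul] at h3
    have hcard : ((Finset.univ.filter (fun h : G => h ∈ I)).card : ℂ) = (Nat.card I : ℂ) := by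
      congr 1
      rw [Nat.card_eq_fintype_card, Fintype.card_subtype]
    rw [hcard] at h3
    exact mul_left_cancel₀ hN0 (h3.trans (mul_comm _ _))
  rw [rs_ind_sq, ← hE, hB]
  field_simp

/-- Variant of `ri_main` with the indicator of the induced character as a hypothesis. -/
theorem rs_count {G : Type u} [Group G] [Fintype G] (N : Subgroup G) [hN : N.Normal]
    (hNc : N ≤ commutator G) (φ : IrrCharacter N) (I : Subgroup G)
    (hI : ∀ g : G, g ∈ I ↔ ∀ n n' : N, (n' : G) = g * (n : G) * g⁻¹ →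
      (φ : N → ℂ) n' = (φ : N → ℂ) n)
    (hNI : N ≤ I) (ψ : IrrCharacter I)
    (hind : (Nat.card G : ℂ)⁻¹ * ∑ g : G, indFun I (ψ : I → ℂ) (g * g) = 1)
    (hψN : ∀ n : N, (ψ : I → ℂ) (Subgroup.inclusion hNI n) = (φ : N → ℂ) n) :
    Nat.card {χ : IrrCharacter G // charDegree (χ : G → ℂ) = 1 ∧
        (Nat.card G : ℂ)⁻¹ * ∑ᶠ g : G, (χ : G → ℂ) (g * g) = 1} ≤
      I.index * Nat.card {χ : IrrCharacter G //
        charDegree (χ : G → ℂ) = charDegree (φ : N → ℂ) * I.index ∧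
        (Nat.card G : ℂ)⁻¹ * ∑ᶠ g : G, (χ : G → ℂ) (g * g) = 1} := by
  classical
  haveI : Fintype I := Fintype.ofFinite I
  obtain ⟨χ₀, hχ₀⟩ : ∃ χ₀ : G → ℂ, χ₀ = indFun I (ψ : I → ℂ) := ⟨_, rfl⟩
  have hχ₀irr : IsIrrCharacter G χ₀ := by
    rw [hχ₀]; exact (lo_ind N I φ hI hNI _ _ ψ.2 ψ.2 hψN hψN).1
  have hχ₀ν : (Nat.card G : ℂ)⁻¹ * ∑ g : G, χ₀ (g * g) = 1 := by
    rw [hχ₀]; exact hind
  have hχ₀1 : χ₀ 1 = ((charDegree (φ : N → ℂ) * I.index : ℕ) : ℂ) := by
    rw [hχ₀, Helper7.indFun_one]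
    have e1 : (ψ : I → ℂ) 1 = (φ : N → ℂ) 1 := by
      have := hψN 1
      simpa using this
    rw [e1, Helper25.irr_one_eq_degree φ]
    have hidx : (Nat.card G : ℂ) = Nat.card I * I.index := by
      rw [← Nat.cast_mul, Subgroup.card_mul_index]
    have hI0 : (Nat.card I : ℂ) ≠ 0 := by exact_mod_cast Nat.card_pos.ne'
    rw [hidx]; push_cast; field_simp
  have hlin : ∀ χ : {χ : IrrCharacter G // charDegree (χ : G → ℂ) = 1 ∧
        (Nat.card G : ℂ)⁻¹ * ∑ᶠ g : G, (χ : G → ℂ) (g * g) = 1},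
      ∃ f : G →* ℂˣ, (χ.1 : G → ℂ) = fun g => ((f g : ℂˣ) : ℂ) := by
    intro χ
    apply Helper7.exists_hom_of_linear _ (Helper2.isCharacter_of_isIrrCharacter χ.1.2)
    rw [Helper25.irr_one_eq_degree, χ.2.1]; simp
  choose fh hfh using hlin
  have hirr : ∀ χ : {χ : IrrCharacter G // charDegree (χ : G → ℂ) = 1 ∧
        (Nat.card G : ℂ)⁻¹ * ∑ᶠ g : G, (χ : G → ℂ) (g * g) = 1},
      IsIrrCharacter G (fun g => (χ.1 : G → ℂ) g * χ₀ g) := by
    intro χ
    have := Helper7.isIrrCharacter_hom_mul (fh χ) χ₀ hχ₀irr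
    rw [hfh χ]; exact this
  have hsq : ∀ (χ : {χ : IrrCharacter G // charDegree (χ : G → ℂ) = 1 ∧
        (Nat.card G : ℂ)⁻¹ * ∑ᶠ g : G, (χ : G → ℂ) (g * g) = 1}) (g : G),
      (χ.1 : G → ℂ) (g * g) = 1 := by
    intro χ g
    have hre : ((χ.1 : G → ℂ) g).im = 0 := by
      apply Helper24.fsInd_real χ.1
      unfold Helper24.fsInd
      have h := χ.2.2
      rw [finsum_eq_sum_of_fintype] at h
      rw [h]; exact one_ne_zero
    have hns : Complex.normSq ((χ.1 : G → ℂ) g) = 1 := by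
      rw [hfh χ]; exact lo_hom_normSq (fh χ) g
    have h1 := ri_sq_one _ hns hre
    rw [hfh χ] at h1 ⊢
    simp only at h1 ⊢
    rw [map_mul, Units.val_mul]
    exact h1
  obtain ⟨m, hm⟩ : ∃ m : {χ : IrrCharacter G // charDegree (χ : G → ℂ) = 1 ∧
        (Nat.card G : ℂ)⁻¹ * ∑ᶠ g : G, (χ : G → ℂ) (g * g) = 1} → IrrCharacter G,
      ∀ χ, (m χ : G → ℂ) = fun g => (χ.1 : G → ℂ) g * χ₀ g :=
    ⟨fun χ => ⟨fun g => (χ.1 : G → ℂ) g * χ₀ g, hirr χ⟩, fun χ => rfl⟩
  have hmaps : ∀ χ ∈ (Finset.univ : Finset {χ : IrrCharacter G // charDegree (χ : G → ℂ) = 1 ∧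
        (Nat.card G : ℂ)⁻¹ * ∑ᶠ g : G, (χ : G → ℂ) (g * g) = 1}),
      m χ ∈ Finset.univ.filter (fun χ : IrrCharacter G =>
        charDegree (χ : G → ℂ) = charDegree (φ : N → ℂ) * I.index ∧
        (Nat.card G : ℂ)⁻¹ * ∑ᶠ g : G, (χ : G → ℂ) (g * g) = 1) := by
    intro χ _
    rw [Finset.mem_filter]
    refine ⟨Finset.mem_univ _, ?_, ?_⟩
    · have h1 := Helper25.irr_one_eq_degree (m χ)
      rw [hm χ] at h1
      simp only at h1
      rw [Helper25.irr_one_eq_degree χ.1, χ.2.1, hχ₀1, Nat.cast_one, one_mul] at h1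
      rw [hm χ]
      exact (Nat.cast_injective h1).symm
    · rw [hm χ, finsum_eq_sum_of_fintype]
      refine Eq.trans ?_ hχ₀ν
      refine congrArg _ (Finset.sum_congr rfl ?_)
      intro g _
      simp only
      rw [hsq χ g, one_mul]
  have hfib : ∀ b ∈ Finset.univ.filter (fun χ : IrrCharacter G =>
        charDegree (χ : G → ℂ) = charDegree (φ : N → ℂ) * I.index ∧
        (Nat.card G : ℂ)⁻¹ * ∑ᶠ g : G, (χ : G → ℂ) (g * g) = 1),
      (Finset.univ.filter (fun χ : {χ : IrrCharacter G // charDegree (χ : G → ℂ) = 1 ∧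
        (Nat.card G : ℂ)⁻¹ * ∑ᶠ g : G, (χ : G → ℂ) (g * g) = 1} =>
        m χ = b)).card ≤ I.index := by
    intro b _
    by_cases hne : (Finset.univ.filter
        (fun χ : {χ : IrrCharacter G // charDegree (χ : G → ℂ) = 1 ∧
        (Nat.card G : ℂ)⁻¹ * ∑ᶠ g : G, (χ : G → ℂ) (g * g) = 1} => m χ = b)).Nonempty
    · obtain ⟨χ₁, hχ₁⟩ := hne
      rw [Finset.mem_filter] at hχ₁
      rw [← Finset.card_image_of_injective _ Subtype.val_injective]
      apply lo_count I _ (fun g => (χ₁.1 : G → ℂ) g)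
      · intro x _
        rw [hfh χ₁]
        exact lo_hom_normSq (fh χ₁) x
      · intro χ hχ x hx
        rw [Finset.mem_image] at hχ
        obtain ⟨χ', hχ', rfl⟩ := hχ
        rw [Finset.mem_filter] at hχ'
        have heq : m χ' = m χ₁ := hχ'.2.trans hχ₁.2.symm
        have heq' : (fun g => (χ'.1 : G → ℂ) g * χ₀ g) = (fun g => (χ₁.1 : G → ℂ) g * χ₀ g) := by
          rw [← hm χ', ← hm χ₁, heq]
        rw [hfh χ', hfh χ₁, hχ₀] at heq'
        have h8 := lo_agree N I φ hI hNI ψ hψN (fh χ') (fh χ₁)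
          (fun n => lo_hom_trivial N hNc _ n) (fun n => lo_hom_trivial N hNc _ n) heq' ⟨x, hx⟩
        rw [hfh χ', hfh χ₁]
        show ((fh χ' x : ℂˣ) : ℂ) = ((fh χ₁ x : ℂˣ) : ℂ)
        have h9 : fh χ' x = fh χ₁ x := h8
        rw [h9]
    · rw [Finset.not_nonempty_iff_eq_empty] at hne
      rw [hne]; simp
  have h := Finset.card_le_mul_card_image_of_maps_to hmaps I.index hfib
  rw [Finset.card_univ] at h
  have e1 : Nat.card {χ : IrrCharacter G // charDegree (χ : G → ℂ) = 1 ∧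
        (Nat.card G : ℂ)⁻¹ * ∑ᶠ g : G, (χ : G → ℂ) (g * g) = 1} =
      Fintype.card {χ : IrrCharacter G // charDegree (χ : G → ℂ) = 1 ∧
        (Nat.card G : ℂ)⁻¹ * ∑ᶠ g : G, (χ : G → ℂ) (g * g) = 1} := Nat.card_eq_fintype_card
  have e2 : Nat.card {χ : IrrCharacter G //
        charDegree (χ : G → ℂ) = charDegree (φ : N → ℂ) * I.index ∧
        (Nat.card G : ℂ)⁻¹ * ∑ᶠ g : G, (χ : G → ℂ) (g * g) = 1} =
      (Finset.univ.filter (fun χ : IrrCharacter G =>
        charDegree (χ : G → ℂ) = charDegree (φ : N → ℂ) * I.index ∧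
        (Nat.card G : ℂ)⁻¹ * ∑ᶠ g : G, (χ : G → ℂ) (g * g) = 1)).card :=
    Nat.card_eq_fintype_card.trans (Fintype.card_subtype _)
  rw [e1, e2]
  exact h


/-- A non-trivial 2-group has a central involution. -/
theorem rs_central_inv {G : Type u} [Group G] [Finite G] (P : Subgroup G) (hP : IsPGroup 2 P)
    (hP1 : P ≠ ⊥) : ∃ z ∈ P, z ≠ 1 ∧ z * z = 1 ∧ ∀ t ∈ P, z * t = t * z := by
  haveI : Nontrivial P := (Subgroup.nontrivial_iff_ne_bot P).mpr hP1
  haveI : Fact (Nat.Prime 2) := ⟨Nat.prime_two⟩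
  haveI := hP.center_nontrivial
  have hZ : IsPGroup 2 (Subgroup.center P) := hP.to_subgroup _
  obtain ⟨k, hk0, hk⟩ := hZ.nontrivial_iff_card.mp inferInstance
  have hdvd : 2 ∣ Nat.card (Subgroup.center P) := hk ▸ dvd_pow_self _ (ne_of_gt hk0)
  obtain ⟨c, hc⟩ := exists_prime_orderOf_dvd_card' 2 hdvd
  refine ⟨((c : P) : G), (c : P).2, ?_, ?_, ?_⟩
  · intro h
    have h1 : c = 1 := Subtype.ext (Subtype.ext h)
    rw [h1, orderOf_one] at hc
    norm_num at hc
  · have h2 : c ^ 2 = 1 := by rw [← hc]; exact pow_orderOf_eq_one c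
    have h3 := congrArg (fun x : Subgroup.center P => ((x : P) : G)) h2
    simpa [pow_two] using h3
  · intro t ht
    have h4 := Subgroup.mem_center_iff.mp c.2 ⟨t, ht⟩
    have h5 := congrArg (fun x : P => (x : G)) h4
    simpa using h5.symm

/-- A central involution of the complement inverts the abelian unique minimal normal
subgroup. -/
theorem rs_inverts {G : Type u} [Group G] (N P : Subgroup G) [hN : N.Normal]
    (hNc : ∀ a ∈ N, ∀ b ∈ N, a * b = b * a) (hdisj : N ⊓ P = ⊥) (hprod : N ⊔ P = ⊤)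
    (hmin : ∀ M : Subgroup G, M.Normal → M ≠ ⊥ → N ≤ M) (hN1 : N ≠ ⊥)
    (z : G) (hzP : z ∈ P) (hz1 : z ≠ 1) (hz2 : z * z = 1) (hzc : ∀ t ∈ P, z * t = t * z) :
    ∀ n ∈ N, z * n * z⁻¹ = n⁻¹ := by
  let D : Subgroup G :=
    { carrier := {n | n ∈ N ∧ z * n * z⁻¹ = n⁻¹}
      one_mem' := ⟨N.one_mem, by simp⟩
      mul_mem' := by
        rintro a b ⟨ha, ha'⟩ ⟨hb, hb'⟩
        refine ⟨N.mul_mem ha hb, ?_⟩
        calc z * (a * b) * z⁻¹ = (z * a * z⁻¹) * (z * b * z⁻¹) := by group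
          _ = a⁻¹ * b⁻¹ := by rw [ha', hb']
          _ = (b * a)⁻¹ := by group
          _ = (a * b)⁻¹ := by rw [hNc a ha b hb]
      inv_mem' := by
        rintro a ⟨ha, ha'⟩
        refine ⟨N.inv_mem ha, ?_⟩
        calc z * a⁻¹ * z⁻¹ = (z * a * z⁻¹)⁻¹ := by group
          _ = (a⁻¹)⁻¹ := by rw [ha'] }
  have hDmem : ∀ n : G, n ∈ D ↔ (n ∈ N ∧ z * n * z⁻¹ = n⁻¹) := fun n => Iff.rfl
  have hDnorm : D.Normal := by
    constructor
    intro n hn g
    rw [hDmem] at hn ⊢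
    obtain ⟨a, ha, t, ht, rfl⟩ := gx_decomp N P hprod g
    have hm : t * n * t⁻¹ ∈ N := hN.conj_mem n hn.1 t
    have h1 : a * t * n * (a * t)⁻¹ = t * n * t⁻¹ := by
      calc a * t * n * (a * t)⁻¹ = a * (t * n * t⁻¹) * a⁻¹ := by group
        _ = (t * n * t⁻¹) * a * a⁻¹ := by rw [hNc a ha _ hm]
        _ = t * n * t⁻¹ := by group
    rw [h1]
    refine ⟨hm, ?_⟩
    calc z * (t * n * t⁻¹) * z⁻¹ = (z * t) * n * (z * t)⁻¹ := by group
      _ = (t * z) * n * (t * z)⁻¹ := by rw [hzc t ht]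
      _ = t * (z * n * z⁻¹) * t⁻¹ := by group
      _ = t * n⁻¹ * t⁻¹ := by rw [hn.2]
      _ = (t * n * t⁻¹)⁻¹ := by group
  by_cases hD : D = ⊥
  · exfalso
    have hcomm : ∀ n ∈ N, z * n = n * z := by
      intro n hn
      have hm : n * (z * n⁻¹ * z⁻¹) ∈ D := by
        rw [hDmem]
        refine ⟨N.mul_mem hn (hN.conj_mem _ (N.inv_mem hn) z), ?_⟩
        calc z * (n * (z * n⁻¹ * z⁻¹)) * z⁻¹
            = (z * n * z⁻¹) * ((z * z) * n⁻¹ * (z * z)⁻¹) := by group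
          _ = (z * n * z⁻¹) * n⁻¹ := by rw [hz2]; group
          _ = (n * (z * n⁻¹ * z⁻¹))⁻¹ := by group
      rw [hD, Subgroup.mem_bot] at hm
      have h2 : z * n = n * (z * n⁻¹ * z⁻¹) * (z * n) := by rw [hm, one_mul]
      rw [h2]; group
    have hcen : ∀ g : G, z * g = g * z := by
      intro g
      obtain ⟨a, ha, t, ht, rfl⟩ := gx_decomp N P hprod g
      rw [← mul_assoc, hcomm a ha, mul_assoc, hzc t ht, ← mul_assoc]
    have hZn : (Subgroup.zpowers z).Normal := by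
      constructor
      intro n hn g
      obtain ⟨k, rfl⟩ := Subgroup.mem_zpowers_iff.mp hn
      have hc : Commute z g := hcen g
      have h3 : g * z ^ k * g⁻¹ = z ^ k := by
        rw [← (hc.zpow_left k).eq]; group
      rw [h3]; exact hn
    have hZ1 : Subgroup.zpowers z ≠ ⊥ := by
      intro h
      apply hz1
      have h4 := Subgroup.mem_zpowers z
      rw [h, Subgroup.mem_bot] at h4; exact h4
    have hNZ := hmin _ hZn hZ1
    have hZP : Subgroup.zpowers z ≤ P := (Subgroup.zpowers_le).mpr hzP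
    apply hN1
    rw [eq_bot_iff, ← hdisj]
    exact le_inf le_rfl (hNZ.trans hZP)
  · intro n hn
    exact ((hDmem n).mp (hmin D hDnorm hD hn)).2

/-- The stabilizer of a linear character of a normal subgroup. -/
def rs_stab {G : Type u} [Group G] (N : Subgroup G) [hN : N.Normal] (δ : N →* ℂˣ) : Subgroup G where
  carrier := {g | ∀ n : N, δ ⟨g * n * g⁻¹, hN.conj_mem n n.2 g⟩ = δ n}
  one_mem' := by
    intro n
    refine congrArg δ (Subtype.ext ?_)
    simp
  mul_mem' := by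
    intro a b ha hb n
    have h1 := ha ⟨b * n * b⁻¹, hN.conj_mem n n.2 b⟩
    rw [hb n] at h1
    rw [← h1]
    refine congrArg δ (Subtype.ext ?_)
    simp [mul_assoc]
  inv_mem' := by
    intro a ha n
    have h1 := ha ⟨a⁻¹ * n * a⁻¹⁻¹, hN.conj_mem n n.2 a⁻¹⟩
    rw [← h1]
    refine congrArg δ (Subtype.ext ?_)
    simp [mul_assoc]

/-- Counting step. -/
theorem rs_arith {α : Type*} [Fintype α] (d : α → ℕ) (pν : α → Prop)
    (hd : ∀ x, 0 < d x) (m : ℕ) (hm : 2 ∣ m) (hm0 : 0 < m)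
    (hcount : Nat.card {x // d x = 1 ∧ pν x} ≤ m * Nat.card {x // d x = m ∧ pν x}) :
    4 * Nat.card {x // (d x = 1 ∨ 2 ∣ d x) ∧ pν x} ≤
      3 * ∑ᶠ x : {x // (d x = 1 ∨ 2 ∣ d x) ∧ pν x}, d x.1 := by
  classical
  rw [finsum_eq_sum_of_fintype]
  obtain ⟨S, hS⟩ : ∃ S : Finset α, S = Finset.univ.filter (fun x => (d x = 1 ∨ 2 ∣ d x) ∧ pν x) :=
    ⟨_, rfl⟩
  obtain ⟨SA, hSA⟩ : ∃ SA : Finset α, SA = Finset.univ.filter (fun x => d x = 1 ∧ pν x) :=
    ⟨_, rfl⟩
  obtain ⟨SB, hSB⟩ : ∃ SB : Finset α, SB = Finset.univ.filter (fun x => d x = m ∧ pν x) :=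
    ⟨_, rfl⟩
  have e1 : Nat.card {x // (d x = 1 ∨ 2 ∣ d x) ∧ pν x} = S.card := by
    rw [hS]; exact Nat.card_eq_fintype_card.trans (Fintype.card_subtype _)
  have e2 : ∑ x : {x // (d x = 1 ∨ 2 ∣ d x) ∧ pν x}, d x.1 = ∑ x ∈ S, d x := by
    rw [Finset.sum_subtype S (p := fun x => (d x = 1 ∨ 2 ∣ d x) ∧ pν x) (by intro x; simp [hS]) d]
  have eA : Nat.card {x // d x = 1 ∧ pν x} = SA.card := by
    rw [hSA]; exact Nat.card_eq_fintype_card.trans (Fintype.card_subtype _)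
  have eB : Nat.card {x // d x = m ∧ pν x} = SB.card := by
    rw [hSB]; exact Nat.card_eq_fintype_card.trans (Fintype.card_subtype _)
  rw [e1, e2]
  rw [eA, eB] at hcount
  have hm2 : 2 ≤ m := Nat.le_of_dvd hm0 hm
  have hSAS : SA ⊆ S := by
    intro x hx
    rw [hSA, Finset.mem_filter] at hx
    rw [hS, Finset.mem_filter]
    exact ⟨Finset.mem_univ _, Or.inl hx.2.1, hx.2.2⟩
  have hSBS : SB ⊆ S \ SA := by
    intro x hx
    rw [hSB, Finset.mem_filter] at hx
    rw [Finset.mem_sdiff, hS, hSA, Finset.mem_filter, Finset.mem_filter]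
    refine ⟨⟨Finset.mem_univ _, Or.inr (hx.2.1 ▸ hm), hx.2.2⟩, fun h1 => ?_⟩
    have := h1.2.1
    omega
  have h1 : ∑ x ∈ S, d x = ∑ x ∈ S \ SA, d x + ∑ x ∈ SA, d x := (Finset.sum_sdiff hSAS).symm
  have h2 : S.card = (S \ SA).card + SA.card := (Finset.card_sdiff_add_card_eq_card hSAS).symm
  have h3 : ∑ x ∈ SA, d x = SA.card := by
    rw [Finset.card_eq_sum_ones]
    apply Finset.sum_congr rfl; intro x hx
    rw [hSA, Finset.mem_filter] at hx
    exact hx.2.1
  have h4 : ∑ x ∈ S \ SA, d x = ∑ x ∈ (S \ SA) \ SB, d x + ∑ x ∈ SB, d x :=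
    (Finset.sum_sdiff hSBS).symm
  have h5 : (S \ SA).card = ((S \ SA) \ SB).card + SB.card :=
    (Finset.card_sdiff_add_card_eq_card hSBS).symm
  have h6 : ∑ x ∈ SB, d x = m * SB.card := by
    rw [mul_comm, ← smul_eq_mul, ← Finset.sum_const]
    apply Finset.sum_congr rfl; intro x hx
    rw [hSB, Finset.mem_filter] at hx
    exact hx.2.1
  have h7 : 2 * ((S \ SA) \ SB).card ≤ ∑ x ∈ (S \ SA) \ SB, d x := by
    rw [mul_comm, ← smul_eq_mul, ← Finset.sum_const]
    apply Finset.sum_le_sum; intro x hx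
    rw [Finset.mem_sdiff, Finset.mem_sdiff, hS, hSA, Finset.mem_filter, Finset.mem_filter] at hx
    obtain ⟨⟨⟨-, hx1, hx2⟩, hx3⟩, -⟩ := hx
    have hne : d x ≠ 1 := fun h => hx3 ⟨Finset.mem_univ _, h, hx2⟩
    rcases hx1 with h | h
    · exact absurd h hne
    · exact Nat.le_of_dvd (hd x) h
  have h8 : 2 * SB.card ≤ m * SB.card := Nat.mul_le_mul_right _ hm2
  rw [h1, h2, h3, h4, h5, h6]
  omega

/-- Average degree of the strongly real characters of degree one or even in `N ⋊ P`. -/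
theorem rs_main {G : Type u} [Group G] [Finite G] (N P : Subgroup G) (hN : N.Normal) (q : ℕ)
    [Fact q.Prime] (hq : q ≠ 2) (hNel : IsElementaryAbelian q N) (hP : IsPGroup 2 P)
    (hP1 : P ≠ ⊥) (hdisj : N ⊓ P = ⊥) (hprod : N ⊔ P = ⊤)
    (hmin : N ≠ ⊥ ∧ ∀ M : Subgroup G, M.Normal → M ≠ ⊥ → N ≤ M) :
    4 * Nat.card {χ : IrrCharacter G // (charDegree (χ : G → ℂ) = 1 ∨
        2 ∣ charDegree (χ : G → ℂ)) ∧
        (Nat.card G : ℂ)⁻¹ * ∑ᶠ g : G, (χ : G → ℂ) (g * g) = 1} ≤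
      3 * (∑ᶠ χ : {χ : IrrCharacter G // (charDegree (χ : G → ℂ) = 1 ∨
        2 ∣ charDegree (χ : G → ℂ)) ∧
        (Nat.card G : ℂ)⁻¹ * ∑ᶠ g : G, (χ : G → ℂ) (g * g) = 1}, charDegree (χ.1 : G → ℂ)) := by
  classical
  haveI : Fintype G := Fintype.ofFinite G
  haveI := hN
  obtain ⟨hN1, hminN⟩ := hmin
  have hNc : ∀ a ∈ N, ∀ b ∈ N, a * b = b * a := by
    intro a ha b hb
    have h0 := hNel.1.is_comm.comm (⟨a, ha⟩ : N) ⟨b, hb⟩
    exact congrArg Subtype.val h0
  obtain ⟨z, hzP, hz1, hz2, hzc⟩ := rs_central_inv P hP hP1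
  have hzN := rs_inverts N P hNc hdisj hprod hminN hN1 z hzP hz1 hz2 hzc
  obtain ⟨k, hk⟩ : ∃ k, q = 2 * k + 1 := by
    rcases (Fact.out : q.Prime).eq_two_or_odd' with h | h
    · exact absurd h hq
    · exact h
  have hNcomm : N ≤ commutator G := by
    intro n hn
    have hm : n ^ (k + 1) ∈ N := N.pow_mem hn _
    have h1 : z * (n ^ (k + 1))⁻¹ * z⁻¹ = n ^ (k + 1) := by
      calc z * (n ^ (k + 1))⁻¹ * z⁻¹ = (z * n ^ (k + 1) * z⁻¹)⁻¹ := by group
        _ = ((n ^ (k + 1))⁻¹)⁻¹ := by rw [hzN _ hm]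
        _ = n ^ (k + 1) := inv_inv _
    have e : n = n ^ (k + 1) * z * (n ^ (k + 1))⁻¹ * z⁻¹ := by
      calc n = n ^ (2 * k + 1) * n := by rw [← hk, hNel.2 n hn, one_mul]
        _ = n ^ (k + 1) * n ^ (k + 1) := by
          rw [← pow_succ, ← pow_add]; congr 1; ring
        _ = n ^ (k + 1) * (z * (n ^ (k + 1))⁻¹ * z⁻¹) := by rw [h1]
        _ = n ^ (k + 1) * z * (n ^ (k + 1))⁻¹ * z⁻¹ := by group
    rw [e, commutator_def]
    exact Subgroup.commutator_mem_commutator (Subgroup.mem_top (n ^ (k + 1))) (Subgroup.mem_top z)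
  obtain ⟨a, ha, ha1⟩ : ∃ a ∈ N, a ≠ 1 := by
    by_contra hcon
    push_neg at hcon
    exact hN1 ((Subgroup.eq_bot_iff_forall N).mpr hcon)
  obtain ⟨δ, hδ⟩ : ∃ δ : N →* ℂˣ, δ ⟨a, ha⟩ ≠ 1 := by
    letI : CommGroup N :=
      { (inferInstance : Group N) with mul_comm := fun x y => hNel.1.is_comm.comm x y }
    haveI : NeZero (Monoid.exponent N) := ⟨Monoid.exponent_ne_zero_of_finite⟩
    exact CommGroup.exists_apply_ne_one_of_hasEnoughRootsOfUnity N ℂ
      (fun h => ha1 (congrArg Subtype.val h))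
  have hδa : δ ⟨a, ha⟩ ≠ (δ ⟨a, ha⟩)⁻¹ := by
    intro h
    apply hδ
    have h2 : δ ⟨a, ha⟩ * δ ⟨a, ha⟩ = 1 := by
      nth_rewrite 2 [h]; exact mul_inv_cancel _
    have h3 : (δ ⟨a, ha⟩) ^ q = 1 := by
      rw [← map_pow]
      have h4 : (⟨a, ha⟩ : N) ^ q = 1 := Subtype.ext (by simpa using hNel.2 a ha)
      rw [h4, map_one]
    rw [hk, pow_succ, pow_mul, pow_two, h2, one_pow, one_mul] at h3
    exact h3
  obtain ⟨I, hIdef⟩ : ∃ I : Subgroup G, ∀ g : G, g ∈ I ↔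
      ∀ n : N, δ ⟨g * n * g⁻¹, hN.conj_mem n n.2 g⟩ = δ n := ⟨rs_stab N δ, fun g => Iff.rfl⟩
  haveI : Fintype I := Fintype.ofFinite I
  have hNI : N ≤ I := by
    intro m hm
    rw [hIdef]; intro n
    have e : (⟨m * n * m⁻¹, hN.conj_mem n n.2 m⟩ : N) = ⟨m, hm⟩ * n * ⟨m, hm⟩⁻¹ :=
      Subtype.ext rfl
    rw [e, map_mul, map_mul, map_inv, mul_comm (δ ⟨m, hm⟩), mul_assoc, mul_inv_cancel, mul_one]
  have hzI : z ∉ I := by
    intro h
    rw [hIdef] at h
    have h1 := h ⟨a, ha⟩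
    apply hδa
    have e : (⟨z * a * z⁻¹, hN.conj_mem a ha z⟩ : N) = (⟨a, ha⟩ : N)⁻¹ :=
      Subtype.ext (hzN a ha)
    rw [← map_inv, ← e]
    exact h1.symm
  obtain ⟨r, hrB, hrA, hrmem, hbij⟩ := gx_exists_retr N P hprod hdisj
  obtain ⟨f, hf⟩ : ∃ f : I →* ℂˣ,
      ∀ x : I, f x = δ ⟨(x : G) * ((r x : P) : G)⁻¹, hrmem x⟩ := by
    refine ⟨MonoidHom.mk' (fun x : I => δ ⟨(x : G) * ((r x : P) : G)⁻¹, hrmem x⟩) ?_,
      fun _ => rfl⟩
    intro x y
    have e : (⟨((x * y : I) : G) * ((r ((x * y : I) : G) : P) : G)⁻¹, hrmem _⟩ : N) =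
        ⟨(x : G) * ((⟨(y : G) * ((r y : P) : G)⁻¹, hrmem y⟩ : N) : G) * (x : G)⁻¹,
          hN.conj_mem _ (hrmem y) x⟩ * ⟨(x : G) * ((r x : P) : G)⁻¹, hrmem x⟩ := by
      apply Subtype.ext
      show (x : G) * y * ((r ((x : G) * y) : P) : G)⁻¹ =
        x * (y * ((r y : P) : G)⁻¹) * (x : G)⁻¹ * (x * ((r x : P) : G)⁻¹)
      rw [map_mul, Subgroup.coe_mul]; group
    show δ _ = δ _ * δ _
    rw [e, map_mul, (hIdef x).mp x.2 ⟨_, hrmem y⟩, mul_comm]
  have hfN : ∀ n : N, f (Subgroup.inclusion hNI n) = δ n := by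
    intro n
    rw [hf]
    refine congrArg δ (Subtype.ext ?_)
    show (n : G) * ((r (n : G) : P) : G)⁻¹ = n
    rw [hrA n n.2]; simp
  have hfP : ∀ t : I, (t : G) ∈ P → f t = 1 := by
    intro t ht
    rw [hf]
    have h1 : (r (t : G) : P) = ⟨t, ht⟩ := hrB ⟨t, ht⟩
    have e : (⟨(t : G) * ((r t : P) : G)⁻¹, hrmem t⟩ : N) = 1 := by
      apply Subtype.ext
      show (t : G) * ((r (t : G) : P) : G)⁻¹ = 1
      rw [h1]; simp
    rw [e, map_one]
  have hzsq : ∀ h : G, h ∈ I → ∃ hm : z * h * (z * h) ∈ I, f ⟨z * h * (z * h), hm⟩ = 1 := by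
    intro h hh
    obtain ⟨t, ht⟩ : ∃ t : G, t = ((r h : P) : G) := ⟨_, rfl⟩
    have htP : t ∈ P := by rw [ht]; exact (r h).2
    obtain ⟨n, hn⟩ : ∃ n : G, n = h * t⁻¹ := ⟨_, rfl⟩
    have hnN : n ∈ N := by rw [hn, ht]; exact hrmem h
    have htI : t ∈ I := by
      have h1 : t = n⁻¹ * h := by rw [hn]; group
      rw [h1]; exact I.mul_mem (I.inv_mem (hNI hnN)) hh
    have hzt : z * t * z⁻¹ = t := by rw [hzc t htP]; group
    have e : z * h * (z * h) = n⁻¹ * t * n * t := by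
      have hh' : h = n * t := by rw [hn]; group
      calc z * h * (z * h) = (z * n * z⁻¹) * (z * t * z⁻¹) * (z * z) * n * t := by
            rw [hh']; group
        _ = n⁻¹ * t * n * t := by rw [hzN n hnN, hzt, hz2, mul_one]
    have hm : z * h * (z * h) ∈ I := by
      rw [e]
      exact I.mul_mem (I.mul_mem (I.mul_mem (I.inv_mem (hNI hnN)) htI) (hNI hnN)) htI
    refine ⟨hm, ?_⟩
    have e2 : (⟨z * h * (z * h), hm⟩ : I) =
        (⟨n, hNI hnN⟩ : I)⁻¹ * ⟨t, htI⟩ * ⟨n, hNI hnN⟩ * ⟨t, htI⟩ := Subtype.ext (by simpa using e)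
    rw [e2, map_mul, map_mul, map_mul, map_inv, hfP ⟨t, htI⟩ htP]
    simp
  obtain ⟨φ, hφ⟩ : ∃ φ : IrrCharacter N, (φ : N → ℂ) = fun n => ((δ n : ℂˣ) : ℂ) :=
    ⟨⟨_, Helper25.isIrrCharacter_of_monoidHom δ⟩, rfl⟩
  obtain ⟨ψ, hψ⟩ : ∃ ψ : IrrCharacter I, (ψ : I → ℂ) = fun x => ((f x : ℂˣ) : ℂ) :=
    ⟨⟨_, Helper25.isIrrCharacter_of_monoidHom f⟩, rfl⟩
  have hI : ∀ g : G, g ∈ I ↔ ∀ n n' : N, (n' : G) = g * (n : G) * g⁻¹ →
      (φ : N → ℂ) n' = (φ : N → ℂ) n := by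
    intro g
    rw [hIdef, hφ]
    constructor
    · intro h n n' hn'
      have e : n' = ⟨g * n * g⁻¹, hN.conj_mem n n.2 g⟩ := Subtype.ext hn'
      show ((δ n' : ℂˣ) : ℂ) = ((δ n : ℂˣ) : ℂ)
      rw [e, h n]
    · intro h n
      have h1 := h n ⟨g * n * g⁻¹, hN.conj_mem n n.2 g⟩ rfl
      exact Units.ext h1
  have hψN : ∀ n : N, (ψ : I → ℂ) (Subgroup.inclusion hNI n) = (φ : N → ℂ) n := by
    intro n
    rw [hψ, hφ]
    show ((f _ : ℂˣ) : ℂ) = _
    rw [hfN]
  have hind : (Nat.card G : ℂ)⁻¹ * ∑ g : G, indFun I (ψ : I → ℂ) (g * g) = 1 := by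
    rw [hψ]; exact rs_fs_lin N I δ hIdef hNI f hfN z hzN hzsq
  have hcount := rs_count N hNcomm φ I hI hNI ψ hind hψN
  have hdegφ : charDegree (φ : N → ℂ) = 1 := by
    rw [hφ]; simp [charDegree]
  rw [hdegφ, one_mul] at hcount
  have hidx : 2 ∣ I.index := by
    have h1 : I.index ∣ N.index := Subgroup.index_dvd_of_le hNI
    have h2 : N.index = Nat.card P := by
      rw [Subgroup.index_eq_card]; exact (Nat.card_eq_of_bijective _ hbij).symm
    obtain ⟨j, hj⟩ := IsPGroup.iff_card.mp hP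
    rw [h2, hj] at h1
    obtain ⟨i, hi, hi2⟩ := (Nat.dvd_prime_pow Nat.prime_two).mp h1
    have hi0 : i ≠ 0 := by
      rintro rfl
      rw [pow_zero] at hi2
      have h3 := Subgroup.index_eq_one.mp hi2
      exact hzI (h3 ▸ Subgroup.mem_top z)
    rw [hi2]; exact dvd_pow_self 2 hi0
  have hidx0 : 0 < I.index := Nat.pos_of_ne_zero (Subgroup.index_ne_zero_of_finite)
  exact rs_arith (fun χ : IrrCharacter G => charDegree (χ : G → ℂ))
    (fun χ : IrrCharacter G => (Nat.card G : ℂ)⁻¹ * ∑ᶠ g : G, (χ : G → ℂ) (g * g) = 1)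
    (fun χ => Helper25.irr_degree_pos χ) I.index hidx hidx0 hcount

end Cfsg.Agent.Helper26
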