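import Mathlib
import Cfsg.Agent.Helper14.OInv
import Cfsg.Agent.Helper6.Symp
import Cfsg.Agent.Helper6.Symp2

set_option autoImplicit false

namespace Cfsg.Agent.S2487P

open Matrix Cfsg.Agent.Helper6 Cfsg.Agent.Helper14.OInv

variable {F : Type*} [Field F] [Fintype F]

/-- in the field with two elements every element is `0` or `1` -/
theorem h26_zero_or_one (hF : Fintype.card F = 2) (c : F) : c = 0 ∨ c = 1 := by
  have h := FiniteField.pow_card c
  rw [hF] at h
  have h2 : c * (c - 1) = 0 := by linear_combination h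
  rcases mul_eq_zero.mp h2 with h3 | h3
  · exact Or.inl h3
  · exact Or.inr (sub_eq_zero.mp h3)

/-- the field with two elements has characteristic two -/
theorem h26_charP (hF : Fintype.card F = 2) : CharP F 2 := by
  apply CharTwo.of_one_ne_zero_of_two_eq_zero one_ne_zero
  rcases h26_zero_or_one hF (2 : F) with h | h
  · exact h
  · exfalso
    have h1 : (1 : F) = 0 := by linear_combination h
    exact one_ne_zero h1

/-- the Siegel map `x ↦ x + f(x,a) b + f(x,b) a` as a linear map -/
noncomputable def h26_sL (m : ℕ) (a b : Fin m ⊕ Fin m → F) :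
    (Fin m ⊕ Fin m → F) →ₗ[F] (Fin m ⊕ Fin m → F) where
  toFun x := x + Cfsg.sympForm m F x a • b + Cfsg.sympForm m F x b • a
  map_add' x y := by
    rw [sf_add_left, sf_add_left]
    ext i
    simp only [Pi.add_apply, Pi.smul_apply, smul_eq_mul]
    ring
  map_smul' c x := by
    rw [sf_smul_left, sf_smul_left]
    ext i
    simp only [Pi.add_apply, Pi.smul_apply, smul_eq_mul, RingHom.id_apply]
    ring

omit [Fintype F] in
theorem h26_sL_apply (m : ℕ) (a b x : Fin m ⊕ Fin m → F) :
    h26_sL m a b x = x + Cfsg.sympForm m F x a • b + Cfsg.sympForm m F x b • a := rfl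

theorem h26_sL_sq [CharP F 2] (m : ℕ) (a b : Fin m ⊕ Fin m → F)
    (hab : Cfsg.sympForm m F a b = 0) :
    h26_sL m a b ∘ₗ h26_sL m a b = LinearMap.id := by
  have hba : Cfsg.sympForm m F b a = 0 := by rw [sf_symm, hab]
  apply LinearMap.ext
  intro x
  have h1 : Cfsg.sympForm m F (h26_sL m a b x) a = Cfsg.sympForm m F x a := by
    rw [h26_sL_apply, sf_add_left, sf_add_left, sf_smul_left, sf_smul_left, hba, sf_self]
    ring
  have h2 : Cfsg.sympForm m F (h26_sL m a b x) b = Cfsg.sympForm m F x b := by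
    rw [h26_sL_apply, sf_add_left, sf_add_left, sf_smul_left, sf_smul_left, hab, sf_self]
    ring
  rw [LinearMap.comp_apply, LinearMap.id_apply, h26_sL_apply (x := h26_sL m a b x), h1, h2,
    h26_sL_apply]
  ext i
  simp only [Pi.add_apply, Pi.smul_apply, smul_eq_mul]
  have h2' : (2 : F) = 0 := CharTwo.two_eq_zero
  linear_combination (Cfsg.sympForm m F x a * b i + Cfsg.sympForm m F x b * a i) * h2'

theorem h26_sL_Q [CharP F 2] (m : ℕ) (a b : Fin m ⊕ Fin m → F)
    (ha : Cfsg.quadFormPlus m F a = 0) (hb : Cfsg.quadFormPlus m F b = 0)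
    (hab : Cfsg.sympForm m F a b = 0) (x : Fin m ⊕ Fin m → F) :
    Cfsg.quadFormPlus m F (h26_sL m a b x) = Cfsg.quadFormPlus m F x := by
  have hba : Cfsg.sympForm m F b a = 0 := by rw [sf_symm, hab]
  have h2' : (2 : F) = 0 := CharTwo.two_eq_zero
  rw [h26_sL_apply]
  simp only [Q_add, Q_smul, ha, hb, sf_add_left, sf_smul_left, sf_smul_right, hba]
  linear_combination (Cfsg.sympForm m F x a * Cfsg.sympForm m F x b) * h2'

/-- (S3) the Siegel element attached to a totally singular line -/
theorem h26_siegel (hF : Fintype.card F = 2) (m : ℕ) (a b : Fin m ⊕ Fin m → F) (ha : Cfsg.quadFormPlus m F a = 0) (hb : Cfsg.quadFormPlus m F b = 0) (hab : Cfsg.sympForm m F a b = 0) (ha0 : a ≠ 0) (hb0 : b ≠ 0) (hne : a ≠ b) : ∃ g : Matrix.GeneralLinearGroup (Fin m ⊕ Fin m) F, g ∈ Cfsg.isometryGroup F (Cfsg.quadFormPlus m F) ∧ g ≠ 1 ∧ ∀ x : Fin m ⊕ Fin m → F, Cfsg.sympForm m F x a = 0 → Cfsg.sympForm m F x b = 0 → (g : Matrix (Fin m ⊕ Fin m) (Fin m ⊕ Fin m) F) *ᵥ x = x := by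
  classical
  haveI : CharP F 2 := h26_charP hF
  have hMM : LinearMap.toMatrix' (h26_sL m a b) * LinearMap.toMatrix' (h26_sL m a b) = 1 := by
    rw [← LinearMap.toMatrix'_comp, h26_sL_sq m a b hab, LinearMap.toMatrix'_id]
  let g : Matrix.GeneralLinearGroup (Fin m ⊕ Fin m) F :=
    ⟨LinearMap.toMatrix' (h26_sL m a b), LinearMap.toMatrix' (h26_sL m a b), hMM, hMM⟩
  have hg : ∀ x : Fin m ⊕ Fin m → F,
      (g : Matrix (Fin m ⊕ Fin m) (Fin m ⊕ Fin m) F) *ᵥ x = h26_sL m a b x := by
    intro x
    exact LinearMap.toMatrix'_mulVec (h26_sL m a b) x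
  refine ⟨g, ?_, ?_, ?_⟩
  · rw [mem_isom_iff]
    intro u
    rw [hg, h26_sL_Q m a b ha hb hab]
  · intro h1
    -- a point `x` with `f(x, a) ≠ 0`
    have hx : ∃ x : Fin m ⊕ Fin m → F, Cfsg.sympForm m F x a ≠ 0 := by
      by_contra hcon
      push Not at hcon
      apply ha0
      ext k
      rcases k with i | i
      · have h := hcon (Pi.single (Sum.inr i) 1)
        rw [sf_swap, sf_single_inr] at h
        simpa using h
      · have h := hcon (Pi.single (Sum.inl i) 1)
        rw [sf_swap, sf_single_inl] at h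
        simpa using h
    obtain ⟨x, hx⟩ := hx
    have hxa : Cfsg.sympForm m F x a = 1 := (h26_zero_or_one hF _).resolve_left hx
    have hfix : h26_sL m a b x = x := by
      rw [← hg, h1]
      simp
    rw [h26_sL_apply, hxa, one_smul] at hfix
    rcases h26_zero_or_one hF (Cfsg.sympForm m F x b) with hxb | hxb
    · rw [hxb, zero_smul, add_zero] at hfix
      exact hb0 (by simpa using hfix)
    · rw [hxb, one_smul] at hfix
      have h3 : b + a = 0 := by
        have : x + (b + a) = x + 0 := by rw [add_zero, ← add_assoc]; exact hfix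
        exact add_left_cancel this
      apply hne
      ext k
      have h5 := congrFun h3 k
      simp only [Pi.add_apply, Pi.zero_apply] at h5
      have h2' : (2 : F) = 0 := CharTwo.two_eq_zero
      linear_combination h5 - b k * h2'
  · intro x hxa hxb
    rw [hg, h26_sL_apply, hxa, hxb]
    simp

end Cfsg.Agent.S2487P
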