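import Mathlib
import Cfsg.Agent.Helper14.OInv
import Cfsg.Agent.Helper6.Symp
import Cfsg.Agent.Helper6.Symp2
import Cfsg.Agent.Helper26.S2487S

set_option autoImplicit false

namespace Cfsg.Agent.S2487P

open Matrix Cfsg.Agent.Helper6 Cfsg.Agent.Helper14.OInv

variable {F : Type*} [Field F]

theorem h26_Q_P1 (n : ℕ) (u : Fin (n + 1) ⊕ Fin (n + 1) → F)
    (hu : ∀ i : Fin n, u (Sum.inr i.castSucc) = 0) :
    Cfsg.quadFormPlus (n + 1) F u = u (Sum.inl (Fin.last n)) * u (Sum.inr (Fin.last n)) := by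
  rw [Cfsg.quadFormPlus, Fin.sum_univ_castSucc]
  simp [hu]

theorem h26_row [CharP F 2] (n : ℕ)
    (A : Matrix (Fin (n + 1) ⊕ Fin (n + 1)) (Fin (n + 1) ⊕ Fin (n + 1)) F)
    (hA : ∀ u, Cfsg.quadFormPlus (n + 1) F (A *ᵥ u) = Cfsg.quadFormPlus (n + 1) F u)
    (hfix : ∀ i : Fin n,
      A *ᵥ (Pi.single (Sum.inl i.castSucc) 1) = Pi.single (Sum.inl i.castSucc) 1)
    (v : Fin (n + 1) ⊕ Fin (n + 1) → F) (i : Fin n) :
    (A *ᵥ v) (Sum.inr i.castSucc) = v (Sum.inr i.castSucc) := by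
  have hsp := mem_sp_of_isom A hA
  have h := sp_preserves (⟨A, hsp⟩ : Matrix.symplecticGroup (Fin (n + 1)) F) v
    (Pi.single (Sum.inl i.castSucc) 1)
  change Cfsg.sympForm (n + 1) F (A *ᵥ v) (A *ᵥ Pi.single (Sum.inl i.castSucc) 1) = _ at h
  rw [hfix, sf_single_inl, sf_single_inl] at h
  exact h

theorem h26_fixW0 (n : ℕ)
    (A : Matrix (Fin (n + 1) ⊕ Fin (n + 1)) (Fin (n + 1) ⊕ Fin (n + 1)) F)
    (hfix : ∀ i : Fin n,
      A *ᵥ (Pi.single (Sum.inl i.castSucc) 1) = Pi.single (Sum.inl i.castSucc) 1)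
    (w : Fin (n + 1) ⊕ Fin (n + 1) → F) (hw1 : ∀ j : Fin (n + 1), w (Sum.inr j) = 0)
    (hw2 : w (Sum.inl (Fin.last n)) = 0) : A *ᵥ w = w := by
  have key : ∀ j k, A j k * w k =
      (1 : Matrix (Fin (n + 1) ⊕ Fin (n + 1)) (Fin (n + 1) ⊕ Fin (n + 1)) F) j k * w k := by
    intro j k
    rcases k with k | k
    · induction k using Fin.lastCases with
      | last => rw [hw2, mul_zero, mul_zero]
      | cast i =>
        have h1 : (A *ᵥ Pi.single (Sum.inl i.castSucc) 1) j = A j (Sum.inl i.castSucc) := by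
          simp [Matrix.mulVec, dotProduct, Pi.single_apply]
        rw [hfix] at h1
        rw [← h1, Matrix.one_apply, Pi.single_apply]
    · rw [hw1, mul_zero, mul_zero]
  ext j
  have h2 : (A *ᵥ w) j = ∑ k, A j k * w k := rfl
  rw [h2, Finset.sum_congr rfl (fun k _ => key j k)]
  simp [Matrix.one_apply]

theorem h26_cases (h01 : ∀ c : F, c = 0 ∨ c = 1) (pl pr ql qr : F) (h1 : pl * pr = 0)
    (h2 : ql * qr = 0) (h3 : (pl + ql) * (pr + qr) = 1) :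
    (pl = 1 ∧ pr = 0 ∧ ql = 0 ∧ qr = 1) ∨ (pl = 0 ∧ pr = 1 ∧ ql = 1 ∧ qr = 0) := by
  rcases h01 pl with rfl | rfl <;> rcases h01 pr with rfl | rfl <;>
    rcases h01 ql with rfl | rfl <;> rcases h01 qr with rfl | rfl <;> simp_all

theorem h26_mid [CharP F 2] (h01 : ∀ c : F, c = 0 ∨ c = 1) (n : ℕ)
    (A : Matrix (Fin (n + 1) ⊕ Fin (n + 1)) (Fin (n + 1) ⊕ Fin (n + 1)) F)
    (hA : ∀ u, Cfsg.quadFormPlus (n + 1) F (A *ᵥ u) = Cfsg.quadFormPlus (n + 1) F u)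
    (hfix : ∀ i : Fin n,
      A *ᵥ (Pi.single (Sum.inl i.castSucc) 1) = Pi.single (Sum.inl i.castSucc) 1) :
    (∀ u : Fin (n + 1) ⊕ Fin (n + 1) → F, (∀ i : Fin n, u (Sum.inr i.castSucc) = 0) →
      (A *ᵥ u) (Sum.inl (Fin.last n)) = u (Sum.inl (Fin.last n)) ∧
      (A *ᵥ u) (Sum.inr (Fin.last n)) = u (Sum.inr (Fin.last n))) ∨
    (∀ u : Fin (n + 1) ⊕ Fin (n + 1) → F, (∀ i : Fin n, u (Sum.inr i.castSucc) = 0) →
      (A *ᵥ u) (Sum.inl (Fin.last n)) = u (Sum.inr (Fin.last n)) ∧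
      (A *ᵥ u) (Sum.inr (Fin.last n)) = u (Sum.inl (Fin.last n))) := by
  obtain ⟨e, he⟩ : ∃ e : Fin (n + 1) ⊕ Fin (n + 1) → F,
      e = Pi.single (Sum.inl (Fin.last n)) 1 := ⟨_, rfl⟩
  obtain ⟨f0, hf0⟩ : ∃ f0 : Fin (n + 1) ⊕ Fin (n + 1) → F,
      f0 = Pi.single (Sum.inr (Fin.last n)) 1 := ⟨_, rfl⟩
  have heP : ∀ i : Fin n, e (Sum.inr i.castSucc) = 0 := by
    intro i; simp [he, Pi.single_apply]
  have hfP : ∀ i : Fin n, f0 (Sum.inr i.castSucc) = 0 := by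
    intro i; simp [hf0, Pi.single_apply, (Fin.castSucc_lt_last i).ne]
  have e_l : e (Sum.inl (Fin.last n)) = 1 := by simp [he]
  have e_r : e (Sum.inr (Fin.last n)) = 0 := by simp [he, Pi.single_apply]
  have f_l : f0 (Sum.inl (Fin.last n)) = 0 := by simp [hf0, Pi.single_apply]
  have f_r : f0 (Sum.inr (Fin.last n)) = 1 := by simp [hf0]
  have hpP : ∀ i : Fin n, (A *ᵥ e) (Sum.inr i.castSucc) = 0 := by
    intro i; rw [h26_row n A hA hfix, heP]
  have hqP : ∀ i : Fin n, (A *ᵥ f0) (Sum.inr i.castSucc) = 0 := by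
    intro i; rw [h26_row n A hA hfix, hfP]
  have hQp := hA e
  rw [h26_Q_P1 n _ hpP, h26_Q_P1 n _ heP, e_l, e_r] at hQp
  have hQq := hA f0
  rw [h26_Q_P1 n _ hqP, h26_Q_P1 n _ hfP, f_l, f_r] at hQq
  have hQpq := hA (e + f0)
  rw [Matrix.mulVec_add,
    h26_Q_P1 n _ (by intro i; rw [Pi.add_apply, hpP, hqP, add_zero]),
    h26_Q_P1 n _ (by intro i; rw [Pi.add_apply, heP, hfP, add_zero])] at hQpq
  simp only [Pi.add_apply, e_l, e_r, f_l, f_r] at hQpq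
  -- general formula
  have hform : ∀ u : Fin (n + 1) ⊕ Fin (n + 1) → F, (∀ i : Fin n, u (Sum.inr i.castSucc) = 0) →
      (A *ᵥ u) (Sum.inl (Fin.last n)) =
        u (Sum.inl (Fin.last n)) * (A *ᵥ e) (Sum.inl (Fin.last n)) +
          u (Sum.inr (Fin.last n)) * (A *ᵥ f0) (Sum.inl (Fin.last n)) ∧
      (A *ᵥ u) (Sum.inr (Fin.last n)) =
        u (Sum.inl (Fin.last n)) * (A *ᵥ e) (Sum.inr (Fin.last n)) +
          u (Sum.inr (Fin.last n)) * (A *ᵥ f0) (Sum.inr (Fin.last n)) := by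
    intro u hu
    obtain ⟨w, hw⟩ : ∃ w : Fin (n + 1) ⊕ Fin (n + 1) → F,
        w = u - u (Sum.inl (Fin.last n)) • e - u (Sum.inr (Fin.last n)) • f0 := ⟨_, rfl⟩
    have hw1 : ∀ j : Fin (n + 1), w (Sum.inr j) = 0 := by
      intro j
      induction j using Fin.lastCases with
      | last => simp [hw, e_r, f_r]
      | cast i => simp [hw, hu i, heP i, hfP i]
    have hw2 : w (Sum.inl (Fin.last n)) = 0 := by simp [hw, e_l, f_l]
    have hAw := h26_fixW0 n A hfix w hw1 hw2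
    have hu' : u = w + u (Sum.inl (Fin.last n)) • e + u (Sum.inr (Fin.last n)) • f0 := by
      rw [hw]; abel
    have hAu : A *ᵥ u = w + u (Sum.inl (Fin.last n)) • (A *ᵥ e) +
        u (Sum.inr (Fin.last n)) • (A *ᵥ f0) := by
      conv_lhs => rw [hu']
      rw [Matrix.mulVec_add, Matrix.mulVec_add, Matrix.mulVec_smul, Matrix.mulVec_smul, hAw]
    constructor
    · rw [hAu]; simp [hw2]
    · rw [hAu]; simp [hw1]
  have h1 : (A *ᵥ e) (Sum.inl (Fin.last n)) * (A *ᵥ e) (Sum.inr (Fin.last n)) = 0 := by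
    linear_combination hQp
  have h2 : (A *ᵥ f0) (Sum.inl (Fin.last n)) * (A *ᵥ f0) (Sum.inr (Fin.last n)) = 0 := by
    linear_combination hQq
  have h3 : ((A *ᵥ e) (Sum.inl (Fin.last n)) + (A *ᵥ f0) (Sum.inl (Fin.last n))) *
      ((A *ᵥ e) (Sum.inr (Fin.last n)) + (A *ᵥ f0) (Sum.inr (Fin.last n))) = 1 := by
    linear_combination hQpq
  rcases h26_cases h01 _ _ _ _ h1 h2 h3 with ⟨a1, a2, a3, a4⟩ | ⟨a1, a2, a3, a4⟩
  · left
    intro u hu
    obtain ⟨b1, b2⟩ := hform u hu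
    rw [b1, b2, a1, a2, a3, a4]
    constructor <;> ring
  · right
    intro u hu
    obtain ⟨b1, b2⟩ := hform u hu
    rw [b1, b2, a1, a2, a3, a4]
    constructor <;> ring

theorem h26_mat_zero {ι : Type*} [Fintype ι] [DecidableEq ι] (M : Matrix ι ι F)
    (h : ∀ v : ι → F, M *ᵥ v = 0) : M = 0 := by
  ext i j
  have := congrFun (h (Pi.single j 1)) i
  simpa [Matrix.mulVec, dotProduct, Pi.single_apply] using this

/-- (S1) an isometry of the hyperbolic form over `F_2` fixing `e_1, …, e_n` has order dividing 8 -/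
theorem h26_pow_eight [Fintype F] (hF : Fintype.card F = 2) (n : ℕ) (g : Matrix.GeneralLinearGroup (Fin (n + 1) ⊕ Fin (n + 1)) F) (hg : g ∈ Cfsg.isometryGroup F (Cfsg.quadFormPlus (n + 1) F)) (hfix : ∀ i : Fin n, (g : Matrix (Fin (n + 1) ⊕ Fin (n + 1)) (Fin (n + 1) ⊕ Fin (n + 1)) F) *ᵥ (Pi.single (Sum.inl i.castSucc) 1) = Pi.single (Sum.inl i.castSucc) 1) : g ^ 8 = 1 := by
  haveI : CharP F 2 := h26_charP hF
  have h01 := h26_zero_or_one hF
  have hA := (mem_isom_iff g).mp hg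
  apply Units.ext
  rw [Units.val_pow_eq_pow_val, Units.val_one]
  generalize (g : Matrix (Fin (n + 1) ⊕ Fin (n + 1)) (Fin (n + 1) ⊕ Fin (n + 1)) F) = A
    at hA hfix ⊢
  -- facts for `A * A`
  have ha : ∀ (v : Fin (n + 1) ⊕ Fin (n + 1) → F) (i : Fin n),
      ((A * A) *ᵥ v) (Sum.inr i.castSucc) = v (Sum.inr i.castSucc) := by
    intro v i
    rw [← Matrix.mulVec_mulVec, h26_row n A hA hfix, h26_row n A hA hfix]
  have hb : ∀ u : Fin (n + 1) ⊕ Fin (n + 1) → F, (∀ i : Fin n, u (Sum.inr i.castSucc) = 0) →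
      ((A * A) *ᵥ u) (Sum.inl (Fin.last n)) = u (Sum.inl (Fin.last n)) ∧
      ((A * A) *ᵥ u) (Sum.inr (Fin.last n)) = u (Sum.inr (Fin.last n)) := by
    intro u hu
    have hu' : ∀ i : Fin n, (A *ᵥ u) (Sum.inr i.castSucc) = 0 := by
      intro i; rw [h26_row n A hA hfix, hu]
    rw [← Matrix.mulVec_mulVec]
    rcases h26_mid h01 n A hA hfix with h | h
    · obtain ⟨c1, c2⟩ := h u hu
      obtain ⟨d1, d2⟩ := h _ hu'
      exact ⟨by rw [d1, c1], by rw [d2, c2]⟩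
    · obtain ⟨c1, c2⟩ := h u hu
      obtain ⟨d1, d2⟩ := h _ hu'
      exact ⟨by rw [d1, c2], by rw [d2, c1]⟩
  have hc : ∀ w : Fin (n + 1) ⊕ Fin (n + 1) → F, (∀ j : Fin (n + 1), w (Sum.inr j) = 0) →
      w (Sum.inl (Fin.last n)) = 0 → (A * A) *ᵥ w = w := by
    intro w hw1 hw2
    rw [← Matrix.mulVec_mulVec, h26_fixW0 n A hfix w hw1 hw2, h26_fixW0 n A hfix w hw1 hw2]
  -- `(A * A - 1) ^ 3 = 0`
  have hD : (A * A - 1) * (A * A - 1) * (A * A - 1) = 0 := by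
    apply h26_mat_zero
    intro v
    have hDv : ∀ x : Fin (n + 1) ⊕ Fin (n + 1) → F,
        (A * A - 1) *ᵥ x = (A * A) *ᵥ x - x := by
      intro x; rw [Matrix.sub_mulVec, Matrix.one_mulVec]
    rw [← Matrix.mulVec_mulVec, ← Matrix.mulVec_mulVec]
    have h1 : ∀ i : Fin n, ((A * A - 1) *ᵥ v) (Sum.inr i.castSucc) = 0 := by
      intro i; rw [hDv, Pi.sub_apply, ha, sub_self]
    have h2a : ∀ i : Fin n,
        ((A * A - 1) *ᵥ ((A * A - 1) *ᵥ v)) (Sum.inr i.castSucc) = 0 := by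
      intro i; rw [hDv, Pi.sub_apply, ha, sub_self]
    obtain ⟨h2l, h2r⟩ := hb _ h1
    have h2 : ∀ j : Fin (n + 1), ((A * A - 1) *ᵥ ((A * A - 1) *ᵥ v)) (Sum.inr j) = 0 := by
      intro j
      induction j using Fin.lastCases with
      | last => rw [hDv, Pi.sub_apply, h2r, sub_self]
      | cast i => exact h2a i
    have h3 : ((A * A - 1) *ᵥ ((A * A - 1) *ᵥ v)) (Sum.inl (Fin.last n)) = 0 := by
      rw [hDv, Pi.sub_apply, h2l, sub_self]
    rw [hDv, hc _ h2 h3, sub_self]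
  -- conclude
  have hB : A * A = 1 + (A * A - 1) := by abel
  generalize A * A - 1 = D at hD hB
  have hDD : D + D = 0 := CharTwo.add_self_eq_zero D
  have hB2 : (A * A) * (A * A) = 1 + D * D := by
    rw [hB]
    have : (1 + D) * (1 + D) = 1 + (D + D) + D * D := by noncomm_ring
    rw [this, hDD, add_zero]
  have hDD2 : D * D + D * D = 0 := CharTwo.add_self_eq_zero (D * D)
  have hB4 : ((A * A) * (A * A)) * ((A * A) * (A * A)) = 1 := by
    rw [hB2]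
    have : (1 + D * D) * (1 + D * D) = 1 + (D * D + D * D) + D * D * D * D := by noncomm_ring
    rw [this, hDD2, hD, add_zero, zero_mul, add_zero]
  calc A ^ 8 = ((A * A) * (A * A)) * ((A * A) * (A * A)) := by
        simp only [pow_succ, pow_zero, one_mul, mul_assoc]
    _ = 1 := hB4

end Cfsg.Agent.S2487P
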