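import Mathlib

set_option autoImplicit false

namespace Cfsg.Agent.S4138P

/-- for commuting elements of coprime orders, each is a power of the product -/
theorem h26_mem_zpowers_mul {G : Type*} [Group G] (u v : G) (huv : Commute u v)
    (hco : (orderOf u).Coprime (orderOf v)) : u ∈ Subgroup.zpowers (u * v) := by
  obtain ⟨k, hk⟩ := exists_pow_eq_self_of_coprime (x := u) (n := orderOf v) hco.symm
  have h1 : (u * v) ^ (orderOf v) = u ^ (orderOf v) := by
    rw [huv.mul_pow, pow_orderOf_eq_one, mul_one]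
  have hmem : ((u * v) ^ orderOf v) ^ k ∈ Subgroup.zpowers (u * v) :=
    (Subgroup.zpowers (u * v)).pow_mem
      ((Subgroup.zpowers (u * v)).pow_mem (Subgroup.mem_zpowers (u * v)) _) _
  rw [h1, hk] at hmem
  exact hmem

/-- centralizer of a product of commuting elements of coprime orders -/
theorem h26_cent_mul {G : Type*} [Group G] (u v : G) (huv : Commute u v)
    (hco : (orderOf u).Coprime (orderOf v)) :
    Subgroup.centralizer ({u * v} : Set G) =
      Subgroup.centralizer ({u} : Set G) ⊓ Subgroup.centralizer ({v} : Set G) := by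
  ext g
  simp only [Subgroup.mem_inf, Subgroup.mem_centralizer_iff, Set.mem_singleton_iff, forall_eq]
  constructor
  · intro h
    have hz : ∀ w ∈ Subgroup.zpowers (u * v), w * g = g * w := by
      intro w hw
      obtain ⟨k, rfl⟩ := Subgroup.mem_zpowers_iff.mp hw
      exact (Commute.zpow_left (show Commute (u * v) g from h) k).eq
    refine ⟨hz u (h26_mem_zpowers_mul u v huv hco), hz v ?_⟩
    have := h26_mem_zpowers_mul v u huv.symm hco.symm
    rwa [huv.symm.eq] at this
  · rintro ⟨h1, h2⟩
    rw [mul_assoc, h2, ← mul_assoc, h1, mul_assoc]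

/-- step (1): an element of `C(x0)` of order coprime to `m` is central -/
theorem h26_step1 {G : Type*} [Group G] [Finite G] (m n S : ℕ) (hn : 1 < n) (hcop : m.Coprime n)
    (htop : ∀ z : G, (Subgroup.centralizer ({z} : Set G)).index ≤ m)
    (hsecond : ∀ z : G, (Subgroup.centralizer ({z} : Set G)).index < m →
      (Subgroup.centralizer ({z} : Set G)).index ≤ n)
    (hS : S ∣ m)
    (h0 : ∀ a : G, ((Subgroup.centralizer ({a} : Set G)).index).Coprime m →
      a ^ S ∈ Subgroup.center G)
    (x0 : G) (hx0 : (Subgroup.centralizer ({x0} : Set G)).index = n)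
    (hx0m : ∀ q : ℕ, q.Prime → q ∣ orderOf x0 → q ∣ m)
    (c : G) (hc : c * x0 = x0 * c) (hco : (orderOf c).Coprime m) :
    c ∈ Subgroup.center G := by
  classical
  have hcx : Commute x0 c := (show Commute c x0 from hc).symm
  have hord : (orderOf x0).Coprime (orderOf c) := by
    by_contra hnc
    obtain ⟨q, hq, hq1, hq2⟩ := Nat.Prime.not_coprime_iff_dvd.mp hnc
    have := Nat.eq_one_of_dvd_coprimes hco hq2 (hx0m q hq hq1)
    exact hq.one_lt.ne' this
  have hC := h26_cent_mul x0 c hcx hord
  have hdvd : n ∣ (Subgroup.centralizer ({x0 * c} : Set G)).index := by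
    rw [← hx0, hC]; exact Subgroup.index_dvd_of_le inf_le_left
  have hne : (Subgroup.centralizer ({x0 * c} : Set G)).index ≠ m := by
    intro h
    rw [h] at hdvd
    have := Nat.eq_one_of_dvd_coprimes hcop hdvd (dvd_refl n)
    omega
  have hlt : (Subgroup.centralizer ({x0 * c} : Set G)).index < m := lt_of_le_of_ne (htop _) hne
  have hle := hsecond _ hlt
  have hpos : 0 < (Subgroup.centralizer ({x0 * c} : Set G)).index :=
    Nat.pos_of_ne_zero Subgroup.index_ne_zero_of_finite
  have heq : (Subgroup.centralizer ({x0 * c} : Set G)).index = n :=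
    le_antisymm hle (Nat.le_of_dvd hpos hdvd)
  have hsub : Subgroup.centralizer ({x0} : Set G) ≤ Subgroup.centralizer ({c} : Set G) := by
    have h1 : (Subgroup.centralizer ({x0} : Set G) ⊓ Subgroup.centralizer ({c} : Set G)).index
        = (Subgroup.centralizer ({x0} : Set G)).index := by rw [← hC, heq, hx0]
    have h2 := Subgroup.relIndex_mul_index
      (inf_le_left : Subgroup.centralizer ({x0} : Set G) ⊓ Subgroup.centralizer ({c} : Set G)
        ≤ Subgroup.centralizer ({x0} : Set G))
    rw [h1] at h2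
    have hp : 0 < (Subgroup.centralizer ({x0} : Set G)).index :=
      Nat.pos_of_ne_zero Subgroup.index_ne_zero_of_finite
    have h3 : (Subgroup.centralizer ({x0} : Set G) ⊓ Subgroup.centralizer ({c} : Set G)).relIndex
        (Subgroup.centralizer ({x0} : Set G)) = 1 :=
      Nat.eq_of_mul_eq_mul_right hp (by rw [one_mul]; exact h2)
    exact le_trans (Subgroup.relIndex_eq_one.mp h3) inf_le_right
  have hcs : (Subgroup.centralizer ({c} : Set G)).index ∣ n := by
    rw [← hx0]; exact Subgroup.index_dvd_of_le hsub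
  have hcm : ((Subgroup.centralizer ({c} : Set G)).index).Coprime m :=
    Nat.Coprime.coprime_dvd_left hcs hcop.symm
  have h1 := h0 c hcm
  have hSc : S.Coprime (orderOf c) := Nat.Coprime.coprime_dvd_left hS hco.symm
  obtain ⟨k, hk⟩ := exists_pow_eq_self_of_coprime hSc
  rw [← hk]; exact Subgroup.pow_mem _ h1 _

/-- arithmetic splitting of a positive integer along the primes of `S` -/
theorem h26_split_nat (S : ℕ) : ∀ o : ℕ, 0 < o → ∃ d e : ℕ, o = d * e ∧ d.Coprime e ∧
    (∀ q : ℕ, q.Prime → q ∣ d → q ∣ S) ∧ e.Coprime S := by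
  intro o
  induction o using Nat.strong_induction_on with
  | _ o ih =>
    intro ho
    by_cases hc : o.Coprime S
    · refine ⟨1, o, by simp, by simp, fun q hq h => ?_, hc⟩
      have := hq.two_le
      have := Nat.le_of_dvd one_pos h
      omega
    · obtain ⟨q, hq, hq1, hq2⟩ := Nat.Prime.not_coprime_iff_dvd.mp hc
      obtain ⟨o', rfl⟩ := hq1
      have ho' : 0 < o' := by
        rcases Nat.eq_zero_or_pos o' with h | h
        · subst h; simp at ho
        · exact h
      have hlt : o' < q * o' := by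
        have := hq.two_le
        nlinarith
      obtain ⟨d', e', h1, h2, h3, h4⟩ := ih o' hlt ho'
      refine ⟨q * d', e', by rw [h1]; ring, ?_, ?_, h4⟩
      · apply Nat.Coprime.mul_left ?_ h2
        rw [Nat.Prime.coprime_iff_not_dvd hq]
        intro hd
        have := Nat.eq_one_of_dvd_coprimes h4 hd hq2
        exact hq.one_lt.ne' this
      · intro r hr hrd
        rcases (Nat.Prime.dvd_mul hr).mp hrd with h | h
        · rw [(Nat.prime_dvd_prime_iff_eq hr hq).mp h]; exact hq2
        · exact h3 r hr h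

/-- splitting `a = a0 * z` with `z` central and `a0` a power of `a` whose order only involves
primes dividing `S`, when `a ^ S` is central -/
theorem h26_split {G : Type*} [Group G] [Finite G] (S : ℕ) (a : G)
    (ha : a ^ S ∈ Subgroup.center G) :
    ∃ a0 z : G, a = a0 * z ∧ z ∈ Subgroup.center G ∧ a0 ∈ Subgroup.zpowers a ∧
      (∀ q : ℕ, q.Prime → q ∣ orderOf a0 → q ∣ S) ∧
      Subgroup.centralizer ({a0} : Set G) = Subgroup.centralizer ({a} : Set G) := by
  classical
  obtain ⟨d, e, hde, hcop, hd, he⟩ := h26_split_nat S (orderOf a) (orderOf_pos a)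
  have hb : (e : ℤ) * Nat.gcdA e d + (d : ℤ) * Nat.gcdB e d = 1 := by
    have := Nat.gcd_eq_gcd_ab e d
    rw [hcop.symm.gcd_eq_one] at this
    exact_mod_cast this.symm
  -- a ^ d is central
  have had : a ^ d ∈ Subgroup.center G := by
    have h1 : (a ^ d) ^ S ∈ Subgroup.center G := by
      rw [← pow_mul, mul_comm, pow_mul]; exact Subgroup.pow_mem _ ha _
    have h2 : (a ^ d) ^ e = 1 := by rw [← pow_mul, ← hde, pow_orderOf_eq_one]
    have h3 : orderOf (a ^ d) ∣ e := orderOf_dvd_of_pow_eq_one h2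
    have h4 : S.Coprime (orderOf (a ^ d)) := (Nat.Coprime.coprime_dvd_left h3 he).symm
    obtain ⟨k, hk⟩ := exists_pow_eq_self_of_coprime h4
    rw [← hk]; exact Subgroup.pow_mem _ h1 _
  refine ⟨(a ^ e) ^ (Nat.gcdA e d), (a ^ d) ^ (Nat.gcdB e d), ?_, ?_, ?_, ?_, ?_⟩
  · rw [← zpow_natCast, ← zpow_natCast, ← zpow_mul, ← zpow_mul, ← zpow_add, hb, zpow_one]
  · exact Subgroup.zpow_mem _ had _
  · exact Subgroup.zpow_mem _ (Subgroup.pow_mem _ (Subgroup.mem_zpowers a) _) _
  · intro q hq hqd
    apply hd q hq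
    have h1 : ((a ^ e) ^ (Nat.gcdA e d)) ^ d = 1 := by
      rw [← zpow_natCast, ← zpow_natCast, ← zpow_mul, ← zpow_mul]
      have key : (e : ℤ) * (Nat.gcdA e d * (d : ℤ)) = ((d : ℤ) * (e : ℤ)) * Nat.gcdA e d := by ring
      have : a ^ ((d : ℤ) * (e : ℤ)) = 1 := by
        have h2 : ((d : ℤ) * (e : ℤ)) = ((orderOf a : ℕ) : ℤ) := by rw [hde]; push_cast; ring
        rw [h2, zpow_natCast, pow_orderOf_eq_one]
      rw [key, zpow_mul, this, one_zpow]
    exact dvd_trans hqd (orderOf_dvd_of_pow_eq_one h1)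
  · ext g
    simp only [Subgroup.mem_centralizer_iff, Set.mem_singleton_iff, forall_eq]
    have hz : ∀ w : G, (a ^ d) ^ (Nat.gcdB e d) * w = w * (a ^ d) ^ (Nat.gcdB e d) := fun w =>
      (Subgroup.mem_center_iff.mp (Subgroup.zpow_mem _ had (Nat.gcdB e d)) w).symm
    have hsplit : a = (a ^ e) ^ (Nat.gcdA e d) * (a ^ d) ^ (Nat.gcdB e d) := by
      rw [← zpow_natCast, ← zpow_natCast, ← zpow_mul, ← zpow_mul, ← zpow_add, hb, zpow_one]
    constructor
    · intro h
      calc a * g = (a ^ e) ^ (Nat.gcdA e d) * (a ^ d) ^ (Nat.gcdB e d) * g := by rw [← hsplit]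
        _ = (a ^ e) ^ (Nat.gcdA e d) * g * (a ^ d) ^ (Nat.gcdB e d) := by
            rw [mul_assoc, hz g, ← mul_assoc]
        _ = g * ((a ^ e) ^ (Nat.gcdA e d) * (a ^ d) ^ (Nat.gcdB e d)) := by
            rw [h, mul_assoc]
        _ = g * a := by rw [← hsplit]
    · intro h
      have hcomm : Commute a g := h
      exact ((hcomm.pow_left e).zpow_left (Nat.gcdA e d)).eq

end Cfsg.Agent.S4138P
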